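import Mathlib
import Cfsg.Agent.Lib.Classical.OrthSimple
import Cfsg.Agent.Lib.Classical.OrthCenter

/-!
Automorphisms of `PΩ(Q)`: notation, Siegel elements in the projective group, and lifting of relations.
-/

set_option autoImplicit false
set_option linter.unusedSectionVars false
set_option linter.unusedVariables false

namespace Cfsg.Agent.Lib.AutPO

open Cfsg.Agent.Lib.Classical.Witt Cfsg.Agent.Lib.Classical.Abs Cfsg.Agent.Lib.Classical.Orth
open scoped commutatorElement
open Module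

local notation "P" => QuadraticMap.polarBilin

variable {F V : Type*} [Field F] [AddCommGroup V] [Module F V] {Q : QuadraticForm F V}

/-- The standing assumptions. -/
class ND (Q : QuadraticForm F V) : Prop where
  nd : (P Q).Nondegenerate
  dim : 7 ≤ finrank F V

section vec

variable [FiniteDimensional F V]

local notation "orth" => LinearMap.BilinForm.orthogonal (P Q)

lemma finrank_orth_ge (hQ : (P Q).Nondegenerate) (W : Submodule F V) :
    finrank F V ≤ finrank F W + finrank F (orth W) := by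
  have := LinearMap.BilinForm.finrank_orthogonal hQ W
  omega

lemma finrank_range_le' {k : ℕ} (v : Fin k → V) : finrank F (Submodule.span F (Set.range v)) ≤ k := by
  have := finrank_range_le_card (R := F) v
  simpa [Set.finrank] using this

/-- A non-zero vector orthogonal to few given ones. -/
lemma exists_perp (hQ : (P Q).Nondegenerate) {k : ℕ} (v : Fin k → V) (h : k < finrank F V) :
    ∃ x, x ≠ 0 ∧ ∀ i, P Q (v i) x = 0 := by
  set W := Submodule.span F (Set.range v) with hW
  have h1 := finrank_orth_ge hQ W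
  have h2 : finrank F W ≤ k := finrank_range_le' v
  have h3 : orth W ≠ ⊥ := by
    intro h0
    rw [h0, finrank_bot] at h1
    omega
  obtain ⟨x, hx, hx0⟩ := Submodule.exists_mem_ne_zero_of_ne_bot h3
  exact ⟨x, hx0, fun i => mem_orth.mp hx (v i) (Submodule.subset_span ⟨i, rfl⟩)⟩

/-- A non-zero singular vector orthogonal to few given ones. -/
lemma exists_sing_perp [Fintype F] (hQ : (P Q).Nondegenerate) {k : ℕ} (v : Fin k → V) (h : k + 3 ≤ finrank F V) :
    ∃ x, x ≠ 0 ∧ Q x = 0 ∧ ∀ i, P Q (v i) x = 0 := by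
  set W := Submodule.span F (Set.range v) with hW
  have h1 := finrank_orth_ge hQ W
  have h2 : finrank F W ≤ k := finrank_range_le' v
  obtain ⟨x, hx, hx0, hq⟩ := exists_singular (Q := Q) (orth W) (by omega)
  exact ⟨x, hx0, hq, fun i => mem_orth.mp hx (v i) (Submodule.subset_span ⟨i, rfl⟩)⟩

/-- Separation: a vector outside a subspace is separated from it by the polar form. -/
lemma exists_sep (hQ : (P Q).Nondegenerate) (W : Submodule F V) {x : V} (hx : x ∉ W) :
    ∃ y, (∀ u ∈ W, P Q u y = 0) ∧ P Q x y = 1 := by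
  rw [← LinearMap.BilinForm.orthogonal_orthogonal hQ P_refl W, mem_orth] at hx
  push Not at hx
  obtain ⟨b, hb, hb'⟩ := hx
  rw [pol_comm] at hb'
  refine ⟨(P Q x b)⁻¹ • b, ?_, ?_⟩
  · intro u hu
    rw [map_smul, mem_orth.mp hb u hu, smul_zero]
  · rw [map_smul, smul_eq_mul, inv_mul_cancel₀ hb']

/-- Existence of a singular partner. -/
lemma exists_partner (hQ : (P Q).Nondegenerate) {e : V} (he0 : e ≠ 0) (he : Q e = 0) :
    ∃ f, Q f = 0 ∧ P Q e f = 1 := by
  obtain ⟨f, hf⟩ := exists_P_eq_one hQ he0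
  refine ⟨f - Q f • e, ?_, ?_⟩
  · rw [Q_sub, Q_smul, he, map_smul, pol_comm Q f e, hf]
    simp
  · rw [map_sub, map_smul, hf, pol_self, he]
    simp

/-- A singular partner inside the perp of a non-degenerate subspace. -/
lemma exists_partner_in (hQ : (P Q).Nondegenerate) (W : Submodule F V) (hW : W ⊓ orth W = ⊥) {x : V}
    (hx0 : x ≠ 0) (hx : Q x = 0) (hxW : x ∈ orth W) :
    ∃ y ∈ orth W, Q y = 0 ∧ P Q x y = 1 := by
  obtain ⟨y, hy⟩ := exists_P_eq_one hQ hx0
  have hc : IsCompl W (orth W) := by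
    refine ⟨disjoint_iff.mpr hW, ?_⟩
    rw [codisjoint_iff]
    apply Submodule.eq_top_of_finrank_eq
    have h1 := Submodule.finrank_sup_add_finrank_inf_eq W (orth W)
    rw [hW, finrank_bot] at h1
    have h2 := finrank_orth_ge hQ W
    have h3 := Submodule.finrank_le (W ⊔ orth W)
    omega
  have htop : y ∈ W ⊔ orth W := by
    rw [hc.sup_eq_top]; trivial
  obtain ⟨w, hw, z, hz, e⟩ := Submodule.mem_sup.mp htop
  have h1 : P Q x z = 1 := by
    have h2 : P Q x w = 0 := by
      rw [pol_comm]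
      exact mem_orth.mp hxW w hw
    rw [← e, map_add, h2, zero_add] at hy
    exact hy
  refine ⟨z - Q z • x, (orth W).sub_mem hz ((orth W).smul_mem _ hxW), ?_, ?_⟩
  · rw [Q_sub, Q_smul, hx, map_smul, pol_comm Q z x, h1]
    simp
  · rw [map_sub, map_smul, h1, pol_self, hx]
    simp

/-- Adding a hyperbolic pair from the perp keeps non-degeneracy. -/
lemma nondeg_step (W : Submodule F V) (hW : W ⊓ orth W = ⊥) {x y : V} (hxW : x ∈ orth W) (hyW : y ∈ orth W)
    (hx : Q x = 0) (hy : Q y = 0) (hxy : P Q x y = 1) :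
    (W ⊔ Submodule.span F {x, y}) ⊓ orth (W ⊔ Submodule.span F {x, y}) = ⊥ := by
  rw [eq_bot_iff]
  rintro z ⟨h1, h2⟩
  obtain ⟨w, hw, s, hs, rfl⟩ := Submodule.mem_sup.mp h1
  obtain ⟨α, β, rfl⟩ := Submodule.mem_span_pair.mp hs
  have hxm : x ∈ W ⊔ Submodule.span F {x, y} := Submodule.mem_sup_right (Submodule.subset_span (by simp))
  have hym : y ∈ W ⊔ Submodule.span F {x, y} := Submodule.mem_sup_right (Submodule.subset_span (by simp))
  have hwx : P Q x w = 0 := by
    rw [pol_comm]; exact mem_orth.mp hxW w hw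
  have hwy : P Q y w = 0 := by
    rw [pol_comm]; exact mem_orth.mp hyW w hw
  have h3 := mem_orth.mp h2 x hxm
  have h4 := mem_orth.mp h2 y hym
  simp only [map_add, map_smul, hwx, hwy, smul_eq_mul, hxy, pol_self_of hx, pol_self_of hy, mul_zero, mul_one,
    zero_add, add_zero, pol_comm Q y x] at h3 h4
  subst h3
  subst h4
  simp only [zero_smul, add_zero]
  have hwmem : w ∈ orth W := by
    rw [mem_orth]
    intro u hu
    have := mem_orth.mp h2 u (Submodule.mem_sup_left hu)
    simpa using this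
  have : w ∈ W ⊓ orth W := ⟨hw, hwmem⟩
  rw [hW] at this
  exact this

end vec

section group

variable [FiniteDimensional F V] [Fintype F] [hND : ND Q]

lemma nd' (Q : QuadraticForm F V) [hND : ND Q] : (P Q).Nondegenerate := hND.nd

lemma dim' (Q : QuadraticForm F V) [hND : ND Q] : 7 ≤ finrank F V := hND.dim

lemma sg_mem (Q : QuadraticForm F V) [hND : ND Q] (a w : V) : sg Q a w ∈ KK Q := by
  by_cases h : Q a = 0 ∧ P Q a w = 0
  · exact sg_mem_comm hND.nd (by have := hND.dim; omega) h.1 h.2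
  · have : sg Q a w = 1 := by
      rw [sg, dif_neg h]
    rw [this]
    exact Subgroup.one_mem _

/-- The projective group. -/
abbrev PG (Q : QuadraticForm F V) := KK Q ⧸ Subgroup.center (KK Q)

/-- The quotient map. -/
def mk (Q : QuadraticForm F V) : KK Q →* PG Q := QuotientGroup.mk' _

lemma mk_surj : Function.Surjective (mk Q) := QuotientGroup.mk'_surjective _

/-- Siegel elements in Ω. -/
noncomputable def sO (Q : QuadraticForm F V) [ND Q] (a w : V) : KK Q := ⟨sg Q a w, sg_mem Q a w⟩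

@[simp] lemma sO_coe (a w : V) : ((sO Q a w : KK Q) : OG Q) = sg Q a w := rfl

/-- Siegel elements in PΩ. -/
noncomputable def rt (Q : QuadraticForm F V) [ND Q] (a w : V) : PG Q := mk Q (sO Q a w)

lemma rt_def (a w : V) : rt Q a w = mk Q (sO Q a w) := rfl

lemma center_cases (z : KK Q) (hz : z ∈ Subgroup.center (KK Q)) :
    z = 1 ∨ ((2 : F) ≠ 0 ∧ ∀ x, z.1.1 x = -x) := by
  have hc : ∀ h ∈ commutator (OG Q), z.1 * h = h * z.1 := by
    intro h hh
    have := (Subgroup.mem_center_iff.mp hz) ⟨h, hh⟩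
    exact (congrArg Subtype.val this).symm
  have hn : 7 ≤ finrank F V := dim' Q
  haveI : Finite V := Module.finite_of_finite F
  by_cases h2 : (2 : F) = 0
  · left
    exact Subtype.ext (center_even h2 (nd' Q) (by omega) z.1 hc)
  · rcases center_odd h2 (nd' Q) (by omega) z.1 hc with h | h
    · left
      exact Subtype.ext h
    · exact Or.inr ⟨h2, h⟩

lemma mk_eq_iff {x y : KK Q} : mk Q x = mk Q y ↔ x⁻¹ * y ∈ Subgroup.center (KK Q) := QuotientGroup.eq

/-- Elements of Ω with a common fixed vector and the same image in PΩ are equal. -/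
lemma eq_of_mk_eq {x y : KK Q} (h : mk Q x = mk Q y) {v : V} (hv : v ≠ 0) (hx : x.1.1 v = v) (hy : y.1.1 v = v) : x = y := by
  rcases center_cases _ (mk_eq_iff.mp h) with h1 | ⟨h2, h1⟩
  · exact (inv_mul_eq_one.mp h1)
  · exfalso
    have h3 := h1 v
    have h4 : (x⁻¹ * y).1.1 v = v := by
      change x.1⁻¹.1 (y.1.1 v) = v
      rw [hy]
      have := inv_apply_self' x.1 v
      rwa [hx] at this
    rw [h4] at h3
    have h5 : (2 : F) • v = 0 := by
      rw [two_smul]
      nth_rw 1 [h3]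
      simp
    exact hv ((smul_eq_zero.mp h5).resolve_left h2)

lemma sg_fix' {u y x : V} (hu : Q u = 0) (hy : P Q u y = 0) (h1 : P Q u x = 0) (h3 : P Q y x = 0) :
    (sg Q u y).1 x = x := sg_fix hu hy h1 h3

/-- Equality in PΩ of Siegel elements lifts. -/
lemma sg_eq_of_rt_eq {a w c z : V} (ha : Q a = 0) (hw : P Q a w = 0) (hc : Q c = 0) (hz : P Q c z = 0)
    (h : rt Q a w = rt Q c z) : sg Q a w = sg Q c z := by
  have hn : 7 ≤ finrank F V := dim' Q
  obtain ⟨x, hx0, hx⟩ := exists_perp (Q := Q) (nd' Q) ![a, w, c, z] (by simp; omega)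
  have h0 := hx 0
  have h1 := hx 1
  have h2 := hx 2
  have h3 := hx 3
  simp only [Matrix.cons_val_zero, Matrix.cons_val_one, Matrix.cons_val] at h0 h1 h2 h3
  have := eq_of_mk_eq (x := sO Q a w) (y := sO Q c z) h hx0 (sg_fix ha hw h0 h1) (sg_fix hc hz h2 h3)
  exact congrArg Subtype.val this

lemma rt_add {a w w' : V} (ha : Q a = 0) (hw : P Q a w = 0) (hw' : P Q a w' = 0) :
    rt Q a w * rt Q a w' = rt Q a (w + w') := by
  rw [rt, rt, rt, ← map_mul]
  congr 1
  exact Subtype.ext (sg_add ha hw hw')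

lemma rt_zero (a : V) : rt Q a 0 = 1 := by
  rw [rt, ← map_one (mk Q)]
  congr 1
  exact Subtype.ext (sg_zero a)

lemma rt_self_smul {a : V} (ha : Q a = 0) (c : F) : rt Q a (c • a) = 1 := by
  rw [rt, ← map_one (mk Q)]
  congr 1
  exact Subtype.ext (sg_self_smul ha c)

lemma rt_neg {a w : V} (ha : Q a = 0) (hw : P Q a w = 0) : (rt Q a w)⁻¹ = rt Q a (-w) := by
  apply inv_eq_of_mul_eq_one_right
  rw [rt_add ha hw (by rw [map_neg, hw, neg_zero]), add_neg_cancel, rt_zero]

lemma rt_conj (g : KK Q) {a w : V} (ha : Q a = 0) (hw : P Q a w = 0) :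
    mk Q g * rt Q a w * (mk Q g)⁻¹ = rt Q (g.1.1 a) (g.1.1 w) := by
  rw [rt, rt, ← map_inv, ← map_mul, ← map_mul]
  congr 1
  exact Subtype.ext (sg_conj ha hw g.1)

lemma rt_congr {a w c z : V} (h : sg Q a w = sg Q c z) : rt Q a w = rt Q c z := by
  rw [rt, rt]
  congr 1
  exact Subtype.ext h

/-- Commuting in PΩ lifts. -/
lemma comm_lift {a w c z : V} (ha : Q a = 0) (hw : P Q a w = 0) (hc : Q c = 0) (hz : P Q c z = 0)
    (h : Commute (rt Q a w) (rt Q c z)) : sg Q a w * sg Q c z = sg Q c z * sg Q a w := by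
  have h1 : rt Q a w * rt Q c z * (rt Q a w)⁻¹ = rt Q c z := by
    rw [h.eq]; group
  have h2 := rt_conj (sO Q a w) hc hz
  rw [← rt_def, h1] at h2
  have h3 := sg_eq_of_rt_eq hc hz (by rw [sO_coe, OG_pres, hc]) (by rw [sO_coe, OG_polar, hz]) h2
  rw [sO_coe] at h3
  have h4 := sg_conj (Q := Q) hc hz (sg Q a w)
  rw [← h3] at h4
  exact mul_inv_eq_iff_eq_mul.mp h4

/-- Product relations lift. -/
lemma mul_lift {a w c z g h : V} (ha : Q a = 0) (hw : P Q a w = 0) (hc : Q c = 0) (hz : P Q c z = 0)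
    (hg : Q g = 0) (hh : P Q g h = 0) (e : rt Q a w * rt Q c z = rt Q g h) :
    sg Q a w * sg Q c z = sg Q g h := by
  have hn : 7 ≤ finrank F V := dim' Q
  obtain ⟨x, hx0, hx⟩ := exists_perp (Q := Q) (nd' Q) ![a, w, c, z, g, h] (by simp; omega)
  have h0 := hx 0
  have h1 := hx 1
  have h2 := hx 2
  have h3 := hx 3
  have h4 := hx 4
  have h5 := hx 5
  simp only [Matrix.cons_val_zero, Matrix.cons_val_one, Matrix.cons_val] at h0 h1 h2 h3 h4 h5
  have e' : mk Q (sO Q a w * sO Q c z) = mk Q (sO Q g h) := by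
    rw [map_mul]; exact e
  have := eq_of_mk_eq e' hx0 (by
    change (sg Q a w).1 ((sg Q c z).1 x) = x
    rw [sg_fix hc hz h2 h3, sg_fix ha hw h0 h1]) (sg_fix hg hh h4 h5)
  exact congrArg Subtype.val this

/-! ### Calculus of Siegel elements -/

/-- Change of basis on a totally singular line. -/
lemma sg_comb {a b : V} (ha : Q a = 0) (hb : Q b = 0) (hab : P Q a b = 0) (α β γ δ : F) :
    sg Q (α • a + β • b) (γ • a + δ • b) = sg Q a ((α * δ - β * γ) • b) := by
  have hba : P Q b a = 0 := by rw [pol_comm]; exact hab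
  have hq : ∀ s t : F, Q (s • a + t • b) = 0 := by
    intro s t
    rw [Q_add, Q_smul, Q_smul, ha, hb]
    simp [map_smul, hab]
  apply OG_ext
  intro x
  rw [sg_apply (hq _ _) (by simp only [map_add, map_smul, LinearMap.add_apply, LinearMap.smul_apply, hab, hba, pol_self_of ha, pol_self_of hb]; simp),
    sg_apply ha (by simp [hab]), hq, Q_smul, hb]
  simp only [map_add, map_smul, LinearMap.add_apply, LinearMap.smul_apply, smul_eq_mul]
  (module)

/-- Equality of Siegel elements with the same first vector. -/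
lemma sg_eq_iff {u w w' : V} (hu0 : u ≠ 0) (hu : Q u = 0) (hw : P Q u w = 0) (hw' : P Q u w' = 0) :
    sg Q u w = sg Q u w' ↔ ∃ c : F, w' = w + c • u := by
  constructor
  · intro h
    have h1 : sg Q u (w' - w) = 1 := by
      have h2 : P Q u (-w) = 0 := by rw [map_neg, hw, neg_zero]
      rw [sub_eq_add_neg, ← sg_add hu hw' h2, ← h, sg_add hu hw h2, add_neg_cancel, sg_zero]
    obtain ⟨x, hx⟩ := exists_P_eq_one (Q := Q) (nd' Q) hu0
    have h3 : P Q u (w' - w) = 0 := by rw [map_sub, hw, hw', sub_zero]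
    have h2 := congrArg (fun g : OG Q => g.1 x) h1
    simp only [one_apply'] at h2
    rw [sg_apply hu h3, hx, one_smul, mul_one] at h2
    refine ⟨P Q (w' - w) x + Q (w' - w), ?_⟩
    have h4 : w' - w = (P Q (w' - w) x + Q (w' - w)) • u := by
      rw [add_smul]
      have h5 : x + (w' - w) - P Q (w' - w) x • u - Q (w' - w) • u = x := h2
      calc w' - w = (x + (w' - w) - P Q (w' - w) x • u - Q (w' - w) • u) - x +
            (P Q (w' - w) x • u + Q (w' - w) • u) := by abel
        _ = _ := by rw [h5]; abel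
    rw [← h4]
    abel
  · rintro ⟨c, rfl⟩
    rw [← sg_add hu hw (by rw [map_smul, pol_self_of hu, smul_zero]), sg_self_smul hu, mul_one]

lemma rt_eq_iff {u w w' : V} (hu0 : u ≠ 0) (hu : Q u = 0) (hw : P Q u w = 0) (hw' : P Q u w' = 0) :
    rt Q u w = rt Q u w' ↔ ∃ c : F, w' = w + c • u := by
  rw [← sg_eq_iff hu0 hu hw hw']
  exact ⟨sg_eq_of_rt_eq hu hw hu hw', rt_congr⟩

/-- `(T - 1)` with singular second vector. -/
lemma sg_apply_sing {a b : V} (ha : Q a = 0) (hb : Q b = 0) (hab : P Q a b = 0) (x : V) :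
    (sg Q a b).1 x = x + P Q a x • b - P Q b x • a := by
  rw [sg_apply ha hab, hb]
  simp

end group

end Cfsg.Agent.Lib.AutPO
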