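import Mathlib
import Cfsg.Agent.Lib.AutPO.Basic

/-!
Sylow subgroups of Ω: they fix a flag `u`, `⟨u, v⟩` and their centre is the root group of `⟨u, v⟩`.
-/

set_option autoImplicit false
set_option linter.unusedSectionVars false
set_option linter.unusedVariables false

namespace Cfsg.Agent.Lib.AutPO

open Cfsg.Agent.Lib.Classical.Witt Cfsg.Agent.Lib.Classical.Abs Cfsg.Agent.Lib.Classical.Orth
open scoped commutatorElement
open Module MvPolynomial

local notation "P" => QuadraticMap.polarBilin

variable {F V : Type*} [Field F] [AddCommGroup V] [Module F V] {Q : QuadraticForm F V}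

section cw

variable [Fintype F] [FiniteDimensional F V]

/-- A quadratic form in coordinates is a polynomial of degree at most two. -/
lemma exists_poly {k : ℕ} (b : Fin k → V) (s : Finset (Fin k)) :
    ∃ p : MvPolynomial (Fin k) F, p.totalDegree ≤ 2 ∧ ∀ a : Fin k → F, eval a p = Q (∑ i ∈ s, a i • b i) := by
  classical
  induction s using Finset.induction_on with
  | empty =>
    refine ⟨0, by simp, fun a => by simp⟩
  | insert j s hj ih =>
    obtain ⟨p, hp, hp'⟩ := ih
    refine ⟨p + C (Q (b j)) * (X j * X j) + ∑ i ∈ s, C (P Q (b i) (b j)) * (X i * X j), ?_, ?_⟩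
    · have h1 : ∀ (c : F) (i l : Fin k), (C c * (X i * X l) : MvPolynomial (Fin k) F).totalDegree ≤ 2 := by
        intro c i l
        refine (totalDegree_mul _ _).trans ?_
        have h2 : (X i * X l : MvPolynomial (Fin k) F).totalDegree ≤ 2 := by
          refine (totalDegree_mul _ _).trans ?_
          simp
        simp only [totalDegree_C, zero_add]
        exact h2
      refine (totalDegree_add _ _).trans (max_le ((totalDegree_add _ _).trans (max_le hp (h1 _ _ _))) ?_)
      exact totalDegree_finsetSum_le fun i _ => h1 _ _ _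
    · intro a
      have h3 : P Q (∑ i ∈ s, a i • b i) (a j • b j) = ∑ i ∈ s, P Q (b i) (b j) * (a i * a j) := by
        rw [map_sum, LinearMap.sum_apply]
        refine Finset.sum_congr rfl fun i _ => ?_
        simp only [map_smul, LinearMap.smul_apply, smul_eq_mul]
        ring
      rw [Finset.sum_insert hj, add_comm (a j • b j), Q_add, ← hp', Q_smul, h3]
      simp only [map_add, map_mul, eval_C, eval_X, map_sum]
      ring

/-- Chevalley–Warning for quadratic forms: the number of singular vectors is divisible by the characteristic. -/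
theorem card_sing_dvd {p : ℕ} [CharP F p] (W : Submodule F V) (hW : 3 ≤ finrank F W) :
    p ∣ Nat.card {x : W // Q (x : V) = 0} := by
  classical
  set k := finrank F W with hk
  let b : Basis (Fin k) F W := Module.finBasis F W
  obtain ⟨Pp, hd, he⟩ := exists_poly (F := F) (Q := Q) (fun i => (b i : V)) Finset.univ
  have hdeg : Pp.totalDegree < Fintype.card (Fin k) := by
    simp only [Fintype.card_fin]
    omega
  have hdvd := char_dvd_card_solutions (K := F) (σ := Fin k) p hdeg
  have hval : ∀ a : Fin k → F, ((b.equivFun.symm a : W) : V) = ∑ i, a i • (b i : V) := by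
    intro a
    rw [Basis.equivFun_symm_apply]
    simp
  let e : {a : Fin k → F // eval a Pp = 0} ≃ {x : W // Q (x : V) = 0} :=
    Equiv.subtypeEquiv b.equivFun.symm.toEquiv (by
      intro a
      change eval a Pp = 0 ↔ Q ((b.equivFun.symm a : W) : V) = 0
      rw [he, hval])
  rw [← Nat.card_congr e, Nat.card_eq_fintype_card]
  exact hdvd

end cw

section fix

variable [FiniteDimensional F V] [Fintype F] [hND : ND Q]

variable {p : ℕ} [hp : Fact p.Prime] [CharP F p]

/-- A `p`-subgroup of Ω fixes a non-zero singular vector. -/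
lemma exists_fixed_sing {H : Subgroup (KK Q)} (hH : IsPGroup p H) :
    ∃ u : V, u ≠ 0 ∧ Q u = 0 ∧ ∀ g ∈ H, g.1.1 u = u := by
  classical
  haveI : Finite V := Module.finite_of_finite F
  have hn : 7 ≤ finrank F V := dim' Q
  let α := {x : V // Q x = 0}
  letI act : MulAction H α :=
    { smul := fun g x => ⟨g.1.1.1 x.1, by rw [OG_pres]; exact x.2⟩
      one_smul := fun x => rfl
      mul_smul := fun g h x => rfl }
  have h1 : p ∣ Nat.card α := by
    have := card_sing_dvd (Q := Q) (p := p) (⊤ : Submodule F V) (by rw [finrank_top]; omega)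
    have e : {x : (⊤ : Submodule F V) // Q (x : V) = 0} ≃ α :=
      Equiv.subtypeEquiv (Submodule.topEquiv.toEquiv) (fun x => Iff.rfl)
    rwa [Nat.card_congr e] at this
  have h0 : (⟨0, map_zero Q⟩ : α) ∈ MulAction.fixedPoints H α := by
    intro g
    apply Subtype.ext
    exact map_zero _
  obtain ⟨b, hb, hne⟩ := hH.exists_fixed_point_of_prime_dvd_card_of_fixed_point α h1 h0
  refine ⟨b.1, ?_, b.2, ?_⟩
  · intro h
    exact hne (Subtype.ext h.symm)
  · intro g hg
    exact congrArg Subtype.val (hb ⟨g, hg⟩)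

/-- A `p`-subgroup of Ω fixing `u` stabilises a totally singular line through `u`. -/
lemma exists_fixed_line {H : Subgroup (KK Q)} (hH : IsPGroup p H) {u : V} (hu0 : u ≠ 0) (hu : Q u = 0)
    (hfix : ∀ g ∈ H, g.1.1 u = u) :
    ∃ v : V, Q v = 0 ∧ P Q u v = 0 ∧ (∀ c : F, v ≠ c • u) ∧ ∀ g ∈ H, ∃ c : F, g.1.1 v = v + c • u := by
  classical
  haveI : Finite V := Module.finite_of_finite F
  have hn : 7 ≤ finrank F V := dim' Q
  obtain ⟨f, hf, huf⟩ := exists_partner (nd' Q) hu0 hu
  have hfu : P Q f u = 1 := by rw [pol_comm]; exact huf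
  let V₀ : Submodule F V := LinearMap.BilinForm.orthogonal (P Q) (Submodule.span F {u, f})
  have hV₀ : ∀ x, x ∈ V₀ ↔ P Q u x = 0 ∧ P Q f x = 0 := fun x => mem_orth_pair
  have hfr : 3 ≤ finrank F V₀ := by
    have h1 := finrank_orth_ge (nd' Q) (Submodule.span F {u, f})
    have h2 := finrank_span_pair_le (F := F) u f
    change 3 ≤ finrank F (LinearMap.BilinForm.orthogonal (P Q) (Submodule.span F {u, f}))
    omega
  let α := {x : V₀ // Q (x : V) = 0}
  have hgu : ∀ g ∈ H, ∀ x : V, P Q u (g.1.1 x) = P Q u x := by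
    intro g hg x
    have := OG_polar g.1 u x
    rwa [show g.1.1 u = u from hfix g hg] at this
  let π : H → α → α := fun g x => ⟨⟨g.1.1.1 x.1.1 - P Q f (g.1.1.1 x.1.1) • u, by
      rw [hV₀]
      have hx := (hV₀ _).mp x.1.2
      constructor
      · rw [map_sub, map_smul, pol_self_of hu, smul_zero, sub_zero, hgu g g.2, hx.1]
      · rw [map_sub, map_smul, hfu, smul_eq_mul, mul_one, sub_self]⟩, by
      have hx := (hV₀ _).mp x.1.2
      change Q (g.1.1.1 x.1.1 - P Q f (g.1.1.1 x.1.1) • u) = 0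
      rw [Q_sub, Q_smul, hu, OG_pres, x.2, map_smul, pol_comm Q _ u, hgu g g.2, hx.1]
      simp⟩
  have hπ : ∀ g x, ((π g x).1 : V) = g.1.1.1 x.1.1 - P Q f (g.1.1.1 x.1.1) • u := fun _ _ => rfl
  letI act : MulAction H α :=
    { smul := π
      one_smul := by
        intro x
        apply Subtype.ext
        apply Subtype.ext
        change ((π 1 x).1 : V) = _
        rw [hπ]
        have hx := (hV₀ _).mp x.1.2
        change x.1.1 - P Q f x.1.1 • u = x.1.1
        rw [hx.2, zero_smul, sub_zero]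
      mul_smul := by
        intro g h x
        apply Subtype.ext
        apply Subtype.ext
        change ((π (g * h) x).1 : V) = ((π g (π h x)).1 : V)
        rw [hπ, hπ]
        have e1 : ((π h x).1 : V) = h.1.1.1 x.1.1 - P Q f (h.1.1.1 x.1.1) • u := hπ _ _
        rw [e1]
        have e2 : g.1.1.1 (h.1.1.1 x.1.1 - P Q f (h.1.1.1 x.1.1) • u) =
            (g * h).1.1.1 x.1.1 - P Q f (h.1.1.1 x.1.1) • u := by
          rw [map_sub, map_smul]
          congr 2
          exact hfix g g.2
        rw [e2, map_sub, map_smul, hfu]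
        simp only [smul_eq_mul, mul_one, sub_smul]
        abel }
  have h1 : p ∣ Nat.card α := card_sing_dvd (Q := Q) (p := p) V₀ hfr
  have h0 : (⟨0, map_zero Q⟩ : α) ∈ MulAction.fixedPoints H α := by
    intro g
    apply Subtype.ext
    apply Subtype.ext
    change ((π g ⟨0, map_zero Q⟩).1 : V) = 0
    rw [hπ]
    simp
  obtain ⟨b, hb, hne⟩ := hH.exists_fixed_point_of_prime_dvd_card_of_fixed_point α h1 h0
  have hbv := (hV₀ _).mp b.1.2
  have hb0 : (b.1 : V) ≠ 0 := by
    intro h
    apply hne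
    apply Subtype.ext
    apply Subtype.ext
    exact h.symm
  refine ⟨b.1.1, b.2, hbv.1, ?_, ?_⟩
  · intro c hc
    apply hb0
    have h3 := hbv.2
    rw [hc, map_smul, hfu, smul_eq_mul, mul_one] at h3
    rw [hc, h3, zero_smul]
  · intro g hg
    refine ⟨P Q f (g.1.1.1 b.1.1), ?_⟩
    have h3 := hb ⟨g, hg⟩
    have h4 := congrArg (fun y : α => (y.1 : V)) h3
    change ((π ⟨g, hg⟩ b).1 : V) = b.1.1 at h4
    rw [hπ] at h4
    change g.1.1.1 b.1.1 - _ = _ at h4
    calc g.1.1.1 b.1.1 = (g.1.1.1 b.1.1 - P Q f (g.1.1.1 b.1.1) • u) + P Q f (g.1.1.1 b.1.1) • u := by abel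
      _ = _ := by
        change _ - P Q f (g.1.1.1 b.1.1) • u = _ at h4
        rw [h4]

end fix

section UU

variable [FiniteDimensional F V] [Fintype F]

/-- Elements fixing the flag. -/
def Flag (u v : V) (g : OG Q) : Prop := g.1 u = u ∧ ∃ c : F, g.1 v = v + c • u

lemma Flag.inv {u v : V} {g : OG Q} (h : Flag u v g) : Flag u v g⁻¹ := by
  obtain ⟨h1, c, h2⟩ := h
  have e1 : g⁻¹.1 u = u := by
    conv_lhs => rw [← h1]
    exact inv_apply_self' g u
  refine ⟨e1, -c, ?_⟩
  have h3 := inv_apply_self' g v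
  rw [h2, map_add, map_smul, e1] at h3
  calc g⁻¹.1 v = (g⁻¹.1 v + c • u) - c • u := by abel
    _ = _ := by rw [h3, neg_smul]; abel

lemma Flag.polar_u {u v : V} {g : OG Q} (h : Flag u v g) (x : V) : P Q u (g.1 x) = P Q u x := by
  have := OG_polar g u x
  rwa [h.1] at this

lemma Flag.polar_v {u v : V} {g : OG Q} (h : Flag u v g) {x : V} (hx : P Q u x = 0) : P Q v (g.1 x) = P Q v x := by
  obtain ⟨h1, c, h2⟩ := h
  have h3 := OG_polar g v x
  rw [h2, map_add, map_smul, LinearMap.add_apply, LinearMap.smul_apply] at h3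
  have h4 := OG_polar g u x
  rw [h1, hx] at h4
  rw [h4] at h3
  simpa using h3

/-- The unipotent group of a flag. -/
def UU (Q : QuadraticForm F V) (u v : V) : Subgroup (OG Q) where
  carrier := {g | Flag u v g ∧ ∀ x, P Q u x = 0 → P Q v x = 0 → ∃ α β : F, g.1 x = x + α • u + β • v}
  mul_mem' := by
    rintro g h ⟨⟨g1, c, g2⟩, g3⟩ ⟨⟨h1, d, h2⟩, h3⟩
    refine ⟨⟨?_, d + c, ?_⟩, ?_⟩
    · rw [mul_apply', h1, g1]
    · rw [mul_apply', h2, map_add, map_smul, g1, g2, add_smul]
      abel
    · intro x hx hx'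
      obtain ⟨α, β, e⟩ := h3 x hx hx'
      obtain ⟨α', β', e'⟩ := g3 x hx hx'
      refine ⟨α' + α + β * c, β' + β, ?_⟩
      rw [mul_apply', e, map_add, map_add, map_smul, map_smul, e', g1, g2]
      (module)
  one_mem' := by
    refine ⟨⟨rfl, 0, by simp [one_apply']⟩, fun x _ _ => ⟨0, 0, by simp [one_apply']⟩⟩
  inv_mem' := by
    rintro g ⟨hf, h3⟩
    refine ⟨hf.inv, ?_⟩
    intro x hx hx'
    have hg := hf.inv
    have e1 : P Q u (g⁻¹.1 x) = 0 := by rw [hg.polar_u, hx]
    have e2 : P Q v (g⁻¹.1 x) = 0 := by rw [hg.polar_v hx, hx']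
    obtain ⟨α, β, e⟩ := h3 _ e1 e2
    rw [inv_apply_self] at e
    refine ⟨-α, -β, ?_⟩
    rw [neg_smul, neg_smul]
    calc g⁻¹.1 x = (g⁻¹.1 x + α • u + β • v) - α • u - β • v := by abel
      _ = _ := by rw [← e]; abel

lemma mem_UU {u v : V} {g : OG Q} : g ∈ UU Q u v ↔
    Flag u v g ∧ ∀ x, P Q u x = 0 → P Q v x = 0 → ∃ α β : F, g.1 x = x + α • u + β • v := Iff.rfl

lemma UU_conj {u v : V} {g h : OG Q} (hg : Flag u v g) (hh : h ∈ UU Q u v) : g * h * g⁻¹ ∈ UU Q u v := by
  obtain ⟨⟨h1, d, h2⟩, h3⟩ := hh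
  have hi := hg.inv
  refine ⟨⟨?_, ?_⟩, ?_⟩
  · rw [mul_apply', mul_apply', hi.1, h1, hg.1]
  · obtain ⟨e, he⟩ := hi.2
    obtain ⟨c, hc⟩ := hg.2
    refine ⟨c + d + e, ?_⟩
    rw [mul_apply', mul_apply', he, map_add, map_add, map_smul, map_smul, h2, h1, hg.1, map_add, map_smul, hc, hg.1]
    (module)
  · intro x hx hx'
    have e1 : P Q u (g⁻¹.1 x) = 0 := by rw [hi.polar_u, hx]
    have e2 : P Q v (g⁻¹.1 x) = 0 := by rw [hi.polar_v hx, hx']
    obtain ⟨α, β, e⟩ := h3 _ e1 e2
    obtain ⟨c, hc⟩ := hg.2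
    refine ⟨α + β * c, β, ?_⟩
    rw [mul_apply', mul_apply', e, map_add, map_add, map_smul, map_smul, inv_apply_self, hg.1, hc]
    (module)

variable {p : ℕ} [hp : Fact p.Prime] [CharP F p]

/-- Elements of the unipotent group have `p`-power order. -/
lemma UU_pow (hV : Nontrivial V) {u v : V} {g : OG Q} (hg : g ∈ UU Q u v) : g ^ (p ^ 3) = 1 := by
  obtain ⟨hf, h3⟩ := hg
  let G : Module.End F V := (g.1 : V →ₗ[F] V)
  let N : Module.End F V := G - 1
  have hN : ∀ x, N x = g.1 x - x := fun x => rfl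
  have a1 : ∀ x, P Q u (N x) = 0 := by
    intro x
    rw [hN, map_sub, hf.polar_u, sub_self]
  have a2 : ∀ x, P Q u x = 0 → P Q v (N x) = 0 := by
    intro x hx
    rw [hN, map_sub, hf.polar_v hx, sub_self]
  have a3 : ∀ x, P Q u x = 0 → P Q v x = 0 → ∃ α β : F, N x = α • u + β • v := by
    intro x hx hx'
    obtain ⟨α, β, e⟩ := h3 x hx hx'
    refine ⟨α, β, ?_⟩
    rw [hN, e]
    abel
  obtain ⟨c, hc⟩ := hf.2
  have a4 : N u = 0 := by
    rw [hN, hf.1, sub_self]
  have a5 : N v = c • u := by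
    rw [hN, hc]
    abel
  have hN5 : N ^ 5 = 0 := by
    ext x
    have e : (N ^ 5) x = N (N (N (N (N x)))) := rfl
    rw [e]
    obtain ⟨α, β, e3⟩ := a3 (N (N x)) (a1 _) (a2 _ (a1 _))
    rw [e3, map_add, map_smul, map_smul, a4, a5]
    simp [a4]
  have hcomm : Commute N 1 := Commute.one_right N
  haveI : CharP (Module.End F V) p := charP_of_injective_algebraMap (algebraMap F (Module.End F V)).injective p
  have h5 : (G : Module.End F V) ^ p ^ 3 = 1 := by
    have e : G = N + 1 := by simp [N]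
    rw [e, add_pow_char_pow_of_commute _ _ hcomm, one_pow]
    have hle : 5 ≤ p ^ 3 := by
      have : 2 ≤ p := hp.out.two_le
      calc 5 ≤ 2 ^ 3 := by norm_num
        _ ≤ p ^ 3 := Nat.pow_le_pow_left this 3
    obtain ⟨k, hk⟩ := Nat.exists_eq_add_of_le hle
    rw [hk, pow_add, hN5, zero_mul, zero_add]
  have key : ∀ (n : ℕ) (x : V), (g ^ n).1 x = (G ^ n) x := by
    intro n x
    induction n generalizing x with
    | zero => rfl
    | succ n ih =>
      rw [pow_succ, pow_succ, mul_apply', ih]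
      rfl
  apply OG_ext
  intro x
  rw [key, h5]
  rfl

/-- The unipotent group in Ω is contained in every Sylow subgroup whose elements fix the flag. -/
lemma UU_le_sylow (S : Sylow p (KK Q)) {u v : V} (hS : ∀ g ∈ (S : Subgroup (KK Q)), Flag u v g.1) :
    (UU Q u v).subgroupOf (KK Q) ≤ S := by
  by_cases hV : Nontrivial V
  · have hpg : IsPGroup p ((UU Q u v).subgroupOf (KK Q)) := by
      intro g
      refine ⟨3, ?_⟩
      apply Subtype.ext
      apply Subtype.ext
      exact UU_pow hV (Subgroup.mem_subgroupOf.mp g.2)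
    have hnorm : (S : Subgroup (KK Q)) ≤ Subgroup.normalizer (((UU Q u v).subgroupOf (KK Q) : Subgroup (KK Q)) : Set (KK Q)) := by
      intro g hg
      rw [Subgroup.mem_normalizer_iff]
      intro h
      constructor
      · intro hh
        exact Subgroup.mem_subgroupOf.mpr (UU_conj (hS g hg) (Subgroup.mem_subgroupOf.mp hh))
      · intro hh
        have h1 := UU_conj (hS g hg).inv (Subgroup.mem_subgroupOf.mp hh)
        apply Subgroup.mem_subgroupOf.mpr
        have e : g.1⁻¹ * (g * h * g⁻¹ : KK Q).1 * g.1⁻¹⁻¹ = h.1 := by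
          simp only [Subgroup.coe_mul, Subgroup.coe_inv]
          group
        rw [e] at h1
        exact h1
    have h1 := IsPGroup.to_sup_of_normal_right' S.isPGroup' hpg hnorm
    have h2 := S.is_maximal' h1 le_sup_left
    rw [← h2]
    exact le_sup_right
  · -- trivial space: everything is the identity
    rw [not_nontrivial_iff_subsingleton] at hV
    intro g _
    have : g = 1 := by
      apply Subtype.ext
      apply OG_ext
      intro x
      exact Subsingleton.elim _ _
    rw [this]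
    exact Subgroup.one_mem _

end UU

end Cfsg.Agent.Lib.AutPO
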