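import Mathlib
import Cfsg.Agent.Lib.AutPO.Syl
import Cfsg.Agent.Lib.Known3.OmegaTrans

/-!
The centre of a Sylow subgroup of `PΩ` is a root group, so automorphisms permute the root groups.
-/

set_option autoImplicit false
set_option linter.unusedSectionVars false
set_option linter.unusedVariables false

namespace Cfsg.Agent.Lib.AutPO

open Cfsg.Agent.Lib.Classical.Witt Cfsg.Agent.Lib.Classical.Abs Cfsg.Agent.Lib.Classical.Orth
open scoped commutatorElement Pointwise
open Module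

local notation "P" => QuadraticMap.polarBilin

variable {F V : Type*} [Field F] [AddCommGroup V] [Module F V] {Q : QuadraticForm F V}

/-- A totally singular line with a basis. -/
structure Ln (Q : QuadraticForm F V) where
  a : V
  b : V
  qa : Q a = 0
  qb : Q b = 0
  pab : P Q a b = 0
  na : a ≠ 0
  nb : ∀ c : F, b ≠ c • a

namespace Ln

/-- The underlying subspace. -/
def sp (W : Ln Q) : Submodule F V := Submodule.span F {W.a, W.b}

lemma pba (W : Ln Q) : P Q W.b W.a = 0 := by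
  rw [pol_comm]; exact W.pab

lemma a_mem (W : Ln Q) : W.a ∈ W.sp := Submodule.subset_span (by simp)

lemma b_mem (W : Ln Q) : W.b ∈ W.sp := Submodule.subset_span (by simp)

lemma mem_sp {W : Ln Q} {x : V} : x ∈ W.sp ↔ ∃ α β : F, α • W.a + β • W.b = x := Submodule.mem_span_pair

lemma indep (W : Ln Q) {α β : F} (h : α • W.a + β • W.b = 0) : α = 0 ∧ β = 0 := by
  have hβ : β = 0 := by
    by_contra hβ
    apply W.nb (-(β⁻¹ * α))
    have h1 : β • W.b = -(α • W.a) := by
      rw [eq_neg_iff_add_eq_zero, add_comm]; exact h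
    calc W.b = β⁻¹ • (β • W.b) := by rw [smul_smul, inv_mul_cancel₀ hβ, one_smul]
      _ = _ := by rw [h1, smul_neg, neg_smul, smul_smul]
  subst hβ
  rw [zero_smul, add_zero] at h
  exact ⟨(smul_eq_zero.mp h).resolve_right W.na, rfl⟩

lemma nb0 (W : Ln Q) : W.b ≠ 0 := by
  have := W.nb 0
  rwa [zero_smul] at this

lemma a_not_mem (W : Ln Q) : W.a ∉ Submodule.span F {W.b} := by
  intro h
  obtain ⟨c, hc⟩ := Submodule.mem_span_singleton.mp h
  have := W.indep (α := 1) (β := -c) (by rw [one_smul, ← hc, neg_smul, add_comm]; simp)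
  exact one_ne_zero this.1

lemma b_not_mem (W : Ln Q) : W.b ∉ Submodule.span F {W.a} := by
  intro h
  obtain ⟨c, hc⟩ := Submodule.mem_span_singleton.mp h
  exact W.nb c hc.symm

lemma sing (W : Ln Q) {x : V} (hx : x ∈ W.sp) : Q x = 0 := by
  obtain ⟨α, β, rfl⟩ := mem_sp.mp hx
  rw [Q_add, Q_smul, Q_smul, W.qa, W.qb]
  simp only [map_smul, LinearMap.smul_apply, W.pab]
  simp

lemma perp (W : Ln Q) {x y : V} (hx : x ∈ W.sp) (hy : y ∈ W.sp) : P Q x y = 0 := by
  obtain ⟨α, β, rfl⟩ := mem_sp.mp hx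
  obtain ⟨γ, δ, rfl⟩ := mem_sp.mp hy
  simp only [map_add, map_smul, LinearMap.add_apply, LinearMap.smul_apply, W.pab, W.pba, pol_self_of W.qa,
    pol_self_of W.qb]
  simp

/-- Same span from inclusion of a basis. -/
lemma sp_eq (W W' : Ln Q) (h1 : W.a ∈ W'.sp) (h2 : W.b ∈ W'.sp) : W.sp = W'.sp := by
  apply le_antisymm
  · exact Submodule.span_le.mpr (by
      rintro x (rfl | rfl)
      · exact h1
      · exact h2)
  obtain ⟨α, β, e1⟩ := mem_sp.mp h1
  obtain ⟨γ, δ, e2⟩ := mem_sp.mp h2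
  set Δ := α * δ - β * γ with hΔ
  have h3 : δ • W.a - β • W.b = Δ • W'.a := by
    rw [← e1, ← e2, hΔ]
    (module)
  have h4 : α • W.b - γ • W.a = Δ • W'.b := by
    rw [← e1, ← e2, hΔ]
    (module)
  have hΔ0 : Δ ≠ 0 := by
    intro h0
    rw [h0, zero_smul] at h3 h4
    have h5 := W.indep (α := δ) (β := -β) (by rw [neg_smul, ← sub_eq_add_neg]; exact h3)
    have h6 := W.indep (α := -γ) (β := α) (by rw [neg_smul, add_comm, ← sub_eq_add_neg]; exact h4)
    have hα : α = 0 := h6.2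
    have hβ : β = 0 := neg_eq_zero.mp h5.2
    rw [hα, hβ] at e1
    simp at e1
    exact W.na e1.symm
  have h5 : W'.a ∈ W.sp := by
    have : W'.a = Δ⁻¹ • (δ • W.a - β • W.b) := by
      rw [h3, smul_smul, inv_mul_cancel₀ hΔ0, one_smul]
    rw [this]
    exact Submodule.smul_mem _ _ (Submodule.sub_mem _ (Submodule.smul_mem _ _ W.a_mem) (Submodule.smul_mem _ _ W.b_mem))
  have h6 : W'.b ∈ W.sp := by
    have : W'.b = Δ⁻¹ • (α • W.b - γ • W.a) := by
      rw [h4, smul_smul, inv_mul_cancel₀ hΔ0, one_smul]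
    rw [this]
    exact Submodule.smul_mem _ _ (Submodule.sub_mem _ (Submodule.smul_mem _ _ W.b_mem) (Submodule.smul_mem _ _ W.a_mem))
  exact Submodule.span_le.mpr (by
    rintro x (rfl | rfl)
    · exact h5
    · exact h6)

/-- The finrank of a line. -/
lemma finrank_sp (W : Ln Q) : finrank F W.sp = 2 := by
  have hli : LinearIndependent F ![W.a, W.b] := by
    rw [LinearIndependent.pair_iff]
    intro s t h
    exact W.indep h
  have h1 := finrank_span_eq_card hli
  have e : Set.range ![W.a, W.b] = {W.a, W.b} := by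
    ext x
    simp [Fin.exists_fin_two, eq_comm, or_comm]
  rw [e] at h1
  change finrank F (Submodule.span F {W.a, W.b}) = 2
  simpa using h1

/-- The image of a line under an isometry. -/
def map (W : Ln Q) (g : OG Q) : Ln Q where
  a := g.1 W.a
  b := g.1 W.b
  qa := by rw [OG_pres, W.qa]
  qb := by rw [OG_pres, W.qb]
  pab := by rw [OG_polar, W.pab]
  na := by
    simpa using W.na
  nb := by
    intro c h
    apply W.nb c
    apply g.1.injective
    rw [h, map_smul]

end Ln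

section shape

variable [FiniteDimensional F V] [Fintype F] [hND : ND Q]

/-- Recognising the line from the Siegel element. -/
lemma mem_of_sg_eq (W : Ln Q) {c d : V} (hc : Q c = 0) (hd : Q d = 0) (hcd : P Q c d = 0)
    (h : sg Q W.a W.b = sg Q c d) : W.a ∈ Submodule.span F {c, d} ∧ W.b ∈ Submodule.span F {c, d} := by
  have hc1 : c ∈ Submodule.span F {c, d} := Submodule.subset_span (by simp)
  have hd1 : d ∈ Submodule.span F {c, d} := Submodule.subset_span (by simp)
  have key : ∀ x, (sg Q W.a W.b).1 x - x ∈ Submodule.span F {c, d} := by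
    intro x
    rw [h, sg_apply_sing hc hd hcd]
    have : x + P Q c x • d - P Q d x • c - x = P Q c x • d - P Q d x • c := by abel
    rw [this]
    exact Submodule.sub_mem _ (Submodule.smul_mem _ _ hd1) (Submodule.smul_mem _ _ hc1)
  constructor
  · obtain ⟨x, h1, h2⟩ := exists_pair (nd' Q) W.b_not_mem
    have h3 := key x
    rw [sg_apply_sing W.qa W.qb W.pab, h1, h2] at h3
    simp only [zero_smul, one_smul, add_zero] at h3
    have e2 : x - W.a - x = -W.a := by abel
    rw [e2] at h3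
    simpa using h3
  · obtain ⟨x, h1, h2⟩ := exists_pair (nd' Q) W.a_not_mem
    have h3 := key x
    rw [sg_apply_sing W.qa W.qb W.pab, h1, h2] at h3
    simp only [zero_smul, one_smul, sub_zero] at h3
    have e2 : x + W.b - x = W.b := by abel
    rw [e2] at h3
    exact h3

/-- An element fixing `u` and acting trivially on `u^⊥ / u` is a Siegel element. -/
lemma eq_sg_of_trivial {u : V} (hu0 : u ≠ 0) (hu : Q u = 0) (s : OG Q) (h1 : s.1 u = u)
    (h2 : ∀ w, P Q u w = 0 → ∃ c : F, s.1 w = w + c • u) : ∃ w₀, P Q u w₀ = 0 ∧ s = sg Q u w₀ := by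
  obtain ⟨f, hf, huf⟩ := exists_partner (nd' Q) hu0 hu
  have hfu : P Q f u = 1 := by rw [pol_comm]; exact huf
  set y := s.1 f with hy
  have huy : P Q u y = 1 := by
    have := OG_polar s u f
    rwa [h1, huf] at this
  have hyu : P Q y u = 1 := by rw [pol_comm]; exact huy
  set β := P Q f y with hβ
  set w₀ := y - f - β • u with hw₀
  have a1 : P Q u w₀ = 0 := by
    rw [hw₀, map_sub, map_sub, map_smul, huy, huf, pol_self_of hu]
    simp
  have a2 : P Q f w₀ = 0 := by
    rw [hw₀, map_sub, map_sub, map_smul, ← hβ, pol_self_of hf, hfu]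
    simp
  have hyy : y = f + (1 : F) • w₀ + β • u := by
    rw [hw₀]
    (module)
  have a3 : Q w₀ + β = 0 := by
    have h3 : Q y = 0 := by rw [hy, OG_pres, hf]
    rw [hyy, Q_comb, hf, hu, a2, hfu] at h3
    rw [pol_comm Q w₀ u, a1] at h3
    simpa using h3
  refine ⟨w₀, a1, ?_⟩
  apply OG_ext
  intro x
  rw [sg_apply hu a1]
  set α := P Q u x with hα
  set y₀ := x - α • f with hy₀
  have b1 : P Q u y₀ = 0 := by
    rw [hy₀, map_sub, map_smul, huf, ← hα]
    simp
  obtain ⟨c, hc⟩ := h2 y₀ b1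
  have hx : x = α • f + y₀ := by
    rw [hy₀]; abel
  have b2 : c = - P Q w₀ x := by
    have h3 := OG_polar s f y₀
    rw [hc, ← hy, map_add, map_smul, hyu, smul_eq_mul, mul_one] at h3
    have h4 : P Q y y₀ = P Q f y₀ + P Q w₀ y₀ := by
      rw [hyy]
      simp only [map_add, map_smul, LinearMap.add_apply, LinearMap.smul_apply, one_smul, b1]
      simp
    have h5 : P Q w₀ x = P Q w₀ y₀ := by
      rw [hx, map_add, map_smul, pol_comm Q w₀ f, a2]
      simp
    rw [h5]
    linear_combination h3 - h4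
  have e1 : s.1 x = α • y + (y₀ + c • u) := by
    conv_lhs => rw [hx]
    rw [map_add, map_smul, hc]
  have hβ' : β = - Q w₀ := by linear_combination a3
  have e3 : y = f + w₀ + (- Q w₀) • u := by
    rw [← hβ']
    rw [hyy]
    simp
  rw [e1, b2, e3, hy₀]
  (module)

lemma sg_u_mem_UU (W : Ln Q) {w : V} (hw : P Q W.a w = 0) : sg Q W.a w ∈ UU Q W.a W.b := by
  have hwa : P Q w W.a = 0 := by rw [pol_comm]; exact hw
  refine ⟨⟨sg_fix W.qa hw (pol_self_of W.qa) hwa, -P Q w W.b, ?_⟩, ?_⟩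
  · rw [sg_apply W.qa hw, W.pab]
    simp only [zero_smul, add_zero, mul_zero, sub_zero]
    rw [neg_smul, ← sub_eq_add_neg]
  · intro x hx hx'
    refine ⟨-P Q w x, 0, ?_⟩
    rw [sg_apply W.qa hw, hx]
    simp only [zero_smul, add_zero, mul_zero, sub_zero]
    rw [neg_smul, ← sub_eq_add_neg]

lemma sg_v_mem_UU (W : Ln Q) {z : V} (hz : P Q W.a z = 0) (hz' : P Q W.b z = 0) : sg Q W.b z ∈ UU Q W.a W.b := by
  have hza : P Q z W.a = 0 := by rw [pol_comm]; exact hz
  have hzb : P Q z W.b = 0 := by rw [pol_comm]; exact hz'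
  refine ⟨⟨sg_fix W.qb hz' W.pba hza, 0, ?_⟩, ?_⟩
  · rw [zero_smul, add_zero]
    exact sg_fix W.qb hz' (pol_self_of W.qb) hzb
  · intro x hx hx'
    refine ⟨0, -P Q z x, ?_⟩
    rw [sg_apply W.qb hz', hx']
    simp only [zero_smul, add_zero, mul_zero, sub_zero]
    rw [neg_smul, ← sub_eq_add_neg]

variable {p : ℕ} [hp : Fact p.Prime] [CharP F p]

/-- The shape of a central element of a Sylow subgroup. -/
theorem center_shape (S : Sylow p (KK Q)) (W : Ln Q) (hS : ∀ g ∈ (S : Subgroup (KK Q)), Flag W.a W.b g.1)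
    {s : KK Q} (hs : s ∈ (S : Subgroup (KK Q))) (hc : ∀ x ∈ (S : Subgroup (KK Q)), x * s = s * x) :
    ∃ t : F, s.1 = sg Q W.a (t • W.b) := by
  classical
  have hn : 7 ≤ finrank F V := dim' Q
  have hle := UU_le_sylow S hS
  have hfl := hS s hs
  -- commuting with Siegel elements in `S`
  have hcomm : ∀ t : OG Q, t ∈ UU Q W.a W.b → t ∈ KK Q → t * s.1 = s.1 * t := by
    intro t ht ht'
    have h1 : (⟨t, ht'⟩ : KK Q) ∈ (S : Subgroup (KK Q)) := hle (Subgroup.mem_subgroupOf.mpr ht)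
    have h2 := hc _ h1
    exact congrArg Subtype.val h2
  have h1 : ∀ w, P Q W.a w = 0 → ∃ c : F, s.1.1 w = w + c • W.a := by
    intro w hw
    have h3 := hcomm _ (sg_u_mem_UU W hw) (sg_mem Q W.a w)
    have h4 := sg_conj (Q := Q) W.qa hw s.1
    rw [← h3, hfl.1] at h4
    have h5 : sg Q W.a w = sg Q W.a (s.1.1 w) := by
      rw [← h4]
      group
    exact (sg_eq_iff W.na W.qa hw (by rw [hfl.polar_u, hw])).mp h5
  obtain ⟨w₀, a1, a2⟩ := eq_sg_of_trivial W.na W.qa s.1 hfl.1 h1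
  have happ : ∀ x, P Q W.a x = 0 → s.1.1 x = x - P Q w₀ x • W.a := by
    intro x hx
    rw [a2, sg_apply W.qa a1, hx]
    simp
  -- the main computation: for `z` singular in the perp of the line, outside it
  have hmain : ∀ z, Q z = 0 → P Q W.a z = 0 → P Q W.b z = 0 → z ∉ W.sp → P Q w₀ W.b = 0 ∧ P Q w₀ z = 0 := by
    intro z hz hz1 hz2 hzn
    have h3 := hcomm _ (sg_v_mem_UU W hz1 hz2) (sg_mem Q W.b z)
    have h4 := sg_conj (Q := Q) W.qb hz2 s.1
    rw [← h3] at h4
    have h5 : sg Q W.b z = sg Q (s.1.1 W.b) (s.1.1 z) := by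
      rw [← h4]
      group
    have hnb : ∀ c : F, z ≠ c • W.b := by
      intro c h6
      apply hzn
      rw [h6]
      exact Submodule.smul_mem _ _ W.b_mem
    let W₂ : Ln Q := ⟨W.b, z, W.qb, hz, hz2, W.nb0, hnb⟩
    let W₃ : Ln Q := W₂.map s.1
    have h6 := mem_of_sg_eq W₃ W₂.qa W₂.qb W₂.pab h5.symm
    have e1 : s.1.1 W.b = W.b - P Q w₀ W.b • W.a := happ W.b W.pab
    have e2 : s.1.1 z = z - P Q w₀ z • W.a := happ z hz1
    -- `W.a` is not in the plane spanned by `W.b` and `z`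
    have hind : ∀ a α β : F, a • W.a = α • W.b + β • z → a = 0 := by
      intro a α β h7
      by_contra ha
      have hβ : β = 0 := by
        by_contra hβ
        apply hzn
        have : z = β⁻¹ • (a • W.a - α • W.b) := by
          rw [h7, add_sub_cancel_left, smul_smul, inv_mul_cancel₀ hβ, one_smul]
        rw [this]
        exact Submodule.smul_mem _ _ (Submodule.sub_mem _ (Submodule.smul_mem _ _ W.a_mem) (Submodule.smul_mem _ _ W.b_mem))
      subst hβ
      have := W.indep (α := a) (β := -α) (by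
        rw [neg_smul, h7]
        simp)
      exact ha this.1
    constructor
    · obtain ⟨α, β, e⟩ := Submodule.mem_span_pair.mp h6.1
      change α • W.b + β • z = s.1.1 W.b at e
      rw [e1] at e
      have := hind (P Q w₀ W.b) (1 - α) (-β) (by
        have : P Q w₀ W.b • W.a = W.b - (α • W.b + β • z) := by
          rw [e]; abel
        rw [this]
        (module))
      exact this
    · obtain ⟨α, β, e⟩ := Submodule.mem_span_pair.mp h6.2
      change α • W.b + β • z = s.1.1 z at e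
      rw [e2] at e
      have := hind (P Q w₀ z) (-α) (1 - β) (by
        have : P Q w₀ z • W.a = z - (α • W.b + β • z) := by
          rw [e]; abel
        rw [this]
        (module))
      exact this
  have hfrl : finrank F W.sp = 2 := W.finrank_sp
  -- existence of one such `z`
  obtain ⟨z₀, hz₀, hQz₀, hz₀n⟩ := exists_singular_orth (nd' Q) W.sp (by omega)
  have hz₀u : P Q W.a z₀ = 0 := mem_orth.mp hz₀ W.a W.a_mem
  have hz₀v : P Q W.b z₀ = 0 := mem_orth.mp hz₀ W.b W.b_mem
  have hw₀v : P Q w₀ W.b = 0 := (hmain z₀ hQz₀ hz₀u hz₀v hz₀n).1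
  have hw₀u : P Q w₀ W.a = 0 := by rw [pol_comm]; exact a1
  -- all singular vectors in the perp
  have hall : ∀ y ∈ LinearMap.BilinForm.orthogonal (P Q) W.sp, P Q w₀ y = 0 := by
    intro y hy
    have h3 := span_singular (nd' Q) W.sp (by omega) hy
    clear hy
    induction h3 using Submodule.span_induction with
    | mem s hs =>
      by_cases hsW : s ∈ W.sp
      · obtain ⟨α, β, rfl⟩ := Ln.mem_sp.mp hsW
        simp only [map_add, map_smul, hw₀v, hw₀u, smul_zero, add_zero]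
      · exact (hmain s hs.2 (mem_orth.mp hs.1 W.a W.a_mem) (mem_orth.mp hs.1 W.b W.b_mem) hsW).2
    | zero => simp
    | add a b _ _ h3 h4 => rw [map_add, h3, h4, add_zero]
    | smul c a _ h3 => rw [map_smul, h3, smul_zero]
  have hw₀ : w₀ ∈ W.sp := by
    rw [← LinearMap.BilinForm.orthogonal_orthogonal (nd' Q) P_refl W.sp, mem_orth]
    intro y hy
    rw [pol_comm]
    exact hall y hy
  obtain ⟨α, t, rfl⟩ := Ln.mem_sp.mp hw₀
  refine ⟨t, ?_⟩
  rw [a2, add_comm, ← sg_add W.qa (by rw [map_smul, W.pab, smul_zero]) (by rw [map_smul, pol_self_of W.qa, smul_zero]),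
    sg_self_smul W.qa, mul_one]

/-- Root groups as subsets of `PΩ`. -/
def RG (W : Ln Q) : Set (PG Q) := {x | ∃ t : F, x = rt Q W.a (t • W.b)}

lemma mem_RG {W : Ln Q} {x : PG Q} : x ∈ RG W ↔ ∃ t : F, x = rt Q W.a (t • W.b) := Iff.rfl

lemma rt_mem_RG (W : Ln Q) (t : F) : rt Q W.a (t • W.b) ∈ RG W := ⟨t, rfl⟩

/-- The root group depends only on the span. -/
lemma RG_eq_of_sp {W W' : Ln Q} (h : W.sp = W'.sp) : RG W = RG W' := by
  have key : ∀ W W' : Ln Q, W.sp = W'.sp → RG W ⊆ RG W' := by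
    intro W W' h x hx
    obtain ⟨t, rfl⟩ := hx
    have h1 : W.a ∈ W'.sp := h ▸ W.a_mem
    have h2 : W.b ∈ W'.sp := h ▸ W.b_mem
    obtain ⟨α, β, e1⟩ := Ln.mem_sp.mp h1
    obtain ⟨γ, δ, e2⟩ := Ln.mem_sp.mp h2
    refine ⟨t * (α * δ - β * γ), ?_⟩
    apply rt_congr
    have e3 := sg_comb W'.qa W'.qb W'.pab α β (t * γ) (t * δ)
    have e4 : t • W.b = (t * γ) • W'.a + (t * δ) • W'.b := by
      rw [← e2, smul_add, smul_smul, smul_smul]
    rw [e4, ← e1, e3]
    congr 2
    ring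
  exact Set.Subset.antisymm (key W W' h) (key W' W h.symm)

/-- The image of a root group under an element of Ω. -/
lemma RG_conj (W : Ln Q) (g : KK Q) (x : PG Q) : x ∈ RG W ↔ mk Q g * x * (mk Q g)⁻¹ ∈ RG (W.map g.1) := by
  constructor
  · rintro ⟨t, rfl⟩
    refine ⟨t, ?_⟩
    rw [rt_conj g W.qa (by rw [map_smul, W.pab, smul_zero]), map_smul]
    rfl
  · rintro ⟨t, e⟩
    refine ⟨t, ?_⟩
    have e2 := rt_conj g W.qa (w := t • W.b) (by rw [map_smul, W.pab, smul_zero])
    rw [map_smul] at e2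
    have e3 : mk Q g * x * (mk Q g)⁻¹ = mk Q g * rt Q W.a (t • W.b) * (mk Q g)⁻¹ := by
      rw [e2]
      exact e
    exact mul_left_cancel (mul_right_cancel e3)

/-- The centre of a subgroup as a subset. -/
def ZS {G : Type*} [Group G] (S : Subgroup G) : Set G := {x | x ∈ S ∧ ∀ y ∈ S, Commute y x}

instance finite_KK : Finite (KK Q) := by
  haveI : Finite V := Module.finite_of_finite F
  refine Finite.of_injective (fun g : KK Q => (g.1.1 : V → V)) ?_
  intro g h e
  apply Subtype.ext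
  apply OG_ext
  intro x
  exact congrFun e x

variable {p : ℕ} [hp : Fact p.Prime] [CharP F p]

/-- The centre of a Sylow subgroup of `PΩ` is a root group. -/
theorem exists_center_eq (S' : Sylow p (PG Q)) : ∃ W : Ln Q, ZS (S' : Subgroup (PG Q)) = RG W := by
  classical
  have hsurj : Function.Surjective (mk Q) := mk_surj
  obtain ⟨S, rfl⟩ := Sylow.mapSurjective_surjective hsurj p S'
  obtain ⟨u, hu0, hu, hfix⟩ := exists_fixed_sing (Q := Q) (p := p) S.isPGroup'
  obtain ⟨v, hv, huv, hnv, hfl⟩ := exists_fixed_line (Q := Q) (p := p) S.isPGroup' hu0 hu hfix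
  let W : Ln Q := ⟨u, v, hu, hv, huv, hu0, hnv⟩
  refine ⟨W, ?_⟩
  have hFlag : ∀ g ∈ (S : Subgroup (KK Q)), Flag W.a W.b g.1 := fun g hg => ⟨hfix g hg, hfl g hg⟩
  have hle := UU_le_sylow S hFlag
  have hmem : ∀ x, x ∈ ((S.mapSurjective hsurj : Sylow p (PG Q)) : Subgroup (PG Q)) ↔ ∃ s ∈ (S : Subgroup (KK Q)), mk Q s = x := by
    intro x
    rw [Sylow.coe_mapSurjective]
    rfl
  ext x
  constructor
  · rintro ⟨h1, h2⟩
    obtain ⟨s, hs, rfl⟩ := (hmem x).mp h1
    have hc : ∀ y ∈ (S : Subgroup (KK Q)), y * s = s * y := by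
      intro y hy
      have h3 := h2 (mk Q y) ((hmem _).mpr ⟨y, hy, rfl⟩)
      have h4 : mk Q (s * y) = mk Q (y * s) := by
        rw [map_mul, map_mul]
        exact h3.eq.symm
      have h5 := mk_eq_iff.mp h4
      set z := (s * y)⁻¹ * (y * s) with hz
      have hzS : z ∈ (S : Subgroup (KK Q)) := by
        apply Subgroup.mul_mem _ (Subgroup.inv_mem _ (Subgroup.mul_mem _ hs hy)) (Subgroup.mul_mem _ hy hs)
      rcases center_cases z h5 with h6 | ⟨h6, h7⟩
      · rw [hz] at h6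
        exact (inv_mul_eq_one.mp h6).symm
      · exfalso
        have h8 := hfix z hzS
        rw [h7] at h8
        have h9 : (2 : F) • u = 0 := by
          rw [two_smul]
          nth_rw 1 [← h8]
          simp
        exact hu0 ((smul_eq_zero.mp h9).resolve_left h6)
    obtain ⟨t, ht⟩ := center_shape S W hFlag hs hc
    refine ⟨t, ?_⟩
    rw [rt_def]
    congr 1
    exact Subtype.ext ht
  · rintro ⟨t, rfl⟩
    have hm : sO Q W.a (t • W.b) ∈ (S : Subgroup (KK Q)) := by
      apply hle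
      rw [Subgroup.mem_subgroupOf]
      exact sg_u_mem_UU W (by rw [map_smul, W.pab, smul_zero])
    refine ⟨(hmem _).mpr ⟨_, hm, rfl⟩, ?_⟩
    intro y hy
    obtain ⟨g, hg, rfl⟩ := (hmem y).mp hy
    have h1 := rt_conj g W.qa (w := t • W.b) (by rw [map_smul, W.pab, smul_zero])
    obtain ⟨c, hc⟩ := hfl g hg
    have h2 : rt Q (g.1.1 W.a) (g.1.1 (t • W.b)) = rt Q W.a (t • W.b) := by
      rw [hfix g hg, map_smul]
      change rt Q u (t • g.1.1 v) = _
      rw [hc, smul_add, smul_smul]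
      apply rt_congr
      rw [add_comm, ← sg_add hu (by rw [map_smul, pol_self_of hu, smul_zero]) (by rw [map_smul, huv, smul_zero]),
        sg_self_smul hu, one_mul]
    rw [h2] at h1
    have h3 : mk Q g * rt Q W.a (t • W.b) = rt Q W.a (t • W.b) * mk Q g := mul_inv_eq_iff_eq_mul.mp h1
    exact h3

/-- Every root group is the centre of a Sylow subgroup. -/
theorem exists_sylow_center (W : Ln Q) : ∃ S' : Sylow p (PG Q), ZS (S' : Subgroup (PG Q)) = RG W := by
  classical
  have hn : 7 ≤ finrank F V := dim' Q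
  obtain ⟨S₀⟩ : Nonempty (Sylow p (PG Q)) := Sylow.nonempty
  obtain ⟨W₁, hW₁⟩ := exists_center_eq S₀
  have hfr1 := W₁.finrank_sp
  have hfr2 := W.finrank_sp
  obtain ⟨g, hg, him⟩ := Cfsg.Agent.Lib.Known3.OmegaTrans.ts_trans (nd' Q) (Or.inr (by omega)) (U := W₁.sp) (W := W.sp)
    (by rw [hfr1, hfr2]) (fun u hu => W₁.sing hu) (fun u hu => W.sing hu) (by omega)
  let γ : KK Q := ⟨g, hg⟩
  have hspan : (W₁.map g).sp = W.sp := by
    apply Ln.sp_eq
    · rw [← him]
      exact Cfsg.Agent.Lib.Known3.OmegaTrans.mem_im.mpr ⟨_, W₁.a_mem, rfl⟩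
    · rw [← him]
      exact Cfsg.Agent.Lib.Known3.OmegaTrans.mem_im.mpr ⟨_, W₁.b_mem, rfl⟩
  refine ⟨mk Q γ • S₀, ?_⟩
  have hT : ∀ w, w ∈ ((mk Q γ • S₀ : Sylow p (PG Q)) : Subgroup (PG Q)) ↔ (mk Q γ)⁻¹ * w * mk Q γ ∈ (S₀ : Subgroup (PG Q)) := by
    intro w
    rw [Sylow.smul_def, Sylow.pointwise_smul_def, Subgroup.mem_pointwise_smul_iff_inv_smul_mem]
    simp [MulAut.smul_def]
  rw [← RG_eq_of_sp hspan]
  ext x
  rw [show x ∈ RG (W₁.map g) ↔ x ∈ RG (W₁.map γ.1) from Iff.rfl]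
  have h1 := RG_conj W₁ γ ((mk Q γ)⁻¹ * x * mk Q γ)
  have e : mk Q γ * ((mk Q γ)⁻¹ * x * mk Q γ) * (mk Q γ)⁻¹ = x := by group
  rw [e] at h1
  rw [← h1, ← hW₁]
  constructor
  · rintro ⟨a1, a2⟩
    refine ⟨(hT x).mp a1, ?_⟩
    intro y hy
    have h3 := a2 (mk Q γ * y * (mk Q γ)⁻¹) ((hT _).mpr (by
      have : (mk Q γ)⁻¹ * (mk Q γ * y * (mk Q γ)⁻¹) * mk Q γ = y := by group
      rw [this]; exact hy))
    have h4 : (mk Q γ * y * (mk Q γ)⁻¹) * x = x * (mk Q γ * y * (mk Q γ)⁻¹) := h3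
    show y * ((mk Q γ)⁻¹ * x * mk Q γ) = ((mk Q γ)⁻¹ * x * mk Q γ) * y
    have h5 := congrArg (fun z => (mk Q γ)⁻¹ * z * mk Q γ) h4
    simp only [mul_assoc, inv_mul_cancel_left, inv_mul_cancel, mul_one] at h5
    simpa [mul_assoc] using h5
  · rintro ⟨a1, a2⟩
    refine ⟨(hT x).mpr a1, ?_⟩
    intro y hy
    have h3 := a2 _ ((hT y).mp hy)
    have h4 : ((mk Q γ)⁻¹ * y * mk Q γ) * ((mk Q γ)⁻¹ * x * mk Q γ) = ((mk Q γ)⁻¹ * x * mk Q γ) * ((mk Q γ)⁻¹ * y * mk Q γ) := h3
    show y * x = x * y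
    have h5 := congrArg (fun z => mk Q γ * z * (mk Q γ)⁻¹) h4
    simp only [mul_assoc, mul_inv_cancel_left, mul_inv_cancel, mul_one] at h5
    simpa [mul_assoc] using h5

/-- Automorphisms permute the root groups. -/
theorem pres_rg (p : ℕ) [Fact p.Prime] [CharP F p] (β : PG Q ≃* PG Q) (W : Ln Q) : ∃ W' : Ln Q, ∀ x, x ∈ RG W ↔ β x ∈ RG W' := by
  classical
  obtain ⟨S₁, h1⟩ := exists_sylow_center (p := p) W
  have hs : Function.Surjective (β : PG Q →* PG Q) := β.surjective
  obtain ⟨W', h2⟩ := exists_center_eq (S₁.mapSurjective hs)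
  refine ⟨W', fun x => ?_⟩
  rw [← h1, ← h2]
  have hmem : ∀ y, y ∈ ((S₁.mapSurjective hs : Sylow p (PG Q)) : Subgroup (PG Q)) ↔ β.symm y ∈ (S₁ : Subgroup (PG Q)) := by
    intro y
    rw [Sylow.coe_mapSurjective]
    constructor
    · rintro ⟨w, hw, rfl⟩
      have e : β.symm ((β : PG Q →* PG Q) w) = w := β.symm_apply_apply w
      rw [e]
      exact hw
    · intro h
      exact ⟨_, h, by simp⟩
  constructor
  · rintro ⟨a1, a2⟩
    refine ⟨(hmem _).mpr (by simpa using a1), ?_⟩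
    intro y hy
    have h3 := a2 _ ((hmem y).mp hy)
    have h4 := h3.map (β : PG Q →* PG Q)
    simpa using h4
  · rintro ⟨a1, a2⟩
    refine ⟨by simpa using (hmem _).mp a1, ?_⟩
    intro y hy
    have h3 := a2 (β y) ((hmem _).mpr (by simpa using hy))
    have h4 := h3.map (β.symm : PG Q →* PG Q)
    simpa using h4

end shape

end Cfsg.Agent.Lib.AutPO
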