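import Mathlib
import Cfsg.Agent.Lib.AutPO.Pres

/-!
Relations between root groups and their geometric meaning.
-/

set_option autoImplicit false
set_option linter.unusedSectionVars false
set_option linter.unusedVariables false

namespace Cfsg.Agent.Lib.AutPO

open Cfsg.Agent.Lib.Classical.Witt Cfsg.Agent.Lib.Classical.Abs Cfsg.Agent.Lib.Classical.Orth
open scoped commutatorElement
open Module

local notation "P" => QuadraticMap.polarBilin

variable {F V : Type*} [Field F] [AddCommGroup V] [Module F V] {Q : QuadraticForm F V}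

namespace Ln

/-- Two lines meet. -/
def Con (W W' : Ln Q) : Prop := ∃ x : V, x ≠ 0 ∧ x ∈ W.sp ∧ x ∈ W'.sp

/-- Two lines are orthogonal. -/
def Per (W W' : Ln Q) : Prop := ∀ x ∈ W.sp, ∀ y ∈ W'.sp, P Q x y = 0

/-- Collinear root groups. -/
def Coll (W W' : Ln Q) : Prop := W.sp ≠ W'.sp ∧ Con W W' ∧ Per W W'

lemma Con.symm {W W' : Ln Q} (h : Con W W') : Con W' W := by
  obtain ⟨x, h1, h2, h3⟩ := h
  exact ⟨x, h1, h3, h2⟩

lemma Per.symm {W W' : Ln Q} (h : Per W W') : Per W' W := by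
  intro x hx y hy
  rw [pol_comm]
  exact h y hy x hx

lemma Coll.symm {W W' : Ln Q} (h : Coll W W') : Coll W' W := ⟨h.1.symm, h.2.1.symm, h.2.2.symm⟩

lemma per_of_basis {W W' : Ln Q} (h1 : P Q W.a W'.a = 0) (h2 : P Q W.a W'.b = 0) (h3 : P Q W.b W'.a = 0)
    (h4 : P Q W.b W'.b = 0) : Per W W' := by
  intro x hx y hy
  obtain ⟨α, β, rfl⟩ := mem_sp.mp hx
  obtain ⟨γ, δ, rfl⟩ := mem_sp.mp hy
  simp only [map_add, map_smul, LinearMap.add_apply, LinearMap.smul_apply, h1, h2, h3, h4]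
  simp

/-- A line with a prescribed first basis vector. -/
lemma exists_basis_of_mem (W : Ln Q) {p : V} (hp0 : p ≠ 0) (hp : p ∈ W.sp) : ∃ W₁ : Ln Q, W₁.a = p ∧ W₁.sp = W.sp := by
  obtain ⟨α, β, rfl⟩ := mem_sp.mp hp
  by_cases hα : α = 0
  · subst hα
    rw [zero_smul, zero_add] at hp0 hp ⊢
    have hβ : β ≠ 0 := by
      rintro rfl
      simp at hp0
    refine ⟨⟨β • W.b, W.a, by rw [Q_smul, W.qb, mul_zero], W.qa, by rw [map_smul, LinearMap.smul_apply, W.pba, smul_zero], hp0, ?_⟩, rfl, ?_⟩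
    · intro c hc
      have := W.indep (α := 1) (β := -(c * β)) (by
        rw [one_smul, neg_smul, ← mul_smul] at *
        rw [hc]
        simp)
      exact one_ne_zero this.1
    · apply sp_eq
      · exact hp
      · exact W.a_mem
  · refine ⟨⟨α • W.a + β • W.b, W.b, W.sing hp, W.qb, W.perp hp W.b_mem, hp0, ?_⟩, rfl, ?_⟩
    · intro c hc
      have := W.indep (α := c * α) (β := c * β - 1) (by
        have e : (c * α) • W.a + (c * β - 1) • W.b = c • (α • W.a + β • W.b) - W.b := by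
          (module)
        rw [e, ← hc, sub_self])
      have h1 : c = 0 := (mul_eq_zero.mp this.1).resolve_right hα
      rw [h1] at this
      simp at this
    · apply sp_eq
      · exact hp
      · exact W.b_mem

end Ln

open Ln

section group

variable [FiniteDimensional F V] [Fintype F] [hND : ND Q]

lemma comm_rt {a w c z : V} (h : sg Q a w * sg Q c z = sg Q c z * sg Q a w) : Commute (rt Q a w) (rt Q c z) := by
  show mk Q _ * mk Q _ = mk Q _ * mk Q _
  rw [← map_mul, ← map_mul]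
  congr 1
  exact Subtype.ext h

lemma comm_of_per {W W' : Ln Q} (h : Per W W') {x y : PG Q} (hx : x ∈ RG W) (hy : y ∈ RG W') : Commute x y := by
  obtain ⟨s, rfl⟩ := hx
  obtain ⟨t, rfl⟩ := hy
  have hs : s • W.b ∈ W.sp := Submodule.smul_mem _ _ W.b_mem
  have ht : t • W'.b ∈ W'.sp := Submodule.smul_mem _ _ W'.b_mem
  have h1 := comm_sg (Q := Q) W.qa W'.qa (h _ W.a_mem _ W'.a_mem) (W.perp W.a_mem hs) (h.symm _ W'.a_mem _ hs)
    (h _ W.a_mem _ ht) (W'.perp W'.a_mem ht)
  rw [h _ hs _ ht, zero_smul, sg_zero] at h1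
  apply comm_rt
  exact commutatorElement_eq_one_iff_commute.mp h1

lemma comm_of_con {W W' : Ln Q} (h : Con W W') {x y : PG Q} (hx : x ∈ RG W) (hy : y ∈ RG W') : Commute x y := by
  obtain ⟨p, hp0, hp1, hp2⟩ := h
  obtain ⟨W₁, e1, e2⟩ := W.exists_basis_of_mem hp0 hp1
  obtain ⟨W₂, e3, e4⟩ := W'.exists_basis_of_mem hp0 hp2
  rw [← RG_eq_of_sp e2] at hx
  rw [← RG_eq_of_sp e4] at hy
  obtain ⟨s, rfl⟩ := hx
  obtain ⟨t, rfl⟩ := hy
  rw [e1, e3]
  apply comm_rt
  refine sg_comm (by rw [← e1]; exact W₁.qa) ?_ ?_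
  · rw [← e1]
    exact W₁.perp W₁.a_mem (Submodule.smul_mem _ _ W₁.b_mem)
  · rw [← e3]
    exact W₂.perp W₂.a_mem (Submodule.smul_mem _ _ W₂.b_mem)

lemma comm_of_con_or_per {W W' : Ln Q} (h : Con W W' ∨ Per W W') {x y : PG Q} (hx : x ∈ RG W) (hy : y ∈ RG W') :
    Commute x y := by
  rcases h with h | h
  · exact comm_of_con h hx hy
  · exact comm_of_per h hx hy

lemma con_or_per {W W' : Ln Q} (h : Commute (rt Q W.a W.b) (rt Q W'.a W'.b)) : Con W W' ∨ Per W W' := by
  by_cases hc : Con W W'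
  · exact Or.inl hc
  right
  have e := comm_lift W.qa W.pab W'.qa W'.pab h
  set x := sg Q W.a W.b with hx
  have h1 := sg_conj (Q := Q) W'.qa W'.pab x
  rw [e] at h1
  have h2 : sg Q W'.a W'.b = sg Q (x.1 W'.a) (x.1 W'.b) := by
    rw [← h1]
    group
  have h3 := mem_of_sg_eq (W'.map x) W'.qa W'.qb W'.pab h2.symm
  have key : ∀ c, c ∈ W'.sp → x.1 c ∈ W'.sp → P Q W.a c = 0 ∧ P Q W.b c = 0 := by
    intro c hc1 hc2
    have h4 : x.1 c - c = P Q W.a c • W.b - P Q W.b c • W.a := by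
      rw [hx, sg_apply_sing W.qa W.qb W.pab]
      abel
    have h5 : P Q W.a c • W.b - P Q W.b c • W.a ∈ W'.sp := by
      rw [← h4]
      exact Submodule.sub_mem _ hc2 hc1
    have h6 : P Q W.a c • W.b - P Q W.b c • W.a ∈ W.sp :=
      Submodule.sub_mem _ (Submodule.smul_mem _ _ W.b_mem) (Submodule.smul_mem _ _ W.a_mem)
    have h7 : P Q W.a c • W.b - P Q W.b c • W.a = 0 := by
      by_contra hne
      exact hc ⟨_, hne, h6, h5⟩
    have h8 := W.indep (α := -P Q W.b c) (β := P Q W.a c) (by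
      rw [neg_smul, add_comm, ← sub_eq_add_neg]
      exact h7)
    exact ⟨h8.2, neg_eq_zero.mp h8.1⟩
  have ha := key _ W'.a_mem h3.1
  have hb := key _ W'.b_mem h3.2
  exact per_of_basis ha.1 hb.1 ha.2 hb.2

lemma rt_ne_one (W : Ln Q) {t : F} (ht : t ≠ 0) : rt Q W.a (t • W.b) ≠ 1 := by
  intro h
  rw [← rt_zero W.a] at h
  have h1 := (rt_eq_iff W.na W.qa (by rw [map_smul, W.pab, smul_zero]) (map_zero _)).mp h
  obtain ⟨c, hc⟩ := h1
  apply W.nb ((t⁻¹ * (-c)))
  have h2 : t • W.b = (-c) • W.a := by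
    rw [neg_smul, eq_neg_iff_add_eq_zero]
    exact hc.symm
  calc W.b = t⁻¹ • (t • W.b) := by rw [smul_smul, inv_mul_cancel₀ ht, one_smul]
    _ = _ := by rw [h2, smul_smul]

lemma t_ne_zero_of {W : Ln Q} {t : F} (h : rt Q W.a (t • W.b) ≠ 1) : t ≠ 0 := by
  rintro rfl
  rw [zero_smul, rt_zero] at h
  exact h rfl

lemma coll_of_star {W W' : Ln Q} (h : W.a = W'.a) (hP : P Q W.b W'.b = 0) (hn : W'.b ∉ W.sp) : Coll W W' := by
  refine ⟨?_, ⟨W.a, W.na, W.a_mem, h ▸ W'.a_mem⟩, ?_⟩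
  · intro e
    exact hn (e ▸ W'.b_mem)
  · apply per_of_basis
    · rw [← h]; exact pol_self_of W.qa
    · rw [h]; exact W'.pab
    · rw [← h]; exact W.pba
    · exact hP

/-- Collinear root groups have non-trivial elements with product a root element. -/
lemma coll_mul {W W' : Ln Q} (h : Coll W W') : ∃ x ∈ RG W, x ≠ 1 ∧ ∃ y ∈ RG W', y ≠ 1 ∧ ∃ W'' : Ln Q, x * y ∈ RG W'' := by
  obtain ⟨hne, ⟨p, hp0, hp1, hp2⟩, hper⟩ := h
  obtain ⟨W₁, e1, e2⟩ := W.exists_basis_of_mem hp0 hp1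
  obtain ⟨W₂, e3, e4⟩ := W'.exists_basis_of_mem hp0 hp2
  have hb : P Q W₁.b W₂.b = 0 := hper _ (e2 ▸ W₁.b_mem) _ (e4 ▸ W₂.b_mem)
  have ha : W₁.a = W₂.a := e1.trans e3.symm
  have hP1 : P Q W₁.a W₂.b = 0 := by rw [ha]; exact W₂.pab
  let W₃ : Ln Q := ⟨W₁.a, W₁.b + W₂.b, W₁.qa, by rw [Q_add, W₁.qb, W₂.qb, hb]; simp,
    by rw [map_add, W₁.pab, hP1, add_zero], W₁.na, by
      intro c hc
      apply hne
      rw [← e2, ← e4]
      refine (Ln.sp_eq W₂ W₁ ?_ ?_).symm
      · rw [← ha]; exact W₁.a_mem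
      · have : W₂.b = c • W₁.a - W₁.b := by
          rw [← hc]; abel
        rw [this]
        exact Submodule.sub_mem _ (Submodule.smul_mem _ _ W₁.a_mem) W₁.b_mem⟩
  have h1 : rt Q W₁.a ((1 : F) • W₁.b) ∈ RG W := by
    rw [← RG_eq_of_sp e2]; exact rt_mem_RG _ _
  have h2 : rt Q W₂.a ((1 : F) • W₂.b) ∈ RG W' := by
    rw [← RG_eq_of_sp e4]; exact rt_mem_RG _ _
  refine ⟨_, h1, rt_ne_one W₁ one_ne_zero, _, h2, rt_ne_one W₂ one_ne_zero, W₃, 1, ?_⟩
  rw [← ha, one_smul, one_smul, one_smul, rt_add W₁.qa W₁.pab hP1]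

/-- Independence of two skew lines. -/
lemma indep4 {W W' : Ln Q} (hc : ¬ Con W W') {α β γ δ : F} (h : α • W.a + β • W.b + γ • W'.a + δ • W'.b = 0) :
    α = 0 ∧ β = 0 ∧ γ = 0 ∧ δ = 0 := by
  set z := α • W.a + β • W.b with hz
  have h1 : z = -(γ • W'.a + δ • W'.b) := by
    rw [eq_neg_iff_add_eq_zero, ← add_assoc]
    exact h
  have hz0 : z = 0 := by
    by_contra hne
    refine hc ⟨z, hne, Ln.mem_sp.mpr ⟨α, β, rfl⟩, ?_⟩
    rw [h1]
    exact Submodule.neg_mem _ (Ln.mem_sp.mpr ⟨γ, δ, rfl⟩)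
  have h2 := W.indep hz0
  have h3 : γ • W'.a + δ • W'.b = 0 := by
    rw [hz0] at h1
    exact neg_eq_zero.mp h1.symm
  have h4 := W'.indep h3
  exact ⟨h2.1, h2.2, h4.1, h4.2⟩

/-- The converse: product relations force collinearity. -/
lemma coll_of_mul {W W' W'' : Ln Q} (hne : W.sp ≠ W'.sp) (hcp : Con W W' ∨ Per W W') {x y : PG Q} (hx : x ∈ RG W)
    (hy : y ∈ RG W') (hx1 : x ≠ 1) (hy1 : y ≠ 1) (hz : x * y ∈ RG W'') : Coll W W' := by
  by_cases hc : Con W W'
  · refine ⟨hne, hc, ?_⟩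
    by_contra hper
    obtain ⟨p, hp0, hp1, hp2⟩ := hc
    obtain ⟨W₁, e1, e2⟩ := W.exists_basis_of_mem hp0 hp1
    obtain ⟨W₂, e3, e4⟩ := W'.exists_basis_of_mem hp0 hp2
    rw [← RG_eq_of_sp e2] at hx
    rw [← RG_eq_of_sp e4] at hy
    obtain ⟨s, rfl⟩ := hx
    obtain ⟨t, rfl⟩ := hy
    have hs := t_ne_zero_of hx1
    have ht := t_ne_zero_of hy1
    have ha : W₁.a = W₂.a := e1.trans e3.symm
    have hP1 : P Q W₁.a W₂.b = 0 := by rw [ha]; exact W₂.pab
    have hb : P Q W₁.b W₂.b ≠ 0 := by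
      intro hb
      apply hper
      intro u hu v hv
      rw [← e2] at hu
      rw [← e4] at hv
      refine per_of_basis (W := W₁) (W' := W₂) ?_ hP1 ?_ hb u hu v hv
      · rw [← ha]; exact pol_self_of W₁.qa
      · rw [← ha]; exact W₁.pba
    set w := s • W₁.b + t • W₂.b with hw
    have hPw : P Q W₁.a w = 0 := by
      rw [hw, map_add, map_smul, map_smul, W₁.pab, hP1]
      simp
    have hQw : Q w ≠ 0 := by
      rw [hw, Q_add, Q_smul, Q_smul, W₁.qb, W₂.qb]
      simp only [map_smul, LinearMap.smul_apply, smul_eq_mul]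
      simp only [mul_zero, zero_add]
      exact mul_ne_zero ht (mul_ne_zero hs hb)
    obtain ⟨r, hr⟩ := hz
    rw [← ha, rt_add W₁.qa (by rw [map_smul, W₁.pab, smul_zero]) (by rw [map_smul, hP1, smul_zero])] at hr
    have hsg := sg_eq_of_rt_eq W₁.qa hPw W''.qa (by rw [map_smul, W''.pab, smul_zero]) hr
    have hnot : W₁.a ∉ Submodule.span F {w} := by
      intro hm
      obtain ⟨c, hc⟩ := Submodule.mem_span_singleton.mp hm
      have h1 : Q W₁.a = c * c * Q w := by rw [← hc, Q_smul]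
      rw [W₁.qa] at h1
      have hc0 : c = 0 := by
        by_contra hc0
        exact (mul_ne_zero (mul_ne_zero hc0 hc0) hQw) h1.symm
      rw [hc0, zero_smul] at hc
      exact W₁.na hc.symm
    obtain ⟨x₀, h1, h2⟩ := exists_pair (nd' Q) hnot
    have h3 := congrArg (fun g : OG Q => g.1 x₀) hsg
    rw [sg_apply W₁.qa hPw, h1, h2, sg_eq_of_sing W''.qa W''.qb W''.pab] at h3
    simp only [one_smul, zero_smul, add_zero, sub_zero, mul_one] at h3
    have h4 : w - Q w • W₁.a = r • (P Q W''.a x₀ • W''.b) - r • (P Q W''.b x₀ • W''.a) := by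
      have e5 : w - Q w • W₁.a = (x₀ + w - Q w • W₁.a) - x₀ := by abel
      rw [e5, h3]
      abel
    have h5 : w - Q w • W₁.a ∈ W''.sp := by
      rw [h4]
      exact Submodule.sub_mem _ (Submodule.smul_mem _ _ (Submodule.smul_mem _ _ W''.b_mem))
        (Submodule.smul_mem _ _ (Submodule.smul_mem _ _ W''.a_mem))
    have h6 := W''.sing h5
    rw [Q_sub, Q_smul, W₁.qa, map_smul, pol_comm Q w, hPw] at h6
    apply hQw
    simpa using h6
  · have hper : Per W W' := hcp.resolve_left hc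
    exfalso
    obtain ⟨s, rfl⟩ := hx
    obtain ⟨t, rfl⟩ := hy
    have hs := t_ne_zero_of hx1
    have ht := t_ne_zero_of hy1
    obtain ⟨r, hr⟩ := hz
    have hmul := mul_lift W.qa (by rw [map_smul, W.pab, smul_zero]) W'.qa (by rw [map_smul, W'.pab, smul_zero]) W''.qa
      (by rw [map_smul, W''.pab, smul_zero]) hr
    have pac : P Q W.a W'.a = 0 := hper _ W.a_mem _ W'.a_mem
    have pad : P Q W.a W'.b = 0 := hper _ W.a_mem _ W'.b_mem
    have pbc : P Q W.b W'.a = 0 := hper _ W.b_mem _ W'.a_mem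
    have pbd : P Q W.b W'.b = 0 := hper _ W.b_mem _ W'.b_mem
    have hE : ∀ v : V, t • (P Q W'.a v • W'.b) - t • (P Q W'.b v • W'.a) + s • (P Q W.a v • W.b) - s • (P Q W.b v • W.a) ∈ W''.sp := by
      intro v
      have h3 := congrArg (fun g : OG Q => g.1 v) hmul
      simp only [mul_apply'] at h3
      rw [sg_eq_of_sing W'.qa W'.qb W'.pab, sg_eq_of_sing W.qa W.qb W.pab, sg_eq_of_sing W''.qa W''.qb W''.pab] at h3
      simp only [map_add, map_sub, map_smul, pac, pad, pbc, pbd, smul_eq_mul, mul_zero, sub_zero, add_zero] at h3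
      have e : t • (P Q W'.a v • W'.b) - t • (P Q W'.b v • W'.a) + s • (P Q W.a v • W.b) - s • (P Q W.b v • W.a) =
          r • (P Q W''.a v • W''.b) - r • (P Q W''.b v • W''.a) := by
        have e2 := sub_eq_of_eq_add' (show v + r • (P Q W''.a v • W''.b) - r • (P Q W''.b v • W''.a) =
          v + (r • (P Q W''.a v • W''.b) - r • (P Q W''.b v • W''.a)) by abel)
        rw [← e2, ← h3]
        abel
      rw [e]
      exact Submodule.sub_mem _ (Submodule.smul_mem _ _ (Submodule.smul_mem _ _ W''.b_mem))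
        (Submodule.smul_mem _ _ (Submodule.smul_mem _ _ W''.a_mem))
    have hnot : ∀ (u x y z : V) (hu : u ∉ Submodule.span F {x, y, z}),
        ∃ v, P Q x v = 0 ∧ P Q y v = 0 ∧ P Q z v = 0 ∧ P Q u v = 1 := by
      intro u x y z hu
      obtain ⟨v, h1, h2⟩ := exists_sep (nd' Q) _ hu
      exact ⟨v, h1 x (Submodule.subset_span (by simp)), h1 y (Submodule.subset_span (by simp)),
        h1 z (Submodule.subset_span (by simp)), h2⟩
    have n1 : W.a ∉ Submodule.span F {W.b, W'.a, W'.b} := by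
      intro hm
      obtain ⟨β, γ, δ, e⟩ := Submodule.mem_span_triple.mp hm
      have := indep4 hc (α := -1) (β := β) (γ := γ) (δ := δ) (by rw [neg_smul, one_smul, ← e]; abel)
      simpa using this.1
    have n2 : W.b ∉ Submodule.span F {W.a, W'.a, W'.b} := by
      intro hm
      obtain ⟨β, γ, δ, e⟩ := Submodule.mem_span_triple.mp hm
      have := indep4 hc (α := β) (β := -1) (γ := γ) (δ := δ) (by rw [neg_smul, one_smul, ← e]; abel)
      simpa using this.2.1
    have n3 : W'.a ∉ Submodule.span F {W.a, W.b, W'.b} := by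
      intro hm
      obtain ⟨β, γ, δ, e⟩ := Submodule.mem_span_triple.mp hm
      have := indep4 hc (α := β) (β := γ) (γ := -1) (δ := δ) (by rw [neg_smul, one_smul, ← e]; abel)
      simpa using this.2.2.1
    have n4 : W'.b ∉ Submodule.span F {W.a, W.b, W'.a} := by
      intro hm
      obtain ⟨β, γ, δ, e⟩ := Submodule.mem_span_triple.mp hm
      have := indep4 hc (α := β) (β := γ) (γ := δ) (δ := -1) (by rw [neg_smul, one_smul, ← e]; abel)
      simpa using this.2.2.2
    have m1 : W.b ∈ W''.sp := by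
      obtain ⟨v, h1, h2, h3, h4⟩ := hnot _ _ _ _ n1
      have := hE v
      rw [h1, h2, h3, h4] at this
      simp only [zero_smul, smul_zero, sub_zero, zero_add, one_smul, sub_self] at this
      have e : W.b = s⁻¹ • (s • W.b) := by rw [smul_smul, inv_mul_cancel₀ hs, one_smul]
      rw [e]
      exact Submodule.smul_mem _ _ this
    have m2 : W.a ∈ W''.sp := by
      obtain ⟨v, h1, h2, h3, h4⟩ := hnot _ _ _ _ n2
      have := hE v
      rw [h1, h2, h3, h4] at this
      simp only [zero_smul, smul_zero, sub_zero, zero_add, one_smul, sub_self] at this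
      have h8 : s • W.a ∈ W''.sp := by
        have h9 := Submodule.neg_mem _ this
        simpa using h9
      have e : W.a = s⁻¹ • (s • W.a) := by rw [smul_smul, inv_mul_cancel₀ hs, one_smul]
      rw [e]
      exact Submodule.smul_mem _ _ h8
    have m3 : W'.b ∈ W''.sp := by
      obtain ⟨v, h1, h2, h3, h4⟩ := hnot _ _ _ _ n3
      have := hE v
      rw [h1, h2, h3, h4] at this
      simp only [zero_smul, smul_zero, sub_zero, zero_add, one_smul, add_zero] at this
      have e : W'.b = t⁻¹ • (t • W'.b) := by rw [smul_smul, inv_mul_cancel₀ ht, one_smul]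
      rw [e]
      exact Submodule.smul_mem _ _ this
    have m4 : W'.a ∈ W''.sp := by
      obtain ⟨v, h1, h2, h3, h4⟩ := hnot _ _ _ _ n4
      have := hE v
      rw [h1, h2, h3, h4] at this
      simp only [zero_smul, smul_zero, sub_zero, zero_add, one_smul, add_zero, sub_self] at this
      have h8 : t • W'.a ∈ W''.sp := by
        have h9 := Submodule.neg_mem _ this
        simpa using h9
      have e : W'.a = t⁻¹ • (t • W'.a) := by rw [smul_smul, inv_mul_cancel₀ ht, one_smul]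
      rw [e]
      exact Submodule.smul_mem _ _ h8
    exact hne ((Ln.sp_eq W W'' m2 m1).trans (Ln.sp_eq W' W'' m4 m3).symm)

end group

end Cfsg.Agent.Lib.AutPO
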