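import Mathlib
import Cfsg.Agent.Lib.AutPO.Geom

/-!
Automorphisms preserve collinearity of root groups, and concurrency (away from triality).
-/

set_option autoImplicit false
set_option linter.unusedSectionVars false
set_option linter.unusedVariables false

namespace Cfsg.Agent.Lib.AutPO

open Cfsg.Agent.Lib.Classical.Witt Cfsg.Agent.Lib.Classical.Abs Cfsg.Agent.Lib.Classical.Orth
open scoped commutatorElement
open Module Ln

local notation "P" => QuadraticMap.polarBilin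

variable {F V : Type*} [Field F] [AddCommGroup V] [Module F V] {Q : QuadraticForm F V}

lemma Coll.congr {W W' W₁ W₁' : Ln Q} (h1 : W.sp = W₁.sp) (h2 : W'.sp = W₁'.sp) (h : Coll W W') : Coll W₁ W₁' := by
  obtain ⟨a, ⟨x, hx0, hx1, hx2⟩, c⟩ := h
  refine ⟨by rwa [← h1, ← h2], ⟨x, hx0, h1 ▸ hx1, h2 ▸ hx2⟩, ?_⟩
  intro u hu v hv
  exact c u (h1 ▸ hu) v (h2 ▸ hv)

section rel

variable [FiniteDimensional F V] [Fintype F] [hND : ND Q]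

/-- `β` maps the root group of `W` onto that of `W₁`. -/
def Rel (β : PG Q ≃* PG Q) (W W₁ : Ln Q) : Prop := ∀ x, x ∈ RG W ↔ β x ∈ RG W₁

lemma Rel.symm {β : PG Q ≃* PG Q} {W W₁ : Ln Q} (h : Rel β W W₁) : Rel β.symm W₁ W := by
  intro x
  rw [h (β.symm x)]
  simp

lemma RG_inj {W W' : Ln Q} (h : RG W = RG W') : W.sp = W'.sp := by
  have h1 : rt Q W.a ((1 : F) • W.b) ∈ RG W' := h ▸ rt_mem_RG W 1
  obtain ⟨t, ht⟩ := h1
  rw [one_smul] at ht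
  have h2 := sg_eq_of_rt_eq W.qa W.pab W'.qa (by rw [map_smul, W'.pab, smul_zero]) ht
  have hq : Q (t • W'.b) = 0 := by rw [Q_smul, W'.qb, mul_zero]
  obtain ⟨h3, h4⟩ := mem_of_sg_eq W W'.qa hq (by rw [map_smul, W'.pab, smul_zero]) h2
  have hle : Submodule.span F {W'.a, t • W'.b} ≤ W'.sp := by
    apply Submodule.span_le.mpr
    rintro x (rfl | rfl)
    · exact W'.a_mem
    · exact Submodule.smul_mem _ _ W'.b_mem
  exact Ln.sp_eq W W' (hle h3) (hle h4)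

lemma Rel.congr {β : PG Q ≃* PG Q} {W W₁ W₂ : Ln Q} (h : Rel β W W₁) (h' : Rel β W W₂) : W₁.sp = W₂.sp := by
  apply RG_inj
  ext x
  have h1 := h (β.symm x)
  have h2 := h' (β.symm x)
  simp only [MulEquiv.apply_symm_apply] at h1 h2
  rw [← h1, ← h2]

lemma Rel.sp_of_sp {β : PG Q ≃* PG Q} {W W' W₁ W₁' : Ln Q} (h : Rel β W W₁) (h' : Rel β W' W₁') (e : W.sp = W'.sp) :
    W₁.sp = W₁'.sp := by
  have e1 := RG_eq_of_sp e
  apply h.congr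
  intro x
  rw [e1]
  exact h' x

lemma Rel.sp_iff {β : PG Q ≃* PG Q} {W W' W₁ W₁' : Ln Q} (h : Rel β W W₁) (h' : Rel β W' W₁') :
    W.sp = W'.sp ↔ W₁.sp = W₁'.sp :=
  ⟨h.sp_of_sp h', fun e => h.symm.sp_of_sp h'.symm e⟩

lemma Rel.comm {β : PG Q ≃* PG Q} {W W' W₁ W₁' : Ln Q} (h : Rel β W W₁) (h' : Rel β W' W₁')
    (hc : Con W W' ∨ Per W W') : Con W₁ W₁' ∨ Per W₁ W₁' := by
  apply con_or_per
  have h1 : rt Q W₁.a W₁.b ∈ RG W₁ := by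
    have := rt_mem_RG W₁ 1
    rwa [one_smul] at this
  have h2 : rt Q W₁'.a W₁'.b ∈ RG W₁' := by
    have := rt_mem_RG W₁' 1
    rwa [one_smul] at this
  have h3 := (h (β.symm _)).mpr (by rw [MulEquiv.apply_symm_apply]; exact h1)
  have h4 := (h' (β.symm _)).mpr (by rw [MulEquiv.apply_symm_apply]; exact h2)
  have h5 := (comm_of_con_or_per hc h3 h4).map (β : PG Q →* PG Q)
  simpa using h5

lemma Rel.coll (p : ℕ) [Fact p.Prime] [CharP F p] {β : PG Q ≃* PG Q} {W W' W₁ W₁' : Ln Q} (h : Rel β W W₁)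
    (h' : Rel β W' W₁') (hc : Coll W W') : Coll W₁ W₁' := by
  have hne : W₁.sp ≠ W₁'.sp := fun e => hc.1 ((h.sp_iff h').mpr e)
  have hcp := h.comm h' (Or.inl hc.2.1)
  obtain ⟨x, hx, hx1, y, hy, hy1, W'', hxy⟩ := coll_mul hc
  obtain ⟨W₃, h3⟩ := pres_rg p β W''
  refine coll_of_mul (x := β x) (y := β y) (W'' := W₃) hne hcp ((h x).mp hx) ((h' y).mp hy) ?_ ?_ ?_
  · exact fun e => hx1 ((map_eq_one_iff β β.injective).mp e)
  · exact fun e => hy1 ((map_eq_one_iff β β.injective).mp e)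
  · rw [← map_mul]
    exact (h3 _).mp hxy

lemma Rel.coll_iff (p : ℕ) [Fact p.Prime] [CharP F p] {β : PG Q ≃* PG Q} {W W' W₁ W₁' : Ln Q} (h : Rel β W W₁)
    (h' : Rel β W' W₁') : Coll W W' ↔ Coll W₁ W₁' :=
  ⟨h.coll p h', h.symm.coll p h'.symm⟩

/-- The test distinguishing lines through a point from skew lines. -/
def Tst (W₁ W₂ : Ln Q) : Prop :=
  ∃ G F₁ F₂ F₃ : Ln Q, Coll G W₁ ∧ Coll G W₂ ∧
    (Coll F₁ W₁ ∧ Coll F₁ W₂ ∧ Coll F₁ G) ∧ (Coll F₂ W₁ ∧ Coll F₂ W₂ ∧ Coll F₂ G) ∧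
    (Coll F₃ W₁ ∧ Coll F₃ W₂ ∧ Coll F₃ G) ∧
    (F₁.sp ≠ F₂.sp ∧ ¬ Coll F₁ F₂) ∧ (F₁.sp ≠ F₃.sp ∧ ¬ Coll F₁ F₃) ∧ (F₂.sp ≠ F₃.sp ∧ ¬ Coll F₂ F₃)

lemma Rel.tst (p : ℕ) [Fact p.Prime] [CharP F p] {β : PG Q ≃* PG Q} {W W' W₁ W₁' : Ln Q} (h : Rel β W W₁)
    (h' : Rel β W' W₁') (ht : Tst W W') : Tst W₁ W₁' := by
  obtain ⟨G, F₁, F₂, F₃, a1, a2, ⟨a3, a4, a5⟩, ⟨a6, a7, a8⟩, ⟨a9, a10, a11⟩, ⟨a12, a13⟩, ⟨a14, a15⟩, ⟨a16, a17⟩⟩ := ht
  obtain ⟨G', (hG : Rel β G G')⟩ := pres_rg p β G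
  obtain ⟨F₁', (h1 : Rel β F₁ F₁')⟩ := pres_rg p β F₁
  obtain ⟨F₂', (h2 : Rel β F₂ F₂')⟩ := pres_rg p β F₂
  obtain ⟨F₃', (h3 : Rel β F₃ F₃')⟩ := pres_rg p β F₃
  refine ⟨G', F₁', F₂', F₃', hG.coll p h a1, hG.coll p h' a2, ⟨h1.coll p h a3, h1.coll p h' a4, h1.coll p hG a5⟩,
    ⟨h2.coll p h a6, h2.coll p h' a7, h2.coll p hG a8⟩, ⟨h3.coll p h a9, h3.coll p h' a10, h3.coll p hG a11⟩,
    ⟨fun e => a12 ((h1.sp_iff h2).mpr e), fun e => a13 ((h1.coll_iff p h2).mpr e)⟩,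
    ⟨fun e => a14 ((h1.sp_iff h3).mpr e), fun e => a15 ((h1.coll_iff p h3).mpr e)⟩,
    ⟨fun e => a16 ((h2.sp_iff h3).mpr e), fun e => a17 ((h2.coll_iff p h3).mpr e)⟩⟩

end rel

section skew

variable [FiniteDimensional F V]

/-- For skew orthogonal lines, a line meeting both is spanned by the intersections. -/
lemma split_coll {W₁ W₂ X : Ln Q} (hper : Per W₁ W₂) (hc : ¬ Con W₁ W₂) (h1 : Coll X W₁) (h2 : Coll X W₂) :
    ∃ x y : V, x ≠ 0 ∧ y ≠ 0 ∧ x ∈ W₁.sp ∧ y ∈ W₂.sp ∧ x ∈ X.sp ∧ y ∈ X.sp ∧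
      X.sp = Submodule.span F {x, y} := by
  obtain ⟨x, hx0, hx1, hx2⟩ := h1.2.1
  obtain ⟨y, hy0, hy1, hy2⟩ := h2.2.1
  refine ⟨x, y, hx0, hy0, hx2, hy2, hx1, hy1, ?_⟩
  let X₀ : Ln Q := ⟨x, y, X.sing hx1, X.sing hy1, X.perp hx1 hy1, hx0, by
    intro c hcy
    apply hc
    refine ⟨y, hy0, ?_, hy2⟩
    rw [hcy]
    exact Submodule.smul_mem _ _ hx2⟩
  exact (Ln.sp_eq X₀ X hx1 hy1).symm

lemma perp_sup {W₁ W₂ : Ln Q} (hper : Per W₁ W₂) {u v : V} (hu : u ∈ W₁.sp ⊔ W₂.sp) (hv : v ∈ W₁.sp ⊔ W₂.sp) :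
    P Q u v = 0 := by
  obtain ⟨u₁, hu₁, u₂, hu₂, rfl⟩ := Submodule.mem_sup.mp hu
  obtain ⟨v₁, hv₁, v₂, hv₂, rfl⟩ := Submodule.mem_sup.mp hv
  simp only [map_add, LinearMap.add_apply]
  rw [W₁.perp hu₁ hv₁, W₂.perp hu₂ hv₂, hper _ hu₁ _ hv₂, hper.symm _ hu₂ _ hv₁]
  simp

/-- Claim: the test fails for skew lines. -/
theorem not_tst {W₁ W₂ : Ln Q} (hper : Per W₁ W₂) (hc : ¬ Con W₁ W₂) : ¬ Tst W₁ W₂ := by
  rintro ⟨G, F₁, F₂, F₃, a1, a2, ⟨a3, a4, a5⟩, ⟨a6, a7, a8⟩, ⟨a9, a10, a11⟩, ⟨a12, a13⟩, ⟨a14, a15⟩, ⟨a16, a17⟩⟩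
  obtain ⟨x, y, hx0, hy0, hx1, hy1, hxG, hyG, hG⟩ := split_coll hper hc a1 a2
  -- each of the `F` contains `x` or `y`
  have key : ∀ X : Ln Q, Coll X W₁ → Coll X W₂ → Coll X G → x ∈ X.sp ∨ y ∈ X.sp := by
    intro X h1 h2 h3
    obtain ⟨x', y', hx'0, hy'0, hx'1, hy'1, hxX, hyX, hX⟩ := split_coll hper hc h1 h2
    obtain ⟨z, hz0, hz1, hz2⟩ := h3.2.1
    rw [hX] at hz1
    rw [hG] at hz2
    obtain ⟨α, β, e1⟩ := Submodule.mem_span_pair.mp hz1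
    obtain ⟨γ, δ, e2⟩ := Submodule.mem_span_pair.mp hz2
    have e3 : α • x' - γ • x = δ • y - β • y' := by
      have : α • x' + β • y' = γ • x + δ • y := by rw [e1, e2]
      calc α • x' - γ • x = (α • x' + β • y') - β • y' - γ • x := by abel
        _ = (γ • x + δ • y) - β • y' - γ • x := by rw [this]
        _ = _ := by abel
    have e4 : α • x' - γ • x = 0 := by
      by_contra hne
      apply hc
      refine ⟨_, hne, Submodule.sub_mem _ (Submodule.smul_mem _ _ hx'1) (Submodule.smul_mem _ _ hx1), ?_⟩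
      rw [e3]
      exact Submodule.sub_mem _ (Submodule.smul_mem _ _ hy1) (Submodule.smul_mem _ _ hy'1)
    have e5 : δ • y - β • y' = 0 := by rw [← e3]; exact e4
    by_cases hα : α = 0
    · have hβ : β ≠ 0 := by
        rintro rfl
        rw [hα] at e1
        simp at e1
        exact hz0 e1.symm
      have hδ : δ ≠ 0 := by
        rintro rfl
        rw [zero_smul, zero_sub, neg_eq_zero] at e5
        exact (smul_ne_zero hβ hy'0) e5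
      right
      have : y = δ⁻¹ • (β • y') := by
        rw [← sub_eq_zero.mp e5, smul_smul, inv_mul_cancel₀ hδ, one_smul]
      rw [this]
      exact Submodule.smul_mem _ _ (Submodule.smul_mem _ _ hyX)
    · have hγ : γ ≠ 0 := by
        rintro rfl
        rw [zero_smul, sub_zero] at e4
        exact (smul_ne_zero hα hx'0) e4
      left
      have : x = γ⁻¹ • (α • x') := by
        rw [sub_eq_zero.mp e4, smul_smul, inv_mul_cancel₀ hγ, one_smul]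
      rw [this]
      exact Submodule.smul_mem _ _ (Submodule.smul_mem _ _ hxX)
  -- two of the three contain the same vector
  have hsub : ∀ X : Ln Q, Coll X W₁ → Coll X W₂ → X.sp ≤ W₁.sp ⊔ W₂.sp := by
    intro X h1 h2
    obtain ⟨x', y', hx'0, hy'0, hx'1, hy'1, hxX, hyX, hX⟩ := split_coll hper hc h1 h2
    rw [hX]
    apply Submodule.span_le.mpr
    rintro v (rfl | rfl)
    · exact Submodule.mem_sup_left hx'1
    · exact Submodule.mem_sup_right hy'1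
  have hfin : ∀ X Y : Ln Q, Coll X W₁ → Coll X W₂ → Coll Y W₁ → Coll Y W₂ → X.sp ≠ Y.sp → ¬ Coll X Y →
      ∀ z, z ≠ 0 → z ∈ X.sp → z ∈ Y.sp → False := by
    intro X Y h1 h2 h3 h4 hne hnc z hz0 hz1 hz2
    apply hnc
    refine ⟨hne, ⟨z, hz0, hz1, hz2⟩, ?_⟩
    intro u hu v hv
    exact perp_sup hper (hsub X h1 h2 hu) (hsub Y h3 h4 hv)
  rcases key F₁ a3 a4 a5 with k1 | k1 <;> rcases key F₂ a6 a7 a8 with k2 | k2 <;> rcases key F₃ a9 a10 a11 with k3 | k3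
  · exact hfin F₁ F₂ a3 a4 a6 a7 a12 a13 x hx0 k1 k2
  · exact hfin F₁ F₂ a3 a4 a6 a7 a12 a13 x hx0 k1 k2
  · exact hfin F₁ F₃ a3 a4 a9 a10 a14 a15 x hx0 k1 k3
  · exact hfin F₂ F₃ a6 a7 a9 a10 a16 a17 y hy0 k2 k3
  · exact hfin F₂ F₃ a6 a7 a9 a10 a16 a17 x hx0 k2 k3
  · exact hfin F₁ F₃ a3 a4 a9 a10 a14 a15 y hy0 k1 k3
  · exact hfin F₁ F₂ a3 a4 a6 a7 a12 a13 y hy0 k1 k2
  · exact hfin F₁ F₂ a3 a4 a6 a7 a12 a13 y hy0 k1 k2

end skew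

section exist

variable [FiniteDimensional F V] [Fintype F] [hND : ND Q]

local notation "orth" => LinearMap.BilinForm.orthogonal (P Q)

lemma mem_orth_step {W : Submodule F V} {x y z : V} (hz : z ∈ orth W) (h1 : P Q x z = 0) (h2 : P Q y z = 0) :
    z ∈ orth (W ⊔ Submodule.span F {x, y}) := by
  rw [mem_orth]
  intro u hu
  obtain ⟨w, hw, s, hs, rfl⟩ := Submodule.mem_sup.mp hu
  obtain ⟨α, β, rfl⟩ := Submodule.mem_span_pair.mp hs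
  simp only [map_add, map_smul, LinearMap.add_apply, LinearMap.smul_apply, h1, h2, mem_orth.mp hz w hw]
  simp

lemma orth_step_le {W : Submodule F V} {x y z : V} (hz : z ∈ orth (W ⊔ Submodule.span F {x, y})) :
    z ∈ orth W ∧ P Q x z = 0 ∧ P Q y z = 0 := by
  rw [mem_orth] at hz
  refine ⟨mem_orth.mpr fun u hu => hz u (Submodule.mem_sup_left hu),
    hz x (Submodule.mem_sup_right (Submodule.subset_span (by simp))),
    hz y (Submodule.mem_sup_right (Submodule.subset_span (by simp)))⟩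

lemma finrank_step (W : Submodule F V) (x y : V) :
    finrank F ↥(W ⊔ Submodule.span F {x, y}) ≤ finrank F W + 2 := by
  have h1 := Submodule.finrank_add_le_finrank_add_finrank W (Submodule.span F {x, y})
  have h2 := finrank_span_pair_le (F := F) x y
  omega

lemma not_mem_of_witness (W : Ln Q) {t z : V} (h1 : P Q t W.a = 0) (h2 : P Q t W.b = 0) (h3 : P Q t z ≠ 0) : z ∉ W.sp := by
  intro hz
  obtain ⟨α, β, rfl⟩ := Ln.mem_sp.mp hz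
  apply h3
  simp only [map_add, map_smul, h1, h2]
  simp

/-- A star line from a partner-orthogonal vector. -/
def starLn {a a' z : V} (ha0 : a ≠ 0) (ha : Q a = 0) (haa' : P Q a' a = 1) (hz0 : z ≠ 0) (hz : Q z = 0) (haz : P Q a z = 0)
    (ha'z : P Q a' z = 0) : Ln Q :=
  ⟨a, z, ha, hz, haz, ha0, by
    intro c hc
    apply hz0
    have h1 := ha'z
    rw [hc, map_smul, haa', smul_eq_mul, mul_one] at h1
    rw [hc, h1, zero_smul]⟩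

/-- Claim: the test holds for two non-orthogonal lines through a point, if the dimension is at least nine. -/
theorem tst_of_case2 (hQ : (P Q).Nondegenerate) (h9 : 9 ≤ finrank F V) {W₁ W₂ : Ln Q} (hc : Con W₁ W₂) (hp : ¬ Per W₁ W₂) :
    Tst W₁ W₂ := by
  classical
  obtain ⟨a, ha0, ha1, ha2⟩ := hc
  obtain ⟨E₁, e1, e2⟩ := W₁.exists_basis_of_mem ha0 ha1
  obtain ⟨E₂, e3, e4⟩ := W₂.exists_basis_of_mem ha0 ha2
  subst e1
  have ha : Q E₁.a = 0 := E₁.qa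
  have hE2 : E₂.a = E₁.a := e3
  have hpb : P Q E₁.b E₂.b ≠ 0 := by
    intro h0
    apply hp
    intro u hu v hv
    rw [← e2] at hu
    rw [← e4] at hv
    refine per_of_basis (W := E₁) (W' := E₂) ?_ ?_ ?_ h0 u hu v hv
    · rw [hE2]; exact pol_self_of ha
    · rw [← hE2]; exact E₂.pab
    · rw [hE2]; exact E₁.pba
  set v₁ := E₁.b with hv₁
  set v₂ := (P Q v₁ E₂.b)⁻¹ • E₂.b with hv₂
  have qv₁ : Q v₁ = 0 := E₁.qb
  have qv₂ : Q v₂ = 0 := by rw [hv₂, Q_smul, E₂.qb, mul_zero]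
  have p12 : P Q v₁ v₂ = 1 := by
    rw [hv₂, map_smul, smul_eq_mul, inv_mul_cancel₀ hpb]
  have pa1 : P Q E₁.a v₁ = 0 := E₁.pab
  have pa2 : P Q E₁.a v₂ = 0 := by
    rw [hv₂, map_smul, ← hE2, E₂.pab, smul_zero]
  have h00 : (⊥ : Submodule F V) ⊓ orth ⊥ = ⊥ := by simp
  have inb : ∀ z : V, z ∈ orth (⊥ : Submodule F V) := fun z => mem_orth.mpr (fun u hu => by
    rw [Submodule.mem_bot] at hu
    rw [hu]
    simp)
  -- first step
  set H₀ : Submodule F V := ⊥ ⊔ Submodule.span F {v₁, v₂} with hH₀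
  have nH₀ : H₀ ⊓ orth H₀ = ⊥ := nondeg_step ⊥ h00 (inb _) (inb _) qv₁ qv₂ p12
  have fH₀ : finrank F H₀ ≤ 2 := by
    have := finrank_step (⊥ : Submodule F V) v₁ v₂
    simpa using this
  have aH₀ : E₁.a ∈ orth H₀ := mem_orth_step (inb _) (by rw [pol_comm]; exact pa1) (by rw [pol_comm]; exact pa2)
  obtain ⟨a', ha'H₀, qa', paa'⟩ := exists_partner_in hQ H₀ nH₀ ha0 ha aH₀
  have pa'a : P Q a' E₁.a = 1 := by rw [pol_comm]; exact paa'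
  -- second step
  set H₁ : Submodule F V := H₀ ⊔ Submodule.span F {E₁.a, a'} with hH₁
  have nH₁ : H₁ ⊓ orth H₁ = ⊥ := nondeg_step H₀ nH₀ aH₀ ha'H₀ ha qa' paa'
  have fH₁ : finrank F H₁ ≤ 4 := by
    have : finrank F H₁ ≤ finrank F H₀ + 2 := finrank_step H₀ E₁.a a'
    omega
  have f1 := finrank_orth_ge hQ H₁
  obtain ⟨y, hyH, hy0, qy⟩ := exists_singular (Q := Q) (orth H₁) (by omega)
  obtain ⟨y', hy'H, qy', pyy'⟩ := exists_partner_in hQ H₁ nH₁ hy0 qy hyH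
  set H₂ : Submodule F V := H₁ ⊔ Submodule.span F {y, y'} with hH₂
  have nH₂ : H₂ ⊓ orth H₂ = ⊥ := nondeg_step H₁ nH₁ hyH hy'H qy qy' pyy'
  have fH₂ : finrank F H₂ ≤ 6 := by
    have : finrank F H₂ ≤ finrank F H₁ + 2 := finrank_step H₁ y y'
    omega
  have f2 := finrank_orth_ge hQ H₂
  obtain ⟨y₁, hy₁H, hy₁0, qy₁⟩ := exists_singular (Q := Q) (orth H₂) (by omega)
  obtain ⟨y₂, hy₂H, qy₂, p12'⟩ := exists_partner_in hQ H₂ nH₂ hy₁0 qy₁ hy₁H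
  set H₃ : Submodule F V := H₂ ⊔ Submodule.span F {y₁, y₂} with hH₃
  have nH₃ : H₃ ⊓ orth H₃ = ⊥ := nondeg_step H₂ nH₂ hy₁H hy₂H qy₁ qy₂ p12'
  have fH₃ : finrank F H₃ ≤ 8 := by
    have : finrank F H₃ ≤ finrank F H₂ + 2 := finrank_step H₂ y₁ y₂
    omega
  have f3 := finrank_orth_ge hQ H₃
  -- a non-singular vector
  obtain ⟨w, hwH, qw⟩ : ∃ w ∈ orth H₃, Q w ≠ 0 := by
    by_contra hall
    push Not at hall
    have hle : orth H₃ ≤ H₃ := by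
      conv_rhs => rw [← LinearMap.BilinForm.orthogonal_orthogonal hQ P_refl H₃]
      intro u hu
      rw [mem_orth]
      intro v hv
      have h1 := hall _ ((orth H₃).add_mem hu hv)
      rw [Q_add, hall u hu, hall v hv] at h1
      rw [pol_comm]
      simpa using h1
    have h0 : orth H₃ = ⊥ := by
      rw [eq_bot_iff, ← nH₃]
      exact le_inf hle le_rfl
    rw [h0, finrank_bot] at f3
    omega
  -- facts
  obtain ⟨hy₁H₁, pyy₁, py'y₁⟩ := orth_step_le hy₁H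
  obtain ⟨hy₂H₁, pyy₂, py'y₂⟩ := orth_step_le hy₂H
  obtain ⟨hwH₂, py₁w, py₂w⟩ := orth_step_le hwH
  obtain ⟨hwH₁, pyw, py'w⟩ := orth_step_le hwH₂
  have a1 : ∀ z ∈ orth H₁, P Q E₁.a z = 0 ∧ P Q a' z = 0 ∧ P Q v₁ z = 0 ∧ P Q v₂ z = 0 := by
    intro z hz
    obtain ⟨h1, h2, h3⟩ := orth_step_le hz
    obtain ⟨h4, h5, h6⟩ := orth_step_le h1
    exact ⟨h2, h3, h5, h6⟩
  set y₃ := y₁ + (- Q w) • y₂ + w with hy₃
  have hy₃H₂ : y₃ ∈ orth H₂ := by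
    exact (orth H₂).add_mem ((orth H₂).add_mem hy₁H ((orth H₂).smul_mem _ hy₂H)) hwH₂
  have hy₃H₁ : y₃ ∈ orth H₁ := (orth_step_le hy₃H₂).1
  have pyy₃ : P Q y y₃ = 0 := (orth_step_le hy₃H₂).2.1
  have py'y₃ : P Q y' y₃ = 0 := (orth_step_le hy₃H₂).2.2
  have py₂1 : P Q y₂ y₁ = 1 := by rw [pol_comm]; exact p12'
  have py₃2 : P Q y₃ y₂ = 1 := by
    rw [hy₃]
    simp only [map_add, map_smul, LinearMap.add_apply, LinearMap.smul_apply, p12', pol_self_of qy₂, pol_comm Q w y₂, py₂w]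
    simp
  have py₃1 : P Q y₃ y₁ = - Q w := by
    rw [hy₃]
    simp only [map_add, map_smul, LinearMap.add_apply, LinearMap.smul_apply, py₂1, pol_self_of qy₁, pol_comm Q w y₁, py₁w]
    simp
  have qy₃ : Q y₃ = 0 := by
    rw [hy₃, Q_add, Q_add, Q_smul, qy₁, qy₂]
    simp only [map_add, map_smul, LinearMap.add_apply, LinearMap.smul_apply, p12', py₁w, py₂w]
    simp
  have hy₂0 : y₂ ≠ 0 := by
    rintro rfl
    simp at p12'
  have hy₃0 : y₃ ≠ 0 := by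
    intro h0
    rw [h0] at py₃2
    simp at py₃2
  -- the lines
  let L : ∀ z : V, z ≠ 0 → Q z = 0 → P Q E₁.a z = 0 → P Q a' z = 0 → Ln Q := fun z h0 hq h1 h2 =>
    starLn ha0 ha pa'a h0 hq h1 h2
  let E₁' := L v₁ E₁.nb0 qv₁ pa1 (mem_orth.mp ha'H₀ v₁ (Submodule.mem_sup_right (Submodule.subset_span (by simp))) |> fun h => by rw [pol_comm]; exact h)
  let E₂' := L v₂ (by
      rintro h0
      rw [h0] at p12
      simp at p12) qv₂ pa2 (mem_orth.mp ha'H₀ v₂ (Submodule.mem_sup_right (Submodule.subset_span (by simp))) |> fun h => by rw [pol_comm]; exact h)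
  have hE₁' : E₁'.sp = W₁.sp := by
    rw [← e2]
    exact Ln.sp_eq E₁' E₁ E₁.a_mem E₁.b_mem
  have hE₂' : E₂'.sp = W₂.sp := by
    rw [← e4]
    refine Ln.sp_eq E₂' E₂ (hE2 ▸ E₂.a_mem) ?_
    exact Submodule.smul_mem _ _ E₂.b_mem
  let G := L y hy0 qy (a1 y hyH).1 (a1 y hyH).2.1
  let F₁ := L y₁ hy₁0 qy₁ (a1 y₁ hy₁H₁).1 (a1 y₁ hy₁H₁).2.1
  let F₂ := L y₂ hy₂0 qy₂ (a1 y₂ hy₂H₁).1 (a1 y₂ hy₂H₁).2.1
  let F₃ := L y₃ hy₃0 qy₃ (a1 y₃ hy₃H₁).1 (a1 y₃ hy₃H₁).2.1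
  have c1 : ∀ (X : Ln Q), X.a = E₁.a → P Q v₂ X.a = 0 → P Q v₂ X.b = 0 → P Q X.b v₁ = 0 → Coll X E₁' := by
    intro X h1 h2 h3 h4
    refine coll_of_star (h1.trans rfl) h4 ?_
    apply not_mem_of_witness X h2 h3
    change P Q v₂ v₁ ≠ 0
    rw [pol_comm, p12]
    exact one_ne_zero
  have c2 : ∀ (X : Ln Q), X.a = E₁.a → P Q v₁ X.a = 0 → P Q v₁ X.b = 0 → P Q X.b v₂ = 0 → Coll X E₂' := by
    intro X h1 h2 h3 h4
    refine coll_of_star (h1.trans rfl) h4 ?_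
    apply not_mem_of_witness X h2 h3
    change P Q v₁ v₂ ≠ 0
    rw [p12]
    exact one_ne_zero
  have c3 : ∀ (X : Ln Q), X.a = E₁.a → P Q y' X.a = 0 → P Q y' X.b = 0 → P Q X.b y = 0 → Coll X G := by
    intro X h1 h2 h3 h4
    refine coll_of_star (h1.trans rfl) h4 ?_
    apply not_mem_of_witness X h2 h3
    change P Q y' y ≠ 0
    rw [pol_comm, pyy']
    exact one_ne_zero
  have y'a : P Q y' E₁.a = 0 := by
    rw [pol_comm]; exact (a1 y' hy'H).1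
  have sym : ∀ {u v : V}, P Q u v = 0 → P Q v u = 0 := fun h => by rw [pol_comm]; exact h
  have nc : ∀ (X Y : Ln Q), P Q X.b Y.b ≠ 0 → X.sp ≠ Y.sp ∧ ¬ Coll X Y := by
    intro X Y h
    constructor
    · intro e
      exact h (X.perp X.b_mem (e ▸ Y.b_mem))
    · intro hc
      exact h (hc.2.2 _ X.b_mem _ Y.b_mem)
  refine ⟨G, F₁, F₂, F₃, ?_, ?_, ⟨?_, ?_, ?_⟩, ⟨?_, ?_, ?_⟩, ⟨?_, ?_, ?_⟩, nc F₁ F₂ ?_, nc F₁ F₃ ?_, nc F₂ F₃ ?_⟩
  · exact Coll.congr rfl hE₁' (c1 G rfl (sym pa2) (a1 y hyH).2.2.2 (sym (a1 y hyH).2.2.1))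
  · exact Coll.congr rfl hE₂' (c2 G rfl (sym pa1) (a1 y hyH).2.2.1 (sym (a1 y hyH).2.2.2))
  · exact Coll.congr rfl hE₁' (c1 F₁ rfl (sym pa2) (a1 y₁ hy₁H₁).2.2.2 (sym (a1 y₁ hy₁H₁).2.2.1))
  · exact Coll.congr rfl hE₂' (c2 F₁ rfl (sym pa1) (a1 y₁ hy₁H₁).2.2.1 (sym (a1 y₁ hy₁H₁).2.2.2))
  · exact c3 F₁ rfl y'a py'y₁ (sym pyy₁)
  · exact Coll.congr rfl hE₁' (c1 F₂ rfl (sym pa2) (a1 y₂ hy₂H₁).2.2.2 (sym (a1 y₂ hy₂H₁).2.2.1))
  · exact Coll.congr rfl hE₂' (c2 F₂ rfl (sym pa1) (a1 y₂ hy₂H₁).2.2.1 (sym (a1 y₂ hy₂H₁).2.2.2))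
  · exact c3 F₂ rfl y'a py'y₂ (sym pyy₂)
  · exact Coll.congr rfl hE₁' (c1 F₃ rfl (sym pa2) (a1 y₃ hy₃H₁).2.2.2 (sym (a1 y₃ hy₃H₁).2.2.1))
  · exact Coll.congr rfl hE₂' (c2 F₃ rfl (sym pa1) (a1 y₃ hy₃H₁).2.2.1 (sym (a1 y₃ hy₃H₁).2.2.2))
  · exact c3 F₃ rfl y'a py'y₃ (sym pyy₃)
  · change P Q y₁ y₂ ≠ 0
    rw [p12']
    exact one_ne_zero
  · change P Q y₁ y₃ ≠ 0
    rw [pol_comm, py₃1]
    exact neg_ne_zero.mpr qw
  · change P Q y₂ y₃ ≠ 0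
    rw [pol_comm, py₃2]
    exact one_ne_zero

end exist

end Cfsg.Agent.Lib.AutPO
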