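import Mathlib
import Cfsg.Agent.Lib.AutPO.Rel

/-!
Automorphisms act on singular points, and can be normalised to fix a hyperbolic pair.
-/

set_option autoImplicit false
set_option linter.unusedSectionVars false
set_option linter.unusedVariables false

namespace Cfsg.Agent.Lib.AutPO

open Cfsg.Agent.Lib.Classical.Witt Cfsg.Agent.Lib.Classical.Abs Cfsg.Agent.Lib.Classical.Orth
open scoped commutatorElement
open Module Ln

local notation "P" => QuadraticMap.polarBilin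

variable {F V : Type*} [Field F] [AddCommGroup V] [Module F V] {Q : QuadraticForm F V}

/-- No two skew orthogonal lines. -/
def NoSkew (Q : QuadraticForm F V) : Prop := ∀ W W' : Ln Q, Per W W' → Con W W'

lemma Ln.map_mem (W : Ln Q) (g : OG Q) {x : V} (hx : x ∈ W.sp) : g.1 x ∈ (W.map g).sp := by
  obtain ⟨α, β, rfl⟩ := mem_sp.mp hx
  rw [map_add, map_smul, map_smul]
  exact mem_sp.mpr ⟨α, β, rfl⟩

section star

variable [FiniteDimensional F V] [Fintype F] [hND : ND Q]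

lemma Rel.case2 (p : ℕ) [Fact p.Prime] [CharP F p] (H : 9 ≤ finrank F V ∨ NoSkew Q) {β : PG Q ≃* PG Q}
    {W W' W₁ W₁' : Ln Q} (h : Rel β W W₁) (h' : Rel β W' W₁') (hc : Con W W') (hp : ¬ Per W W') :
    Con W₁ W₁' ∧ ¬ Per W₁ W₁' := by
  have hne : W.sp ≠ W'.sp := fun e => hp (fun x hx y hy => W.perp hx (e ▸ hy))
  have hne' : W₁.sp ≠ W₁'.sp := fun e => hne ((h.sp_iff h').mpr e)
  have hnc : ¬ Coll W₁ W₁' := fun hc' => hp ((h.coll_iff p h').mpr hc').2.2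
  rcases h.comm h' (Or.inl hc) with h1 | h1
  · exact ⟨h1, fun h2 => hnc ⟨hne', h1, h2⟩⟩
  · exfalso
    by_cases h2 : Con W₁ W₁'
    · exact hnc ⟨hne', h2, h1⟩
    · rcases H with H | H
      · exact not_tst h1 h2 (h.tst p h' (tst_of_case2 (nd' Q) H hc hp))
      · exact h2 (H _ _ h1)

lemma Rel.of_symm {β : PG Q ≃* PG Q} {W W₁ : Ln Q} (h : Rel β.symm W₁ W) : Rel β W W₁ := by
  intro x
  have := h (β x)
  simp only [MulEquiv.symm_apply_apply] at this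
  exact this.symm

/-- `β` preserves the relation of lines meeting without being perpendicular. -/
def Good (β : PG Q ≃* PG Q) : Prop :=
  ∀ W W' W₁ W₁' : Ln Q, Rel β W W₁ → Rel β W' W₁' → ((Con W W' ∧ ¬ Per W W') ↔ (Con W₁ W₁' ∧ ¬ Per W₁ W₁'))

lemma Good.symm {β : PG Q ≃* PG Q} (H : Good β) : Good β.symm :=
  fun W W' W₁ W₁' h h' => (H W₁ W₁' W W' (Rel.of_symm h) (Rel.of_symm h')).symm

lemma good_of_H (p : ℕ) [Fact p.Prime] [CharP F p] (H : 9 ≤ finrank F V ∨ NoSkew Q) (β : PG Q ≃* PG Q) : Good β :=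
  fun W W' W₁ W₁' h h' => ⟨fun e => Rel.case2 p H h h' e.1 e.2, fun e => Rel.case2 p H h.symm h'.symm e.1 e.2⟩

lemma Rel.con (p : ℕ) [Fact p.Prime] [CharP F p] {β : PG Q ≃* PG Q} (H : Good β)
    {W W' W₁ W₁' : Ln Q} (h : Rel β W W₁) (h' : Rel β W' W₁') (hc : Con W W') : Con W₁ W₁' := by
  by_cases he : W.sp = W'.sp
  · have e1 := h.sp_of_sp h' he
    exact ⟨W₁.a, W₁.na, W₁.a_mem, e1 ▸ W₁.a_mem⟩
  by_cases hp : Per W W'
  · exact (h.coll p h' ⟨he, hc, hp⟩).2.1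
  · exact ((H _ _ _ _ h h').mp ⟨hc, hp⟩).1

lemma through {E E' W : Ln Q} {a' : V} (ha'0 : a' ≠ 0) (h1 : a' ∈ E.sp) (h2 : a' ∈ E'.sp) (hnp : ¬ Per E E')
    (hc1 : Con W E) (hc2 : Con W E') : a' ∈ W.sp := by
  obtain ⟨E₁, e1, e2⟩ := E.exists_basis_of_mem ha'0 h1
  obtain ⟨E₂, e3, e4⟩ := E'.exists_basis_of_mem ha'0 h2
  obtain ⟨x, hx0, hx1, hx2⟩ := hc1
  obtain ⟨y, hy0, hy1, hy2⟩ := hc2
  rw [← e2] at hx2
  rw [← e4] at hy2
  obtain ⟨α, β, rfl⟩ := mem_sp.mp hx2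
  obtain ⟨γ, δ, rfl⟩ := mem_sp.mp hy2
  have a1 : P Q E₁.a E₂.a = 0 := by
    rw [e1, ← e3, e3]
    exact pol_self_of (by rw [← e1]; exact E₁.qa)
  have a2 : P Q E₁.a E₂.b = 0 := by rw [e1, ← e3]; exact E₂.pab
  have a3 : P Q E₁.b E₂.a = 0 := by rw [e3, ← e1]; exact E₁.pba
  have hP : P Q E₁.b E₂.b ≠ 0 := by
    intro h0
    apply hnp
    intro u hu v hv
    rw [← e2] at hu
    rw [← e4] at hv
    exact per_of_basis (W := E₁) (W' := E₂) a1 a2 a3 h0 u hu v hv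
  have h3 := W.perp hx1 hy1
  simp only [map_add, map_smul, LinearMap.add_apply, LinearMap.smul_apply, a1, a2, a3, smul_eq_mul] at h3
  have h4 : β * δ = 0 := by
    have h6 : (β * δ) * P Q E₁.b E₂.b = 0 := by linear_combination h3
    exact (mul_eq_zero.mp h6).resolve_right hP
  rcases mul_eq_zero.mp h4 with h5 | h5
  · subst h5
    rw [zero_smul, add_zero] at hx1 hx0
    have hα : α ≠ 0 := by
      rintro rfl
      simp at hx0
    have : a' = α⁻¹ • (α • E₁.a) := by rw [smul_smul, inv_mul_cancel₀ hα, one_smul, e1]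
    rw [this]
    exact Submodule.smul_mem _ _ hx1
  · subst h5
    rw [zero_smul, add_zero] at hy1 hy0
    have hγ : γ ≠ 0 := by
      rintro rfl
      simp at hy0
    have : a' = γ⁻¹ • (γ • E₂.a) := by rw [smul_smul, inv_mul_cancel₀ hγ, one_smul, e3]
    rw [this]
    exact Submodule.smul_mem _ _ hy1

/-- Two non-orthogonal lines through a singular vector. -/
lemma exists_two_lines {a : V} (ha0 : a ≠ 0) (ha : Q a = 0) :
    ∃ E₁ E₂ : Ln Q, E₁.a = a ∧ E₂.a = a ∧ P Q E₁.b E₂.b = 1 := by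
  have hn := dim' Q
  obtain ⟨a', ha', hpa⟩ := exists_partner (nd' Q) ha0 ha
  obtain ⟨v, hv0, hq, hv⟩ := exists_sing_perp (nd' Q) ![a, a'] (by simp; omega)
  have h0 := hv 0
  have h1 := hv 1
  simp only [Matrix.cons_val_zero, Matrix.cons_val_one] at h0 h1
  have hnm : v ∉ Submodule.span F {a} := by
    intro hm
    obtain ⟨c, rfl⟩ := Submodule.mem_span_singleton.mp hm
    rw [map_smul, pol_comm, hpa] at h1
    have : c = 0 := by simpa using h1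
    subst this
    simp at hv0
  obtain ⟨y, hy1, hy2⟩ := exists_sep (nd' Q) _ hnm
  have hay : P Q a y = 0 := hy1 a (Submodule.mem_span_singleton_self a)
  set v₂ := y - Q y • v with hv₂
  have q2 : Q v₂ = 0 := by
    rw [hv₂, Q_sub, Q_smul, hq, map_smul, pol_comm Q y v, hy2]
    simp
  have pa2 : P Q a v₂ = 0 := by
    rw [hv₂, map_sub, map_smul, hay, h0]
    simp
  have p12 : P Q v v₂ = 1 := by
    rw [hv₂, map_sub, map_smul, hy2, pol_self_of hq]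
    simp
  refine ⟨⟨a, v, ha, hq, h0, ha0, ?_⟩, ⟨a, v₂, ha, q2, pa2, ha0, ?_⟩, rfl, rfl, p12⟩
  · intro c hc
    exact hnm (Submodule.mem_span_singleton.mpr ⟨c, hc.symm⟩)
  · intro c hc
    rw [hc, map_smul, pol_comm Q v a, h0] at p12
    simp at p12

theorem exists_point (p : ℕ) [Fact p.Prime] [CharP F p] (β : PG Q ≃* PG Q) (H : Good β)
    {a : V} (ha0 : a ≠ 0) (ha : Q a = 0) :
    ∃ a', a' ≠ 0 ∧ Q a' = 0 ∧ ∀ W W₁ : Ln Q, Rel β W W₁ → a ∈ W.sp → a' ∈ W₁.sp := by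
  obtain ⟨E₁, E₂, e1, e2, h12⟩ := exists_two_lines ha0 ha
  have hnp : ¬ Per E₁ E₂ := fun h => by
    have := h _ E₁.b_mem _ E₂.b_mem
    rw [h12] at this
    exact one_ne_zero this
  have hcon : Con E₁ E₂ := ⟨a, ha0, e1 ▸ E₁.a_mem, e2 ▸ E₂.a_mem⟩
  obtain ⟨E₁', (h1 : Rel β E₁ E₁')⟩ := pres_rg p β E₁
  obtain ⟨E₂', (h2 : Rel β E₂ E₂')⟩ := pres_rg p β E₂
  obtain ⟨⟨a', ha'0, m1, m2⟩, hnp'⟩ := (H _ _ _ _ h1 h2).mp ⟨hcon, hnp⟩
  refine ⟨a', ha'0, E₁'.sing m1, ?_⟩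
  intro W W₁ hW haW
  have c1 : Con W E₁ := ⟨a, ha0, haW, e1 ▸ E₁.a_mem⟩
  have c2 : Con W E₂ := ⟨a, ha0, haW, e2 ▸ E₂.a_mem⟩
  exact through ha'0 m1 m2 hnp' (Rel.con p H hW h1 c1) (Rel.con p H hW h2 c2)

lemma inter_lines {a z : V} (ha0 : a ≠ 0) (ha : Q a = 0) (h : ∀ W : Ln Q, a ∈ W.sp → z ∈ W.sp) :
    z ∈ Submodule.span F {a} := by
  obtain ⟨E₁, E₂, e1, e2, h12⟩ := exists_two_lines ha0 ha
  have m1 := h E₁ (e1 ▸ E₁.a_mem)
  have m2 := h E₂ (e2 ▸ E₂.a_mem)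
  obtain ⟨α, β, rfl⟩ := mem_sp.mp m1
  have h3 : β = 0 := by
    have := E₂.perp m2 E₂.b_mem
    simp only [map_add, map_smul, LinearMap.add_apply, LinearMap.smul_apply, h12, e1] at this
    have h4 : P Q a E₂.b = 0 := by rw [← e2]; exact E₂.pab
    simpa [h4] using this
  subst h3
  rw [zero_smul, add_zero, e1]
  exact Submodule.smul_mem _ _ (Submodule.mem_span_singleton_self a)

theorem exists_point' (p : ℕ) [Fact p.Prime] [CharP F p] (β : PG Q ≃* PG Q) (H : Good β)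
    {a : V} (ha0 : a ≠ 0) (ha : Q a = 0) :
    ∃ a', a' ≠ 0 ∧ Q a' = 0 ∧ ∀ W W₁ : Ln Q, Rel β W W₁ → (a ∈ W.sp ↔ a' ∈ W₁.sp) := by
  obtain ⟨a', h0, h1, h2⟩ := exists_point p β H ha0 ha
  obtain ⟨a'', h3, h4, h5⟩ := exists_point p β.symm H.symm h0 h1
  have h6 : a'' ∈ Submodule.span F {a} := by
    apply inter_lines ha0 ha
    intro W haW
    obtain ⟨W₁, (hW : Rel β W W₁)⟩ := pres_rg p β W
    exact h5 W₁ W hW.symm (h2 W W₁ hW haW)
  obtain ⟨c, hc⟩ := Submodule.mem_span_singleton.mp h6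
  have hc0 : c ≠ 0 := by
    rintro rfl
    rw [zero_smul] at hc
    exact h3 hc.symm
  refine ⟨a', h0, h1, fun W W₁ hW => ⟨h2 W W₁ hW, fun h7 => ?_⟩⟩
  have h8 := h5 W₁ W hW.symm h7
  rw [← hc] at h8
  have : a = c⁻¹ • (c • a) := by rw [smul_smul, inv_mul_cancel₀ hc0, one_smul]
  rw [this]
  exact Submodule.smul_mem _ _ h8

lemma nonperp (p : ℕ) [Fact p.Prime] [CharP F p] {β : PG Q ≃* PG Q} {e f e' f' : V} (he0 : e ≠ 0) (he : Q e = 0)
    (hP : P Q e f ≠ 0) (he'0 : e' ≠ 0) (he' : Q e' = 0) (hf' : Q f' = 0)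
    (h1 : ∀ W W₁ : Ln Q, Rel β W W₁ → (e ∈ W.sp ↔ e' ∈ W₁.sp))
    (h2 : ∀ W W₁ : Ln Q, Rel β W W₁ → (f ∈ W.sp ↔ f' ∈ W₁.sp)) : P Q e' f' ≠ 0 := by
  intro h0
  by_cases hd : ∃ c : F, f' = c • e'
  · obtain ⟨c, rfl⟩ := hd
    obtain ⟨E₁, -, e1, -, -⟩ := exists_two_lines he0 he
    obtain ⟨E₂, (hE : Rel β E₁ E₂)⟩ := pres_rg p β E₁
    have m1 : e' ∈ E₂.sp := (h1 _ _ hE).mp (e1 ▸ E₁.a_mem)
    have m2 : f ∈ E₁.sp := (h2 _ _ hE).mpr (Submodule.smul_mem _ _ m1)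
    exact hP (E₁.perp (e1 ▸ E₁.a_mem) m2)
  · push Not at hd
    let Z : Ln Q := ⟨e', f', he', hf', h0, he'0, hd⟩
    obtain ⟨Z₀, (hZ : Rel β.symm Z Z₀)⟩ := pres_rg p β.symm Z
    have hZ' : Rel β Z₀ Z := Rel.of_symm hZ
    have m1 : e ∈ Z₀.sp := (h1 _ _ hZ').mpr Z.a_mem
    have m2 : f ∈ Z₀.sp := (h2 _ _ hZ').mpr Z.b_mem
    exact hP (Z₀.perp m1 m2)

lemma exists_normalizer {e f e' f' : V} (he : Q e = 0) (hf : Q f = 0) (hef : P Q e f = 1) (he'0 : e' ≠ 0)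
    (he' : Q e' = 0) (hf' : Q f' = 0) (hP : P Q e' f' ≠ 0) :
    ∃ (g : KK Q) (l m : F), l ≠ 0 ∧ m ≠ 0 ∧ g.1.1 e' = l • e ∧ g.1.1 f' = m • f := by
  have hn := dim' Q
  have he0 : e ≠ 0 := by
    rintro rfl
    simp at hef
  obtain ⟨g₁, l, hl, h1⟩ : ∃ (g₁ : KK Q) (l : F), l ≠ 0 ∧ g₁.1.1 e' = l • e := by
    by_cases hm : e' ∈ Submodule.span F {e - e'}
    · obtain ⟨t, ht⟩ := Submodule.mem_span_singleton.mp hm
      have ht0 : t ≠ 0 := by
        rintro rfl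
        rw [zero_smul] at ht
        exact he'0 ht.symm
      have e1 : (1 + t) • e' = t • e := by
        rw [add_smul, one_smul]
        nth_rw 1 [← ht]
        rw [smul_sub]
        abel
      have h1t : 1 + t ≠ 0 := by
        intro h
        rw [h, zero_smul] at e1
        exact (smul_ne_zero ht0 he0) e1.symm
      refine ⟨1, (1 + t)⁻¹ * t, mul_ne_zero (inv_ne_zero h1t) ht0, ?_⟩
      change e' = _
      rw [mul_smul, ← e1, smul_smul, inv_mul_cancel₀ h1t, one_smul]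
    · obtain ⟨u, y, hu, hy, hm'⟩ := exists_move_sg (nd' Q) (by omega) (by rw [he', he]) hm
      exact ⟨sO Q u y, 1, one_ne_zero, by rw [one_smul]; exact hm'⟩
  set f₁ := g₁.1.1 f' with hf₁
  have hq1 : Q f₁ = 0 := by rw [hf₁, OG_pres, hf']
  have hκ : P Q e f₁ ≠ 0 := by
    intro h0
    apply hP
    rw [← OG_polar g₁.1, h1, ← hf₁, map_smul, LinearMap.smul_apply, h0, smul_zero]
  obtain ⟨κ, hκd⟩ : ∃ κ, κ = P Q e f₁ := ⟨_, rfl⟩
  rw [← hκd] at hκ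
  obtain ⟨f₂, hf₂⟩ : ∃ f₂, f₂ = κ⁻¹ • f₁ := ⟨_, rfl⟩
  have q2 : Q f₂ = 0 := by rw [hf₂, Q_smul, hq1, mul_zero]
  have p2 : P Q e f₂ = 1 := by
    rw [hf₂, map_smul, smul_eq_mul, ← hκd, inv_mul_cancel₀ hκ]
  obtain ⟨α, hα⟩ : ∃ α, α = P Q f f₂ := ⟨_, rfl⟩
  obtain ⟨v, hv⟩ : ∃ v, v = f₂ - f - α • e := ⟨_, rfl⟩
  have pev : P Q e v = 0 := by
    rw [hv, map_sub, map_sub, map_smul, p2, hef, pol_self_of he]
    simp
  have pv2 : P Q v f₂ = - (2 * α) := by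
    rw [hv]
    simp only [map_sub, map_smul, LinearMap.sub_apply, LinearMap.smul_apply, p2, ← hα, pol_self_of q2, smul_eq_mul]
    ring
  have qv : Q v = - α := by
    rw [hv, Q_sub, Q_sub, Q_smul, he, q2, hf]
    simp only [map_sub, map_smul, LinearMap.sub_apply, smul_eq_mul]
    rw [pol_comm Q f₂ f, ← hα, pol_comm Q f₂ e, p2, pol_comm Q f e, hef]
    ring
  have pev' : P Q e (-v) = 0 := by rw [map_neg, pev, neg_zero]
  have e2 : (sg Q e (-v)).1 f₂ = f := by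
    rw [sg_apply he pev', p2]
    simp only [map_neg, LinearMap.neg_apply, QuadraticMap.map_neg, pv2, qv]
    rw [hv]
    (module)
  have e3 : (sg Q e (-v)).1 e = e := by
    rw [sg_apply he pev', pol_self_of he]
    simp only [map_neg, LinearMap.neg_apply, QuadraticMap.map_neg]
    rw [pol_comm Q v e, pev]
    simp
  refine ⟨sO Q e (-v) * g₁, l, κ, hl, hκ, ?_, ?_⟩
  · change (sg Q e (-v)).1 (g₁.1.1 e') = _
    rw [h1, map_smul, e3]
  · change (sg Q e (-v)).1 f₁ = _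
    have : f₁ = κ • f₂ := by rw [hf₂, smul_smul, mul_inv_cancel₀ hκ, one_smul]
    rw [this, map_smul, e2]

/-- Normalising by an inner automorphism. -/
noncomputable def nrm (g : KK Q) (β : PG Q ≃* PG Q) : PG Q ≃* PG Q := β.trans (MulAut.conj (mk Q g))

lemma nrm_apply (g : KK Q) (β : PG Q ≃* PG Q) (x : PG Q) : nrm g β x = mk Q g * β x * (mk Q g)⁻¹ := rfl

/-- `β` fixes the points `e` and `f`. -/
def Nrm (β : PG Q ≃* PG Q) (e f : V) : Prop :=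
  (∀ W W₁ : Ln Q, Rel β W W₁ → e ∈ W.sp → e ∈ W₁.sp) ∧ (∀ W W₁ : Ln Q, Rel β W W₁ → f ∈ W.sp → f ∈ W₁.sp)

lemma rel_nrm {β : PG Q ≃* PG Q} {W W₁ : Ln Q} (g : KK Q) (h : Rel β W W₁) : Rel (nrm g β) W (W₁.map g.1) := by
  intro x
  rw [h x]
  exact RG_conj W₁ g (β x)

lemma con_congr {W W' V₁ V₂ : Ln Q} (h : W.sp = V₁.sp) (h' : W'.sp = V₂.sp) : Con W W' ↔ Con V₁ V₂ := by
  unfold Ln.Con
  rw [h, h']

lemma per_congr {W W' V₁ V₂ : Ln Q} (h : W.sp = V₁.sp) (h' : W'.sp = V₂.sp) : Per W W' ↔ Per V₁ V₂ := by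
  unfold Ln.Per
  rw [h, h']

lemma mem_map_iff (W : Ln Q) (g : OG Q) {x : V} : g.1 x ∈ (W.map g).sp ↔ x ∈ W.sp := by
  refine ⟨fun h => ?_, Ln.map_mem W g⟩
  obtain ⟨α, β, e⟩ := mem_sp.mp h
  have e1 : x = α • W.a + β • W.b := by
    apply g.1.injective
    rw [← e, map_add, map_smul, map_smul]
    rfl
  rw [e1]
  exact mem_sp.mpr ⟨α, β, rfl⟩

lemma con_map (g : OG Q) {W W' : Ln Q} : Con (W.map g) (W'.map g) ↔ Con W W' := by
  constructor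
  · rintro ⟨x, h0, h1, h2⟩
    obtain ⟨y, rfl⟩ := g.1.surjective x
    refine ⟨y, ?_, (mem_map_iff W g).mp h1, (mem_map_iff W' g).mp h2⟩
    rintro rfl
    exact h0 (map_zero _)
  · rintro ⟨x, h0, h1, h2⟩
    exact ⟨g.1 x, fun e => h0 (g.1.injective (by rw [e, map_zero])), Ln.map_mem W g h1, Ln.map_mem W' g h2⟩

lemma per_map (g : OG Q) {W W' : Ln Q} : Per (W.map g) (W'.map g) ↔ Per W W' := by
  constructor
  · intro h x hx y hy
    have := h _ (Ln.map_mem W g hx) _ (Ln.map_mem W' g hy)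
    rwa [OG_polar] at this
  · intro h x hx y hy
    obtain ⟨x', rfl⟩ := g.1.surjective x
    obtain ⟨y', rfl⟩ := g.1.surjective y
    rw [OG_polar]
    exact h _ ((mem_map_iff W g).mp hx) _ ((mem_map_iff W' g).mp hy)

lemma Good.nrm (p : ℕ) [Fact p.Prime] [CharP F p] {β : PG Q ≃* PG Q} (H : Good β) (g : KK Q) : Good (nrm g β) := by
  intro W W' W₂ W₂' h h'
  obtain ⟨W₁, (h1 : Rel β W W₁)⟩ := pres_rg p β W
  obtain ⟨W₁', (h2 : Rel β W' W₁')⟩ := pres_rg p β W'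
  have e1 := (rel_nrm g h1).congr h
  have e2 := (rel_nrm g h2).congr h'
  rw [H _ _ _ _ h1 h2, ← con_congr e1 e2, ← per_congr e1 e2, con_map, per_map]

theorem exists_nrm (p : ℕ) [Fact p.Prime] [CharP F p] (β : PG Q ≃* PG Q) (H : Good β) {e f : V}
    (he : Q e = 0) (hf : Q f = 0) (hef : P Q e f = 1) : ∃ g : KK Q, Nrm (nrm g β) e f := by
  have he0 : e ≠ 0 := by
    rintro rfl
    simp at hef
  have hf0 : f ≠ 0 := by
    rintro rfl
    simp at hef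
  obtain ⟨e', h1, h2, h3⟩ := exists_point' p β H he0 he
  obtain ⟨f', h4, h5, h6⟩ := exists_point' p β H hf0 hf
  have hP := nonperp p he0 he (by rw [hef]; exact one_ne_zero) h1 h2 h5 h3 h6
  obtain ⟨g, l, m, hl, hm, e1, e2⟩ := exists_normalizer he hf hef h1 h2 h5 hP
  have key : ∀ (c c' : V) (t : F), t ≠ 0 → g.1.1 c' = t • c → (∀ W W₁ : Ln Q, Rel β W W₁ → (c ∈ W.sp ↔ c' ∈ W₁.sp)) →
      ∀ W W₁ : Ln Q, Rel (nrm g β) W W₁ → c ∈ W.sp → c ∈ W₁.sp := by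
    intro c c' t ht e4 h7 W W₂ hW₂ hm'
    obtain ⟨W₁, (hW₁ : Rel β W W₁)⟩ := pres_rg p β W
    have m1 := (h7 W W₁ hW₁).mp hm'
    have e3 := (rel_nrm g hW₁).congr hW₂
    rw [← e3]
    have m2 := Ln.map_mem W₁ g.1 m1
    rw [e4] at m2
    have : c = t⁻¹ • (t • c) := by rw [smul_smul, inv_mul_cancel₀ ht, one_smul]
    rw [this]
    exact Submodule.smul_mem _ _ m2
  exact ⟨g, key e e' l hl e1 h3, key f f' m hm e2 h6⟩

end star

end Cfsg.Agent.Lib.AutPO
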