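import Mathlib
import Cfsg.Agent.Lib.AutPO.Star

/-!
The action of a normalised automorphism on the Siegel elements at a hyperbolic pair.
-/

set_option autoImplicit false
set_option linter.unusedSectionVars false
set_option linter.unusedVariables false

namespace Cfsg.Agent.Lib.AutPO

open Cfsg.Agent.Lib.Classical.Witt Cfsg.Agent.Lib.Classical.Abs Cfsg.Agent.Lib.Classical.Orth
open scoped commutatorElement
open Module Ln

local notation "P" => QuadraticMap.polarBilin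

variable {F V : Type*} [Field F] [AddCommGroup V] [Module F V] {Q : QuadraticForm F V}

section compute

variable [FiniteDimensional F V] [Fintype F] [hND : ND Q]

lemma rt_of_zero (w : V) : rt Q 0 w = 1 := by
  rw [rt, ← map_one (mk Q)]
  congr 1
  exact Subtype.ext (sg_of_zero w)

lemma rt_comm_of {a w c z g h : V} (H : ⁅sg Q a w, sg Q c z⁆ = sg Q g h) : ⁅rt Q a w, rt Q c z⁆ = rt Q g h := by
  rw [rt, rt, rt, ← map_commutatorElement]
  congr 1
  exact Subtype.ext H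

lemma comm_lift' {a w c z g h : V} (ha : Q a = 0) (hw : P Q a w = 0) (hc : Q c = 0) (hz : P Q c z = 0)
    (hg : Q g = 0) (hh : P Q g h = 0) (E : ⁅rt Q a w, rt Q c z⁆ = rt Q g h) : ⁅sg Q a w, sg Q c z⁆ = sg Q g h := by
  have hn : 7 ≤ finrank F V := dim' Q
  obtain ⟨x, hx0, hx⟩ := exists_perp (Q := Q) (nd' Q) ![a, w, c, z, g, h] (by simp; omega)
  have h0 := hx 0
  have h1 := hx 1
  have h2 := hx 2
  have h3 := hx 3
  have h4 := hx 4
  have h5 := hx 5
  simp only [Matrix.cons_val_zero, Matrix.cons_val_one, Matrix.cons_val] at h0 h1 h2 h3 h4 h5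
  have hinv : ∀ g : OG Q, g.1 x = x → g⁻¹.1 x = x := by
    intro g hg
    have := inv_apply_self' g x
    rwa [hg] at this
  have e' : mk Q ⁅sO Q a w, sO Q c z⁆ = mk Q (sO Q g h) := by
    rw [map_commutatorElement]
    exact E
  have f1 := sg_fix ha hw h0 h1
  have f2 := sg_fix hc hz h2 h3
  have := eq_of_mk_eq e' hx0 (by
    change (sg Q a w).1 ((sg Q c z).1 ((sg Q a w)⁻¹.1 ((sg Q c z)⁻¹.1 x))) = x
    rw [hinv _ f2, hinv _ f1, f2, f1]) (sg_fix hg hh h4 h5)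
  exact congrArg Subtype.val this

lemma comm_ef {e f a b : V} (he : Q e = 0) (hf : Q f = 0) (hef : P Q e f = 1) (h1 : P Q e a = 0) (h2 : P Q f a = 0)
    (h3 : P Q e b = 0) (h4 : P Q f b = 0) (qa : Q a = 0) (qb : Q b = 0) (hab : P Q a b = 0) :
    ⁅sg Q e a, sg Q f b⁆ = sg Q a b := by
  have e1 : sg Q e a = sg Q a ((-1 : F) • e) := by
    have := sg_swap (Q := Q) qa he (by rw [pol_comm]; exact h1) (1 : F)
    rwa [one_smul] at this
  have e2 : sg Q f b = sg Q b ((-1 : F) • f) := by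
    have := sg_swap (Q := Q) qb hf (by rw [pol_comm]; exact h4) (1 : F)
    rwa [one_smul] at this
  have p1 : P Q a e = 0 := by rw [pol_comm]; exact h1
  have p2 : P Q b e = 0 := by rw [pol_comm]; exact h3
  have p3 : P Q a f = 0 := by rw [pol_comm]; exact h2
  have p4 : P Q b f = 0 := by rw [pol_comm]; exact h4
  rw [e1, e2, comm_sg qa qb hab (by rw [map_smul, p1, smul_zero]) (by rw [map_smul, p2, smul_zero])
    (by rw [map_smul, p3, smul_zero]) (by rw [map_smul, p4, smul_zero])]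
  have e3 : P Q ((-1 : F) • e) ((-1 : F) • f) = 1 := by
    rw [map_smul, map_smul, LinearMap.smul_apply, hef]
    simp
  rw [e3, one_smul]

/-- If the commutator is a Siegel element with singular vectors, then the vectors are orthogonal. -/
lemma opp {e f a b u v : V} (he : Q e = 0) (hf : Q f = 0) (hef : P Q e f = 1) (h1 : P Q e a = 0) (h2 : P Q f a = 0)
    (h3 : P Q e b = 0) (h4 : P Q f b = 0) (qa : Q a = 0) (qb : Q b = 0) (qu : Q u = 0) (qv : Q v = 0)
    (huv : P Q u v = 0) (H : ⁅sg Q e a, sg Q f b⁆ = sg Q u v) : P Q a b = 0 := by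
  obtain ⟨c, hc⟩ : ∃ c, c = P Q a b := ⟨_, rfl⟩
  have p1 : P Q a e = 0 := by rw [pol_comm]; exact h1
  have p2 : P Q b e = 0 := by rw [pol_comm]; exact h3
  have p3 : P Q a f = 0 := by rw [pol_comm]; exact h2
  have p4 : P Q b f = 0 := by rw [pol_comm]; exact h4
  have p5 : P Q f e = 1 := by rw [pol_comm]; exact hef
  have p6 : P Q b a = c := by rw [pol_comm, hc]
  have p7 : P Q a b = c := hc.symm
  have p8 := pol_self_of he
  have p9 := pol_self_of hf
  have p10 := pol_self_of qa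
  have p11 := pol_self_of qb
  have hA : ∀ x, (sg Q e a).1 x = x + P Q e x • a - P Q a x • e := sg_apply_sing he qa h1
  have hB : ∀ x, (sg Q f b).1 x = x + P Q f x • b - P Q b x • f := sg_apply_sing hf qb h4
  have hAi : ∀ x, (sg Q e a)⁻¹.1 x = x - P Q e x • a + P Q a x • e := by
    intro x
    rw [sg_neg he h1, sg_apply_sing he (by rw [QuadraticMap.map_neg, qa]) (by rw [map_neg, h1, neg_zero])]
    simp only [map_neg, LinearMap.neg_apply]
    (module)
  have hBi : ∀ x, (sg Q f b)⁻¹.1 x = x - P Q f x • b + P Q b x • f := by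
    intro x
    rw [sg_neg hf h4, sg_apply_sing hf (by rw [QuadraticMap.map_neg, qb]) (by rw [map_neg, h4, neg_zero])]
    simp only [map_neg, LinearMap.neg_apply]
    (module)
  have hT : ∀ x, (⁅sg Q e a, sg Q f b⁆ : OG Q).1 x = (sg Q e a).1 ((sg Q f b).1 ((sg Q e a)⁻¹.1 ((sg Q f b)⁻¹.1 x))) :=
    fun x => rfl
  have Te : (⁅sg Q e a, sg Q f b⁆ : OG Q).1 e = (1 - c + c * c) • e - c • b := by
    rw [hT, hBi, hAi, hB, hA]
    simp only [map_sub, map_add, map_smul, LinearMap.sub_apply, LinearMap.add_apply, LinearMap.smul_apply,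
      smul_eq_mul, p1, p2, p3, p4, p5, p6, p7, p8, p9, p10, p11, h1, h2, h3, h4, hef]
    (module)
  have Tb : (⁅sg Q e a, sg Q f b⁆ : OG Q).1 b = (1 + c) • b - (c * c) • e := by
    rw [hT, hBi, hAi, hB, hA]
    simp only [map_sub, map_add, map_smul, LinearMap.sub_apply, LinearMap.add_apply, LinearMap.smul_apply,
      smul_eq_mul, p1, p2, p3, p4, p5, p6, p7, p8, p9, p10, p11, h1, h2, h3, h4, hef]
    (module)
  rw [H] at Te Tb
  have hg : ∀ x, (sg Q u v).1 ((sg Q u v).1 x) = (2 : F) • (sg Q u v).1 x - x := by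
    intro x
    have e1 := sg_apply_sing qu qv huv x
    have pvu : P Q v u = 0 := by rw [pol_comm]; exact huv
    have q1 := pol_self_of qu
    have q2 := pol_self_of qv
    have e2 : P Q u ((sg Q u v).1 x) = P Q u x := by
      rw [e1]
      simp only [map_sub, map_add, map_smul, huv, q1, smul_eq_mul]
      ring
    have e3 : P Q v ((sg Q u v).1 x) = P Q v x := by
      rw [e1]
      simp only [map_sub, map_add, map_smul, pvu, q2, smul_eq_mul]
      ring
    rw [sg_apply_sing qu qv huv ((sg Q u v).1 x), e2, e3]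
    rw [e1]
    (module)
  have h5 := hg e
  rw [Te, map_sub, map_smul, map_smul, Te, Tb] at h5
  have h6 : ((1 - c + c * c) * (1 - c + c * c) + c * c * c - 2 * (1 - c + c * c) + 1) • e - (c * c * c) • b = 0 := by
    have : ((1 - c + c * c) * (1 - c + c * c) + c * c * c - 2 * (1 - c + c * c) + 1) • e - (c * c * c) • b =
      ((1 - c + c * c) • ((1 - c + c * c) • e - c • b) - c • ((1 + c) • b - (c * c) • e)) -
        ((2 : F) • ((1 - c + c * c) • e - c • b) - e) := by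
      (module)
    rw [this, h5, sub_self]
  have h7 := congrArg (P Q f) h6
  simp only [map_sub, map_smul, map_zero, p5, h4, smul_eq_mul, mul_one, mul_zero, sub_zero] at h7
  rw [h7, zero_smul, zero_sub, neg_eq_zero] at h6
  by_cases hb : b = 0
  · rw [hb]
    exact (map_zero _)
  · have h8 : c * c * c = 0 := (smul_eq_zero.mp h6).resolve_right hb
    rw [← hc]
    by_contra hc0
    exact (mul_ne_zero (mul_ne_zero hc0 hc0) hc0) h8

end compute

section levi

variable [FiniteDimensional F V] [Fintype F] [hND : ND Q]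

/-- The setting: `β` fixes the point `e`, and `U` is the perp of the hyperbolic pair `e, f`. -/
structure Ax (β : PG Q ≃* PG Q) (e f : V) (U : Submodule F V) : Prop where
  he : Q e = 0
  hf : Q f = 0
  hef : P Q e f = 1
  hU : ∀ x, x ∈ U ↔ P Q e x = 0 ∧ P Q f x = 0
  fix : ∀ W W₁ : Ln Q, Rel β W W₁ → e ∈ W.sp → e ∈ W₁.sp

/-- `ψ` describes the action on the Siegel elements at `e`. -/
def Psi (β : PG Q ≃* PG Q) (e : V) (U : Submodule F V) (ψ : V → V) : Prop :=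
  ∀ x ∈ U, ψ x ∈ U ∧ β (rt Q e x) = rt Q e (ψ x)

namespace Ax

variable {β : PG Q ≃* PG Q} {e f : V} {U : Submodule F V} {ψ χ : V → V}

lemma e0 (A : Ax β e f U) : e ≠ 0 := by
  rintro rfl
  have := A.hef
  simp at this

lemma f0 (A : Ax β e f U) : f ≠ 0 := by
  rintro rfl
  have := A.hef
  simp at this

lemma hfe (A : Ax β e f U) : P Q f e = 1 := by
  rw [pol_comm]
  exact A.hef

lemma mem (A : Ax β e f U) {x : V} (h : x ∈ U) : P Q e x = 0 := ((A.hU x).mp h).1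

lemma mem' (A : Ax β e f U) {x : V} (h : x ∈ U) : P Q f x = 0 := ((A.hU x).mp h).2

lemma mem_of (A : Ax β e f U) {x : V} (h1 : P Q e x = 0) (h2 : P Q f x = 0) : x ∈ U := (A.hU x).mpr ⟨h1, h2⟩

/-- The line spanned by `e` and a singular vector of `U`. -/
def L (A : Ax β e f U) {s : V} (hs : s ∈ U) (hq : Q s = 0) (h0 : s ≠ 0) : Ln Q where
  a := e
  b := s
  qa := A.he
  qb := hq
  pab := A.mem hs
  na := A.e0
  nb := by
    intro c hc
    have h1 := A.mem' hs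
    rw [hc, map_smul, A.hfe, smul_eq_mul, mul_one] at h1
    rw [hc, h1, zero_smul] at h0
    exact h0 rfl

lemma span_gen (A : Ax β e f U) {x : V} (hx : x ∈ U) : x ∈ Submodule.span F {s | s ∈ U ∧ Q s = 0} := by
  have hn : 7 ≤ finrank F V := dim' Q
  have hW : finrank F (Submodule.span F {e, f}) ≤ 2 := finrank_span_pair_le e f
  have horth : ∀ y, y ∈ LinearMap.BilinForm.orthogonal (P Q) (Submodule.span F {e, f}) ↔ y ∈ U := by
    intro y
    rw [mem_orth, A.hU]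
    constructor
    · intro h
      exact ⟨h e (Submodule.subset_span (by simp)), h f (Submodule.subset_span (by simp))⟩
    · rintro ⟨h1, h2⟩ u hu
      obtain ⟨α, β, rfl⟩ := Submodule.mem_span_pair.mp hu
      simp only [map_add, map_smul, LinearMap.add_apply, LinearMap.smul_apply, h1, h2]
      simp
  have h1 := span_singular (nd' Q) (Submodule.span F {e, f}) (by omega) ((horth x).mpr hx)
  have e1 : {s | s ∈ LinearMap.BilinForm.orthogonal (P Q) (Submodule.span F {e, f}) ∧ Q s = 0} = {s | s ∈ U ∧ Q s = 0} := by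
    ext y
    simp only [Set.mem_setOf_eq, horth]
  rwa [e1] at h1

lemma span_le (A : Ax β e f U) : Submodule.span F {s | s ∈ U ∧ Q s = 0} ≤ U :=
  Submodule.span_le.mpr fun s hs => hs.1

lemma exists_sing (A : Ax β e f U) : ∃ s ∈ U, Q s = 0 ∧ s ≠ 0 := by
  have hn : 7 ≤ finrank F V := dim' Q
  obtain ⟨x, hx0, hq, hx⟩ := exists_sing_perp (Q := Q) (nd' Q) ![e, f] (by simp; omega)
  exact ⟨x, A.mem_of (hx 0) (hx 1), hq, hx0⟩

lemma rt_inj (A : Ax β e f U) {x y : V} (hx : x ∈ U) (hy : y ∈ U) (h : rt Q e x = rt Q e y) : x = y := by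
  obtain ⟨c, hc⟩ := (rt_eq_iff A.e0 A.he (A.mem hx) (A.mem hy)).mp h
  have h1 := A.mem' hy
  rw [hc, map_add, map_smul, A.mem' hx, A.hfe] at h1
  have : c = 0 := by simpa using h1
  rw [hc, this]
  simp

lemma exists_rel (p : ℕ) [Fact p.Prime] [CharP F p] (A : Ax β e f U) {s : V} (hs : s ∈ U) (hq : Q s = 0) (h0 : s ≠ 0) :
    ∃ (s' : V) (hs' : s' ∈ U) (hq' : Q s' = 0) (h0' : s' ≠ 0), Rel β (A.L hs hq h0) (A.L hs' hq' h0') := by
  obtain ⟨W₁, (h1 : Rel β (A.L hs hq h0) W₁)⟩ := pres_rg p β (A.L hs hq h0)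
  have hm : e ∈ W₁.sp := A.fix _ _ h1 (Ln.a_mem (A.L hs hq h0))
  obtain ⟨W₂, e1, e2⟩ := W₁.exists_basis_of_mem A.e0 hm
  obtain ⟨b, hb⟩ : ∃ b, b = W₂.b := ⟨_, rfl⟩
  obtain ⟨s', hs'd⟩ : ∃ s', s' = b - P Q f b • e := ⟨_, rfl⟩
  have hs' : s' ∈ U := A.mem_of (by
      rw [hs'd, map_sub, map_smul, pol_self_of A.he, hb, ← e1, W₂.pab]
      simp) (by
      rw [hs'd, map_sub, map_smul, A.hfe]
      simp)
  have hmb : s' ∈ W₂.sp := by
    rw [hs'd, hb]
    exact Submodule.sub_mem _ W₂.b_mem (Submodule.smul_mem _ _ (e1 ▸ W₂.a_mem))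
  have hq' : Q s' = 0 := W₂.sing hmb
  have h0' : s' ≠ 0 := by
    intro h
    rw [hs'd] at h
    apply W₂.nb (P Q f b)
    rw [e1, ← hb]
    exact sub_eq_zero.mp h
  refine ⟨s', hs', hq', h0', ?_⟩
  have e3 : (A.L hs' hq' h0').sp = W₁.sp := by
    rw [← e2]
    exact Ln.sp_eq _ _ (e1 ▸ W₂.a_mem) hmb
  intro x
  rw [h1 x, RG_eq_of_sp e3]

lemma exists_image (p : ℕ) [Fact p.Prime] [CharP F p] (A : Ax β e f U) {w : V} (hw : w ∈ U) :
    ∃ w' ∈ U, β (rt Q e w) = rt Q e w' := by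
  have hgen := A.span_gen hw
  have hle := A.span_le
  suffices key : ∀ c : F, ∃ w' ∈ U, β (rt Q e (c • w)) = rt Q e w' by
    have := key 1
    rwa [one_smul] at this
  clear hw
  induction hgen using Submodule.span_induction with
  | mem s hs =>
    intro c
    by_cases h0 : s = 0
    · refine ⟨0, U.zero_mem, ?_⟩
      rw [h0, smul_zero, rt_zero, map_one]
    · obtain ⟨s', hs', hq', h0', hR⟩ := A.exists_rel p hs.1 hs.2 h0
      obtain ⟨t', ht⟩ := (hR _).mp (rt_mem_RG _ c)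
      exact ⟨t' • s', U.smul_mem _ hs', ht⟩
  | zero =>
    intro c
    refine ⟨0, U.zero_mem, ?_⟩
    rw [smul_zero, rt_zero, map_one]
  | add x y hx hy ihx ihy =>
    intro c
    obtain ⟨x', hx', ex⟩ := ihx c
    obtain ⟨y', hy', ey⟩ := ihy c
    refine ⟨x' + y', U.add_mem hx' hy', ?_⟩
    rw [smul_add, ← rt_add A.he (A.mem (U.smul_mem _ (hle hx))) (A.mem (U.smul_mem _ (hle hy))), map_mul, ex, ey,
      rt_add A.he (A.mem hx') (A.mem hy')]
  | smul a x hx ih =>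
    intro c
    rw [smul_smul]
    exact ih _

lemma exists_psi (p : ℕ) [Fact p.Prime] [CharP F p] (A : Ax β e f U) : ∃ ψ : V → V, Psi β e U ψ := by
  choose! ψ h1 h2 using (fun w (hw : w ∈ U) => A.exists_image p hw)
  exact ⟨ψ, fun x hx => ⟨h1 x hx, h2 x hx⟩⟩

lemma psi_add (A : Ax β e f U) (hψ : Psi β e U ψ) {x y : V} (hx : x ∈ U) (hy : y ∈ U) : ψ (x + y) = ψ x + ψ y := by
  apply A.rt_inj (hψ _ (U.add_mem hx hy)).1 (U.add_mem (hψ x hx).1 (hψ y hy).1)
  rw [← (hψ _ (U.add_mem hx hy)).2, ← rt_add A.he (A.mem hx) (A.mem hy), map_mul, (hψ x hx).2, (hψ y hy).2,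
    rt_add A.he (A.mem (hψ x hx).1) (A.mem (hψ y hy).1)]

lemma psi_zero (A : Ax β e f U) (hψ : Psi β e U ψ) : ψ 0 = 0 := by
  apply A.rt_inj (hψ 0 U.zero_mem).1 U.zero_mem
  rw [← (hψ 0 U.zero_mem).2, rt_zero, map_one]

lemma psi_eq_zero (A : Ax β e f U) (hψ : Psi β e U ψ) {x : V} (hx : x ∈ U) (h : ψ x = 0) : x = 0 := by
  apply A.rt_inj hx U.zero_mem
  apply β.injective
  rw [(hψ x hx).2, h, rt_zero, map_one]

lemma psi_sing (p : ℕ) [Fact p.Prime] [CharP F p] (A : Ax β e f U) (hψ : Psi β e U ψ) {s : V} (hs : s ∈ U) (hq : Q s = 0)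
    (h0 : s ≠ 0) : ∃ (hq' : Q (ψ s) = 0) (h0' : ψ s ≠ 0), Rel β (A.L hs hq h0) (A.L (hψ s hs).1 hq' h0') ∧
      ∀ t : F, ∃ k : F, ψ (t • s) = k • ψ s := by
  obtain ⟨s', hs', hq', h0', hR⟩ := A.exists_rel p hs hq h0
  have key : ∀ t : F, ∃ t' : F, ψ (t • s) = t' • s' := by
    intro t
    obtain ⟨t', ht⟩ := (hR _).mp (rt_mem_RG _ t)
    refine ⟨t', A.rt_inj (hψ _ (U.smul_mem _ hs)).1 (U.smul_mem _ hs') ?_⟩
    rw [← (hψ _ (U.smul_mem _ hs)).2]
    exact ht
  obtain ⟨t₁, ht₁⟩ := key 1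
  rw [one_smul] at ht₁
  have hne : ψ s ≠ 0 := fun h => h0 (psi_eq_zero A hψ hs h)
  have ht0 : t₁ ≠ 0 := by
    rintro rfl
    rw [zero_smul] at ht₁
    exact hne ht₁
  have hq2 : Q (ψ s) = 0 := by rw [ht₁, Q_smul, hq', mul_zero]
  refine ⟨hq2, hne, ?_, ?_⟩
  · have e3 : (A.L (hψ s hs).1 hq2 hne).sp = (A.L hs' hq' h0').sp := by
      refine Ln.sp_eq _ _ (Ln.a_mem (A.L hs' hq' h0')) ?_
      change ψ s ∈ _
      rw [ht₁]
      exact Submodule.smul_mem _ _ (Ln.b_mem (A.L hs' hq' h0'))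
    intro x
    rw [hR x, RG_eq_of_sp e3]
  · intro t
    obtain ⟨t', ht⟩ := key t
    refine ⟨t' * t₁⁻¹, ?_⟩
    rw [ht, ht₁, smul_smul, mul_assoc, inv_mul_cancel₀ ht0, mul_one]

lemma psi_q (p : ℕ) [Fact p.Prime] [CharP F p] (A : Ax β e f U) (hψ : Psi β e U ψ) {s : V} (hs : s ∈ U) (hq : Q s = 0) :
    Q (ψ s) = 0 := by
  by_cases h0 : s = 0
  · rw [h0, psi_zero A hψ]
    simp
  · exact (psi_sing p A hψ hs hq h0).1

lemma L_con (A : Ax β e f U) (B : Ax β f e U) {a b : V} (ha : a ∈ U) (hb : b ∈ U) (qa : Q a = 0) (qb : Q b = 0) (a0 : a ≠ 0)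
    (b0 : b ≠ 0) (h : Con (A.L ha qa a0) (B.L hb qb b0)) : ∃ c : F, c ≠ 0 ∧ b = c • a := by
  obtain ⟨x, hx0, hx1, hx2⟩ := h
  obtain ⟨α, γ, e1⟩ := mem_sp.mp hx1
  obtain ⟨δ, ε, e2⟩ := mem_sp.mp hx2
  change α • e + γ • a = x at e1
  change δ • f + ε • b = x at e2
  have h1 := congrArg (P Q f) (e1.trans e2.symm)
  have h2 := congrArg (P Q e) (e1.trans e2.symm)
  simp only [map_add, map_smul, A.hfe, A.mem' ha, A.mem' hb, pol_self_of A.hf, pol_self_of A.he, A.mem ha, A.mem hb,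
    A.hef, smul_eq_mul, mul_one, mul_zero, add_zero] at h1 h2
  subst h1
  have h3 : δ = 0 := h2.symm
  subst h3
  simp only [zero_smul, zero_add] at e1 e2
  have hε : ε ≠ 0 := by
    rintro rfl
    rw [zero_smul] at e2
    exact hx0 e2.symm
  have hγ : γ ≠ 0 := by
    rintro rfl
    rw [zero_smul] at e1
    exact hx0 e1.symm
  refine ⟨ε⁻¹ * γ, mul_ne_zero (inv_ne_zero hε) hγ, ?_⟩
  have e3 : γ • a = ε • b := e1.trans e2.symm
  rw [mul_smul, e3, smul_smul, inv_mul_cancel₀ hε, one_smul]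

/-- On singular vectors, the two maps are proportional. -/
lemma chi_prop (p : ℕ) [Fact p.Prime] [CharP F p] (H : Good β) (A : Ax β e f U) (B : Ax β f e U)
    (hψ : Psi β e U ψ) (hχ : Psi β f U χ) {s : V} (hs : s ∈ U) (hq : Q s = 0) (h0 : s ≠ 0) :
    ∃ c : F, c ≠ 0 ∧ χ s = c • ψ s := by
  obtain ⟨q1, n1, r1, -⟩ := psi_sing p A hψ hs hq h0
  obtain ⟨q2, n2, r2, -⟩ := psi_sing p B hχ hs hq h0
  have hc : Con (A.L hs hq h0) (B.L hs hq h0) := ⟨s, h0, Ln.b_mem (A.L hs hq h0), Ln.b_mem (B.L hs hq h0)⟩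
  exact L_con A B _ _ q1 q2 n1 n2 (Rel.con p H r1 r2 hc)

/-- Independence of the images. -/
lemma indep_img (p : ℕ) [Fact p.Prime] [CharP F p] (H : Good β) (A : Ax β e f U) (B : Ax β f e U)
    (hψ : Psi β e U ψ) (hχ : Psi β f U χ) {s s' : V} (hs : s ∈ U) (hs' : s' ∈ U) (qs : Q s = 0) (qs' : Q s' = 0)
    (h0 : s ≠ 0) (h0' : s' ≠ 0) (hi : ∀ c : F, s' ≠ c • s) (d : F) : χ s' ≠ d • ψ s := by
  intro hd
  obtain ⟨q1, n1, r1, -⟩ := psi_sing p A hψ hs qs h0
  obtain ⟨q2, n2, r2, -⟩ := psi_sing p B hχ hs' qs' h0'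
  have hc : Con (A.L (hψ s hs).1 q1 n1) (B.L (hχ s' hs').1 q2 n2) := by
    refine ⟨χ s', n2, ?_, Ln.b_mem (B.L (hχ s' hs').1 q2 n2)⟩
    rw [hd]
    exact Submodule.smul_mem _ _ (Ln.b_mem (A.L (hψ s hs).1 q1 n1))
  have h1 := Rel.con p H.symm r1.symm r2.symm hc
  obtain ⟨c, -, hc⟩ := L_con A B hs hs' qs qs' h0 h0' h1
  exact hi c hc

/-- The basic relation between the two maps. -/
theorem star (p : ℕ) [Fact p.Prime] [CharP F p] (A : Ax β e f U) (B : Ax β f e U) (hψ : Psi β e U ψ)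
    (hχ : Psi β f U χ) {s s' : V} (hs : s ∈ U) (hs' : s' ∈ U) (qs : Q s = 0) (qs' : Q s' = 0) (hss : P Q s s' = 0) :
    P Q (ψ s) (χ s') = 0 ∧ β (rt Q s s') = rt Q (ψ s) (χ s') := by
  have m1 := (hψ s hs).1
  have m2 := (hχ s' hs').1
  have q1 := psi_q p A hψ hs qs
  have q2 := psi_q p B hχ hs' qs'
  have E : β (rt Q s s') = ⁅rt Q e (ψ s), rt Q f (χ s')⁆ := by
    rw [← rt_comm_of (comm_ef A.he A.hf A.hef (A.mem hs) (A.mem' hs) (A.mem hs') (A.mem' hs') qs qs' hss),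
      map_commutatorElement, (hψ s hs).2, (hχ s' hs').2]
  obtain ⟨W₃, t, hW⟩ : ∃ (W₃ : Ln Q) (t : F), β (rt Q s s') = rt Q W₃.a (t • W₃.b) := by
    by_cases hi : s ≠ 0 ∧ ∀ c : F, s' ≠ c • s
    · let Z : Ln Q := ⟨s, s', qs, qs', hss, hi.1, hi.2⟩
      obtain ⟨W₃, (h3 : Rel β Z W₃)⟩ := pres_rg p β Z
      obtain ⟨t, ht⟩ := (h3 _).mp (by
        have := rt_mem_RG Z 1
        rwa [one_smul] at this)
      exact ⟨W₃, t, ht⟩
    · have h1 : rt Q s s' = 1 := by
        by_cases h0 : s = 0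
        · rw [h0, rt_of_zero]
        · have : ∃ c : F, s' = c • s := by
            by_contra hc
            push Not at hc
            exact hi ⟨h0, hc⟩
          obtain ⟨c, rfl⟩ := this
          exact rt_self_smul qs c
      obtain ⟨E₁, -, -, -, -⟩ := exists_two_lines A.e0 A.he
      exact ⟨E₁, 0, by rw [h1, map_one, zero_smul, rt_zero]⟩
  have H1 := comm_lift' A.he (A.mem m1) A.hf (A.mem' m2) W₃.qa (by rw [map_smul, W₃.pab, smul_zero]) (E.symm.trans hW)
  have h0 := opp A.he A.hf A.hef (A.mem m1) (A.mem' m1) (A.mem m2) (A.mem' m2) q1 q2 W₃.qa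
    (by rw [Q_smul, W₃.qb, mul_zero]) (by rw [map_smul, W₃.pab, smul_zero]) H1
  refine ⟨h0, ?_⟩
  rw [E]
  exact rt_comm_of (comm_ef A.he A.hf A.hef (A.mem m1) (A.mem' m1) (A.mem m2) (A.mem' m2) q1 q2 h0)

lemma rt_smul {a w : V} (ha : Q a = 0) (hw : P Q a w = 0) (c : F) : rt Q (c • a) w = rt Q a (c • w) :=
  rt_congr (sg_smul ha hw c)

/-- Scalars on orthogonal independent vectors agree. -/
lemma scal (p : ℕ) [Fact p.Prime] [CharP F p] (H : Good β) (A : Ax β e f U) (B : Ax β f e U)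
    (hψ : Psi β e U ψ) (hχ : Psi β f U χ) {s s' : V} (hs : s ∈ U) (hs' : s' ∈ U) (qs : Q s = 0) (qs' : Q s' = 0)
    (h0 : s ≠ 0) (h0' : s' ≠ 0) (hi : ∀ c : F, s' ≠ c • s) (hss : P Q s s' = 0) {t k : F} (hk : ψ (t • s) = k • ψ s) :
    χ (t • s') = k • χ s' := by
  obtain ⟨q1, n1, -, -⟩ := psi_sing p A hψ hs qs h0
  obtain ⟨q2, n2, -, hl⟩ := psi_sing p B hχ hs' qs' h0'
  obtain ⟨l, hl⟩ := hl t
  have e1 : rt Q (t • s) s' = rt Q s (t • s') := rt_smul qs hss t
  have hts := U.smul_mem t hs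
  have hts' := U.smul_mem t hs'
  have qts : Q (t • s) = 0 := by rw [Q_smul, qs, mul_zero]
  have qts' : Q (t • s') = 0 := by rw [Q_smul, qs', mul_zero]
  have s0 := star p A B hψ hχ hs hs' qs qs' hss
  have s1 := (star p A B hψ hχ hts hs' qts qs' (by rw [map_smul, LinearMap.smul_apply, hss, smul_zero])).2
  have s2 := star p A B hψ hχ hs hts' qs qts' (by rw [map_smul, hss, smul_zero])
  have s3 := s2.2
  rw [← e1, s1, hk, rt_smul q1 s0.1 k] at s3
  rw [hl] at s3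
  have s4 : P Q (ψ s) (l • χ s') = 0 := by rw [map_smul, s0.1, smul_zero]
  have s5 : P Q (ψ s) (k • χ s') = 0 := by rw [map_smul, s0.1, smul_zero]
  obtain ⟨d, hd⟩ := (rt_eq_iff n1 q1 s5 s4).mp s3
  have hkl : k = l := by
    by_contra hne
    have hne' : l - k ≠ 0 := sub_ne_zero.mpr (Ne.symm hne)
    apply indep_img p H A B hψ hχ hs hs' qs qs' h0 h0' hi ((l - k)⁻¹ * d)
    have e2 : (l - k) • χ s' = d • ψ s := by
      rw [sub_smul, hd]
      abel
    rw [mul_smul, ← e2, smul_smul, inv_mul_cancel₀ hne', one_smul]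
  rw [hl, hkl]

lemma indep_symm {x y : V} (h0 : x ≠ 0) (h : ∀ c : F, y ≠ c • x) (c : F) : x ≠ c • y := by
  intro e
  have hc : c ≠ 0 := by
    rintro rfl
    rw [zero_smul] at e
    exact h0 e
  apply h c⁻¹
  rw [e, smul_smul, inv_mul_cancel₀ hc, one_smul]

/-- Connecting two singular vectors. -/
lemma connect (A : Ax β e f U) {s₁ s₂ : V} (h₁ : s₁ ∈ U) (h₂ : s₂ ∈ U) (q₁ : Q s₁ = 0) (q₂ : Q s₂ = 0) (n₁ : s₁ ≠ 0)
    (n₂ : s₂ ≠ 0) : ∃ z ∈ U, Q z = 0 ∧ z ≠ 0 ∧ P Q s₁ z = 0 ∧ P Q s₂ z = 0 ∧ (∀ c : F, z ≠ c • s₁) ∧ (∀ c : F, z ≠ c • s₂) := by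
  have hn : 7 ≤ finrank F V := dim' Q
  by_cases hp : P Q s₁ s₂ = 0
  · by_cases hi : ∀ c : F, s₂ ≠ c • s₁
    · refine ⟨s₁ + s₂, U.add_mem h₁ h₂, ?_, ?_, ?_, ?_, ?_, ?_⟩
      · rw [Q_add, q₁, q₂, hp]
        simp
      · intro h
        apply hi (-1)
        rw [neg_smul, one_smul]
        exact eq_neg_of_add_eq_zero_right h
      · rw [map_add, pol_self_of q₁, hp, add_zero]
      · rw [map_add, pol_self_of q₂, pol_comm, hp, add_zero]
      · intro c hc
        apply hi (c - 1)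
        rw [sub_smul, one_smul, ← hc]
        abel
      · intro c hc
        apply indep_symm n₁ hi (c - 1)
        rw [sub_smul, one_smul, ← hc]
        abel
    · push Not at hi
      obtain ⟨c, rfl⟩ := hi
      have hc : c ≠ 0 := by
        rintro rfl
        simp at n₂
      obtain ⟨y, hy⟩ := exists_P_eq_one (Q := Q) (nd' Q) n₁
      obtain ⟨z, hz0, hqz, hz⟩ := exists_sing_perp (Q := Q) (nd' Q) ![e, f, s₁, y] (by simp; omega)
      have a0 := hz 0
      have a1 := hz 1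
      have a2 := hz 2
      have a3 := hz 3
      simp only [Matrix.cons_val_zero, Matrix.cons_val_one, Matrix.cons_val] at a0 a1 a2 a3
      have key : ∀ d : F, z ≠ d • s₁ := by
        intro d hd
        rw [hd, map_smul, pol_comm, hy, smul_eq_mul, mul_one] at a3
        rw [hd, a3, zero_smul] at hz0
        exact hz0 rfl
      refine ⟨z, A.mem_of a0 a1, hqz, hz0, a2, ?_, key, ?_⟩
      · rw [map_smul, LinearMap.smul_apply, a2, smul_zero]
      · intro d hd
        rw [smul_smul] at hd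
        exact key _ hd
  · obtain ⟨z, hz0, hqz, hz⟩ := exists_sing_perp (Q := Q) (nd' Q) ![e, f, s₁, s₂] (by simp; omega)
    have a0 := hz 0
    have a1 := hz 1
    have a2 := hz 2
    have a3 := hz 3
    simp only [Matrix.cons_val_zero, Matrix.cons_val_one, Matrix.cons_val] at a0 a1 a2 a3
    refine ⟨z, A.mem_of a0 a1, hqz, hz0, a2, a3, ?_, ?_⟩
    · intro d hd
      rw [hd, map_smul, pol_comm, smul_eq_mul] at a3
      have hd0 : d = 0 := (mul_eq_zero.mp a3).resolve_right hp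
      rw [hd, hd0, zero_smul] at hz0
      exact hz0 rfl
    · intro d hd
      rw [hd, map_smul, smul_eq_mul] at a2
      have hd0 : d = 0 := (mul_eq_zero.mp a2).resolve_right hp
      rw [hd, hd0, zero_smul] at hz0
      exact hz0 rfl

end Ax

end levi

end Cfsg.Agent.Lib.AutPO
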