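import Mathlib
import Cfsg.Agent.Lib.AutPO.Levi

/-!
The semilinear structure of a normalised automorphism.
-/

set_option autoImplicit false
set_option linter.unusedSectionVars false
set_option linter.unusedVariables false

namespace Cfsg.Agent.Lib.AutPO

open Cfsg.Agent.Lib.Classical.Witt Cfsg.Agent.Lib.Classical.Abs Cfsg.Agent.Lib.Classical.Orth
open scoped commutatorElement
open Module Ln

local notation "P" => QuadraticMap.polarBilin

variable {F V : Type*} [Field F] [AddCommGroup V] [Module F V] {Q : QuadraticForm F V}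

/-- The perp of a pair. -/
def V0 (Q : QuadraticForm F V) (e f : V) : Submodule F V := LinearMap.ker (P Q e) ⊓ LinearMap.ker (P Q f)

lemma mem_V0 {e f x : V} : x ∈ V0 Q e f ↔ P Q e x = 0 ∧ P Q f x = 0 := Iff.rfl

section levi

variable [FiniteDimensional F V] [Fintype F] [hND : ND Q]

namespace Ax

variable {β : PG Q ≃* PG Q} {e f : V} {U : Submodule F V} {ψ χ : V → V}

theorem exists_sigma (p : ℕ) [Fact p.Prime] [CharP F p] (H : Good β) (A : Ax β e f U)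
    (B : Ax β f e U) (hψ : Psi β e U ψ) (hχ : Psi β f U χ) : ∃ σ : F ≃+* F,
      (∀ s ∈ U, Q s = 0 → s ≠ 0 → ∀ t, ψ (t • s) = σ t • ψ s) ∧
      (∀ s ∈ U, Q s = 0 → s ≠ 0 → ∀ t, χ (t • s) = σ t • χ s) := by
  obtain ⟨s₀, h₀, q₀, n₀⟩ := A.exists_sing
  obtain ⟨q1, n1, -, hk⟩ := psi_sing p A hψ h₀ q₀ n₀
  choose σ hσ using hk
  have hψ' : ∀ s ∈ U, Q s = 0 → s ≠ 0 → ∀ t, ψ (t • s) = σ t • ψ s := by
    intro s hs qs ns t
    obtain ⟨z, hz, qz, nz, a1, a2, a3, a4⟩ := A.connect h₀ hs q₀ qs n₀ ns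
    have h1 := scal p H A B hψ hχ h₀ hz q₀ qz n₀ nz a3 a1 (hσ t)
    exact scal p H B A hχ hψ hz hs qz qs nz ns (indep_symm ns a4) (by rw [pol_comm]; exact a2) h1
  have hχ' : ∀ s ∈ U, Q s = 0 → s ≠ 0 → ∀ t, χ (t • s) = σ t • χ s := by
    intro s hs qs ns t
    obtain ⟨z, hz, qz, nz, a1, -, a3, -⟩ := A.connect hs hs qs qs ns ns
    have h1 := hψ' z hz qz nz t
    exact scal p H A B hψ hχ hz hs qz qs nz ns (indep_symm ns a3) (by rw [pol_comm]; exact a1) h1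
  have cancel : ∀ a b : F, a • ψ s₀ = b • ψ s₀ → a = b := fun a b h => smul_left_injective F n1 h
  have σ1 : σ 1 = 1 := cancel _ _ (by rw [← hσ, one_smul, one_smul])
  have σ0 : σ 0 = 0 := cancel _ _ (by rw [← hσ, zero_smul, zero_smul, psi_zero A hψ])
  have σadd : ∀ a b, σ (a + b) = σ a + σ b := fun a b => cancel _ _ (by
    rw [← hσ, add_smul, psi_add A hψ (U.smul_mem _ h₀) (U.smul_mem _ h₀), hσ, hσ, add_smul])
  have σmul : ∀ a b, σ (a * b) = σ a * σ b := by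
    intro a b
    by_cases hb : b = 0
    · rw [hb, mul_zero, σ0, mul_zero]
    · apply cancel
      rw [← hσ, mul_smul, hψ' _ (U.smul_mem _ h₀) (by rw [Q_smul, q₀, mul_zero]) (smul_ne_zero hb n₀) a, hσ, smul_smul]
  let σ' : F →+* F :=
    { toFun := σ, map_one' := σ1, map_mul' := σmul, map_zero' := σ0, map_add' := σadd }
  have inj : Function.Injective σ' := σ'.injective
  have surj : Function.Surjective σ' := Finite.injective_iff_surjective.mp inj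
  exact ⟨RingEquiv.ofBijective σ' ⟨inj, surj⟩, hψ', hχ'⟩

lemma semi (A : Ax β e f U) (hψ : Psi β e U ψ) (σ : F ≃+* F)
    (hσ : ∀ s ∈ U, Q s = 0 → s ≠ 0 → ∀ t, ψ (t • s) = σ t • ψ s) {x : V} (hx : x ∈ U) (t : F) :
    ψ (t • x) = σ t • ψ x := by
  have hgen := A.span_gen hx
  have hle := A.span_le
  revert t
  clear hx
  induction hgen using Submodule.span_induction with
  | mem s hs =>
    intro t
    by_cases h0 : s = 0
    · rw [h0, smul_zero, psi_zero A hψ, smul_zero]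
    · exact hσ s hs.1 hs.2 h0 t
  | zero =>
    intro t
    rw [smul_zero, psi_zero A hψ, smul_zero]
  | add x y hx hy ihx ihy =>
    intro t
    rw [smul_add, psi_add A hψ (U.smul_mem _ (hle hx)) (U.smul_mem _ (hle hy)), ihx, ihy, psi_add A hψ (hle hx) (hle hy),
      smul_add]
  | smul a x hx ih =>
    intro t
    rw [smul_smul, ih, ih, smul_smul, map_mul]

lemma same_c (p : ℕ) [Fact p.Prime] [CharP F p] (H : Good β) (A : Ax β e f U) (B : Ax β f e U)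
    (hψ : Psi β e U ψ) (hχ : Psi β f U χ) {a b : V} (ha : a ∈ U) (hb : b ∈ U) (qa : Q a = 0) (qb : Q b = 0) (na : a ≠ 0)
    (nb : b ≠ 0) (hab : P Q a b = 0) (hi : ∀ d : F, b ≠ d • a) {ca cb : F} (hcb : cb ≠ 0) (ea : χ a = ca • ψ a)
    (eb : χ b = cb • ψ b) : ca = cb := by
  have hab' : a + b ∈ U := U.add_mem ha hb
  have qab : Q (a + b) = 0 := by
    rw [Q_add, qa, qb, hab]
    simp
  have nab : a + b ≠ 0 := by
    intro h
    apply hi (-1)
    rw [neg_smul, one_smul]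
    exact eq_neg_of_add_eq_zero_right h
  obtain ⟨c', -, ec⟩ := chi_prop p H A B hψ hχ hab' qab nab
  rw [psi_add A hψ ha hb, psi_add B hχ ha hb, ea, eb] at ec
  have e1 : (ca - c') • ψ a = (c' - cb) • ψ b := by
    have h1 : ca • ψ a + cb • ψ b - c' • (ψ a + ψ b) = 0 := sub_eq_zero.mpr ec
    have h2 : (ca - c') • ψ a - (c' - cb) • ψ b = ca • ψ a + cb • ψ b - c' • (ψ a + ψ b) := by
      (module)
    exact sub_eq_zero.mp (h2.trans h1)
  have hc' : c' = cb := by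
    by_contra hne
    have hne' : c' - cb ≠ 0 := sub_ne_zero.mpr hne
    apply indep_img p H A B hψ hχ ha hb qa qb na nb hi (cb * ((c' - cb)⁻¹ * (ca - c')))
    rw [eb, mul_smul, mul_smul, e1, smul_smul (c' - cb)⁻¹, inv_mul_cancel₀ hne', one_smul]
  rw [hc', sub_self, zero_smul] at e1
  obtain ⟨q1, n1, -, -⟩ := psi_sing p A hψ ha qa na
  have h3 := (smul_eq_zero.mp e1).resolve_right n1
  exact sub_eq_zero.mp h3

theorem exists_c (p : ℕ) [Fact p.Prime] [CharP F p] (H : Good β) (A : Ax β e f U) (B : Ax β f e U)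
    (hψ : Psi β e U ψ) (hχ : Psi β f U χ) (σ : F ≃+* F)
    (hσψ : ∀ s ∈ U, Q s = 0 → s ≠ 0 → ∀ t, ψ (t • s) = σ t • ψ s)
    (hσχ : ∀ s ∈ U, Q s = 0 → s ≠ 0 → ∀ t, χ (t • s) = σ t • χ s) :
    ∃ c : F, c ≠ 0 ∧ ∀ x ∈ U, χ x = c • ψ x := by
  obtain ⟨s₀, h₀, q₀, n₀⟩ := A.exists_sing
  obtain ⟨c, hc, ec⟩ := chi_prop p H A B hψ hχ h₀ q₀ n₀
  have key : ∀ s ∈ U, Q s = 0 → s ≠ 0 → χ s = c • ψ s := by
    intro s hs qs ns
    obtain ⟨z, hz, qz, nz, a1, a2, a3, a4⟩ := A.connect h₀ hs q₀ qs n₀ ns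
    obtain ⟨cz, hcz, ez⟩ := chi_prop p H A B hψ hχ hz qz nz
    obtain ⟨cs, hcs, es⟩ := chi_prop p H A B hψ hχ hs qs ns
    have e1 : c = cz := same_c p H A B hψ hχ h₀ hz q₀ qz n₀ nz a1 a3 hcz ec ez
    have e2 : cs = cz := same_c p H A B hψ hχ hs hz qs qz ns nz a2 a4 hcz es ez
    rw [es, e2, ← e1]
  refine ⟨c, hc, fun x hx => ?_⟩
  have hgen := A.span_gen hx
  have hle := A.span_le
  clear hx
  induction hgen using Submodule.span_induction with
  | mem s hs =>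
    by_cases h0 : s = 0
    · rw [h0, psi_zero A hψ, psi_zero B hχ, smul_zero]
    · exact key s hs.1 hs.2 h0
  | zero => rw [psi_zero A hψ, psi_zero B hχ, smul_zero]
  | add x y hx hy ihx ihy =>
    rw [psi_add A hψ (hle hx) (hle hy), psi_add B hχ (hle hx) (hle hy), ihx, ihy, smul_add]
  | smul a x hx ih =>
    rw [semi A hψ σ hσψ (hle hx), semi B hχ σ hσχ (hle hx), ih, smul_comm]

lemma form_sing (p : ℕ) [Fact p.Prime] [CharP F p] (A : Ax β e f U) (B : Ax β f e U)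
    (hψ : Psi β e U ψ) (hχ : Psi β f U χ) (σ : F ≃+* F)
    (hσψ : ∀ s ∈ U, Q s = 0 → s ≠ 0 → ∀ t, ψ (t • s) = σ t • ψ s) {c : F} (hc : c ≠ 0) (hχc : ∀ x ∈ U, χ x = c • ψ x)
    {z z' : V} (hz : z ∈ U) (hz' : z' ∈ U) (qz : Q z = 0) (qz' : Q z' = 0) :
    P Q (ψ z) (χ z') = σ (P Q z z') := by
  have hn := dim' Q
  obtain ⟨s, ns, qs, hs⟩ := exists_sing_perp (Q := Q) (nd' Q) ![e, f, z, z'] (by simp; omega)
  have a0 := hs 0
  have a1 := hs 1
  have a2 := hs 2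
  have a3 := hs 3
  simp only [Matrix.cons_val_zero, Matrix.cons_val_one, Matrix.cons_val] at a0 a1 a2 a3
  have hsU : s ∈ U := A.mem_of a0 a1
  have psz : P Q s z = 0 := by rw [pol_comm]; exact a2
  have psz' : P Q s z' = 0 := by rw [pol_comm]; exact a3
  obtain ⟨q1, n1, -, -⟩ := psi_sing p A hψ hsU qs ns
  have m1 := (hψ s hsU).1
  have m2 := (hψ z hz).1
  have m3 := (hχ z' hz').1
  have s1 := star p A B hψ hχ hsU hz' qs qz' psz'
  have s2 := (star p A B hψ hχ hsU hz qs qz psz).1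
  have s3 : P Q (ψ s) (ψ z) = 0 := by
    rw [hχc z hz, map_smul] at s2
    exact (smul_eq_zero.mp s2).resolve_left hc
  have C1 : ⁅rt Q e z, rt Q s z'⁆ = rt Q e (P Q z z' • s) :=
    rt_comm_of (comm_sg A.he qs a0 (A.mem hz) psz (A.mem hz') psz')
  have C2 : ⁅rt Q e (ψ z), rt Q (ψ s) (χ z')⁆ = rt Q e (P Q (ψ z) (χ z') • ψ s) :=
    rt_comm_of (comm_sg A.he q1 (A.mem m1) (A.mem m2) s3 (A.mem m3) s1.1)
  have E := congrArg β C1
  rw [map_commutatorElement, (hψ z hz).2, s1.2, C2, (hψ _ (U.smul_mem _ hsU)).2, hσψ s hsU qs ns] at E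
  have h9 := A.rt_inj (U.smul_mem _ m1) (U.smul_mem _ m1) E
  exact smul_left_injective F n1 h9

lemma form_all (p : ℕ) [Fact p.Prime] [CharP F p] (A : Ax β e f U) (B : Ax β f e U)
    (hψ : Psi β e U ψ) (hχ : Psi β f U χ) (σ : F ≃+* F)
    (hσψ : ∀ s ∈ U, Q s = 0 → s ≠ 0 → ∀ t, ψ (t • s) = σ t • ψ s)
    (hσχ : ∀ s ∈ U, Q s = 0 → s ≠ 0 → ∀ t, χ (t • s) = σ t • χ s) {c : F} (hc : c ≠ 0) (hχc : ∀ x ∈ U, χ x = c • ψ x)
    {x y : V} (hx : x ∈ U) (hy : y ∈ U) : P Q (ψ x) (χ y) = σ (P Q x y) := by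
  have hle := A.span_le
  have h1 : ∀ y ∈ U, Q y = 0 → ∀ x ∈ U, P Q (ψ x) (χ y) = σ (P Q x y) := by
    intro y hy qy x hx
    have hgen := A.span_gen hx
    clear hx
    induction hgen using Submodule.span_induction with
    | mem s hs => exact form_sing p A B hψ hχ σ hσψ hc hχc hs.1 hy hs.2 qy
    | zero => rw [psi_zero A hψ, map_zero, LinearMap.zero_apply, LinearMap.zero_apply, map_zero]
    | add a b ha hb iha ihb =>
      rw [psi_add A hψ (hle ha) (hle hb), map_add, LinearMap.add_apply, iha, ihb, map_add, LinearMap.add_apply, map_add]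
    | smul a x hx ih =>
      rw [semi A hψ σ hσψ (hle hx), map_smul, LinearMap.smul_apply, ih, map_smul, LinearMap.smul_apply, smul_eq_mul,
        smul_eq_mul, map_mul]
  have hgen := A.span_gen hy
  clear hy
  induction hgen using Submodule.span_induction with
  | mem s hs => exact h1 s hs.1 hs.2 x hx
  | zero => rw [psi_zero B hχ, map_zero, map_zero, map_zero]
  | add a b ha hb iha ihb =>
    rw [psi_add B hχ (hle ha) (hle hb), map_add, iha, ihb, map_add, map_add]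
  | smul a y hy ih =>
    rw [semi B hχ σ hσχ (hle hy), map_smul, ih, map_smul, smul_eq_mul, smul_eq_mul, map_mul]

lemma form_q (p : ℕ) [Fact p.Prime] [CharP F p] (A : Ax β e f U) (B : Ax β f e U)
    (hψ : Psi β e U ψ) (hχ : Psi β f U χ) (σ : F ≃+* F)
    (hσψ : ∀ s ∈ U, Q s = 0 → s ≠ 0 → ∀ t, ψ (t • s) = σ t • ψ s)
    (hσχ : ∀ s ∈ U, Q s = 0 → s ≠ 0 → ∀ t, χ (t • s) = σ t • χ s) {c : F} (hc : c ≠ 0) (hχc : ∀ x ∈ U, χ x = c • ψ x)
    {x : V} (hx : x ∈ U) : c * Q (ψ x) = σ (Q x) := by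
  have hle := A.span_le
  have hgen := A.span_gen hx
  clear hx
  induction hgen using Submodule.span_induction with
  | mem s hs => rw [psi_q p A hψ hs.1 hs.2, hs.2, mul_zero, map_zero]
  | zero => rw [psi_zero A hψ, map_zero, map_zero, mul_zero]
  | add a b ha hb iha ihb =>
    have e1 := form_all p A B hψ hχ σ hσψ hσχ hc hχc (hle ha) (hle hb)
    rw [hχc b (hle hb), map_smul, smul_eq_mul] at e1
    rw [psi_add A hψ (hle ha) (hle hb), Q_add, Q_add, map_add, map_add, ← iha, ← ihb, ← e1]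
    ring
  | smul a x hx ih =>
    rw [semi A hψ σ hσψ (hle hx), Q_smul, Q_smul, map_mul, map_mul, ← ih]
    ring

end Ax

/-- The output of the analysis. -/
structure IsLevi (β : PG Q ≃* PG Q) (e f : V) (ψ : V → V) (σ : F ≃+* F) (c : F) : Prop where
  c0 : c ≠ 0
  mem : ∀ x ∈ V0 Q e f, ψ x ∈ V0 Q e f
  rel_e : ∀ x ∈ V0 Q e f, β (rt Q e x) = rt Q e (ψ x)
  rel_f : ∀ x ∈ V0 Q e f, β (rt Q f x) = rt Q f (c • ψ x)
  add : ∀ x ∈ V0 Q e f, ∀ y ∈ V0 Q e f, ψ (x + y) = ψ x + ψ y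
  smul : ∀ x ∈ V0 Q e f, ∀ t, ψ (t • x) = σ t • ψ x
  q : ∀ x ∈ V0 Q e f, c * Q (ψ x) = σ (Q x)

theorem levi (p : ℕ) [Fact p.Prime] [CharP F p] {β : PG Q ≃* PG Q} (H : Good β) {e f : V}
    (he : Q e = 0) (hf : Q f = 0) (hef : P Q e f = 1) (hN : Nrm β e f) :
    ∃ (ψ : V → V) (σ : F ≃+* F) (c : F), IsLevi β e f ψ σ c := by
  have A : Ax β e f (V0 Q e f) := ⟨he, hf, hef, fun x => Iff.rfl, hN.1⟩
  have B : Ax β f e (V0 Q e f) := ⟨hf, he, by rw [pol_comm]; exact hef, fun x => and_comm, hN.2⟩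
  obtain ⟨ψ, hψ⟩ := A.exists_psi p
  obtain ⟨χ, hχ⟩ := B.exists_psi p
  obtain ⟨σ, hσψ, hσχ⟩ := Ax.exists_sigma p H A B hψ hχ
  obtain ⟨c, hc, hχc⟩ := Ax.exists_c p H A B hψ hχ σ hσψ hσχ
  refine ⟨ψ, σ, c, hc, fun x hx => (hψ x hx).1, fun x hx => (hψ x hx).2, fun x hx => ?_,
    fun x hx y hy => Ax.psi_add A hψ hx hy, fun x hx t => Ax.semi A hψ σ hσψ hx t,
    fun x hx => Ax.form_q p A B hψ hχ σ hσψ hσχ hc hχc hx⟩
  rw [← hχc x hx]
  exact (hχ x hx).2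

end levi

end Cfsg.Agent.Lib.AutPO
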