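import Mathlib
import Cfsg.Agent.Lib.AutPO.Levi2

/-!
Semisimilarities and the automorphisms they induce; generation of `Ω` by Siegel elements at a hyperbolic pair.
-/

set_option autoImplicit false
set_option linter.unusedSectionVars false
set_option linter.unusedVariables false

namespace Cfsg.Agent.Lib.AutPO

open Cfsg.Agent.Lib.Classical.Witt Cfsg.Agent.Lib.Classical.Abs Cfsg.Agent.Lib.Classical.Orth
open scoped commutatorElement
open Module Ln

local notation "P" => QuadraticMap.polarBilin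

variable {F V : Type*} [Field F] [AddCommGroup V] [Module F V] {Q : QuadraticForm F V}

/-- A semisimilarity. -/
structure SS (Q : QuadraticForm F V) where
  g : V ≃+ V
  σ : F ≃+* F
  μ : F
  hμ : μ ≠ 0
  smul : ∀ (t : F) (x : V), g (t • x) = σ t • g x
  q : ∀ x, Q (g x) = μ * σ (Q x)

namespace SS

variable (S : SS Q)

lemma polar (x y : V) : P Q (S.g x) (S.g y) = S.μ * S.σ (P Q x y) := by
  have h1 := Q_add Q (S.g x) (S.g y)
  have h2 := Q_add Q x y
  rw [← map_add S.g, S.q, S.q, S.q, h2, map_add, map_add] at h1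
  linear_combination -h1

lemma symm_smul (t : F) (x : V) : S.g.symm (t • x) = S.σ.symm t • S.g.symm x := by
  apply S.g.injective
  rw [S.smul, AddEquiv.apply_symm_apply, AddEquiv.apply_symm_apply, RingEquiv.apply_symm_apply]

/-- Conjugation by a semisimilarity, on linear maps. -/
noncomputable def conjL (h : V ≃ₗ[F] V) : V ≃ₗ[F] V :=
  AddEquiv.toLinearEquiv (S.g.symm.trans (h.toAddEquiv.trans S.g)) (by
    intro c x
    change S.g (h (S.g.symm (c • x))) = c • S.g (h (S.g.symm x))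
    rw [S.symm_smul, map_smul, S.smul, RingEquiv.apply_symm_apply])

lemma conjL_apply (h : V ≃ₗ[F] V) (x : V) : S.conjL h x = S.g (h (S.g.symm x)) := rfl

/-- Conjugation by a semisimilarity on the isometry group. -/
noncomputable def conj : OG Q →* OG Q where
  toFun h := ⟨S.conjL h.1, fun u _ => by
    change Q (S.g (h.1 (S.g.symm u))) = Q u
    rw [S.q, OG_pres, ← S.q, AddEquiv.apply_symm_apply]⟩
  map_one' := by
    apply OG_ext
    intro v
    change S.g (S.g.symm v) = v
    rw [AddEquiv.apply_symm_apply]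
  map_mul' a b := by
    apply OG_ext
    intro v
    change S.g (a.1 (b.1 (S.g.symm v))) = S.g (a.1 (S.g.symm (S.g (b.1 (S.g.symm v)))))
    rw [AddEquiv.symm_apply_apply]

lemma conj_apply (h : OG Q) (x : V) : (S.conj h).1 x = S.g (h.1 (S.g.symm x)) := rfl

lemma conj_mem {h : OG Q} (hh : h ∈ KK Q) : S.conj h ∈ KK Q := by
  have h1 : (commutator (OG Q)).map S.conj ≤ commutator (OG Q) := by
    rw [commutator_def, Subgroup.map_commutator]
    exact Subgroup.commutator_mono le_top le_top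
  exact h1 (Subgroup.mem_map_of_mem _ hh)

/-- Conjugation by a semisimilarity on Ω. -/
noncomputable def conjK : KK Q →* KK Q where
  toFun h := ⟨S.conj h.1, S.conj_mem h.2⟩
  map_one' := Subtype.ext S.conj.map_one
  map_mul' a b := Subtype.ext (S.conj.map_mul a.1 b.1)

lemma conjK_coe (h : KK Q) : (S.conjK h).1 = S.conj h.1 := rfl

/-- The formula on Siegel elements. -/
lemma conj_sg {a w : V} (ha : Q a = 0) (hw : P Q a w = 0) :
    S.conj (sg Q a w) = sg Q (S.g a) (S.μ⁻¹ • S.g w) := by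
  have hμ := S.hμ
  have qa : Q (S.g a) = 0 := by rw [S.q, ha, map_zero, mul_zero]
  have paw : P Q (S.g a) (S.μ⁻¹ • S.g w) = 0 := by
    rw [map_smul, S.polar, hw, map_zero, mul_zero, smul_zero]
  apply OG_ext
  intro v
  obtain ⟨x, rfl⟩ := S.g.surjective v
  rw [conj_apply, AddEquiv.symm_apply_apply, sg_apply ha hw, sg_apply qa paw]
  simp only [map_sub, map_add, S.smul, map_smul, LinearMap.smul_apply, smul_eq_mul, S.polar, Q_smul, S.q, map_mul]
  have c1 : (S.μ * S.σ (P Q a x)) • S.μ⁻¹ • S.g w = S.σ (P Q a x) • S.g w := by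
    rw [smul_smul, mul_comm S.μ, mul_assoc, mul_inv_cancel₀ hμ, mul_one]
  have c2 : S.μ⁻¹ * (S.μ * S.σ (P Q w x)) = S.σ (P Q w x) := by
    rw [← mul_assoc, inv_mul_cancel₀ hμ, one_mul]
  have c3 : S.μ⁻¹ * S.μ⁻¹ * (S.μ * S.σ (Q w)) * (S.μ * S.σ (P Q a x)) = S.σ (Q w) * S.σ (P Q a x) := by
    field_simp
  rw [c1, c2, c3]

/-- Composing with an isometry. -/
noncomputable def compI (S : SS Q) (g₀ : OG Q) : SS Q where
  g := S.g.trans g₀.1.toAddEquiv
  σ := S.σ
  μ := S.μ
  hμ := S.hμ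
  smul t x := by
    change g₀.1 (S.g (t • x)) = S.σ t • g₀.1 (S.g x)
    rw [S.smul, map_smul]
  q x := by
    change Q (g₀.1 (S.g x)) = _
    rw [OG_pres, S.q]

lemma conj_compI (S : SS Q) (g₀ : OG Q) (h : OG Q) : (S.compI g₀).conj h = g₀ * S.conj h * g₀⁻¹ := by
  apply OG_ext
  intro v
  rfl

end SS

section gen

variable [FiniteDimensional F V] [Fintype F] [hND : ND Q]

lemma sO_conj (g : KK Q) {a w : V} (ha : Q a = 0) (hw : P Q a w = 0) :
    g * sO Q a w * g⁻¹ = sO Q (g.1.1 a) (g.1.1 w) :=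
  Subtype.ext (sg_conj ha hw g.1)

lemma gen_step {H : Subgroup (KK Q)} {e f : V} (he : Q e = 0) (hf : Q f = 0) (hef : P Q e f = 1)
    (h1 : ∀ x, P Q e x = 0 → P Q f x = 0 → sO Q e x ∈ H) (h2 : ∀ x, P Q e x = 0 → P Q f x = 0 → sO Q f x ∈ H)
    {a w : V} (ha : Q a = 0) (hP : P Q f a ≠ 0) (hw : P Q a w = 0) : sO Q a w ∈ H := by
  have hfe : P Q f e = 1 := by rw [pol_comm]; exact hef
  -- the first step: Siegel elements at `e`
  have h1' : ∀ w, P Q e w = 0 → sO Q e w ∈ H := by
    intro w hw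
    obtain ⟨x, hx⟩ : ∃ x, x = w - P Q f w • e := ⟨_, rfl⟩
    have hx1 : P Q e x = 0 := by
      rw [hx, map_sub, map_smul, pol_self_of he, hw]
      simp
    have hx2 : P Q f x = 0 := by
      rw [hx, map_sub, map_smul, hfe]
      simp
    have e1 : sO Q e w = sO Q e x := by
      apply Subtype.ext
      have e0 : w = x + P Q f w • e := by rw [hx]; abel
      rw [sO_coe, sO_coe]
      nth_rw 1 [e0]
      rw [← sg_add he hx1 (by rw [map_smul, pol_self_of he, smul_zero]), sg_self_smul he, mul_one]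
    rw [e1]
    exact h1 x hx1 hx2
  obtain ⟨t, ht⟩ : ∃ t, t = P Q f a := ⟨_, rfl⟩
  rw [← ht] at hP
  obtain ⟨a', ha'⟩ : ∃ a', a' = t⁻¹ • a := ⟨_, rfl⟩
  have qa' : Q a' = 0 := by rw [ha', Q_smul, ha, mul_zero]
  have pfa' : P Q f a' = 1 := by
    rw [ha', map_smul, smul_eq_mul, ← ht, inv_mul_cancel₀ hP]
  obtain ⟨β, hβ⟩ : ∃ β, β = P Q e a' := ⟨_, rfl⟩
  obtain ⟨x, hx⟩ : ∃ x, x = a' - e - β • f := ⟨_, rfl⟩
  have hx1 : P Q e x = 0 := by
    rw [hx, map_sub, map_sub, map_smul, pol_self_of he, hef, ← hβ]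
    simp
  have hx2 : P Q f x = 0 := by
    rw [hx, map_sub, map_sub, map_smul, pol_self_of hf, hfe, pfa']
    simp
  have hqx : Q x = - β := by
    have e1 : a' = e + β • f + x := by rw [hx]; abel
    have e2 := Q_add Q (e + β • f) x
    rw [← e1, qa', Q_add, he, Q_smul, hf] at e2
    simp only [map_add, map_smul, LinearMap.add_apply, LinearMap.smul_apply, hef, hx1, hx2, smul_eq_mul] at e2
    linear_combination -e2
  have hmove : (sg Q f x).1 e = a' := by
    rw [sg_apply hf hx2, hfe, pol_comm Q x e, hx1, hqx, hx]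
    (module)
  have hconj : ∀ w', P Q a' w' = 0 → sO Q a' w' ∈ H := by
    intro w' hw'
    have hinv : (sg Q f x).1 ((sO Q f x)⁻¹.1.1 w') = w' := inv_apply_self (sg Q f x) w'
    have hP0 : P Q e ((sO Q f x)⁻¹.1.1 w') = 0 := by
      rw [← OG_polar (sg Q f x), hmove, hinv, hw']
    have e1 : (sO Q f x) * sO Q e ((sO Q f x)⁻¹.1.1 w') * (sO Q f x)⁻¹ = sO Q a' w' := by
      rw [sO_conj _ he hP0, show (sO Q f x).1.1 e = a' from hmove,
        show (sO Q f x).1.1 ((sO Q f x)⁻¹.1.1 w') = w' from hinv]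
    rw [← e1]
    exact H.mul_mem (H.mul_mem (h2 x hx1 hx2) (h1' _ hP0)) (H.inv_mem (h2 x hx1 hx2))
  have e2 : a = t • a' := by rw [ha', smul_smul, mul_inv_cancel₀ hP, one_smul]
  have hw' : P Q a' w = 0 := by
    rw [ha', map_smul, LinearMap.smul_apply, hw, smul_zero]
  have e3 : sO Q a w = sO Q a' (t • w) := by
    apply Subtype.ext
    rw [sO_coe, sO_coe, e2, sg_smul qa' hw' t]
  rw [e3]
  exact hconj _ (by rw [map_smul, hw', smul_zero])

theorem gen_top {H : Subgroup (KK Q)} {e f : V} (he : Q e = 0) (hf : Q f = 0) (hef : P Q e f = 1)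
    (h1 : ∀ x, P Q e x = 0 → P Q f x = 0 → sO Q e x ∈ H) (h2 : ∀ x, P Q e x = 0 → P Q f x = 0 → sO Q f x ∈ H) :
    H = ⊤ := by
  have hfe : P Q f e = 1 := by rw [pol_comm]; exact hef
  have hn := dim' Q
  have key : ∀ a w, Q a = 0 → P Q a w = 0 → sO Q a w ∈ H := by
    intro a w ha hw
    by_cases hP : P Q f a = 0
    · by_cases hP' : P Q e a = 0
      · by_cases ha0 : a = 0
        · have e1 : sO Q a w = 1 := by
            apply Subtype.ext
            rw [sO_coe, ha0, sg_of_zero]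
            rfl
          rw [e1]
          exact H.one_mem
        · -- a lies in the perp
          obtain ⟨y, hy⟩ := exists_P_eq_one (Q := Q) (nd' Q) ha0
          obtain ⟨b, hb⟩ : ∃ b, b = y - P Q f y • e - P Q e y • f := ⟨_, rfl⟩
          have hb1 : P Q e b = 0 := by
            rw [hb, map_sub, map_sub, map_smul, map_smul, pol_self_of he, hef]
            simp
          have hb2 : P Q f b = 0 := by
            rw [hb, map_sub, map_sub, map_smul, map_smul, pol_self_of hf, hfe]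
            simp
          have hab : P Q a b = 1 := by
            rw [hb, map_sub, map_sub, map_smul, map_smul, hy, pol_comm Q a e, hP', pol_comm Q a f, hP]
            simp
          obtain ⟨a₁, ha₁⟩ : ∃ a₁, a₁ = (sg Q e b).1 a := ⟨_, rfl⟩
          have e1 : a₁ = a - e := by
            rw [ha₁, sg_apply he hb1, hP', pol_comm Q b a, hab]
            simp
          have qa₁ : Q a₁ = 0 := by rw [ha₁, OG_pres, ha]
          have hP₁ : P Q f a₁ ≠ 0 := by
            rw [e1, map_sub, hP, hfe]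
            simp
          have pa₁ : P Q a₁ ((sg Q e b).1 w) = 0 := by
            rw [ha₁, OG_polar, hw]
          have h3 := gen_step he hf hef h1 h2 qa₁ hP₁ pa₁
          have e2 : sO Q a w = (sO Q e b)⁻¹ * sO Q a₁ ((sg Q e b).1 w) * sO Q e b := by
            have h4 := sO_conj (sO Q e b) ha hw
            rw [mul_inv_eq_iff_eq_mul] at h4
            rw [ha₁]
            change _ = (sO Q e b)⁻¹ * sO Q ((sO Q e b).1.1 a) ((sO Q e b).1.1 w) * sO Q e b
            rw [mul_assoc, ← h4, inv_mul_cancel_left]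
          rw [e2]
          exact H.mul_mem (H.mul_mem (H.inv_mem (h1 b hb1 hb2)) h3) (h1 b hb1 hb2)
      · exact gen_step hf he hfe (fun x hx1 hx2 => h2 x hx2 hx1) (fun x hx1 hx2 => h1 x hx2 hx1) ha hP' hw
    · exact gen_step he hf hef h1 h2 ha hP hw
  rw [eq_top_iff]
  intro x _
  have hx : x.1 ∈ EE Q := by
    rw [EE_eq_comm (nd' Q) (by omega)]
    exact x.2
  have key2 : ∀ g ∈ EE Q, ∃ hg : g ∈ KK Q, (⟨g, hg⟩ : KK Q) ∈ H := by
    intro g hg
    induction hg using Subgroup.closure_induction with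
    | mem g hg =>
      obtain ⟨a, w, ha, hw, rfl⟩ := hg
      exact ⟨sg_mem Q a w, key a w ha hw⟩
    | one => exact ⟨Subgroup.one_mem _, H.one_mem⟩
    | mul g g' _ _ ih ih' =>
      obtain ⟨a1, a2⟩ := ih
      obtain ⟨b1, b2⟩ := ih'
      exact ⟨Subgroup.mul_mem _ a1 b1, H.mul_mem a2 b2⟩
    | inv g _ ih =>
      obtain ⟨a1, a2⟩ := ih
      exact ⟨Subgroup.inv_mem _ a1, H.inv_mem a2⟩
  obtain ⟨_, h3⟩ := key2 x.1 hx
  exact h3

end gen

end Cfsg.Agent.Lib.AutPO
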