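import Mathlib
import Cfsg.Agent.Lib.AutPO.SS

/-!
Every automorphism of `PΩ(Q)` is induced by a semisimilarity (abstract form).
-/

set_option autoImplicit false
set_option linter.unusedSectionVars false
set_option linter.unusedVariables false

namespace Cfsg.Agent.Lib.AutPO

open Cfsg.Agent.Lib.Classical.Witt Cfsg.Agent.Lib.Classical.Abs Cfsg.Agent.Lib.Classical.Orth
open scoped commutatorElement
open Module Ln

local notation "P" => QuadraticMap.polarBilin

variable {F V : Type*} [Field F] [AddCommGroup V] [Module F V] {Q : QuadraticForm F V}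

section build

variable [FiniteDimensional F V] [Fintype F] [hND : ND Q]

/-- The projection to the perp of the pair. -/
noncomputable def pr (Q : QuadraticForm F V) (e f v : V) : V := v - P Q f v • e - P Q e v • f

lemma pr_add (e f x y : V) : pr Q e f (x + y) = pr Q e f x + pr Q e f y := by
  simp only [pr, map_add]
  (module)

lemma pr_smul (e f x : V) (t : F) : pr Q e f (t • x) = t • pr Q e f x := by
  simp only [pr, map_smul, smul_eq_mul]
  (module)

lemma pr_mem {e f : V} (he : Q e = 0) (hf : Q f = 0) (hef : P Q e f = 1) (v : V) : pr Q e f v ∈ V0 Q e f := by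
  have hfe : P Q f e = 1 := by rw [pol_comm]; exact hef
  constructor
  · change P Q e (pr Q e f v) = 0
    rw [pr, map_sub, map_sub, map_smul, map_smul, pol_self_of he, hef]
    simp
  · change P Q f (pr Q e f v) = 0
    rw [pr, map_sub, map_sub, map_smul, map_smul, pol_self_of hf, hfe]
    simp

lemma Q_decomp {e f w : V} (he : Q e = 0) (hf : Q f = 0) (hef : P Q e f = 1) (hw : w ∈ V0 Q e f) (α γ : F) :
    Q (α • e + γ • f + w) = α * γ + Q w := by
  have h1 : P Q e w = 0 := hw.1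
  have h2 : P Q f w = 0 := hw.2
  rw [Q_add, Q_add, Q_smul, Q_smul, he, hf]
  simp only [map_add, map_smul, LinearMap.add_apply, LinearMap.smul_apply, hef, h1, h2, smul_eq_mul]
  ring

lemma decomp (e f v : V) : v = P Q f v • e + P Q e v • f + pr Q e f v := by
  rw [pr]
  abel

/-- The semisimilarity built from the action on the perp. -/
noncomputable def gF (Q : QuadraticForm F V) (e f : V) (ψ : V → V) (σ : F ≃+* F) (μ : F) (v : V) : V :=
  (σ (P Q f v) * μ) • e + σ (P Q e v) • f + ψ (pr Q e f v)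

variable {β : PG Q ≃* PG Q} {e f : V} {ψ : V → V} {σ : F ≃+* F} {c : F}

lemma IsLevi.psi_zero (L : IsLevi β e f ψ σ c) : ψ 0 = 0 := by
  have h := L.add 0 (Submodule.zero_mem _) 0 (Submodule.zero_mem _)
  rw [add_zero] at h
  exact left_eq_add.mp h

lemma gF_add (L : IsLevi β e f ψ σ c) (he : Q e = 0) (hf : Q f = 0) (hef : P Q e f = 1) (μ : F) (x y : V) :
    gF Q e f ψ σ μ (x + y) = gF Q e f ψ σ μ x + gF Q e f ψ σ μ y := by
  simp only [gF, map_add, pr_add]
  rw [L.add _ (pr_mem he hf hef x) _ (pr_mem he hf hef y)]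
  (module)

lemma gF_smul (L : IsLevi β e f ψ σ c) (he : Q e = 0) (hf : Q f = 0) (hef : P Q e f = 1) (μ t : F) (x : V) :
    gF Q e f ψ σ μ (t • x) = σ t • gF Q e f ψ σ μ x := by
  simp only [gF, map_smul, pr_smul, smul_eq_mul, map_mul]
  rw [L.smul _ (pr_mem he hf hef x)]
  (module)

lemma gF_q (L : IsLevi β e f ψ σ c) (he : Q e = 0) (hf : Q f = 0) (hef : P Q e f = 1) (x : V) :
    Q (gF Q e f ψ σ c⁻¹ x) = c⁻¹ * σ (Q x) := by
  have hc := L.c0
  have h1 := Q_decomp he hf hef (L.mem _ (pr_mem he hf hef x)) (σ (P Q f x) * c⁻¹) (σ (P Q e x))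
  have h2 := L.q _ (pr_mem he hf hef x)
  have h3 := Q_decomp he hf hef (pr_mem he hf hef x) (P Q f x) (P Q e x)
  rw [← decomp] at h3
  rw [gF, h1, h3, map_add, map_mul, ← h2]
  field_simp

lemma gF_polar (L : IsLevi β e f ψ σ c) (he : Q e = 0) (hf : Q f = 0) (hef : P Q e f = 1) (x y : V) :
    P Q (gF Q e f ψ σ c⁻¹ x) (gF Q e f ψ σ c⁻¹ y) = c⁻¹ * σ (P Q x y) := by
  have h1 := Q_add Q (gF Q e f ψ σ c⁻¹ x) (gF Q e f ψ σ c⁻¹ y)
  have h2 := Q_add Q x y
  rw [← gF_add L he hf hef, gF_q L he hf hef, gF_q L he hf hef, gF_q L he hf hef, h2, map_add, map_add] at h1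
  linear_combination -h1

lemma gF_inj (L : IsLevi β e f ψ σ c) (he : Q e = 0) (hf : Q f = 0) (hef : P Q e f = 1) :
    Function.Bijective (gF Q e f ψ σ c⁻¹) := by
  haveI : Finite V := Module.finite_of_finite F
  have hinj : Function.Injective (gF Q e f ψ σ c⁻¹) := by
    intro x y hxy
    by_contra hne
    have h0 : x - y ≠ 0 := sub_ne_zero.mpr hne
    obtain ⟨z, hz⟩ := exists_P_eq_one (Q := Q) (nd' Q) h0
    have h1 := gF_polar L he hf hef (x - y) z
    have h2 : gF Q e f ψ σ c⁻¹ (x - y) = 0 := by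
      have h3 := gF_add L he hf hef c⁻¹ (x - y) y
      rw [sub_add_cancel, hxy] at h3
      exact (left_eq_add.mp (by rw [add_comm]; exact h3))
    rw [hz, h2, map_one, mul_one] at h1
    have h3 : c⁻¹ ≠ 0 := inv_ne_zero L.c0
    apply h3
    rw [← h1]
    simp
  exact ⟨hinj, Finite.injective_iff_surjective.mp hinj⟩

/-- The semisimilarity attached to the analysis. -/
noncomputable def IsLevi.toSS (L : IsLevi β e f ψ σ c) (he : Q e = 0) (hf : Q f = 0) (hef : P Q e f = 1) : SS Q where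
  g := AddEquiv.ofBijective (AddMonoidHom.mk' (gF Q e f ψ σ c⁻¹) (gF_add L he hf hef c⁻¹)) (gF_inj L he hf hef)
  σ := σ
  μ := c⁻¹
  hμ := inv_ne_zero L.c0
  smul t x := gF_smul L he hf hef c⁻¹ t x
  q x := gF_q L he hf hef x

lemma toSS_g (L : IsLevi β e f ψ σ c) (he : Q e = 0) (hf : Q f = 0) (hef : P Q e f = 1) (v : V) :
    (L.toSS he hf hef).g v = gF Q e f ψ σ c⁻¹ v := rfl

lemma gF_e (L : IsLevi β e f ψ σ c) (he : Q e = 0) (hf : Q f = 0) (hef : P Q e f = 1) :
    gF Q e f ψ σ c⁻¹ e = c⁻¹ • e := by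
  have hfe : P Q f e = 1 := by rw [pol_comm]; exact hef
  have h1 : pr Q e f e = 0 := by
    rw [pr, hfe, pol_self_of he]
    simp
  rw [gF, h1, L.psi_zero, hfe, pol_self_of he]
  simp

lemma gF_f (L : IsLevi β e f ψ σ c) (he : Q e = 0) (hf : Q f = 0) (hef : P Q e f = 1) :
    gF Q e f ψ σ c⁻¹ f = f := by
  have h1 : pr Q e f f = 0 := by
    rw [pr, hef, pol_self_of hf]
    simp
  rw [gF, h1, L.psi_zero, hef, pol_self_of hf]
  simp

lemma gF_mem (L : IsLevi β e f ψ σ c) {x : V} (hx : x ∈ V0 Q e f) : gF Q e f ψ σ c⁻¹ x = ψ x := by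
  have h1 : P Q e x = 0 := hx.1
  have h2 : P Q f x = 0 := hx.2
  have h3 : pr Q e f x = x := by
    rw [pr, h1, h2]
    simp
  rw [gF, h3, h1, h2]
  simp

/-- The automorphism agrees with the semisimilarity on Ω. -/
theorem levi_eq_conj (L : IsLevi β e f ψ σ c) (he : Q e = 0) (hf : Q f = 0) (hef : P Q e f = 1) (s : KK Q) :
    β (mk Q s) = mk Q ((L.toSS he hf hef).conjK s) := by
  have hc := L.c0
  set S := L.toSS he hf hef with hS
  let E : Subgroup (KK Q) := MonoidHom.eqLocus ((β : PG Q →* PG Q).comp (mk Q)) ((mk Q).comp S.conjK)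
  have hE : E = ⊤ := by
    apply gen_top he hf hef
    · intro x h1 h2
      have hx : x ∈ V0 Q e f := ⟨h1, h2⟩
      change β (mk Q (sO Q e x)) = mk Q (S.conjK (sO Q e x))
      have e1 : S.conjK (sO Q e x) = sO Q e (ψ x) := by
        apply Subtype.ext
        rw [SS.conjK_coe, sO_coe, sO_coe, S.conj_sg he h1]
        change sg Q (gF Q e f ψ σ c⁻¹ e) (c⁻¹⁻¹ • gF Q e f ψ σ c⁻¹ x) = _
        have h3 : P Q e (ψ x) = 0 := (L.mem x hx).1
        rw [gF_e L he hf hef, gF_mem L hx, inv_inv, sg_smul he (by rw [map_smul, h3, smul_zero]), smul_smul,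
          inv_mul_cancel₀ hc, one_smul]
      rw [e1]
      exact L.rel_e x hx
    · intro x h1 h2
      have hx : x ∈ V0 Q e f := ⟨h1, h2⟩
      change β (mk Q (sO Q f x)) = mk Q (S.conjK (sO Q f x))
      have e1 : S.conjK (sO Q f x) = sO Q f (c • ψ x) := by
        apply Subtype.ext
        rw [SS.conjK_coe, sO_coe, sO_coe, S.conj_sg hf h2]
        change sg Q (gF Q e f ψ σ c⁻¹ f) (c⁻¹⁻¹ • gF Q e f ψ σ c⁻¹ x) = _
        rw [gF_f L he hf hef, gF_mem L hx, inv_inv]
      rw [e1]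
      exact L.rel_f x hx
  have hs : s ∈ E := by
    rw [hE]
    trivial
  exact hs

end build

section main

variable [FiniteDimensional F V] [Fintype F] [hND : ND Q]

/-- Every automorphism of `PΩ(Q)` is induced by a semisimilarity. -/
theorem exists_SS_good (β : PG Q ≃* PG Q) (H : Good β) :
    ∃ S : SS Q, ∀ s : KK Q, β (mk Q s) = mk Q (S.conjK s) := by
  obtain ⟨p, hp⟩ := CharP.exists F
  haveI : Fact p.Prime := ⟨CharP.char_is_prime F p⟩
  have hn := dim' Q
  obtain ⟨e, he0, he, -⟩ := exists_sing_perp (Q := Q) (nd' Q) ![] (by simp; omega)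
  obtain ⟨f, hf, hef⟩ := exists_partner (nd' Q) he0 he
  obtain ⟨g₀, hN⟩ := exists_nrm p β H he hf hef
  obtain ⟨ψ, σ, c, L⟩ := levi p (H.nrm p g₀) he hf hef hN
  refine ⟨(L.toSS he hf hef).compI g₀⁻¹.1, fun s => ?_⟩
  have h1 := levi_eq_conj L he hf hef s
  rw [nrm_apply] at h1
  have e1 : (((L.toSS he hf hef).compI g₀⁻¹.1).conjK s) = g₀⁻¹ * (L.toSS he hf hef).conjK s * g₀ := by
    apply Subtype.ext
    rw [SS.conjK_coe, SS.conj_compI]
    rfl
  rw [e1, map_mul, map_mul, ← h1, map_inv]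
  group

/-- Every automorphism of `PΩ(Q)` is induced by a semisimilarity. -/
theorem exists_SS (H : 9 ≤ finrank F V ∨ NoSkew Q) (β : PG Q ≃* PG Q) :
    ∃ S : SS Q, ∀ s : KK Q, β (mk Q s) = mk Q (S.conjK s) := by
  obtain ⟨p, hp⟩ := CharP.exists F
  haveI : Fact p.Prime := ⟨CharP.char_is_prime F p⟩
  exact exists_SS_good β (good_of_H p H β)

end main

end Cfsg.Agent.Lib.AutPO
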