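import Mathlib
import Cfsg.Agent.Lib.AutPO.Abs

/-!
The action of semisimilarities on `PΩ(Q)`: composition and uniqueness.
-/

set_option autoImplicit false
set_option linter.unusedSectionVars false
set_option linter.unusedVariables false

namespace Cfsg.Agent.Lib.AutPO

open Cfsg.Agent.Lib.Classical Cfsg.Agent.Lib.Classical.Witt Cfsg.Agent.Lib.Classical.Abs Cfsg.Agent.Lib.Classical.Orth
open scoped commutatorElement
open Module Ln

local notation "P" => QuadraticMap.polarBilin

variable {F V : Type*} [Field F] [AddCommGroup V] [Module F V] {Q : QuadraticForm F V}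

namespace SS

/-- Composition of semisimilarities. -/
def comp (S S' : SS Q) : SS Q where
  g := S'.g.trans S.g
  σ := S'.σ.trans S.σ
  μ := S.μ * S.σ S'.μ
  hμ := mul_ne_zero S.hμ (by simpa using S'.hμ)
  smul t x := by
    change S.g (S'.g (t • x)) = S.σ (S'.σ t) • S.g (S'.g x)
    rw [S'.smul, S.smul]
  q x := by
    change Q (S.g (S'.g x)) = S.μ * S.σ S'.μ * S.σ (S'.σ (Q x))
    rw [S.q, S'.q, map_mul, mul_assoc]

/-- The identity. -/
def one (Q : QuadraticForm F V) : SS Q where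
  g := AddEquiv.refl V
  σ := RingEquiv.refl F
  μ := 1
  hμ := one_ne_zero
  smul _ _ := rfl
  q x := by simp

/-- The inverse. -/
def inv (S : SS Q) : SS Q where
  g := S.g.symm
  σ := S.σ.symm
  μ := S.σ.symm S.μ⁻¹
  hμ := by
    simpa using S.hμ
  smul := S.symm_smul
  q x := by
    apply S.σ.injective
    have h1 := S.q (S.g.symm x)
    rw [AddEquiv.apply_symm_apply] at h1
    rw [map_mul, RingEquiv.apply_symm_apply, RingEquiv.apply_symm_apply, h1]
    have := S.hμ
    field_simp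

lemma comp_g (S S' : SS Q) (x : V) : (S.comp S').g x = S.g (S'.g x) := rfl

lemma comp_σ (S S' : SS Q) : (S.comp S').σ = S.σ * S'.σ := rfl

lemma inv_g (S : SS Q) (x : V) : S.inv.g x = S.g.symm x := rfl

lemma conj_comp (S S' : SS Q) (h : OG Q) : (S.comp S').conj h = S.conj (S'.conj h) := by
  apply OG_ext
  intro v
  rfl

lemma conj_inv_left (S : SS Q) (h : OG Q) : S.inv.conj (S.conj h) = h := by
  apply OG_ext
  intro v
  change S.g.symm (S.g (h.1 (S.g.symm (S.g.symm.symm v)))) = h.1 v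
  simp

lemma conj_inv_right (S : SS Q) (h : OG Q) : S.conj (S.inv.conj h) = h := by
  apply OG_ext
  intro v
  change S.g (S.g.symm (h.1 (S.g.symm.symm (S.g.symm v)))) = h.1 v
  simp

/-- Conjugation on Ω as an isomorphism. -/
noncomputable def conjE (S : SS Q) : KK Q ≃* KK Q where
  toFun := S.conjK
  invFun := S.inv.conjK
  left_inv s := Subtype.ext (S.conj_inv_left s.1)
  right_inv s := Subtype.ext (S.conj_inv_right s.1)
  map_mul' := S.conjK.map_mul

lemma conjE_apply (S : SS Q) (s : KK Q) : S.conjE s = S.conjK s := rfl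

end SS

section act

variable [FiniteDimensional F V] [Fintype F] [hND : ND Q]

/-- The automorphism of the projective group. -/
noncomputable def SS.actP (S : SS Q) : MulAut (PG Q) :=
  QuotientGroup.congr _ _ S.conjE (RC.map_center_eq S.conjE)

lemma actP_mk (S : SS Q) (s : KK Q) : S.actP (mk Q s) = mk Q (S.conjK s) := rfl

lemma eq_actP (β : MulAut (PG Q)) (S : SS Q) (h : ∀ s, β (mk Q s) = mk Q (S.conjK s)) : β = S.actP := by
  ext x
  obtain ⟨s, rfl⟩ := mk_surj x
  rw [h, actP_mk]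

lemma actP_comp (S S' : SS Q) : (S.comp S').actP = S.actP * S'.actP := by
  symm
  apply eq_actP
  intro s
  change S.actP (S'.actP (mk Q s)) = _
  rw [actP_mk, actP_mk]
  congr 1

lemma actP_one : (SS.one Q).actP = 1 := by
  symm
  apply eq_actP
  intro s
  change mk Q s = _
  congr 1

lemma actP_inv (S : SS Q) : S.inv.actP = S.actP⁻¹ := by
  apply eq_inv_of_mul_eq_one_left
  rw [← actP_comp]
  symm
  apply eq_actP
  intro s
  change mk Q s = _
  congr 1
  exact Subtype.ext (S.conj_inv_left s.1).symm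

/-- The line mapped by a semisimilarity. -/
def SS.mapLn (T : SS Q) (W : Ln Q) : Ln Q where
  a := T.g W.a
  b := T.g W.b
  qa := by rw [T.q, W.qa, map_zero, mul_zero]
  qb := by rw [T.q, W.qb, map_zero, mul_zero]
  pab := by rw [T.polar, W.pab, map_zero, mul_zero]
  na := by simpa using W.na
  nb := by
    intro c h
    apply W.nb (T.σ.symm c)
    apply T.g.injective
    rw [h, T.smul, RingEquiv.apply_symm_apply]

lemma sp_eq_of_mem {W W' : Ln Q} (h1 : rt Q W.a ((1 : F) • W.b) ∈ RG W') : W.sp = W'.sp := by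
  obtain ⟨t, ht⟩ := h1
  rw [one_smul] at ht
  have h2 := sg_eq_of_rt_eq W.qa W.pab W'.qa (by rw [map_smul, W'.pab, smul_zero]) ht
  have hq : Q (t • W'.b) = 0 := by rw [Q_smul, W'.qb, mul_zero]
  obtain ⟨h3, h4⟩ := mem_of_sg_eq W W'.qa hq (by rw [map_smul, W'.pab, smul_zero]) h2
  have hle : Submodule.span F {W'.a, t • W'.b} ≤ W'.sp := by
    apply Submodule.span_le.mpr
    rintro x (rfl | rfl)
    · exact W'.a_mem
    · exact Submodule.smul_mem _ _ W'.b_mem
  exact Ln.sp_eq W W' (hle h3) (hle h4)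

lemma actP_sO (T : SS Q) {a w : V} (ha : Q a = 0) (hw : P Q a w = 0) :
    T.actP (rt Q a w) = rt Q (T.g a) (T.μ⁻¹ • T.g w) := by
  rw [rt_def, actP_mk, rt_def]
  congr 1
  exact Subtype.ext (T.conj_sg ha hw)

lemma sp_of_act (T : SS Q) (h : T.actP = 1) (W : Ln Q) : W.sp = (T.mapLn W).sp := by
  apply sp_eq_of_mem
  rw [one_smul]
  have h1 := actP_sO T W.qa W.pab
  rw [h] at h1
  change rt Q W.a W.b = rt Q (T.g W.a) (T.μ⁻¹ • T.g W.b) at h1
  rw [h1]
  exact rt_mem_RG (T.mapLn W) T.μ⁻¹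

lemma map_mem_sp (T : SS Q) (W : Ln Q) {x : V} (hx : x ∈ W.sp) : T.g x ∈ (T.mapLn W).sp := by
  obtain ⟨α, β, rfl⟩ := mem_sp.mp hx
  rw [map_add, T.smul, T.smul]
  exact mem_sp.mpr ⟨T.σ α, T.σ β, rfl⟩

lemma connect' {s₁ s₂ : V} (q₁ : Q s₁ = 0) (q₂ : Q s₂ = 0) (n₁ : s₁ ≠ 0) (n₂ : s₂ ≠ 0) :
    ∃ z, Q z = 0 ∧ z ≠ 0 ∧ P Q s₁ z = 0 ∧ P Q s₂ z = 0 ∧ (∀ c : F, z ≠ c • s₁) ∧ (∀ c : F, z ≠ c • s₂) := by
  have hn : 7 ≤ finrank F V := dim' Q
  by_cases hp : P Q s₁ s₂ = 0
  · by_cases hi : ∀ c : F, s₂ ≠ c • s₁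
    · refine ⟨s₁ + s₂, ?_, ?_, ?_, ?_, ?_, ?_⟩
      · rw [Q_add, q₁, q₂, hp]
        simp
      · intro h
        apply hi (-1)
        rw [neg_smul, one_smul]
        exact eq_neg_of_add_eq_zero_right h
      · rw [map_add, pol_self_of q₁, hp, add_zero]
      · rw [map_add, pol_self_of q₂, pol_comm, hp, add_zero]
      · intro c hc
        apply hi (c - 1)
        rw [sub_smul, one_smul, ← hc]
        abel
      · intro c hc
        apply Ax.indep_symm n₁ hi (c - 1)
        rw [sub_smul, one_smul, ← hc]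
        abel
    · push Not at hi
      obtain ⟨c, rfl⟩ := hi
      obtain ⟨y, hy⟩ := exists_P_eq_one (Q := Q) (nd' Q) n₁
      obtain ⟨z, hz0, hqz, hz⟩ := exists_sing_perp (Q := Q) (nd' Q) ![s₁, y] (by simp; omega)
      have a2 := hz 0
      have a3 := hz 1
      simp only [Matrix.cons_val_zero, Matrix.cons_val_one] at a2 a3
      have key : ∀ d : F, z ≠ d • s₁ := by
        intro d hd
        rw [hd, map_smul, pol_comm, hy, smul_eq_mul, mul_one] at a3
        rw [hd, a3, zero_smul] at hz0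
        exact hz0 rfl
      refine ⟨z, hqz, hz0, a2, ?_, key, ?_⟩
      · rw [map_smul, LinearMap.smul_apply, a2, smul_zero]
      · intro d hd
        rw [smul_smul] at hd
        exact key _ hd
  · obtain ⟨z, hz0, hqz, hz⟩ := exists_sing_perp (Q := Q) (nd' Q) ![s₁, s₂] (by simp; omega)
    have a2 := hz 0
    have a3 := hz 1
    simp only [Matrix.cons_val_zero, Matrix.cons_val_one] at a2 a3
    refine ⟨z, hqz, hz0, a2, a3, ?_, ?_⟩
    · intro d hd
      rw [hd, map_smul, pol_comm, smul_eq_mul] at a3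
      have hd0 : d = 0 := (mul_eq_zero.mp a3).resolve_right hp
      rw [hd, hd0, zero_smul] at hz0
      exact hz0 rfl
    · intro d hd
      rw [hd, map_smul, smul_eq_mul] at a2
      have hd0 : d = 0 := (mul_eq_zero.mp a2).resolve_right hp
      rw [hd, hd0, zero_smul] at hz0
      exact hz0 rfl

/-- A semisimilarity acting trivially is a scalar. -/
theorem scalar_of_act (T : SS Q) (h : T.actP = 1) : T.σ = RingEquiv.refl F ∧ ∃ l : F, l ≠ 0 ∧ ∀ v, T.g v = l • v := by
  have hn : 7 ≤ finrank F V := dim' Q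
  -- singular points are fixed
  have h1 : ∀ a, a ≠ 0 → Q a = 0 → ∃ c : F, T.g a = c • a := by
    intro a ha0 ha
    have h2 : T.g a ∈ Submodule.span F {a} := by
      apply inter_lines ha0 ha
      intro W hW
      rw [sp_of_act T h W]
      exact map_mem_sp T W hW
    obtain ⟨c, hc⟩ := Submodule.mem_span_singleton.mp h2
    exact ⟨c, hc.symm⟩
  -- propagation along orthogonal independent pairs
  have h2 : ∀ (l : F) (e a : V), T.g e = l • e → e ≠ 0 → Q e = 0 → a ≠ 0 → Q a = 0 → P Q e a = 0 → (∀ c : F, a ≠ c • e) →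
      T.g a = l • a := by
    intro l e a he he0 qe ha0 qa hp hi
    have hq : Q (e + a) = 0 := by
      rw [Q_add, qe, qa, hp]
      simp
    have hne : e + a ≠ 0 := by
      intro h0
      apply hi (-1)
      rw [neg_smul, one_smul]
      exact eq_neg_of_add_eq_zero_right h0
    obtain ⟨c₃, h3⟩ := h1 _ hne hq
    obtain ⟨c₁, h4⟩ := h1 _ ha0 qa
    rw [map_add, he, h4] at h3
    have h5 : (c₃ - c₁) • a = (l - c₃) • e := by
      have h6 : l • e + c₁ • a - c₃ • (e + a) = 0 := sub_eq_zero.mpr h3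
      have h7 : (c₃ - c₁) • a - (l - c₃) • e = -(l • e + c₁ • a - c₃ • (e + a)) := by
        (module)
      exact sub_eq_zero.mp (by rw [h7, h6, neg_zero])
    have h6 : c₃ = c₁ := by
      by_contra hne'
      have hne2 : c₃ - c₁ ≠ 0 := sub_ne_zero.mpr hne'
      apply hi ((c₃ - c₁)⁻¹ * (l - c₃))
      rw [mul_smul, ← h5, smul_smul, inv_mul_cancel₀ hne2, one_smul]
    rw [h6, sub_self, zero_smul] at h5
    have h7 : l = c₁ := by
      have := (smul_eq_zero.mp h5.symm).resolve_right he0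
      rw [sub_eq_zero] at this
      exact this.trans h6.symm |>.trans h6
    rw [h4, h7]
  obtain ⟨e, he0, qe, -⟩ := exists_sing_perp (Q := Q) (nd' Q) ![] (by simp; omega)
  obtain ⟨l, hl⟩ := h1 e he0 qe
  have hl0 : l ≠ 0 := by
    rintro rfl
    rw [zero_smul] at hl
    exact he0 (by simpa using hl)
  have h3 : ∀ a, a ≠ 0 → Q a = 0 → T.g a = l • a := by
    intro a ha0 qa
    obtain ⟨z, qz, hz0, p1, p2, i1, i2⟩ := connect' qe qa he0 ha0
    have hz : T.g z = l • z := h2 l e z hl he0 qe hz0 qz p1 i1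
    exact h2 l z a hz hz0 qz ha0 qa (by rw [pol_comm]; exact p2) (Ax.indep_symm ha0 i2)
  have h4 : ∀ t, T.σ t = t := by
    intro t
    by_cases ht : t = 0
    · rw [ht, map_zero]
    have h5 := h3 (t • e) (smul_ne_zero ht he0) (by rw [Q_smul, qe, mul_zero])
    rw [T.smul, hl, smul_smul, smul_smul] at h5
    have h6 := smul_left_injective F he0 h5
    exact mul_right_cancel₀ hl0 (by rw [h6, mul_comm])
  have h5 : ∀ v, T.g v = l • v := by
    intro v
    have hv : v ∈ LinearMap.BilinForm.orthogonal (P Q) ⊥ := mem_orth.mpr (fun u hu => by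
      rw [(Submodule.mem_bot F).mp hu]
      simp)
    have hm := span_singular (nd' Q) ⊥ (by rw [finrank_bot]; omega) hv
    clear hv
    induction hm using Submodule.span_induction with
    | mem s hs =>
      by_cases h0 : s = 0
      · rw [h0]
        simp
      · exact h3 s h0 hs.2
    | zero => simp
    | add x y _ _ ihx ihy => rw [map_add, ihx, ihy, smul_add]
    | smul a x _ ih => rw [T.smul, ih, h4, smul_comm]
  exact ⟨RingEquiv.ext h4, l, hl0, h5⟩

theorem act_eq {S S' : SS Q} (h : S.actP = S'.actP) : S.σ = S'.σ ∧ ∃ l : F, l ≠ 0 ∧ ∀ v, S'.g v = l • S.g v := by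
  have h1 : (S.inv.comp S').actP = 1 := by rw [actP_comp, actP_inv, ← h, inv_mul_cancel]
  obtain ⟨h2, l, hl, h3⟩ := scalar_of_act _ h1
  refine ⟨?_, S.σ l, by simpa using hl, fun v => ?_⟩
  · ext t
    have h4 : S.σ.symm (S'.σ t) = t := congrArg (fun τ : F ≃+* F => τ t) h2
    rw [← h4, RingEquiv.apply_symm_apply, h4]
  · have h4 : S.g.symm (S'.g v) = l • v := h3 v
    apply S.g.symm.injective
    rw [h4, ← S.smul, AddEquiv.symm_apply_apply]

end act

end Cfsg.Agent.Lib.AutPO
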