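import Mathlib
import Cfsg.Agent.Lib.AutPO.Abs
import Cfsg.Agent.Lib.Classical.OrderMinus
import Cfsg.Agent.Lib.Classical.OrderForms
import Cfsg.Prelude.Def_LieTypeDatum

/-!
From the abstract theorem to the matrix statement `gammaPOmega F Q = ⊤`.
-/

set_option autoImplicit false
set_option linter.unusedSectionVars false
set_option linter.unusedVariables false

open scoped Matrix

namespace Cfsg.Agent.Lib.AutPO

open Cfsg.Agent.Lib.Classical Cfsg.Agent.Lib.Classical.Witt Cfsg.Agent.Lib.Classical.Abs Cfsg.Agent.Lib.Classical.Orth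
open scoped commutatorElement
open Module Ln

local notation "P" => QuadraticMap.polarBilin

variable {ι : Type} [Fintype ι] [DecidableEq ι] {F : Type*} [Field F] [Fintype F] {Q : QuadraticForm F (ι → F)}

/-- The projective groups correspond. -/
noncomputable def toPG (Q : QuadraticForm F (ι → F)) : Cfsg.POmega F (⇑Q) ≃* PG Q :=
  QuotientGroup.congr _ _ (omegaEquiv Q) (RC.map_center_eq (omegaEquiv Q))

/-- Coordinatewise action of a field automorphism. -/
def hat (σ : F ≃+* F) : (ι → F) ≃+ (ι → F) := AddEquiv.piCongrRight fun _ => σ.toAddEquiv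

lemma hat_apply (σ : F ≃+* F) (v : ι → F) : hat σ v = fun i => σ (v i) := rfl

lemma hat_smul (σ : F ≃+* F) (t : F) (v : ι → F) : hat σ (t • v) = σ t • hat σ v := by
  ext i
  simp [hat_apply]

lemma hat_symm_apply (σ : F ≃+* F) (v : ι → F) : (hat σ).symm v = hat σ.symm v := rfl

/-- The linear map attached to a semisimilarity. -/
noncomputable def SS.lin (S : SS Q) : (ι → F) ≃ₗ[F] (ι → F) :=
  AddEquiv.toLinearEquiv ((hat S.σ.symm).trans S.g) (by
    intro c x
    change S.g (hat S.σ.symm (c • x)) = c • S.g (hat S.σ.symm x)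
    rw [hat_smul, S.smul, RingEquiv.apply_symm_apply])

lemma SS.lin_apply (S : SS Q) (v : ι → F) : S.lin v = S.g (hat S.σ.symm v) := rfl

lemma SS.lin_hat (S : SS Q) (v : ι → F) : S.lin (hat S.σ v) = S.g v := by
  rw [S.lin_apply]
  congr 1
  ext i
  simp [hat_apply]

/-- Every automorphism comes from a semisimilarity, in matrix form. -/
theorem gamma_top (Q : QuadraticForm F (ι → F)) [hND : ND Q] (H : 9 ≤ finrank F (ι → F) ∨ NoSkew Q) :
    Cfsg.gammaPOmega F (⇑Q) = ⊤ := by
  rw [eq_top_iff]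
  intro β _
  apply Subgroup.subset_closure
  let β' : PG Q ≃* PG Q := (toPG Q).symm.trans (MulEquiv.trans β (toPG Q))
  obtain ⟨S, hS⟩ := exists_SS H β'
  let M : Matrix.GeneralLinearGroup ι F := glLin.symm S.lin
  have hM : ∀ v, (M : Matrix ι ι F) *ᵥ v = S.lin v := by
    intro v
    rw [← glLin_apply, MulEquiv.apply_symm_apply]
  have hMi : ∀ v, ((M⁻¹ : Matrix.GeneralLinearGroup ι F) : Matrix ι ι F) *ᵥ (S.g v) = hat S.σ v := by
    intro v
    rw [← glLin_apply, map_inv, MulEquiv.apply_symm_apply, ← S.lin_hat]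
    exact S.lin.symm_apply_apply _
  refine ⟨M, S.σ, ⟨Units.mk0 S.μ S.hμ, fun v => ?_⟩, ?_⟩
  · rw [hM]
    have := S.lin_hat v
    rw [hat_apply] at this
    rw [this, S.q]
    rfl
  · intro s s' hss
    apply (toPG Q).injective
    have key : S.conjK (omegaEquiv Q s) = omegaEquiv Q s' := by
      apply Subtype.ext
      apply OG_ext
      intro v
      obtain ⟨u, rfl⟩ := S.g.surjective v
      change S.g ((toOG Q s.1).1 (S.g.symm (S.g u))) = (toOG Q s'.1).1 (S.g u)
      rw [AddEquiv.symm_apply_apply, toOG_apply, toOG_apply, hss, ← Matrix.mulVec_mulVec, ← Matrix.mulVec_mulVec, hMi, hM]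
      rw [← S.lin_hat]
      congr 1
      ext i
      rw [hat_apply]
      change _ = ((Matrix.map _ _) *ᵥ _) i
      exact RingHom.map_mulVec (S.σ : F →+* F) _ u i
    have e1 : (toPG Q) (β (QuotientGroup.mk s)) = β' ((toPG Q) (QuotientGroup.mk s)) := by
      simp [β']
    rw [e1]
    have e2 : (toPG Q) (QuotientGroup.mk s) = mk Q (omegaEquiv Q s) := rfl
    have e3 : (toPG Q) (QuotientGroup.mk s') = mk Q (omegaEquiv Q s') := rfl
    rw [e2, e3, hS, key]

end Cfsg.Agent.Lib.AutPO
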