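import Mathlib
import Cfsg.Agent.Lib.AutPO.Act
import Cfsg.Agent.Lib.AutPO.Bridge
import Cfsg.Agent.Lib.Known3.SimAut15

/-!
The action of semisimilarities on `POmega`, and the field automorphism attached to an automorphism.
-/

set_option autoImplicit false
set_option linter.unusedSectionVars false
set_option linter.unusedVariables false

open scoped Matrix

namespace Cfsg.Agent.Lib.AutPO

open Cfsg.Agent.Lib.Classical Cfsg.Agent.Lib.Classical.Witt Cfsg.Agent.Lib.Classical.Abs Cfsg.Agent.Lib.Classical.Orth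
open Cfsg.Agent.Lib.Known3.SimAut
open scoped commutatorElement
open Module Ln

local notation "P" => QuadraticMap.polarBilin

variable {ι : Type} [Fintype ι] [DecidableEq ι] {F : Type*} [Field F] [Fintype F] {Q : QuadraticForm F (ι → F)} [hND : ND Q]

/-- The automorphism of `POmega` induced by a semisimilarity. -/
noncomputable def act (S : SS Q) : MulAut (Cfsg.POmega F (⇑Q)) := (toPG Q).trans (S.actP.trans (toPG Q).symm)

lemma toPG_act (S : SS Q) (x : Cfsg.POmega F (⇑Q)) : toPG Q (act S x) = S.actP (toPG Q x) := by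
  simp [act]

lemma act_mk (S : SS Q) (s : Cfsg.Omega F (⇑Q)) :
    toPG Q (act S (QuotientGroup.mk s)) = mk Q (S.conjK (omegaEquiv Q s)) := toPG_act S _

lemma act_comp (S S' : SS Q) : act (S.comp S') = act S * act S' := by
  ext x
  apply (toPG Q).injective
  change toPG Q (act (S.comp S') x) = toPG Q (act S (act S' x))
  rw [toPG_act, toPG_act, toPG_act, actP_comp]
  rfl

lemma act_one : act (SS.one Q) = 1 := by
  ext x
  apply (toPG Q).injective
  rw [toPG_act, actP_one]
  rfl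

lemma act_inj {S S' : SS Q} (h : act S = act S') : S.actP = S'.actP := by
  ext x
  obtain ⟨y, rfl⟩ := (toPG Q).surjective x
  rw [← toPG_act, ← toPG_act, h]

/-- Acting only depends on the additive map. -/
lemma act_congr {S S' : SS Q} (h : ∀ v, S.g v = S'.g v) : act S = act S' := by
  ext x
  apply (toPG Q).injective
  rw [toPG_act, toPG_act]
  obtain ⟨s, hs⟩ := mk_surj (toPG Q x)
  rw [← hs, actP_mk, actP_mk]
  congr 1
  apply Subtype.ext
  apply OG_ext
  intro v
  change S.g (s.1.1 (S.g.symm v)) = S'.g (s.1.1 (S'.g.symm v))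
  have : S.g = S'.g := AddEquiv.ext h
  rw [this]

lemma act_surj (H : 9 ≤ finrank F (ι → F) ∨ NoSkew Q) (β : MulAut (Cfsg.POmega F (⇑Q))) : ∃ S : SS Q, act S = β := by
  let β' : PG Q ≃* PG Q := (toPG Q).symm.trans (MulEquiv.trans β (toPG Q))
  obtain ⟨S, hS⟩ := exists_SS H β'
  refine ⟨S, ?_⟩
  ext x
  apply (toPG Q).injective
  rw [toPG_act]
  obtain ⟨s, hs⟩ := mk_surj (toPG Q x)
  rw [← hs, actP_mk, ← hS, hs]
  simp [β']

/-- The matrix of a semisimilarity. -/
noncomputable def matOf (S : SS Q) : Matrix.GeneralLinearGroup ι F := glLin.symm S.lin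

lemma matOf_mulVec (S : SS Q) (v : ι → F) : (matOf S : Matrix ι ι F) *ᵥ v = S.lin v := by
  rw [← glLin_apply, matOf, MulEquiv.apply_symm_apply]

lemma matOf_inv_mulVec (S : SS Q) (v : ι → F) :
    ((matOf S)⁻¹ : Matrix.GeneralLinearGroup ι F).1 *ᵥ (S.g v) = hat S.σ v := by
  rw [← glLin_apply, map_inv, matOf, MulEquiv.apply_symm_apply, ← S.lin_hat]
  exact S.lin.symm_apply_apply _

lemma act_induced (S : SS Q) : Cfsg.IsInducedBySemilinearPOmega (⇑Q) (matOf S) S.σ (act S) := by
  intro s s' hss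
  apply (toPG Q).injective
  rw [act_mk]
  have key : S.conjK (omegaEquiv Q s) = omegaEquiv Q s' := by
    apply Subtype.ext
    apply OG_ext
    intro v
    obtain ⟨u, rfl⟩ := S.g.surjective v
    change S.g ((toOG Q s.1).1 (S.g.symm (S.g u))) = (toOG Q s'.1).1 (S.g u)
    rw [AddEquiv.symm_apply_apply, toOG_apply, toOG_apply, hss, ← Matrix.mulVec_mulVec, ← Matrix.mulVec_mulVec,
      matOf_inv_mulVec, matOf_mulVec]
    rw [← S.lin_hat]
    congr 1
    ext i
    rw [hat_apply]
    change _ = ((Matrix.map _ _) *ᵥ _) i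
    exact RingHom.map_mulVec (S.σ : F →+* F) _ u i
  rw [key]
  rfl

/-- A similarity as a semisimilarity. -/
noncomputable def ofSim (g : Sim (⇑Q)) : SS Q where
  g := (glLin g.1).toAddEquiv
  σ := RingEquiv.refl F
  μ := (g.2.choose : Fˣ)
  hμ := Units.ne_zero _
  smul t x := map_smul (glLin g.1) t x
  q x := by
    change Q (glLin g.1 x) = _
    rw [glLin_apply]
    exact g.2.choose_spec x

lemma ofSim_g (g : Sim (⇑Q)) (v : ι → F) : (ofSim g).g v = (g.1 : Matrix ι ι F) *ᵥ v := glLin_apply g.1 v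

lemma ofSim_σ (g : Sim (⇑Q)) : (ofSim g).σ = 1 := rfl

lemma matOf_ofSim (g : Sim (⇑Q)) : matOf (ofSim g) = g.1 := by
  rw [matOf, MulEquiv.symm_apply_eq]
  ext v
  rfl

lemma act_ofSim (g : Sim (⇑Q)) : act (ofSim g) = Ψ (⇑Q) g := by
  apply eq_Ψ_of_induced
  have := act_induced (ofSim g)
  rw [matOf_ofSim] at this
  exact this

/-- A linear semisimilarity as a similarity. -/
noncomputable def simOf (S : SS Q) (h : S.σ = 1) : Sim (⇑Q) :=
  ⟨matOf S, ⟨Units.mk0 S.μ S.hμ, fun v => by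
    rw [matOf_mulVec, S.lin_apply, S.q, h]
    rfl⟩⟩

lemma simOf_mulVec (S : SS Q) (h : S.σ = 1) (v : ι → F) : ((simOf S h).1 : Matrix ι ι F) *ᵥ v = S.g v := by
  change (matOf S : Matrix ι ι F) *ᵥ v = _
  rw [matOf_mulVec, S.lin_apply, h]
  rfl

lemma act_simOf (S : SS Q) (h : S.σ = 1) : act S = Ψ (⇑Q) (simOf S h) := by
  rw [← act_ofSim]
  apply act_congr
  intro v
  rw [ofSim_g, simOf_mulVec]

section sig

variable (H : 9 ≤ finrank F (ι → F) ∨ NoSkew Q)

lemma sig_aux {β : MulAut (Cfsg.POmega F (⇑Q))} {S : SS Q} (h : act S = β) : (act_surj H β).choose.σ = S.σ := by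
  have h1 := (act_surj H β).choose_spec
  exact (act_eq (act_inj (h1.trans h.symm))).1

/-- The field automorphism attached to an automorphism of `PΩ`. -/
noncomputable def sig : MulAut (Cfsg.POmega F (⇑Q)) →* (F ≃+* F) where
  toFun β := (act_surj H β).choose.σ
  map_one' := by
    rw [sig_aux H (S := SS.one Q) act_one]
    rfl
  map_mul' β β' := by
    obtain ⟨S, rfl⟩ := act_surj H β
    obtain ⟨S', rfl⟩ := act_surj H β'
    rw [sig_aux H rfl, sig_aux H rfl, sig_aux H (S := S.comp S') (act_comp S S').symm.symm |>.trans rfl]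
    · rfl

lemma sig_act (S : SS Q) : sig H (act S) = S.σ := sig_aux H rfl

lemma sig_eq_one_iff (β : MulAut (Cfsg.POmega F (⇑Q))) : sig H β = 1 ↔ β ∈ Cfsg.pgoAut F (⇑Q) := by
  rw [pgoAut_eq, mem_img]
  constructor
  · intro h
    obtain ⟨S, rfl⟩ := act_surj H β
    rw [sig_act] at h
    exact ⟨simOf S h, (simOf S h).2, (act_simOf S h).symm⟩
  · rintro ⟨g, -, rfl⟩
    rw [← act_ofSim, sig_act]
    rfl

lemma sig_ker : (sig H).ker = Cfsg.pgoAut F (⇑Q) := by
  ext β
  exact sig_eq_one_iff H β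

lemma inn_le_pgo : Cfsg.Inn (Cfsg.POmega F (⇑Q)) ≤ Cfsg.pgoAut F (⇑Q) := by
  rw [Inn_eq, pgoAut_eq]
  exact img_mono (le_trans (OmegaGL_le _) (isometry_le_sim _))

end sig

end Cfsg.Agent.Lib.AutPO
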