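import Mathlib

/-!
Group theory for the computation of outer automorphism groups.
-/

set_option autoImplicit false
set_option linter.unusedSectionVars false
set_option linter.unusedVariables false

namespace Cfsg.Agent.Lib.AutPO

section split

variable {G T : Type*} [Group G] [Group T]

theorem split_prod (π : G →* T) (H : Subgroup G) (hinj : ∀ h ∈ H, π h = 1 → h = 1) (hsurj : ∀ t, ∃ h ∈ H, π h = t)
    (hc : ∀ h ∈ H, ∀ n ∈ π.ker, Commute h n) : Nonempty (G ≃* π.ker × T) := by
  let e₀ : H →* T := π.comp H.subtype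
  have hb : Function.Bijective e₀ := by
    constructor
    · rw [injective_iff_map_eq_one]
      intro h he
      exact Subtype.ext (hinj h.1 h.2 he)
    · intro t
      obtain ⟨h, hh, rfl⟩ := hsurj t
      exact ⟨⟨h, hh⟩, rfl⟩
  let e : H ≃* T := MulEquiv.ofBijective e₀ hb
  have hπe : ∀ t, π ((e.symm t : H) : G) = t := fun t => e.apply_symm_apply t
  let Ξ : π.ker × T →* G := MonoidHom.noncommCoprod π.ker.subtype (H.subtype.comp e.symm.toMonoidHom)
    (fun m n => (hc _ (e.symm n).2 _ m.2).symm)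
  have hΞ : ∀ (n : π.ker) (t : T), Ξ (n, t) = (n : G) * ((e.symm t : H) : G) := fun n t => rfl
  have hbij : Function.Bijective Ξ := by
    constructor
    · rw [injective_iff_map_eq_one]
      rintro ⟨n, t⟩ h1
      rw [hΞ] at h1
      have h2 := congrArg π h1
      rw [map_mul, (MonoidHom.mem_ker.mp n.2), one_mul, hπe, map_one] at h2
      subst h2
      rw [map_one, Subgroup.coe_one, mul_one] at h1
      exact Prod.ext (Subtype.ext h1) rfl
    · intro x
      have hmem : x * ((e.symm (π x) : H) : G)⁻¹ ∈ π.ker := by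
        rw [MonoidHom.mem_ker, map_mul, map_inv, hπe, mul_inv_cancel]
      refine ⟨(⟨_, hmem⟩, π x), ?_⟩
      rw [hΞ]
      simp
  exact ⟨(MulEquiv.ofBijective Ξ hbij).symm⟩

theorem prod_of_commute [Finite G] (H₁ H₂ : Subgroup G) (hc : ∀ a ∈ H₁, ∀ b ∈ H₂, Commute a b) (hd : ∀ x ∈ H₁, x ∈ H₂ → x = 1)
    (hcard : Nat.card G = Nat.card H₁ * Nat.card H₂) : Nonempty (G ≃* H₁ × H₂) := by
  let Ξ : H₁ × H₂ →* G := MonoidHom.noncommCoprod H₁.subtype H₂.subtype (fun m n => hc _ m.2 _ n.2)
  have hΞ : ∀ (a : H₁) (b : H₂), Ξ (a, b) = (a : G) * (b : G) := fun a b => rfl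
  have hinj : Function.Injective Ξ := by
    rw [injective_iff_map_eq_one]
    rintro ⟨a, b⟩ h1
    rw [hΞ] at h1
    have h2 : (a : G) = (b : G)⁻¹ := eq_inv_of_mul_eq_one_left h1
    have h3 : (a : G) = 1 := hd _ a.2 (by rw [h2]; exact H₂.inv_mem b.2)
    rw [h3, one_mul] at h1
    exact Prod.ext (Subtype.ext h3) (Subtype.ext h1)
  have hbij : Function.Bijective Ξ := by
    apply hinj.bijective_of_nat_card_le
    rw [hcard, Nat.card_prod]
  exact ⟨(MulEquiv.ofBijective Ξ hbij).symm⟩

theorem central_of_card_two (N : Subgroup G) [N.Normal] (hN : Nat.card N = 2) (y : G) {n : G} (hn : n ∈ N) : Commute y n := by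
  obtain ⟨w, -, hw⟩ := (Nat.card_eq_two_iff' (1 : N)).mp hN
  by_cases h1 : n = 1
  · rw [h1]
    exact Commute.one_right y
  have hm : y * n * y⁻¹ ∈ N := ‹N.Normal›.conj_mem n hn y
  have h2 : (⟨n, hn⟩ : N) = w := hw _ (fun h => h1 (congrArg Subtype.val h))
  have h3 : (⟨_, hm⟩ : N) = w := hw _ (fun h => h1 (by
    have h4 : y * n * y⁻¹ = 1 := congrArg Subtype.val h
    have h5 : y * n = y := by
      rw [mul_inv_eq_one] at h4
      exact h4
    simpa using h5))
  have h4 : y * n * y⁻¹ = n := congrArg Subtype.val (h3.trans h2.symm)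
  exact mul_inv_eq_iff_eq_mul.mp h4

theorem nonempty_cyclic_equiv {C : Type*} [Group C] (h : IsCyclic C) {n : ℕ} (hn : Nat.card C = n) :
    Nonempty (C ≃* Multiplicative (ZMod n)) := by
  subst hn
  exact ⟨(zmodCyclicMulEquiv h).symm⟩

end split

section out

variable {A T B : Type*} [Group A] [Group T] [Group B] (I P : Subgroup A) [I.Normal]

/-- The induced map on the quotient. -/
def barSig (sig : A →* T) (hI : I ≤ sig.ker) : A ⧸ I →* T := QuotientGroup.lift I sig (fun x hx => hI hx)

lemma barSig_mk (sig : A →* T) (hI : I ≤ sig.ker) (x : A) : barSig I sig hI (x : A ⧸ I) = sig x := rfl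

theorem ker_equiv (sig : A →* T) (hI : I ≤ sig.ker) (hs : sig.ker = P) (φ : P →* B) (hφ : Function.Surjective φ)
    (hk : φ.ker = I.subgroupOf P) : Nonempty ((barSig I sig hI).ker ≃* B) := by
  let ψ : P →* (barSig I sig hI).ker :=
    { toFun := fun x => ⟨(x.1 : A ⧸ I), by
        rw [MonoidHom.mem_ker, barSig_mk]
        have : x.1 ∈ sig.ker := hs ▸ x.2
        exact this⟩
      map_one' := rfl
      map_mul' := fun _ _ => rfl }
  have hψ : Function.Surjective ψ := by
    rintro ⟨y, hy⟩
    induction y using QuotientGroup.induction_on with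
    | H x =>
      have hx : x ∈ P := by
        rw [← hs]
        exact hy
      exact ⟨⟨x, hx⟩, rfl⟩
  have hkψ : ψ.ker = I.subgroupOf P := by
    ext x
    rw [MonoidHom.mem_ker, Subgroup.mem_subgroupOf]
    constructor
    · intro h
      exact (QuotientGroup.eq_one_iff _).mp (congrArg Subtype.val h)
    · intro h
      exact Subtype.ext ((QuotientGroup.eq_one_iff _).mpr h)
  have e1 := QuotientGroup.quotientKerEquivOfSurjective ψ hψ
  have e2 := QuotientGroup.quotientKerEquivOfSurjective φ hφ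
  have e3 : P ⧸ ψ.ker ≃* P ⧸ φ.ker := QuotientGroup.quotientMulEquivOfEq (hkψ.trans hk.symm)
  exact ⟨e1.symm.trans (e3.trans e2)⟩

lemma barSig_surj (sig : A →* T) (hI : I ≤ sig.ker) (hsurj : Function.Surjective sig) :
    Function.Surjective (barSig I sig hI) := by
  intro t
  obtain ⟨x, rfl⟩ := hsurj t
  exact ⟨(x : A ⧸ I), rfl⟩

lemma card_quot (sig : A →* T) (hI : I ≤ sig.ker) (hsurj : Function.Surjective sig) :
    Nat.card (A ⧸ I) = Nat.card (barSig I sig hI).ker * Nat.card T := by
  have h1 := Subgroup.card_eq_card_quotient_mul_card_subgroup (barSig I sig hI).ker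
  have h2 := Nat.card_congr (QuotientGroup.quotientKerEquivOfSurjective _ (barSig_surj I sig hI hsurj)).toEquiv
  rw [h1, h2, mul_comm]

end out

section dih

open DihedralGroup

lemma aut_odd (α : MulAut (DihedralGroup 4)) {k : ℕ} (hk : Odd k) (h : α ^ k = 1) : α = 1 := by
  have h1 : ∀ x : DihedralGroup 4, x * x ≠ 1 ↔ x = r 1 ∨ x = r 3 := by decide
  have ha : α (r 1) = r 1 ∨ α (r 1) = r 3 := by
    apply (h1 _).mp
    rw [← map_mul]
    intro h2
    have h3 := (map_eq_one_iff α α.injective).mp h2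
    exact absurd h3 (by decide)
  have hr3 : α (r 3) = (α (r 1))⁻¹ := by
    rw [← map_inv]
    rfl
  have hfix : α (r 1) = r 1 := by
    rcases ha with ha | ha
    · exact ha
    exfalso
    have h3 : α (r 3) = r 1 := by
      rw [hr3, ha]
      rfl
    have key : ∀ j : ℕ, (α ^ (2 * j + 1)) (r 1) = r 3 := by
      intro j
      induction j with
      | zero => simpa using ha
      | succ j ih =>
        have e : 2 * (j + 1) + 1 = 2 + (2 * j + 1) := by ring
        rw [e, pow_add, MulAut.mul_apply, ih, pow_two, MulAut.mul_apply, h3, ha]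
    obtain ⟨j, rfl⟩ := hk
    have h4 := key j
    rw [h] at h4
    exact absurd h4 (by decide)
  have hr : ∀ i, α (r i) = r i := by
    intro i
    have e : r i = (r 1 : DihedralGroup 4) ^ i.val := by
      rw [r_one_pow]
      simp
    rw [e, map_pow, hfix]
  obtain ⟨c, hc⟩ : ∃ c, α (sr 0) = sr c := by
    cases hx : α (sr 0) with
    | r i =>
      exfalso
      have h3 : α (sr 0) = α (r i) := by rw [hx, hr]
      have h4 := α.injective h3
      exact absurd h4 (by simp)
    | sr c => exact ⟨c, rfl⟩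
  have hs : ∀ j, α (sr j) = sr (c + j) := by
    intro j
    have e : sr j = (sr 0 : DihedralGroup 4) * r j := by simp
    rw [e, map_mul, hc, hr]
    simp
  have hpow : ∀ n : ℕ, (α ^ n) (sr 0) = sr ((n : ZMod 4) * c) := by
    intro n
    induction n with
    | zero => simp
    | succ n ih =>
      rw [pow_succ', MulAut.mul_apply, ih, hs]
      congr 1
      push_cast
      ring
  have hk' := hpow k
  rw [h] at hk'
  have h5 : (k : ZMod 4) * c = 0 := by
    have h6 : (sr 0 : DihedralGroup 4) = sr ((k : ZMod 4) * c) := hk'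
    exact (DihedralGroup.sr.inj h6).symm
  have hc0 : c = 0 := by
    have h7 : k % 4 = 1 ∨ k % 4 = 3 := by
      have := Nat.odd_iff.mp hk
      omega
    have h8 : (k : ZMod 4) = ((k % 4 : ℕ) : ZMod 4) := (ZMod.natCast_mod k 4).symm
    rw [h8] at h5
    have d1 : ∀ c : ZMod 4, ((1 : ℕ) : ZMod 4) * c = 0 → c = 0 := by decide
    have d3 : ∀ c : ZMod 4, ((3 : ℕ) : ZMod 4) * c = 0 → c = 0 := by decide
    rcases h7 with h7 | h7 <;> rw [h7] at h5
    · exact d1 c h5
    · exact d3 c h5
  ext x
  cases x with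
  | r i => exact hr i
  | sr j =>
    rw [hs, hc0, zero_add]
    rfl

theorem odd_acts {G : Type*} [Group G] (N : Subgroup G) [N.Normal] (e : N ≃* DihedralGroup 4) {y : G} {k : ℕ} (hk : Odd k)
    (hy : y ^ k = 1) {n : G} (hn : n ∈ N) : Commute y n := by
  let c : G →* MulAut N := MulAut.conjNormal
  let α : MulAut (DihedralGroup 4) := e.symm.trans ((c y).trans e)
  have hα : ∀ j : ℕ, α ^ j = e.symm.trans ((c (y ^ j)).trans e) := by
    intro j
    induction j with
    | zero =>
      ext x
      simp [c]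
    | succ j ih =>
      rw [pow_succ', ih, pow_succ', map_mul]
      ext x
      simp [α, MulAut.mul_apply]
  have h1 : α ^ k = 1 := by
    rw [hα, hy, map_one]
    ext x
    simp
  have h2 := aut_odd α hk h1
  have h3 : α (e ⟨n, hn⟩) = e ⟨n, hn⟩ := by rw [h2]; rfl
  have h4 : c y ⟨n, hn⟩ = ⟨n, hn⟩ := by
    apply e.injective
    simpa [α] using h3
  have h5 : y * n * y⁻¹ = n := congrArg Subtype.val h4
  exact mul_inv_eq_iff_eq_mul.mp h5

end dih

end Cfsg.Agent.Lib.AutPO
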