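import Mathlib
import Cfsg.Agent.Lib.AutPO.ActO
import Cfsg.Agent.Lib.AutPO.OutGrp
import Cfsg.Agent.Lib.Known3.FieldAut
import Cfsg.Agent.Lib.Known3.QuadStd
import Cfsg.Agent.Lib.Known3.QuadIso

/-!
Lang's theorem for semisimilarities of a quadratic form over a finite field: descent of a semisimilarity
whose power is scalar.
-/

set_option autoImplicit false
set_option linter.unusedSectionVars false
set_option linter.unusedVariables false

open scoped Matrix

namespace Cfsg.Agent.Lib.AutPO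

open Cfsg.Agent.Lib.Classical Cfsg.Agent.Lib.Classical.Witt Cfsg.Agent.Lib.Classical.Abs Cfsg.Agent.Lib.Classical.Orth
open Cfsg.Agent.Lib.Known3.SimAut Cfsg.Agent.Lib.Known3.FieldAut
open scoped commutatorElement
open Module Ln

local notation "P" => QuadraticMap.polarBilin
local notation "GLn" => Matrix.GeneralLinearGroup
local notation "nrm" => Cfsg.Agent.Lib.Known3.FieldAut.nrm

section hatM

variable {ι : Type} [Fintype ι] [DecidableEq ι] {F : Type*} [Field F]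

lemma hat_mulVec (σ : F ≃+* F) (A : GLn ι F) (v : ι → F) :
    hat σ ((A : Matrix ι ι F) *ᵥ v) = ((mp σ A : GLn ι F) : Matrix ι ι F) *ᵥ hat σ v := by
  ext i
  exact RingHom.map_mulVec (σ : F →+* F) (A : Matrix ι ι F) v i

lemma hat_mul (σ τ : F ≃+* F) (v : ι → F) : hat (σ * τ) v = hat σ (hat τ v) := rfl

lemma hat_one (v : ι → F) : hat (1 : F ≃+* F) v = v := rfl

lemma hat_pow_succ (σ : F ≃+* F) (k : ℕ) (v : ι → F) : hat (σ ^ (k + 1)) v = hat (σ ^ k) (hat σ v) := by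
  rw [pow_succ, hat_mul]

lemma hat_pow_succ' (σ : F ≃+* F) (k : ℕ) (v : ι → F) : hat (σ ^ (k + 1)) v = hat σ (hat (σ ^ k) v) := by
  rw [pow_succ', hat_mul]

end hatM

section powS

variable {ι : Type} [Fintype ι] [DecidableEq ι] {F : Type*} [Field F] [Fintype F] {Q : QuadraticForm F (ι → F)}

/-- Powers of semisimilarities. -/
noncomputable def powS (S : SS Q) : ℕ → SS Q
  | 0 => SS.one Q
  | k + 1 => S.comp (powS S k)

lemma powS_σ (S : SS Q) (k : ℕ) : (powS S k).σ = S.σ ^ k := by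
  induction k with
  | zero => rfl
  | succ k ih =>
    change S.σ * (powS S k).σ = _
    rw [ih, pow_succ']

variable [hND : ND Q]

lemma act_powS (S : SS Q) (k : ℕ) : act (powS S k) = (act S) ^ k := by
  induction k with
  | zero => exact act_one
  | succ k ih =>
    change act (S.comp (powS S k)) = _
    rw [act_comp, ih, pow_succ']

lemma g_eq_mat (S : SS Q) (v : ι → F) : S.g v = (matOf S : Matrix ι ι F) *ᵥ hat S.σ v := by
  rw [matOf_mulVec, S.lin_hat]

lemma powS_g (S : SS Q) (k : ℕ) (v : ι → F) :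
    (powS S k).g v = ((nrm S.σ (matOf S) k : GLn ι F) : Matrix ι ι F) *ᵥ hat (S.σ ^ k) v := by
  induction k with
  | zero =>
    change v = _
    simp [nrm_zero, hat_one]
  | succ k ih =>
    change S.g ((powS S k).g v) = _
    rw [ih, g_eq_mat, hat_mulVec, nrm_succ', Units.val_mul, ← Matrix.mulVec_mulVec, hat_pow_succ']

lemma act_eq_one_scalar (T : SS Q) (h : act T = 1) : T.σ = 1 ∧ ∃ l : F, l ≠ 0 ∧ ∀ v, T.g v = l • v := by
  have h1 : T.actP = 1 := by
    rw [← actP_one]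
    apply act_inj
    rw [h, act_one]
  exact scalar_of_act T h1

end powS

section data

variable {ι : Type} [Fintype ι] [DecidableEq ι] {F : Type*} [Field F] [Fintype F] {Q : QuadraticForm F (ι → F)} [hND : ND Q]

lemma exists_ne_zero : ∃ v, Q v ≠ 0 := by
  have h7 := hND.dim
  have hn : Nontrivial (ι → F) := by
    apply Module.nontrivial_of_finrank_pos (R := F)
    omega
  obtain ⟨v, hv⟩ := exists_ne (0 : ι → F)
  obtain ⟨w, hw⟩ : ∃ w, P Q v w ≠ 0 := by
    by_contra hcon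
    push Not at hcon
    exact hv (hND.nd.1 v hcon)
  by_contra hcon
  push Not at hcon
  apply hw
  have := Q_add Q v w
  rw [hcon, hcon, hcon] at this
  linear_combination -this

/-- The descent data of a semisimilarity whose power is trivial in the automorphism group. -/
theorem lang_data (S : SS Q) {r : ℕ} (hr : orderOf S.σ = r) (hr0 : r ≠ 0) (hS : (act S) ^ r = 1) :
    ∃ (h₀ : GLn ι F) (d z : Fˣ),
      (∀ v, S.g v = (d : F) • ((h₀ : Matrix ι ι F) *ᵥ hat S.σ (((h₀⁻¹ : GLn ι F) : Matrix ι ι F) *ᵥ v))) ∧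
      ∀ u, Q ((h₀ : Matrix ι ι F) *ᵥ hat S.σ u) * ((z⁻¹ : Fˣ) : F) = S.σ (Q ((h₀ : Matrix ι ι F) *ᵥ u) * ((z⁻¹ : Fˣ) : F)) := by
  classical
  set σ := S.σ with hσ
  set M := matOf S with hM
  have hσr : σ ^ r = 1 := by rw [← hr]; exact pow_orderOf_eq_one σ
  have h1 : act (powS S r) = 1 := by rw [act_powS, hS]
  obtain ⟨-, l, hl, hscal⟩ := act_eq_one_scalar _ h1
  let c : Fˣ := Units.mk0 l hl
  have hc : nrm σ M r = sc c := by
    apply Units.ext
    apply Matrix.toLin'.injective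
    refine LinearMap.ext fun v => ?_
    rw [Matrix.toLin'_apply, Matrix.toLin'_apply]
    have h2 := powS_g S r v
    rw [hscal, ← hσ, ← hM, hσr, hat_one] at h2
    rw [← h2, sc_coe, Matrix.smul_mulVec, Matrix.one_mulVec]
    rfl
  have hfix : Units.map (σ : F →* F) c = c := by
    have h3 : M * mp σ (nrm σ M r) = nrm σ M r * M := by
      rw [← nrm_succ', nrm_succ, hσr, mp_id]
    rw [hc, mp_sc] at h3
    have h4 := mul_left_cancel (h3.trans (sc_comm c M))
    apply Units.ext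
    have h5 : Nonempty ι := by
      by_contra hne
      rw [not_nonempty_iff] at hne
      have h7 := hND.dim
      have : finrank F (ι → F) = 0 := by simp
      omega
    obtain ⟨i⟩ := h5
    have := congrArg (fun g : GLn ι F => (g : Matrix ι ι F) i i) h4
    simpa [sc_coe] using this
  obtain ⟨d, hd⟩ := exists_norm σ hr hr0 c hfix
  have hnu : nu σ r d⁻¹ = (nu σ r d)⁻¹ := by
    simp only [nu, map_inv]
    exact Finset.prod_inv_distrib _
  have hg₁ : nrm σ (sc d⁻¹ * M : GLn ι F) r = 1 := by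
    rw [nrm_mul_sc, hc, ← sc_mul, hnu, hd, inv_mul_cancel]
    apply Units.ext
    simp [sc_coe]
  obtain ⟨h₀, e⟩ := hilbert90 σ hr hr0 _ hg₁
  have hM' : M = sc d * h₀ * (mp σ h₀)⁻¹ := by
    have h3 : sc d * (sc d⁻¹ * M * mp σ h₀) = sc d * h₀ := by rw [e]
    rw [← mul_assoc, ← mul_assoc, ← sc_mul, mul_inv_cancel] at h3
    have h4 : (sc 1 : GLn ι F) = 1 := by
      apply Units.ext
      simp [sc_coe]
    rw [h4, one_mul] at h3
    rw [← h3]
    group
  have hS1 : ∀ v, S.g v = (d : F) • ((h₀ : Matrix ι ι F) *ᵥ hat σ (((h₀⁻¹ : GLn ι F) : Matrix ι ι F) *ᵥ v)) := by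
    intro v
    rw [g_eq_mat, ← hσ, ← hM, hM', hat_mulVec, map_inv, Units.val_mul, Units.val_mul, ← Matrix.mulVec_mulVec, ← Matrix.mulVec_mulVec, sc_coe,
      Matrix.smul_mulVec, Matrix.one_mulVec]
  have hd0 : (d : F) ≠ 0 := Units.ne_zero d
  let μ' : Fˣ := Units.mk0 S.μ S.hμ * (d * d)⁻¹
  have hinv : ∀ u, ((h₀⁻¹ : GLn ι F) : Matrix ι ι F) *ᵥ ((h₀ : Matrix ι ι F) *ᵥ u) = u := by
    intro u
    rw [Matrix.mulVec_mulVec, ← Units.val_mul, inv_mul_cancel, Units.val_one, Matrix.one_mulVec]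
  have hinv' : ∀ u, (h₀ : Matrix ι ι F) *ᵥ (((h₀⁻¹ : GLn ι F) : Matrix ι ι F) *ᵥ u) = u := by
    intro u
    rw [Matrix.mulVec_mulVec, ← Units.val_mul, mul_inv_cancel, Units.val_one, Matrix.one_mulVec]
  have hQ1 : ∀ u, Q ((h₀ : Matrix ι ι F) *ᵥ hat σ u) = (μ' : F) * σ (Q ((h₀ : Matrix ι ι F) *ᵥ u)) := by
    intro u
    have h3 := S.q ((h₀ : Matrix ι ι F) *ᵥ u)
    rw [hS1, hinv, Q_smul] at h3
    simp only [μ', Units.val_mul, Units.val_mk0, Units.val_inv_eq_inv_val, Units.val_mul]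
    field_simp
    rw [← hσ] at h3
    linear_combination h3
  have hiter : ∀ k u, Q ((h₀ : Matrix ι ι F) *ᵥ hat (σ ^ k) u) = (nu σ k μ' : F) * (σ ^ k) (Q ((h₀ : Matrix ι ι F) *ᵥ u)) := by
    intro k
    induction k with
    | zero =>
      intro u
      simp [nu, hat_one]
    | succ k ih =>
      intro u
      rw [hat_pow_succ, ih, hQ1, map_mul, nu_coe, nu_coe, Finset.prod_range_succ, pow_succ (σ) k, mul_assoc]
      rfl
  have hN : nu σ r μ' = 1 := by
    obtain ⟨v, hv⟩ := exists_ne_zero (Q := Q)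
    have h3 := hiter r (((h₀⁻¹ : GLn ι F) : Matrix ι ι F) *ᵥ v)
    rw [hσr, hat_one, hinv'] at h3
    apply Units.ext
    have h4 : ((nu σ r μ' : Fˣ) : F) * Q v = 1 * Q v := by
      rw [one_mul]
      exact h3.symm
    exact mul_right_cancel₀ hv h4
  obtain ⟨z, hz⟩ := hilbert90_units σ hr hr0 μ' hN
  refine ⟨h₀, d, z, hS1, fun u => ?_⟩
  have hz' : (μ' : F) * σ (z : F) = z := by
    have := congrArg (fun t : Fˣ => (t : F)) hz
    simpa using this
  rw [hQ1, map_mul]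
  have hz0 : (z : F) ≠ 0 := Units.ne_zero z
  have hσz : σ (z : F) ≠ 0 := by simpa using hz0
  have e1 : σ (((z⁻¹ : Fˣ) : F)) = (σ (z : F))⁻¹ := by
    rw [Units.val_inv_eq_inv_val, map_inv₀]
  rw [e1, Units.val_inv_eq_inv_val]
  field_simp
  linear_combination (σ (Q ((h₀ : Matrix ι ι F) *ᵥ u))) * hz'

end data

section fix

variable {ι : Type} [Fintype ι] [DecidableEq ι] {F : Type*} [Field F]

/-- The fixed subfield. -/
def fixF (σ : F ≃+* F) : Subfield F := RingHom.eqLocusField (σ : F →+* F) (RingHom.id F)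

lemma mem_fixF {σ : F ≃+* F} {x : F} : x ∈ fixF σ ↔ σ x = x := Iff.rfl

/-- Vectors over the fixed subfield as vectors over the field. -/
def ext0 {σ : F ≃+* F} {κ : Type*} (v : κ → fixF σ) : κ → F := fun i => (v i : F)

lemma hat_ext0 {σ : F ≃+* F} (v : ι → fixF σ) : hat σ (ext0 v) = ext0 v := by
  ext i
  exact mem_fixF.1 (v i).2

lemma ext0_add {σ : F ≃+* F} {κ : Type*} (v w : κ → fixF σ) : ext0 (v + w) = ext0 v + ext0 w := rfl

lemma ext0_smul {σ : F ≃+* F} {κ : Type*} (a : fixF σ) (v : κ → fixF σ) : ext0 (a • v) = (a : F) • ext0 v := rfl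

variable (σ : F ≃+* F) {κ : Type} [Fintype κ] [DecidableEq κ] (Q₂ : QuadraticForm F (κ → F)) (hσ : ∀ u, Q₂ (hat σ u) = σ (Q₂ u))

include hσ in
lemma descQ_mem (v : κ → fixF σ) : Q₂ (ext0 v) ∈ fixF σ := by
  rw [mem_fixF, ← hσ, hat_ext0]

/-- The quadratic form over the fixed field. -/
noncomputable def descQ : QuadraticForm (fixF σ) (κ → fixF σ) :=
  QuadraticMap.ofPolar (fun v => ⟨Q₂ (ext0 v), descQ_mem σ Q₂ hσ v⟩)
    (fun a x => by
      apply Subtype.ext
      change Q₂ ((a : F) • ext0 x) = (a : F) * (a : F) * Q₂ (ext0 x)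
      rw [Q_smul])
    (fun x x' y => by
      apply Subtype.ext
      have h := QuadraticMap.polar_add_left (Q := Q₂) (ext0 x) (ext0 x') (ext0 y)
      simp only [QuadraticMap.polar] at h ⊢
      change Q₂ (ext0 x + ext0 x' + ext0 y) - Q₂ (ext0 x + ext0 x') - Q₂ (ext0 y) = _
      exact h)
    (fun a x y => by
      apply Subtype.ext
      have h := QuadraticMap.polar_smul_left (Q := Q₂) (a : F) (ext0 x) (ext0 y)
      simp only [QuadraticMap.polar] at h ⊢
      change Q₂ ((a : F) • ext0 x + ext0 y) - Q₂ ((a : F) • ext0 x) - Q₂ (ext0 y) = (a : F) * (Q₂ (ext0 x + ext0 y) - Q₂ (ext0 x) - Q₂ (ext0 y))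
      simpa using h)

lemma descQ_apply (v : κ → fixF σ) : ((descQ σ Q₂ hσ v : fixF σ) : F) = Q₂ (ext0 v) := rfl

lemma descQ_polar (u v : κ → fixF σ) : ((P (descQ σ Q₂ hσ) u v : fixF σ) : F) = P Q₂ (ext0 u) (ext0 v) := by
  have h1 := Q_add (descQ σ Q₂ hσ) u v
  have h2 := Q_add Q₂ (ext0 u) (ext0 v)
  have h3 := congrArg (fun t : fixF σ => (t : F)) h1
  simp only [Subfield.coe_add, descQ_apply] at h3
  rw [ext0_add] at h3
  linear_combination h2 - h3

end fix

section single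

variable {F : Type*} [Field F] {σ : F ≃+* F} {κ : Type} [Fintype κ] [DecidableEq κ]

/-- The standard basis vectors come from the fixed field. -/
lemma ext0_single (i : κ) : ext0 (Pi.single i 1 : κ → fixF σ) = (Pi.single i 1 : κ → F) := by
  ext j
  by_cases h : j = i
  · subst h
    simp [ext0]
  · simp [ext0, h]

/-- A vector over the field is a combination of vectors over the fixed field. -/
lemma span_ext0 (v : κ → F) : v ∈ Submodule.span F (Set.range (ext0 (σ := σ) (κ := κ))) := by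
  have h1 : v = ∑ i, v i • (Pi.single i 1 : κ → F) := by
    ext j
    simp [Finset.sum_apply, Pi.single_apply]
  rw [h1]
  refine Submodule.sum_mem _ fun i _ => Submodule.smul_mem _ _ ?_
  rw [← ext0_single (σ := σ)]
  exact Submodule.subset_span ⟨_, rfl⟩

/-- Two quadratic forms agreeing on the vectors over the fixed field agree. -/
lemma quad_eq_of_ext0 (Q₁ Q₂ : QuadraticForm F (κ → F)) (h : ∀ v : κ → fixF σ, Q₁ (ext0 v) = Q₂ (ext0 v)) (v : κ → F) :
    Q₁ v = Q₂ v := by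
  have hpol : ∀ u w : κ → fixF σ, P Q₁ (ext0 u) (ext0 w) = P Q₂ (ext0 u) (ext0 w) := by
    intro u w
    have h1 := Q_add Q₁ (ext0 u) (ext0 w)
    have h2 := Q_add Q₂ (ext0 u) (ext0 w)
    rw [← ext0_add] at h1 h2
    rw [h (u + w), h u, h w] at h1
    linear_combination h2 - h1
  have hP : P Q₁ = P Q₂ := by
    apply (Pi.basisFun F κ).ext
    intro i
    apply (Pi.basisFun F κ).ext
    intro j
    have := hpol (Pi.single i 1) (Pi.single j 1)
    rw [ext0_single, ext0_single] at this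
    simpa using this
  induction span_ext0 (σ := σ) v using Submodule.span_induction with
  | mem x hx =>
    obtain ⟨u, rfl⟩ := hx
    exact h u
  | zero => simp
  | add x y _ _ hx hy => rw [Q_add, Q_add, hx, hy, hP]
  | smul a x _ hx => rw [Q_smul, Q_smul, hx]

end single

section descnd

variable {F : Type*} [Field F] (σ : F ≃+* F) {κ : Type} [Fintype κ] [DecidableEq κ] (Q₂ : QuadraticForm F (κ → F))
  (hσ : ∀ u, Q₂ (hat σ u) = σ (Q₂ u))

/-- The descended form is non-degenerate. -/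
lemma descQ_nondeg (hQ₂ : (P Q₂).Nondegenerate) : (P (descQ σ Q₂ hσ)).Nondegenerate := by
  have hleft : ∀ v : κ → fixF σ, (∀ w, P (descQ σ Q₂ hσ) v w = 0) → v = 0 := by
    intro v hv
    have h1 : ∀ w : κ → fixF σ, P Q₂ (ext0 v) (ext0 w) = 0 := by
      intro w
      rw [← descQ_polar σ Q₂ hσ, hv]
      rfl
    have h2 : ∀ w : κ → F, P Q₂ (ext0 v) w = 0 := by
      intro w
      induction span_ext0 (σ := σ) w using Submodule.span_induction with
      | mem x hx =>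
        obtain ⟨u, rfl⟩ := hx
        exact h1 u
      | zero => simp
      | add x y _ _ hx hy => rw [map_add, hx, hy, add_zero]
      | smul a x _ hx => rw [map_smul, hx, smul_zero]
    have h3 := hQ₂.1 _ h2
    ext i
    have := congrFun h3 i
    simpa [ext0] using this
  constructor
  · exact hleft
  · intro v hv
    apply hleft
    intro w
    change QuadraticMap.polar _ v w = 0
    rw [QuadraticMap.polar_comm]
    exact hv w

end descnd

section lift

variable {F : Type*} [Field F] [Fintype F] {σ : F ≃+* F} {κ κ' : Type} [Fintype κ] [DecidableEq κ] [Fintype κ'] [DecidableEq κ']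

/-- The extension of a linear equivalence over the fixed field. -/
noncomputable def liftE (θ : (κ → fixF σ) ≃ₗ[fixF σ] (κ' → fixF σ)) : (κ → F) ≃ₗ[F] (κ' → F) :=
  LinearEquiv.ofLinear (Matrix.toLin' ((LinearMap.toMatrix' θ.toLinearMap).map (fun t : fixF σ => (t : F))))
    (Matrix.toLin' ((LinearMap.toMatrix' θ.symm.toLinearMap).map (fun t : fixF σ => (t : F))))
    (by
      rw [← Matrix.toLin'_mul, ← Matrix.toLin'_one]
      congr 1
      have h : (LinearMap.toMatrix' θ.toLinearMap) * (LinearMap.toMatrix' θ.symm.toLinearMap) = 1 := by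
        rw [← LinearMap.toMatrix'_comp]
        simp
      have h2 := congrArg (fun A : Matrix κ' κ' (fixF σ) => A.map (fixF σ).subtype) h
      simp only [Matrix.map_mul, Matrix.map_one _ (map_zero (fixF σ).subtype) (map_one (fixF σ).subtype)] at h2
      exact h2)
    (by
      rw [← Matrix.toLin'_mul, ← Matrix.toLin'_one]
      congr 1
      have h : (LinearMap.toMatrix' θ.symm.toLinearMap) * (LinearMap.toMatrix' θ.toLinearMap) = 1 := by
        rw [← LinearMap.toMatrix'_comp]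
        simp
      have h2 := congrArg (fun A : Matrix κ κ (fixF σ) => A.map (fixF σ).subtype) h
      simp only [Matrix.map_mul, Matrix.map_one _ (map_zero (fixF σ).subtype) (map_one (fixF σ).subtype)] at h2
      exact h2)

lemma liftE_ext0 (θ : (κ → fixF σ) ≃ₗ[fixF σ] (κ' → fixF σ)) (v : κ → fixF σ) : liftE θ (ext0 v) = ext0 (θ v) := by
  have h := RingHom.map_mulVec (fixF σ).subtype (LinearMap.toMatrix' θ.toLinearMap) v
  ext i
  have h2 := h i
  rw [LinearMap.toMatrix'_mulVec] at h2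
  exact h2.symm

lemma liftE_hat (θ : (κ → fixF σ) ≃ₗ[fixF σ] (κ' → fixF σ)) (u : κ → F) : liftE θ (hat σ u) = hat σ (liftE θ u) := by
  induction span_ext0 (σ := σ) u using Submodule.span_induction with
  | mem x hx =>
    obtain ⟨w, rfl⟩ := hx
    rw [hat_ext0, liftE_ext0, hat_ext0]
  | zero => simp
  | add x y _ _ hx hy => rw [map_add, map_add, hx, hy, map_add, map_add]
  | smul a x _ hx => rw [hat_smul, map_smul, map_smul, hat_smul, hx]

end lift

section compare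

variable {ι : Type} [Fintype ι] [DecidableEq ι] {F : Type*} [Field F] [Fintype F] {Q : QuadraticForm F (ι → F)} [hND : ND Q]

/-- The twist of a form by a matrix and a scalar. -/
noncomputable def twQ (Q : QuadraticForm F (ι → F)) (h₀ : GLn ι F) (z : Fˣ) : QuadraticForm F (ι → F) :=
  ((z⁻¹ : Fˣ) : F) • Q.comp (Matrix.toLin' (h₀ : Matrix ι ι F))

lemma twQ_apply (h₀ : GLn ι F) (z : Fˣ) (u : ι → F) : twQ Q h₀ z u = Q ((h₀ : Matrix ι ι F) *ᵥ u) * ((z⁻¹ : Fˣ) : F) := by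
  simp [twQ, mul_comm]

lemma twQ_polar (h₀ : GLn ι F) (z : Fˣ) (u v : ι → F) :
    P (twQ Q h₀ z) u v = ((z⁻¹ : Fˣ) : F) * P Q ((h₀ : Matrix ι ι F) *ᵥ u) ((h₀ : Matrix ι ι F) *ᵥ v) := by
  have h1 := Q_add (twQ Q h₀ z) u v
  have h2 := Q_add Q ((h₀ : Matrix ι ι F) *ᵥ u) ((h₀ : Matrix ι ι F) *ᵥ v)
  rw [twQ_apply, twQ_apply, twQ_apply, Matrix.mulVec_add, h2] at h1
  linear_combination -h1

lemma twQ_nondeg (h₀ : GLn ι F) (z : Fˣ) : (P (twQ Q h₀ z)).Nondegenerate := by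
  have hinv' : ∀ u, (h₀ : Matrix ι ι F) *ᵥ (((h₀⁻¹ : GLn ι F) : Matrix ι ι F) *ᵥ u) = u := by
    intro u
    rw [Matrix.mulVec_mulVec, ← Units.val_mul, mul_inv_cancel, Units.val_one, Matrix.one_mulVec]
  have hinv : ∀ u, ((h₀⁻¹ : GLn ι F) : Matrix ι ι F) *ᵥ ((h₀ : Matrix ι ι F) *ᵥ u) = u := by
    intro u
    rw [Matrix.mulVec_mulVec, ← Units.val_mul, inv_mul_cancel, Units.val_one, Matrix.one_mulVec]
  have hleft : ∀ v, (∀ w, P (twQ Q h₀ z) v w = 0) → v = 0 := by
    intro v hv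
    have h1 : (h₀ : Matrix ι ι F) *ᵥ v = 0 := by
      apply hND.nd.1
      intro w
      have h2 := hv (((h₀⁻¹ : GLn ι F) : Matrix ι ι F) *ᵥ w)
      rw [twQ_polar, hinv'] at h2
      exact (mul_eq_zero.1 h2).resolve_left (Units.ne_zero _)
    have h3 := hinv v
    rw [h1, Matrix.mulVec_zero] at h3
    exact h3.symm
  constructor
  · exact hleft
  · intro v hv
    apply hleft
    intro w
    change QuadraticMap.polar _ v w = 0
    rw [QuadraticMap.polar_comm]
    exact hv w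

/-- A semisimilarity from a similarity and a scalar multiple of a semisimilarity. -/
lemma act_scal_congr {S T : SS Q} (e : Fˣ) (h : ∀ v, S.g v = (e : F) • T.g v) : act S = act T := by
  have h1 : act S = act ((ofSim (scal Q e)).comp T) := by
    apply act_congr
    intro v
    rw [h]
    change _ = (ofSim (scal Q e)).g (T.g v)
    rw [ofSim_g, scal_coe, Matrix.smul_mulVec, Matrix.one_mulVec]
  rw [h1, act_comp, act_ofSim, Ψ_scal, one_mul]

lemma act_inv' (S : SS Q) : act S.inv = (act S)⁻¹ := by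
  apply eq_inv_of_mul_eq_one_right
  rw [← act_comp, ← act_one]
  apply act_congr
  intro v
  exact S.g.apply_symm_apply v

/-- Two semisimilarities with similar descended forms are conjugate under a similarity. -/
theorem conj_of_similar (σ : F ≃+* F) (S S' : SS Q) (h₀ h₀' : GLn ι F) (d d' z z' : Fˣ)
    (hS : ∀ v, S.g v = (d : F) • ((h₀ : Matrix ι ι F) *ᵥ hat σ (((h₀⁻¹ : GLn ι F) : Matrix ι ι F) *ᵥ v)))
    (hS' : ∀ v, S'.g v = (d' : F) • ((h₀' : Matrix ι ι F) *ᵥ hat σ (((h₀'⁻¹ : GLn ι F) : Matrix ι ι F) *ᵥ v)))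
    (R : (ι → F) ≃ₗ[F] (ι → F)) (hR : ∀ u, R (hat σ u) = hat σ (R u)) (c : Fˣ)
    (hc : ∀ u, twQ Q h₀' z' (R u) = (c : F) * twQ Q h₀ z u) :
    ∃ θ : Sim (⇑Q), act S' = Ψ (⇑Q) θ * act S * (Ψ (⇑Q) θ)⁻¹ ∧
      ∀ v, ((θ.1 : GLn ι F) : Matrix ι ι F) *ᵥ v = (h₀' : Matrix ι ι F) *ᵥ R (((h₀⁻¹ : GLn ι F) : Matrix ι ι F) *ᵥ v) := by
  classical
  let θg : GLn ι F := h₀' * glLin.symm R * h₀⁻¹
  have hθ : ∀ v, (θg : Matrix ι ι F) *ᵥ v = (h₀' : Matrix ι ι F) *ᵥ R (((h₀⁻¹ : GLn ι F) : Matrix ι ι F) *ᵥ v) := by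
    intro v
    simp only [θg, Units.val_mul]
    rw [← Matrix.mulVec_mulVec, ← Matrix.mulVec_mulVec, ← glLin_apply (glLin.symm R), MulEquiv.apply_symm_apply]
  have hinv' : ∀ u, (h₀ : Matrix ι ι F) *ᵥ (((h₀⁻¹ : GLn ι F) : Matrix ι ι F) *ᵥ u) = u := by
    intro u
    rw [Matrix.mulVec_mulVec, ← Units.val_mul, mul_inv_cancel, Units.val_one, Matrix.one_mulVec]
  have hmem : θg ∈ Sim (⇑Q) := by
    refine ⟨z' * c * z⁻¹, fun v => ?_⟩
    have h1 := hc (((h₀⁻¹ : GLn ι F) : Matrix ι ι F) *ᵥ v)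
    rw [twQ_apply, twQ_apply, hinv'] at h1
    rw [hθ]
    have hz : (z : F) ≠ 0 := Units.ne_zero _
    have hz' : (z' : F) ≠ 0 := Units.ne_zero _
    simp only [Units.val_mul, Units.val_inv_eq_inv_val] at h1 ⊢
    calc Q ((h₀' : Matrix ι ι F) *ᵥ R (((h₀⁻¹ : GLn ι F) : Matrix ι ι F) *ᵥ v))
        = (z' : F) * (Q ((h₀' : Matrix ι ι F) *ᵥ R (((h₀⁻¹ : GLn ι F) : Matrix ι ι F) *ᵥ v)) * (z' : F)⁻¹) := by field_simp
      _ = _ := by rw [h1]; ring
  let θ : Sim (⇑Q) := ⟨θg, hmem⟩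
  refine ⟨θ, ?_, hθ⟩
  let T : SS Q := ((ofSim θ).comp S).comp (ofSim θ).inv
  have hT : act T = Ψ (⇑Q) θ * act S * (Ψ (⇑Q) θ)⁻¹ := by
    simp only [T]
    rw [act_comp, act_comp, act_inv', act_ofSim]
  rw [← hT]
  apply act_scal_congr (d' * d⁻¹)
  intro v
  have hθsymm : ∀ w, (ofSim θ).g.symm w = (h₀ : Matrix ι ι F) *ᵥ R.symm (((h₀'⁻¹ : GLn ι F) : Matrix ι ι F) *ᵥ w) := by
    intro w
    apply (ofSim θ).g.injective
    rw [AddEquiv.apply_symm_apply, ofSim_g]
    change w = (θg : Matrix ι ι F) *ᵥ _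
    rw [hθ, Matrix.mulVec_mulVec, ← Units.val_mul, inv_mul_cancel, Units.val_one, Matrix.one_mulVec, R.apply_symm_apply,
      Matrix.mulVec_mulVec, ← Units.val_mul, mul_inv_cancel, Units.val_one, Matrix.one_mulVec]
  change S'.g v = _ • (ofSim θ).g (S.g ((ofSim θ).g.symm v))
  rw [ofSim_g]
  change _ = _ • ((θg : Matrix ι ι F) *ᵥ _)
  have hinv : ∀ u, ((h₀⁻¹ : GLn ι F) : Matrix ι ι F) *ᵥ ((h₀ : Matrix ι ι F) *ᵥ u) = u := by
    intro u
    rw [Matrix.mulVec_mulVec, ← Units.val_mul, inv_mul_cancel, Units.val_one, Matrix.one_mulVec]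
  rw [hθsymm, hS, hS', hθ, hinv, Matrix.mulVec_smul, hinv, map_smul, hR, R.apply_symm_apply, Matrix.mulVec_smul, smul_smul]
  congr 1
  simp only [Units.val_mul, Units.val_inv_eq_inv_val]
  have hd : (d : F) ≠ 0 := Units.ne_zero _
  field_simp

/-- The descent data of a semisimilarity. -/
structure LD (σ : F ≃+* F) (S : SS Q) where
  h₀ : GLn ι F
  d : Fˣ
  z : Fˣ
  hS : ∀ v, S.g v = (d : F) • ((h₀ : Matrix ι ι F) *ᵥ hat σ (((h₀⁻¹ : GLn ι F) : Matrix ι ι F) *ᵥ v))
  hq : ∀ u, Q ((h₀ : Matrix ι ι F) *ᵥ hat σ u) * ((z⁻¹ : Fˣ) : F) = σ (Q ((h₀ : Matrix ι ι F) *ᵥ u) * ((z⁻¹ : Fˣ) : F))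

variable {σ : F ≃+* F} {S S' : SS Q}

/-- The form with a rational structure. -/
noncomputable def LD.Q₂ (D : LD σ S) : QuadraticForm F (ι → F) := twQ Q D.h₀ D.z

lemma LD.Q₂_apply (D : LD σ S) (u : ι → F) : D.Q₂ u = Q ((D.h₀ : Matrix ι ι F) *ᵥ u) * ((D.z⁻¹ : Fˣ) : F) := twQ_apply _ _ _

lemma LD.hσ₂ (D : LD σ S) (u : ι → F) : D.Q₂ (hat σ u) = σ (D.Q₂ u) := by
  rw [LD.Q₂_apply, LD.Q₂_apply]
  exact D.hq u

lemma LD.Q₂_nondeg (D : LD σ S) : (P D.Q₂).Nondegenerate := twQ_nondeg _ _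

/-- The descended form. -/
noncomputable def LD.Q₀ (D : LD σ S) : QuadraticForm (fixF σ) (ι → fixF σ) := descQ σ D.Q₂ D.hσ₂

lemma LD.Q₀_apply (D : LD σ S) (v : ι → fixF σ) : ((D.Q₀ v : fixF σ) : F) = D.Q₂ (ext0 v) := rfl

lemma LD.Q₀_nondeg (D : LD σ S) : (P D.Q₀).Nondegenerate := descQ_nondeg σ D.Q₂ D.hσ₂ D.Q₂_nondeg

theorem exists_LD (S : SS Q) (hσ : S.σ = σ) {r : ℕ} (hr : orderOf σ = r) (hr0 : r ≠ 0) (h : (act S) ^ r = 1) : Nonempty (LD σ S) := by
  subst hσ
  obtain ⟨h₀, d, z, h1, h2⟩ := lang_data S hr hr0 h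
  exact ⟨⟨h₀, d, z, h1, h2⟩⟩

/-- Similar descended forms give conjugate semisimilarities. -/
theorem conj_of_LD (D : LD σ S) (D' : LD σ S') (θ₀ : (ι → fixF σ) ≃ₗ[fixF σ] (ι → fixF σ)) (c : (fixF σ)ˣ)
    (hc : ∀ u, D'.Q₀ (θ₀ u) = (c : fixF σ) * D.Q₀ u) :
    ∃ θ : Sim (⇑Q), act S' = Ψ (⇑Q) θ * act S * (Ψ (⇑Q) θ)⁻¹ ∧
      ∀ v, ((θ.1 : GLn ι F) : Matrix ι ι F) *ᵥ v = (D'.h₀ : Matrix ι ι F) *ᵥ liftE θ₀ (((D.h₀⁻¹ : GLn ι F) : Matrix ι ι F) *ᵥ v) := by
  let c' : Fˣ := Units.mk0 ((c : fixF σ) : F) (by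
    intro h
    exact Units.ne_zero c (Subtype.ext h))
  refine conj_of_similar σ S S' D.h₀ D'.h₀ D.d D'.d D.z D'.z D.hS D'.hS (liftE θ₀) (liftE_hat θ₀) c' ?_
  have key := quad_eq_of_ext0 (σ := σ) (D'.Q₂.comp (liftE θ₀ : (ι → F) →ₗ[F] (ι → F))) ((c' : F) • D.Q₂) (by
    intro v
    change D'.Q₂ (liftE θ₀ (ext0 v)) = (c' : F) * D.Q₂ (ext0 v)
    rw [liftE_ext0]
    have h1 := congrArg (fun t : fixF σ => (t : F)) (hc v)
    exact h1)
  intro u
  exact key u

end compare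

section order

variable {G : Type*} [Group G]

lemma isConj_order {H : Subgroup G} {x y : G} (h : Cfsg.IsConjUnder H x y) : orderOf y = orderOf x := by
  obtain ⟨g, -, rfl⟩ := h
  exact orderOf_injective (MulAut.conj g).toMonoidHom (MulAut.conj g).injective x

end order

section field

variable {ι : Type} [Fintype ι] [DecidableEq ι] {F : Type*} [Field F] [Fintype F] {Q : QuadraticForm F (ι → F)} [hND : ND Q]

/-- An automorphism induced by a semilinear map is the action of the semisimilarity. -/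
lemma eq_act_of_field (S : SS Q) (hS : ∀ v, S.g v = hat S.σ v) (φ : MulAut (Cfsg.POmega F (⇑Q)))
    (hφ : Cfsg.IsFieldAutPOmegaOf (⇑Q) S.σ φ) : φ = act S := by
  ext x
  induction x using QuotientGroup.induction_on with
  | H s =>
    let s' : Cfsg.Omega F (⇑Q) := (omegaEquiv Q).symm (S.conjK (omegaEquiv Q s))
    have hs' : omegaEquiv Q s' = S.conjK (omegaEquiv Q s) := MulEquiv.apply_symm_apply _ _
    have hs1 : ∀ v, (toOG Q s'.1).1 v = S.g ((toOG Q s.1).1 (S.g.symm v)) := by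
      intro v
      have := congrArg (fun y : KK Q => y.1.1 v) hs'
      exact this
    have hmat : (((s' : Cfsg.isometryGroup F (⇑Q)) : GLn ι F) : Matrix ι ι F) = (((s : Cfsg.isometryGroup F (⇑Q)) : GLn ι F) : Matrix ι ι F).map S.σ := by
      apply Matrix.toLin'.injective
      refine LinearMap.ext fun v => ?_
      rw [Matrix.toLin'_apply, Matrix.toLin'_apply, ← toOG_apply, hs1, toOG_apply]
      obtain ⟨u, rfl⟩ := S.g.surjective v
      rw [AddEquiv.symm_apply_apply, hS, hS]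
      ext i
      exact RingHom.map_mulVec (S.σ : F →+* F) _ u i
    rw [hφ s s' hmat]
    apply (toPG Q).injective
    rw [act_mk, ← hs']
    rfl

end field

end Cfsg.Agent.Lib.AutPO
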