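import Mathlib
import Cfsg.Agent.Lib.AutPO.Bridge
import Cfsg.Agent.Lib.Classical.PSL2Inv
import Cfsg.Agent.Lib.Known3.OmegaTrans

/-!
The standard forms: absence of skew orthogonal lines in the small cases, and the final statements.
-/

set_option autoImplicit false
set_option linter.unusedSectionVars false
set_option linter.unusedVariables false

namespace Cfsg.Agent.Lib.AutPO

open Cfsg.Agent.Lib.Classical Cfsg.Agent.Lib.Classical.Witt Cfsg.Agent.Lib.Classical.Abs Cfsg.Agent.Lib.Classical.Orth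
open Cfsg.Agent.Lib.Known3.OmegaTrans
open scoped commutatorElement
open Module Ln

local notation "P" => QuadraticMap.polarBilin

section skew

variable {F V : Type*} [Field F] [AddCommGroup V] [Module F V] {Q : QuadraticForm F V}

variable [FiniteDimensional F V] [Fintype F]

lemma Q_sup {W W' : Ln Q} (hper : Per W W') {u : V} (hu : u ∈ W.sp ⊔ W'.sp) : Q u = 0 := by
  obtain ⟨x, hx, y, hy, rfl⟩ := Submodule.mem_sup.mp hu
  rw [Q_add, W.sing hx, W'.sing hy, hper _ hx _ hy]
  simp

/-- A maximal totally singular subspace of dimension three excludes skew orthogonal lines. -/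
theorem noSkew_of (hQ : (P Q).Nondegenerate) (h7 : 7 ≤ finrank F V) {Y : Submodule F V} (hY : finrank F Y = 3)
    (hts : ∀ y ∈ Y, Q y = 0) (hmax : ∀ v, Q v = 0 → (∀ y ∈ Y, P Q y v = 0) → v ∈ Y) : NoSkew Q := by
  haveI : ND Q := ⟨hQ, h7⟩
  intro W W' hper
  by_contra hc
  set U := Submodule.span F {W.a, W.b, W'.a} with hU
  have hle : U ≤ W.sp ⊔ W'.sp := by
    apply Submodule.span_le.mpr
    rintro x (rfl | rfl | rfl)
    · exact Submodule.mem_sup_left W.a_mem
    · exact Submodule.mem_sup_left W.b_mem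
    · exact Submodule.mem_sup_right W'.a_mem
  have hli : LinearIndependent F ![W.a, W.b, W'.a] := by
    rw [Fintype.linearIndependent_iff]
    intro g hg i
    rw [Fin.sum_univ_three] at hg
    simp only [Matrix.cons_val_zero, Matrix.cons_val_one, Matrix.cons_val] at hg
    have := indep4 hc (α := g 0) (β := g 1) (γ := g 2) (δ := 0) (by rw [zero_smul, add_zero]; exact hg)
    fin_cases i
    · exact this.1
    · exact this.2.1
    · exact this.2.2.1
  have hdim : finrank F U = 3 := by
    have h1 := finrank_span_eq_card hli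
    have e : Set.range ![W.a, W.b, W'.a] = {W.a, W.b, W'.a} := by
      ext x
      simp [Fin.exists_fin_succ, eq_comm]
      tauto
    rw [e] at h1
    simpa using h1
  obtain ⟨g, -, hg⟩ := ts_trans hQ (Or.inr (by omega)) (hdim.trans hY.symm) (fun u hu => Q_sup hper (hle hu)) hts
    (by omega)
  have hd : W'.b ∈ W.sp ⊔ W'.sp := Submodule.mem_sup_right W'.b_mem
  have h1 : g.1 W'.b ∈ Y := by
    apply hmax
    · rw [OG_pres, W'.qb]
    · intro y hy
      rw [← hg] at hy
      obtain ⟨u, hu, rfl⟩ := mem_im.1 hy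
      rw [OG_polar]
      exact perp_sup hper (hle hu) hd
  rw [← hg] at h1
  obtain ⟨u, hu, hu2⟩ := mem_im.1 h1
  have h2 : u = W'.b := g.1.injective hu2
  rw [h2, hU] at hu
  obtain ⟨α, β, γ, e⟩ := Submodule.mem_span_triple.mp hu
  have := indep4 hc (α := α) (β := β) (γ := γ) (δ := -1) (by
    rw [neg_smul, one_smul, e]
    abel)
  simpa using this.2.2.2

end skew

section odd

variable {F : Type*} [Field F] [Fintype F]

/-- The standard maximal totally singular subspace. -/
def jOdd (m : ℕ) (F : Type*) [Field F] : (Fin m → F) →ₗ[F] (Unit ⊕ (Fin m ⊕ Fin m) → F) where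
  toFun y := Sum.elim 0 (Sum.elim 0 y)
  map_add' x y := by
    ext (i | (i | i)) <;> simp
  map_smul' c x := by
    ext (i | (i | i)) <;> simp

lemma noSkew_odd (h2 : (2 : F) ≠ 0) : NoSkew (Qodd 3 F) := by
  have hfr : finrank F (Unit ⊕ (Fin 3 ⊕ Fin 3) → F) = 7 := by
    simp [Module.finrank_fintype_fun_eq_card]
  have hinj : Function.Injective (jOdd 3 F) := by
    intro x y h
    ext i
    exact congrFun h (Sum.inr (Sum.inr i))
  have hts : ∀ y, Qodd 3 F (jOdd 3 F y) = 0 := by
    intro y
    rw [Qodd_apply]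
    simp [Cfsg.quadFormOdd, jOdd]
  refine noSkew_of (Qodd_nondeg h2 3) (by omega) (Y := LinearMap.range (jOdd 3 F))
    (by rw [LinearMap.finrank_range_of_inj hinj]; simp) ?_ ?_
  · rintro _ ⟨y, rfl⟩
    exact hts y
  · intro v hv hp
    have hx : ∀ i, v (Sum.inr (Sum.inl i)) = 0 := by
      intro i
      have h1 := Q_add (Qodd 3 F) (jOdd 3 F (Pi.single i 1)) v
      rw [hts, hv, hp _ ⟨_, rfl⟩, Qodd_apply] at h1
      rw [Qodd_apply] at hv
      simp only [Cfsg.quadFormOdd, Pi.add_apply, jOdd, LinearMap.coe_mk, AddHom.coe_mk, Sum.elim_inl, Sum.elim_inr,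
        Pi.zero_apply, zero_add, mul_add, Finset.sum_add_distrib, add_zero, Pi.single_apply, mul_ite, mul_one, mul_zero,
        Finset.sum_ite_eq', Finset.mem_univ, if_true] at h1 hv
      linear_combination h1 - hv
    have h3 : v (Sum.inl ()) = 0 := by
      rw [Qodd_apply] at hv
      simp only [Cfsg.quadFormOdd, hx, zero_mul, Finset.sum_const_zero, add_zero] at hv
      exact pow_eq_zero_iff (two_ne_zero) |>.mp hv
    refine ⟨fun i => v (Sum.inr (Sum.inr i)), ?_⟩
    ext (i | (i | i))
    · exact h3.symm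
    · exact (hx i).symm
    · rfl

end odd

section minus

variable {F : Type*} [Field F] [Fintype F]

/-- The standard maximal totally singular subspace. -/
def jMinus (m : ℕ) (F : Type*) [Field F] : (Fin m → F) →ₗ[F] ((Fin m ⊕ Fin m) ⊕ Fin 2 → F) where
  toFun y := Sum.elim (Sum.elim 0 y) 0
  map_add' x y := by
    ext ((i | i) | i) <;> simp
  map_smul' c x := by
    ext ((i | i) | i) <;> simp

lemma noSkew_minus {a b : F} (hab : ∀ z₁ z₂ : F, z₁ ^ 2 + a * z₁ * z₂ + b * z₂ ^ 2 = 0 → z₁ = 0 ∧ z₂ = 0) :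
    NoSkew (Qminus 3 F a b) := by
  have hfr : finrank F ((Fin 3 ⊕ Fin 3) ⊕ Fin 2 → F) = 8 := by
    simp [Module.finrank_fintype_fun_eq_card]
  have hinj : Function.Injective (jMinus 3 F) := by
    intro x y h
    ext i
    exact congrFun h (Sum.inl (Sum.inr i))
  have hts : ∀ y, Qminus 3 F a b (jMinus 3 F y) = 0 := by
    intro y
    rw [Qminus_apply]
    simp [Cfsg.quadFormMinus, jMinus]
  refine noSkew_of (Qminus_nondeg hab 3) (by omega) (Y := LinearMap.range (jMinus 3 F))
    (by rw [LinearMap.finrank_range_of_inj hinj]; simp) ?_ ?_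
  · rintro _ ⟨y, rfl⟩
    exact hts y
  · intro v hv hp
    have hx : ∀ i, v (Sum.inl (Sum.inl i)) = 0 := by
      intro i
      have h1 := Q_add (Qminus 3 F a b) (jMinus 3 F (Pi.single i 1)) v
      rw [hts, hv, hp _ ⟨_, rfl⟩, Qminus_apply] at h1
      rw [Qminus_apply] at hv
      simp only [Cfsg.quadFormMinus, Pi.add_apply, jMinus, LinearMap.coe_mk, AddHom.coe_mk, Sum.elim_inl, Sum.elim_inr,
        Pi.zero_apply, zero_add, mul_add, Finset.sum_add_distrib, add_zero, Pi.single_apply, mul_ite, mul_one, mul_zero,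
        Finset.sum_ite_eq', Finset.mem_univ, if_true] at h1 hv
      linear_combination h1 - hv
    have h3 := by
      rw [Qminus_apply] at hv
      simp only [Cfsg.quadFormMinus, hx, zero_mul, Finset.sum_const_zero, zero_add] at hv
      exact hab _ _ hv
    refine ⟨fun i => v (Sum.inl (Sum.inr i)), ?_⟩
    ext ((i | i) | i)
    · exact (hx i).symm
    · rfl
    · fin_cases i
      · exact h3.1.symm
      · exact h3.2.symm

end minus

section final

variable {F : Type*} [Field F] [Fintype F]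

theorem gamma_odd (hodd : Odd (Fintype.card F)) {m : ℕ} (hm : 3 ≤ m) : Cfsg.gammaPOmega F (Cfsg.quadFormOdd m F) = ⊤ := by
  have e : Cfsg.quadFormOdd m F = ⇑(Qodd m F) := (funext fun v => Qodd_apply m v).symm
  rw [e]
  have h2 : (2 : F) ≠ 0 := P2.two_ne_zero_of_odd hodd
  have hfr : finrank F (Unit ⊕ (Fin m ⊕ Fin m) → F) = 1 + (m + m) := by
    simp [Module.finrank_fintype_fun_eq_card]
  haveI : ND (Qodd m F) := ⟨Qodd_nondeg h2 m, by omega⟩
  refine gamma_top _ ?_
  by_cases h4 : 4 ≤ m
  · left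
    omega
  · right
    have : m = 3 := by omega
    subst this
    exact noSkew_odd h2

theorem gamma_plus {m : ℕ} (hm : 5 ≤ m) : Cfsg.gammaPOmega F (Cfsg.quadFormPlus m F) = ⊤ := by
  have e : Cfsg.quadFormPlus m F = ⇑(Qplus m F) := (funext fun v => Qplus_apply m v).symm
  rw [e]
  have hfr : finrank F (Fin m ⊕ Fin m → F) = m + m := by
    simp [Module.finrank_fintype_fun_eq_card]
  haveI : ND (Qplus m F) := ⟨Qplus_nondeg m, by omega⟩
  exact gamma_top _ (Or.inl (by omega))

theorem gamma_minus {m : ℕ} (hm : 3 ≤ m) (a b : F) (hab : ∀ z₁ z₂ : F, z₁ ^ 2 + a * z₁ * z₂ + b * z₂ ^ 2 = 0 → z₁ = 0 ∧ z₂ = 0) :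
    Cfsg.gammaPOmega F (Cfsg.quadFormMinus m F a b) = ⊤ := by
  have e : Cfsg.quadFormMinus m F a b = ⇑(Qminus m F a b) := (funext fun v => Qminus_apply m a b v).symm
  rw [e]
  have hfr : finrank F ((Fin m ⊕ Fin m) ⊕ Fin 2 → F) = m + m + 2 := by
    simp [Module.finrank_fintype_fun_eq_card]
  haveI : ND (Qminus m F a b) := ⟨Qminus_nondeg hab m, by omega⟩
  refine gamma_top _ ?_
  by_cases h4 : 4 ≤ m
  · left
    omega
  · right
    have : m = 3 := by omega
    subst this
    exact noSkew_minus hab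

end final

end Cfsg.Agent.Lib.AutPO
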