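import Mathlib
import Cfsg.Agent.Lib.AutPO.ActO
import Cfsg.Agent.Lib.AutPO.OutGrp
import Cfsg.Agent.Lib.AutPO.Forms
import Cfsg.Agent.Lib.AutPSL.Out

/-!
The outer automorphism group of the odd-dimensional orthogonal groups.
-/

set_option autoImplicit false
set_option linter.unusedSectionVars false
set_option linter.unusedVariables false

open scoped Matrix

namespace Cfsg.Agent.Lib.AutPO

open Cfsg.Agent.Lib.Classical Cfsg.Agent.Lib.Classical.Witt Cfsg.Agent.Lib.Classical.Abs Cfsg.Agent.Lib.Classical.Orth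
open Cfsg.Agent.Lib.Known3.SimAut Cfsg.Agent.Lib.Known3.OmegaTrans Cfsg.Agent.Lib.Known3.OmegaCalc
open scoped commutatorElement
open Module Ln

local notation "P" => QuadraticMap.polarBilin

section pgo

variable {ι : Type} [Fintype ι] [DecidableEq ι] {F : Type*} [Field F] [Fintype F] {Q : QuadraticForm F (ι → F)}

/-- In odd dimension every similarity is a scalar times an element of `SO`. -/
lemma exists_scal_SO (hne : ∃ v, Q v ≠ 0) (hQ : (P Q).Nondegenerate) (hn : Odd (Fintype.card ι)) (g : Sim (⇑Q)) :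
    ∃ (c : Fˣ) (k : Sim (⇑Q)), g = scal Q c * k ∧ k.1 ∈ Cfsg.specialIsometryGL F (⇑Q) := by
  obtain ⟨h, hh⟩ := hn
  have hd := det_sq hne hQ g
  set μ : Fˣ := mu Q hne g with hμ
  have hdet0 : (g.1 : Matrix ι ι F).det ≠ 0 := by
    intro h0
    rw [h0, mul_zero] at hd
    exact pow_ne_zero _ (Units.ne_zero μ) hd.symm
  let e : Fˣ := Units.mk0 (g.1 : Matrix ι ι F).det hdet0 * (μ ^ h)⁻¹
  have he : (e : F) * e = μ := by
    have h3 : (μ : F) ^ h ≠ 0 := pow_ne_zero _ (Units.ne_zero μ)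
    simp only [e, Units.val_mul, Units.val_mk0, Units.val_inv_eq_inv_val, Units.val_pow_eq_pow_val]
    rw [hh, pow_succ, pow_mul] at hd
    field_simp
    linear_combination hd
  let k₀ : Sim (⇑Q) := (scal Q e)⁻¹ * g
  have hk₀ : k₀.1 ∈ Cfsg.isometryGroup F (⇑Q) := by
    apply iso_of_mu (hne := hne)
    change mu Q hne ((scal Q e)⁻¹ * g) = 1
    rw [map_mul, map_inv, mu_scal, ← hμ]
    apply Units.ext
    simp only [Units.val_mul, Units.val_inv_eq_inv_val, he, Units.val_one]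
    exact inv_mul_cancel₀ (Units.ne_zero μ)
  have hd0 := det_sq hne hQ k₀
  rw [mu_of_iso (hne := hne) k₀ hk₀, Units.val_one, one_pow] at hd0
  rcases mul_self_eq_one_iff.1 hd0 with h3 | h3
  · exact ⟨e, k₀, by simp [k₀], ⟨hk₀, mem_SL.2 h3⟩⟩
  · refine ⟨e * (-1), scal Q (-1) * k₀, ?_, ?_⟩
    · rw [scal_mul, mul_assoc, ← mul_assoc (scal Q (-1)) (scal Q (-1)), ← scal_mul]
      have h4 : scal Q ((-1 : Fˣ) * (-1)) = 1 := by
        apply Subtype.ext
        apply Units.ext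
        change (((-1 : Fˣ) * (-1) : Fˣ) : F) • (1 : Matrix ι ι F) = 1
        simp
      rw [h4, one_mul]
      simp [k₀]
    · refine ⟨?_, mem_SL.2 ?_⟩
      · apply iso_of_mu (hne := hne)
        change mu Q hne (scal Q (-1) * k₀) = 1
        rw [map_mul, mu_scal, mu_of_iso (hne := hne) k₀ hk₀]
        simp
      · change (((scal Q (-1)).1.1 * k₀.1.1 : Matrix ι ι F)).det = 1
        rw [Matrix.det_mul, scal_coe, Matrix.det_smul, Matrix.det_one, h3]
        simp only [Units.val_neg, Units.val_one, mul_one]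
        rw [hh, Odd.neg_one_pow ⟨h, rfl⟩]
        ring

/-- In odd dimension, the similarities and `SO` have the same image. -/
lemma pgo_eq_pso (hne : ∃ v, Q v ≠ 0) (hQ : (P Q).Nondegenerate) (hn : Odd (Fintype.card ι)) :
    img (⇑Q) (Sim (⇑Q)) = img (⇑Q) (Cfsg.specialIsometryGL F (⇑Q)) := by
  apply le_antisymm
  · intro β hβ
    obtain ⟨g, -, rfl⟩ := mem_img.1 hβ
    obtain ⟨c, k, rfl, hk⟩ := exists_scal_SO hne hQ hn g
    refine mem_img.2 ⟨k, hk, ?_⟩
    rw [map_mul, Ψ_scal, one_mul]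
  · exact img_mono (special_le_sim _)

/-- The quotient `PGO/T` in odd dimension. -/
theorem odd_pgo (hne : ∃ v, Q v ≠ 0) (hQ : (P Q).Nondegenerate) (h2 : (2 : F) ≠ 0) (hodd : Odd (Fintype.card ι))
    (hn : 5 ≤ Fintype.card ι) :
    ∃ φ : ↥(Cfsg.pgoAut F (⇑Q)) →* ℤˣ, Function.Surjective φ ∧
      φ.ker = (Cfsg.Inn (Cfsg.POmega F (⇑Q))).subgroupOf (Cfsg.pgoAut F (⇑Q)) := by
  rw [pgoAut_eq, pgo_eq_pso hne hQ hodd, Inn_eq]
  obtain ⟨ν, hν0, hν⟩ := exists_nonsq h2
  have hne1 : (-1 : F) ≠ 1 := fun h5 => h2 (by linear_combination -h5)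
  refine exists_lift (Q := ⇑Q) (Cfsg.specialIsometryGL F (⇑Q)) (OmegaGL (⇑Q)) (OmegaGL_le_SO h2 hQ)
    ((spin Q ν).comp (inclSO Q)) (spin_surj h2 hQ hn hν0 hν) ?_
    (by
      intro g hg
      have hg1 : g.1.1 ∈ Cfsg.isometryGroup F (⇑Q) := (Subgroup.mem_subgroupOf.1 g.2).1
      have hg2 : g.1.1 ∈ Cfsg.Geo.specialLinear ι F := (Subgroup.mem_subgroupOf.1 g.2).2
      exact ⟨g.1, ⟨⟨g.1.1, hg1⟩, (mem_Omega_iff_spin h2 hQ hν0 hν _).2 ⟨mem_SL.1 hg2, hg⟩, rfl⟩, rfl⟩)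
    (by
      rintro g ⟨x, hx, hxg⟩
      have : inclSO Q g = x := Subtype.ext hxg.symm
      rw [MonoidHom.comp_apply, this]
      exact ((mem_Omega_iff_spin h2 hQ hν0 hν _).1 hx).2)
  intro g hg
  obtain ⟨c, hc⟩ := scalar_of_Ψ h2 hQ hn _ hg
  have hg1 : g.1.1 ∈ Cfsg.isometryGroup F (⇑Q) := (Subgroup.mem_subgroupOf.1 g.2).1
  have hg2 : g.1.1 ∈ Cfsg.Geo.specialLinear ι F := (Subgroup.mem_subgroupOf.1 g.2).2
  have h4 : (scal Q c).1 ∈ Cfsg.isometryGroup F (⇑Q) := by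
    rw [← hc]
    exact hg1
  rcases scal_iso_cases hne h4 with rfl | rfl
  · have : inclSO Q g = 1 := by
      apply Subtype.ext
      change g.1.1 = 1
      rw [hc]
      apply Units.ext
      change ((1 : Fˣ) : F) • (1 : Matrix ι ι F) = 1
      simp
    rw [MonoidHom.comp_apply, this, map_one]
  · exfalso
    have h5 := mem_SL.1 hg2
    rw [hc, scal_coe, Matrix.det_smul, Matrix.det_one, mul_one] at h5
    simp only [Units.val_neg, Units.val_one] at h5
    rw [Odd.neg_one_pow hodd] at h5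
    exact hne1 h5

end pgo

section hatOdd

variable {F : Type*} [Field F] [Fintype F] {m : ℕ}

/-- A field automorphism acting on coordinates. -/
def hatOdd (m : ℕ) (σ : F ≃+* F) : SS (Qodd m F) where
  g := hat σ
  σ := σ
  μ := 1
  hμ := one_ne_zero
  smul := hat_smul σ
  q x := by
    rw [Qodd_apply, Qodd_apply, one_mul]
    simp [Cfsg.quadFormOdd, hat_apply, map_sum]

lemma hatOdd_comp (σ τ : F ≃+* F) (v : Unit ⊕ (Fin m ⊕ Fin m) → F) :
    ((hatOdd m σ).comp (hatOdd m τ)).g v = (hatOdd m (σ * τ)).g v := rfl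

end hatOdd

section final

variable {F : Type*} [Field F] [Fintype F] {m : ℕ}

local notation "Q₀" => Qodd m F

theorem out_odd {p f : ℕ} [Fact p.Prime] (hf : 1 ≤ f) (hF : Fintype.card F = p ^ f) (hodd : Odd (Fintype.card F)) (hm : 3 ≤ m) :
    Nonempty (Cfsg.Out (Cfsg.POmega F (⇑(Qodd m F))) ≃* Multiplicative (ZMod 2 × ZMod f)) := by
  classical
  have h2 : (2 : F) ≠ 0 := P2.two_ne_zero_of_odd hodd
  have hfr : finrank F (Unit ⊕ (Fin m ⊕ Fin m) → F) = 1 + (m + m) := by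
    simp [Module.finrank_fintype_fun_eq_card]
  haveI hND : ND (Qodd m F) := ⟨Qodd_nondeg h2 m, by omega⟩
  have H : 9 ≤ finrank F (Unit ⊕ (Fin m ⊕ Fin m) → F) ∨ NoSkew (Qodd m F) := by
    by_cases h4 : 4 ≤ m
    · left
      omega
    · right
      have : m = 3 := by omega
      subst this
      exact noSkew_odd h2
  have hcard : Fintype.card (Unit ⊕ (Fin m ⊕ Fin m)) = 1 + (m + m) := by simp
  have hne : ∃ v, Qodd m F v ≠ 0 := by
    obtain ⟨v, hv⟩ := exists_nonsing h2 (Qodd_nondeg h2 m) (by rw [hcard]; omega)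
    exact ⟨v, by rw [hv]; exact one_ne_zero⟩
  obtain ⟨φ, hφ1, hφ2⟩ := odd_pgo hne (Qodd_nondeg h2 m) h2 (by rw [hcard]; exact ⟨m, by ring⟩) (by rw [hcard]; omega)
  have hI : Cfsg.Inn (Cfsg.POmega F (⇑(Qodd m F))) ≤ (sig H).ker := by
    rw [sig_ker]
    exact inn_le_pgo
  obtain ⟨e1⟩ := ker_equiv _ _ (sig H) hI (sig_ker H) φ hφ1 hφ2
  set π := barSig (Cfsg.Inn (Cfsg.POmega F (⇑(Qodd m F)))) (sig H) hI with hπ
  have hcardker : Nat.card π.ker = 2 := by
    rw [Nat.card_congr e1.toEquiv, Nat.card_eq_fintype_card]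
    rfl
  let Φ : (F ≃+* F) →* MulAut (Cfsg.POmega F (⇑(Qodd m F))) ⧸ Cfsg.Inn (Cfsg.POmega F (⇑(Qodd m F))) :=
    { toFun := fun σ => (act (hatOdd m σ) : MulAut (Cfsg.POmega F (⇑(Qodd m F))) ⧸ Cfsg.Inn (Cfsg.POmega F (⇑(Qodd m F))))
      map_one' := by
        have : act (hatOdd m (1 : F ≃+* F)) = 1 := by
          rw [← act_one]
          apply act_congr
          intro v
          rfl
        rw [this]
        rfl
      map_mul' := fun σ τ => by
        have : act (hatOdd m (σ * τ)) = act (hatOdd m σ) * act (hatOdd m τ) := by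
          rw [← act_comp]
          apply act_congr
          intro v
          rfl
        rw [this]
        rfl }
  have hπΦ : ∀ σ, π (Φ σ) = σ := by
    intro σ
    change sig H (act (hatOdd m σ)) = σ
    rw [sig_act]
    rfl
  obtain ⟨e2⟩ := split_prod π Φ.range
    (by
      rintro _ ⟨σ, rfl⟩ h
      rw [hπΦ] at h
      rw [h, map_one])
    (fun t => ⟨Φ t, ⟨t, rfl⟩, hπΦ t⟩)
    (fun y _ n hn => central_of_card_two π.ker hcardker y hn)
  obtain ⟨e3⟩ := Cfsg.Agent.Lib.AutPSL.exists_gal_iso hF hf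
  exact ⟨e2.trans ((MulEquiv.prodCongr (e1.trans signZ) e3).trans (MulEquiv.prodMultiplicative (ZMod 2) (ZMod f)).symm)⟩

end final

end Cfsg.Agent.Lib.AutPO
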