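import Mathlib
import Cfsg.Agent.Lib.AutPO.Lang
import Cfsg.Agent.Lib.AutPO.OutOdd

/-!
Lang's theorem for the field automorphisms of the odd-dimensional orthogonal groups.
-/

set_option autoImplicit false
set_option linter.unusedSectionVars false
set_option linter.unusedVariables false

open scoped Matrix

namespace Cfsg.Agent.Lib.AutPO

open Cfsg.Agent.Lib.Classical Cfsg.Agent.Lib.Classical.Witt Cfsg.Agent.Lib.Classical.Abs Cfsg.Agent.Lib.Classical.Orth
open Cfsg.Agent.Lib.Known3.SimAut Cfsg.Agent.Lib.Known3.FieldAut Cfsg.Agent.Lib.Known3.QuadStd Cfsg.Agent.Lib.Known3.QuadIso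
open scoped commutatorElement
open Module

local notation "P" => QuadraticMap.polarBilin
local notation "GLn" => Matrix.GeneralLinearGroup

section std

variable {F : Type*} [Field F]

lemma polar_Qodd (m : ℕ) (u v : Unit ⊕ (Fin m ⊕ Fin m) → F) :
    P (Qodd m F) u v = 2 * (u (Sum.inl ()) * v (Sum.inl ())) + ∑ i, (u (Sum.inr (Sum.inl i)) * v (Sum.inr (Sum.inr i)) + u (Sum.inr (Sum.inr i)) * v (Sum.inr (Sum.inl i))) := by
  change QuadraticMap.polar (⇑(Qodd m F)) u v = _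
  simp only [QuadraticMap.polar, Qodd_apply, Cfsg.quadFormOdd, Pi.add_apply]
  have h : ∑ i, ((u (Sum.inr (Sum.inl i)) + v (Sum.inr (Sum.inl i))) * (u (Sum.inr (Sum.inr i)) + v (Sum.inr (Sum.inr i)))) -
      (∑ i, u (Sum.inr (Sum.inl i)) * u (Sum.inr (Sum.inr i))) - (∑ i, v (Sum.inr (Sum.inl i)) * v (Sum.inr (Sum.inr i))) =
      ∑ i, (u (Sum.inr (Sum.inl i)) * v (Sum.inr (Sum.inr i)) + u (Sum.inr (Sum.inr i)) * v (Sum.inr (Sum.inl i))) := by
    rw [← Finset.sum_sub_distrib, ← Finset.sum_sub_distrib]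
    refine Finset.sum_congr rfl fun i _ => ?_
    ring
  rw [← h]
  ring

variable {V : Type*} [AddCommGroup V] [Module F V] [FiniteDimensional F V]

/-- A non-degenerate form in odd dimension is similar to the standard form. -/
theorem std_odd_sim [Finite F] {m : ℕ} (hV : finrank F V = 2 * m + 1) (Q : QuadraticForm F V) (hQ : (P Q).Nondegenerate) :
    ∃ (θ : V ≃ₗ[F] (Unit ⊕ (Fin m ⊕ Fin m) → F)) (c : Fˣ), ∀ v, Qodd m F (θ v) = (c : F) * Q v := by
  classical
  obtain ⟨b, h0, h1, h2, h3, h4⟩ := std_odd hV Q hQ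
  set κ := Q (b (Sum.inl ())) with hκ
  let κu : Fˣ := Units.mk0 κ h0
  let w : Unit ⊕ (Fin m ⊕ Fin m) → Fˣ := Sum.elim (fun _ => 1) (Sum.elim (fun _ => 1) (fun _ => κu))
  let b' := b.unitsSMul w
  have hb0 : b' (Sum.inl ()) = b (Sum.inl ()) := by
    simp [b', w, Module.Basis.unitsSMul_apply]
  have hb1 : ∀ i, b' (Sum.inr (Sum.inl i)) = b (Sum.inr (Sum.inl i)) := by
    intro i
    simp [b', w, Module.Basis.unitsSMul_apply]
  have hb2 : ∀ i, b' (Sum.inr (Sum.inr i)) = κ • b (Sum.inr (Sum.inr i)) := by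
    intro i
    simp [b', w, Module.Basis.unitsSMul_apply, κu, Units.smul_def]
  have hκ0 : κ ≠ 0 := h0
  have f0 : Q (b' (Sum.inl ())) = κ := by rw [hb0]
  have f2 : ∀ i, Q (b' (Sum.inr (Sum.inl i))) = 0 ∧ Q (b' (Sum.inr (Sum.inr i))) = 0 := by
    intro i
    rw [hb1, hb2, Q_smul, (h2 i).1, (h2 i).2]
    simp
  have f1 : ∀ i, P Q (b' (Sum.inl ())) (b' (Sum.inr (Sum.inl i))) = 0 ∧ P Q (b' (Sum.inl ())) (b' (Sum.inr (Sum.inr i))) = 0 := by
    intro i
    rw [hb0, hb1, hb2, map_smul, (h1 i).1, (h1 i).2]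
    simp
  have f3 : ∀ i j, P Q (b' (Sum.inr (Sum.inl i))) (b' (Sum.inr (Sum.inr j))) = if i = j then κ else 0 := by
    intro i j
    rw [hb1, hb2, map_smul, h3 i j]
    by_cases hij : i = j <;> simp [hij]
  have f4 : ∀ i j, P Q (b' (Sum.inr (Sum.inl i))) (b' (Sum.inr (Sum.inl j))) = 0 ∧ P Q (b' (Sum.inr (Sum.inr i))) (b' (Sum.inr (Sum.inr j))) = 0 := by
    intro i j
    rw [hb1, hb1, hb2, hb2, (h4 i j).1]
    simp [(h4 i j).2]
  refine ⟨b'.equivFun, κu⁻¹, ?_⟩
  have hpol : ∀ x y, P (((κu⁻¹ : Fˣ) : F) • Q) x y = κ⁻¹ * P Q x y := by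
    intro x y
    change QuadraticMap.polar _ x y = _
    simp only [QuadraticMap.polar, QuadraticMap.smul_apply, smul_eq_mul, Units.val_inv_eq_inv_val, κu, Units.val_mk0]
    change _ = κ⁻¹ * QuadraticMap.polar _ x y
    simp only [QuadraticMap.polar]
    ring
  have key := ext_on_basis b' ((Qodd m F).comp (b'.equivFun : V →ₗ[F] (Unit ⊕ (Fin m ⊕ Fin m) → F))) (((κu⁻¹ : Fˣ) : F) • Q) ?_ ?_
  · intro v
    have := key v
    simpa using this
  · rintro (i | i | i)
    · simp [basis_single, Qodd_apply, Cfsg.quadFormOdd, Pi.single_apply, f0, κu, hκ0]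
    · simp [basis_single, Qodd_apply, Cfsg.quadFormOdd, Pi.single_apply, (f2 i).1]
    · simp [basis_single, Qodd_apply, Cfsg.quadFormOdd, Pi.single_apply, (f2 i).2]
  · rintro (i | i | i) (j | j | j)
    · rw [polar_comp, polar_Qodd, hpol, pol_self, f0]
      simp [basis_single, Pi.single_apply]
      field_simp
    · rw [polar_comp, polar_Qodd, hpol, (f1 j).1]
      simp [basis_single, Pi.single_apply]
    · rw [polar_comp, polar_Qodd, hpol, (f1 j).2]
      simp [basis_single, Pi.single_apply]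
    · rw [polar_comp, polar_Qodd, hpol, pol_comm Q, (f1 i).1]
      simp [basis_single, Pi.single_apply]
    · rw [polar_comp, polar_Qodd, hpol, (f4 i j).1]
      simp [basis_single, Pi.single_apply]
    · rw [polar_comp, polar_Qodd, hpol, f3 i j]
      by_cases hij : i = j
      · subst hij
        simp [basis_single, Pi.single_apply, hκ0]
      · simp [basis_single, Pi.single_apply, hij]
    · rw [polar_comp, polar_Qodd, hpol, pol_comm Q, (f1 i).2]
      simp [basis_single, Pi.single_apply]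
    · rw [polar_comp, polar_Qodd, hpol, pol_comm Q, f3 j i]
      by_cases hij : j = i
      · subst hij
        simp [basis_single, Pi.single_apply, hκ0]
      · have hij' : i ≠ j := fun h => hij h.symm
        simp [basis_single, Pi.single_apply, hij, hij']
    · rw [polar_comp, polar_Qodd, hpol, (f4 i j).2]
      simp [basis_single, Pi.single_apply]

end std

section final

variable {F : Type*} [Field F] [Fintype F] {m : ℕ}

/-- The two descended forms are similar in odd dimension. -/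
lemma formSim_odd {K : Type*} [Field K] [Finite K] (Q₀ Q₀' : QuadraticForm K (Unit ⊕ (Fin m ⊕ Fin m) → K))
    (h : (P Q₀).Nondegenerate) (h' : (P Q₀').Nondegenerate) :
    ∃ (θ₀ : (Unit ⊕ (Fin m ⊕ Fin m) → K) ≃ₗ[K] (Unit ⊕ (Fin m ⊕ Fin m) → K)) (c : Kˣ), ∀ u, Q₀' (θ₀ u) = (c : K) * Q₀ u := by
  have hfr : finrank K (Unit ⊕ (Fin m ⊕ Fin m) → K) = 2 * m + 1 := by
    simp [Module.finrank_fintype_fun_eq_card]
    ring
  obtain ⟨θ, c, hc⟩ := std_odd_sim hfr Q₀ h
  obtain ⟨θ', c', hc'⟩ := std_odd_sim hfr Q₀' h'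
  refine ⟨θ.trans θ'.symm, c'⁻¹ * c, fun u => ?_⟩
  have h1 := hc' (θ'.symm (θ u))
  rw [θ'.apply_symm_apply, hc] at h1
  simp only [LinearEquiv.trans_apply, Units.val_mul, Units.val_inv_eq_inv_val]
  have h0 : (c' : K) ≠ 0 := Units.ne_zero _
  field_simp
  linear_combination -h1

theorem lang_odd (hodd : Odd (Fintype.card F)) (hm : 3 ≤ m) {q : (Unit ⊕ (Fin m ⊕ Fin m) → F) → F} (hq : ⇑(Qodd m F) = q)
    (x δ : MulAut (Cfsg.POmega F q)) (hx : Cfsg.IsFieldAutClassPOmega q x) {r : ℕ} (hr : r.Prime) (hxr : orderOf x = r)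
    (hδ : δ ∈ Cfsg.pgoAut F q) : orderOf (δ * x) = r ↔ Cfsg.IsConjUnder (Cfsg.pgoAut F q) x (δ * x) := by
  classical
  subst hq
  have h2 : (2 : F) ≠ 0 := P2.two_ne_zero_of_odd hodd
  have hfr : finrank F (Unit ⊕ (Fin m ⊕ Fin m) → F) = 1 + (m + m) := by
    simp [Module.finrank_fintype_fun_eq_card]
  haveI hND : ND (Qodd m F) := ⟨Qodd_nondeg h2 m, by omega⟩
  have H : 9 ≤ finrank F (Unit ⊕ (Fin m ⊕ Fin m) → F) ∨ NoSkew (Qodd m F) := by
    by_cases h4 : 4 ≤ m
    · left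
      omega
    · right
      have : m = 3 := by omega
      subst this
      exact noSkew_odd h2
  constructor
  swap
  · intro h
    rw [isConj_order h, hxr]
  intro hy
  have hypow : (δ * x) ^ r = 1 := by rw [← hy]; exact pow_orderOf_eq_one _
  have hxpow : x ^ r = 1 := by rw [← hxr]; exact pow_orderOf_eq_one _
  obtain ⟨α, φ, σ, hσ, hφ, hαx⟩ := hx
  have hφs : φ = act (hatOdd m σ) := eq_act_of_field (hatOdd m σ) (fun v => rfl) φ hφ
  have hsx : sig H x ≠ 1 := by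
    intro h1
    apply hσ
    have h3 : sig H φ = σ := by
      rw [hφs, sig_act]
      rfl
    rw [← h3, ← hαx, map_mul, map_mul, h1, mul_one, map_inv, mul_inv_cancel]
    rfl
  obtain ⟨S, hS⟩ := act_surj H x
  obtain ⟨S', hS'⟩ := act_surj H (δ * x)
  have hSσ : S.σ = sig H x := by rw [← hS, sig_act]
  have hδ1 : sig H δ = 1 := (sig_eq_one_iff H δ).2 hδ
  have hSσ' : S'.σ = sig H x := by rw [← sig_act H S', hS', map_mul, hδ1, one_mul]
  haveI : Fact r.Prime := ⟨hr⟩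
  have hord : orderOf (sig H x) = r := orderOf_eq_prime (by rw [← map_pow, hxpow, map_one]) hsx
  obtain ⟨D⟩ := exists_LD S hSσ hord hr.ne_zero (by rw [hS, hxpow])
  obtain ⟨D'⟩ := exists_LD S' hSσ' hord hr.ne_zero (by rw [hS', hypow])
  obtain ⟨θ₀, c, hc⟩ := formSim_odd D.Q₀ D'.Q₀ D.Q₀_nondeg D'.Q₀_nondeg
  obtain ⟨θ, hθ, -⟩ := conj_of_LD D D' θ₀ c hc
  refine ⟨Ψ (⇑(Qodd m F)) θ, ?_, ?_⟩
  · rw [pgoAut_eq]
    exact mem_img.2 ⟨θ, θ.2, rfl⟩
  · rw [← hS', hθ, hS]

end final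

end Cfsg.Agent.Lib.AutPO
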