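import Mathlib
import Cfsg.Agent.Lib.AutPO.OutOdd

/-!
The lift of the Frobenius automorphism to a semisimilarity of the form of minus type.
-/

set_option autoImplicit false
set_option linter.unusedSectionVars false
set_option linter.unusedVariables false

open scoped Matrix

namespace Cfsg.Agent.Lib.AutPO

open Cfsg.Agent.Lib.Classical Cfsg.Agent.Lib.Classical.Witt Cfsg.Agent.Lib.Classical.Abs Cfsg.Agent.Lib.Classical.Orth
open Cfsg.Agent.Lib.Known3.SimAut Cfsg.Agent.Lib.Known3.OmegaTrans Cfsg.Agent.Lib.Known3.OmegaCalc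
open scoped commutatorElement
open Module Ln

local notation "P" => QuadraticMap.polarBilin

section quad

universe u

variable {F : Type u} [Field F]

open Polynomial in
lemma exists_quad' (a b : F) (hab : ∀ z₁ z₂ : F, z₁ ^ 2 + a * z₁ * z₂ + b * z₂ ^ 2 = 0 → z₁ = 0 ∧ z₂ = 0) :
    ∃ (K : Type u) (_ : Field K) (_ : Algebra F K) (ω : K), finrank F K = 2 ∧
      ω ^ 2 - algebraMap F K a * ω + algebraMap F K b = 0 := by
  let f : F[X] := X ^ 2 - C a * X + C b
  have hf : f.Monic := by
    unfold f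
    monicity!
  have hdeg : f.natDegree = 2 := by
    unfold f
    compute_degree!
  have hirr : Irreducible f := by
    apply Polynomial.irreducible_of_degree_le_three_of_not_isRoot
    · rw [hdeg]
      simp
    · intro t ht
      have h3 : t ^ 2 + a * t * (-1) + b * (-1) ^ 2 = 0 := by
        have := ht
        simp only [f, IsRoot.def, eval_add, eval_sub, eval_mul, eval_pow, eval_X, eval_C] at this
        linear_combination this
      exact one_ne_zero (neg_eq_zero.1 (hab t (-1) h3).2)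
  haveI : Fact (Irreducible f) := ⟨hirr⟩
  refine ⟨AdjoinRoot f, inferInstance, inferInstance, AdjoinRoot.root f, ?_, ?_⟩
  · rw [(AdjoinRoot.powerBasis hirr.ne_zero).finrank, AdjoinRoot.powerBasis_dim, hdeg]
  · have h := AdjoinRoot.eval₂_root f
    simp only [f, eval₂_add, eval₂_sub, eval₂_mul, eval₂_pow, eval₂_X, eval₂_C] at h
    exact h

/-- A quadratic extension containing a root of the polynomial. -/
structure QuadExt (a b : F) (K : Type*) [Field K] [Algebra F K] where
  ω : K
  dim : finrank F K = 2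
  eq : ω ^ 2 - algebraMap F K a * ω + algebraMap F K b = 0
  nr : ∀ t : F, ω ≠ algebraMap F K t

variable {a b : F} {K : Type*} [Field K] [Algebra F K] (E : QuadExt a b K)

namespace QuadExt

/-- The coordinates. -/
def incL : (Fin 2 → F) →ₗ[F] K where
  toFun z := algebraMap F K (z 0) + algebraMap F K (z 1) * E.ω
  map_add' x y := by
    simp only [Pi.add_apply, map_add]
    ring
  map_smul' c x := by
    simp only [Pi.smul_apply, smul_eq_mul, map_mul, RingHom.id_apply, Algebra.smul_def]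
    ring

lemma incL_inj : Function.Injective E.incL := by
  rw [injective_iff_map_eq_zero]
  intro z hz
  have h : algebraMap F K (z 0) + algebraMap F K (z 1) * E.ω = 0 := hz
  have h1 : z 1 = 0 := by
    by_contra hc
    apply E.nr (-(z 0) / z 1)
    have hc' : algebraMap F K (z 1) ≠ 0 := by simpa using hc
    rw [map_div₀, map_neg]
    field_simp
    linear_combination h
  have h0 : z 0 = 0 := by
    rw [h1] at h
    simpa using h
  ext i
  fin_cases i
  · exact h0
  · exact h1

/-- The coordinates, as an equivalence. -/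
noncomputable def lin : (Fin 2 → F) ≃ₗ[F] K :=
  haveI : FiniteDimensional F K := FiniteDimensional.of_finrank_pos (by rw [E.dim]; norm_num)
  LinearMap.linearEquivOfInjective E.incL E.incL_inj (by rw [E.dim]; simp)

lemma lin_apply (z : Fin 2 → F) : E.lin z = algebraMap F K (z 0) + algebraMap F K (z 1) * E.ω := rfl

section pow

variable (p : ℕ) [hp : Fact p.Prime] [CharP F p] [CharP K p]

/-- The power map in coordinates. -/
noncomputable def gP (k : ℕ) (z : Fin 2 → F) : Fin 2 → F := E.lin.symm ((E.lin z) ^ (p ^ k))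

lemma lin_gP (k : ℕ) (z : Fin 2 → F) : E.lin (E.gP p k z) = (E.lin z) ^ (p ^ k) := by
  simp [gP]

lemma gP_zero' (z : Fin 2 → F) : E.gP p 0 z = z := by
  simp [gP]

lemma gP_comp (j k : ℕ) (z : Fin 2 → F) : E.gP p j (E.gP p k z) = E.gP p (j + k) z := by
  apply E.lin.injective
  rw [lin_gP, lin_gP, lin_gP, ← pow_mul, ← pow_add, add_comm]

lemma gP_add (k : ℕ) (x y : Fin 2 → F) : E.gP p k (x + y) = E.gP p k x + E.gP p k y := by
  apply E.lin.injective
  rw [map_add, lin_gP, lin_gP, lin_gP, map_add, add_pow_char_pow]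

lemma gP_smul (k : ℕ) (t : F) (x : Fin 2 → F) : E.gP p k (t • x) = t ^ (p ^ k) • E.gP p k x := by
  apply E.lin.injective
  rw [lin_gP, map_smul, map_smul, lin_gP, Algebra.smul_def, Algebra.smul_def, mul_pow, map_pow]

lemma gP_eq_zero {k : ℕ} {z : Fin 2 → F} (h : E.gP p k z = 0) : z = 0 := by
  have h1 := E.lin_gP p k z
  rw [h, map_zero] at h1
  have h2 : E.lin z = 0 := by
    by_contra hc
    exact pow_ne_zero _ hc h1.symm
  exact E.lin.map_eq_zero_iff.1 h2

variable [Fintype F] {f : ℕ} (hF : Fintype.card F = p ^ f)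

include hF

lemma alg_pow_card (t : F) : (algebraMap F K t) ^ (p ^ f) = algebraMap F K t := by
  rw [← map_pow, ← hF, FiniteField.pow_card]

lemma lin_pow_of_eq {ω' : K} (h : E.ω ^ (p ^ f) = ω') (z : Fin 2 → F) :
    (E.lin z) ^ (p ^ f) = algebraMap F K (z 0) + algebraMap F K (z 1) * ω' := by
  rw [lin_apply, add_pow_char_pow, mul_pow, alg_pow_card p hF, alg_pow_card p hF, h]

lemma omega_ne [Fintype K] (hf : 1 ≤ f) : E.ω ^ (p ^ f) ≠ E.ω := by
  intro h
  have hp1 : p.Prime := hp.out
  have h1 : ∀ x : K, x ^ (p ^ f) = x := by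
    intro x
    obtain ⟨z, rfl⟩ := E.lin.surjective x
    rw [E.lin_pow_of_eq p hF h]
    rfl
  have hK : Fintype.card K = (p ^ f) ^ 2 := by
    rw [Module.card_eq_pow_finrank (K := F) (V := K), E.dim, hF]
  have hq : 2 ≤ p ^ f := by
    calc 2 ≤ p := hp1.two_le
      _ = p ^ 1 := (pow_one p).symm
      _ ≤ p ^ f := Nat.pow_le_pow_right hp1.pos hf
  have h2 : ∀ u : Kˣ, u ^ (p ^ f - 1) = 1 := by
    intro u
    apply Units.ext
    have h3 := h1 (u : K)
    rw [Units.val_pow_eq_pow_val, Units.val_one]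
    apply mul_left_cancel₀ (Units.ne_zero u)
    rw [mul_one, ← pow_succ', Nat.sub_add_cancel (by omega), h3]
  have h3 := (FiniteField.forall_pow_eq_one_iff K (p ^ f - 1)).1 h2
  rw [hK] at h3
  have h4 := Nat.le_of_dvd (by omega) h3
  have h5 : (p ^ f) ^ 2 = p ^ f * p ^ f := by ring
  have h6 : 2 * p ^ f ≤ p ^ f * p ^ f := Nat.mul_le_mul_right _ hq
  omega

lemma omega_pow [Fintype K] (hf : 1 ≤ f) : E.ω ^ (p ^ f) = algebraMap F K a - E.ω := by
  set τ := iterateFrobenius K p f with hτ
  have h1 : τ (E.ω ^ 2 - algebraMap F K a * E.ω + algebraMap F K b) = 0 := by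
    rw [E.eq, map_zero]
  rw [map_add, map_sub, map_mul, map_pow] at h1
  have e1 : ∀ t : F, τ (algebraMap F K t) = algebraMap F K t := fun t => alg_pow_card p hF t
  have e2 : τ E.ω = E.ω ^ (p ^ f) := rfl
  rw [e1, e1, e2] at h1
  have h2 : (E.ω ^ (p ^ f) - E.ω) * (E.ω ^ (p ^ f) + E.ω - algebraMap F K a) = 0 := by
    linear_combination h1 - E.eq
  rcases mul_eq_zero.1 h2 with h3 | h3
  · exact absurd (sub_eq_zero.1 h3) (E.omega_ne p hF hf)
  · linear_combination h3

lemma norm_eq [Fintype K] (hf : 1 ≤ f) (z : Fin 2 → F) :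
    algebraMap F K (z 0 ^ 2 + a * z 0 * z 1 + b * z 1 ^ 2) = E.lin z * (E.lin z) ^ (p ^ f) := by
  rw [E.lin_pow_of_eq p hF (E.omega_pow p hF hf), lin_apply]
  simp only [map_add, map_mul, map_pow]
  linear_combination (algebraMap F K (z 1)) ^ 2 * E.eq

lemma gP_norm [Fintype K] (hf : 1 ≤ f) (k : ℕ) (z : Fin 2 → F) :
    (E.gP p k z 0) ^ 2 + a * (E.gP p k z 0) * (E.gP p k z 1) + b * (E.gP p k z 1) ^ 2 =
      (z 0 ^ 2 + a * z 0 * z 1 + b * z 1 ^ 2) ^ (p ^ k) := by
  apply (algebraMap F K).injective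
  rw [E.norm_eq p hF hf, map_pow, E.norm_eq p hF hf, lin_gP, mul_pow, ← pow_mul, ← pow_mul, mul_comm (p ^ k)]

lemma gP_f [Fintype K] (hf : 1 ≤ f) (z : Fin 2 → F) :
    E.gP p f z = ![z 0 + a * z 1, - z 1] := by
  apply E.lin.injective
  rw [lin_gP, E.lin_pow_of_eq p hF (E.omega_pow p hF hf), lin_apply]
  simp only [Matrix.cons_val_zero, Matrix.cons_val_one, map_add, map_mul, map_neg]
  ring

end pow

end QuadExt

end quad

section frobE

variable {F : Type*} [Field F] [Fintype F] (p : ℕ) [hp : Fact p.Prime] [CharP F p]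

/-- The powers of the Frobenius automorphism. -/
noncomputable def frobE (k : ℕ) : F ≃+* F :=
  RingEquiv.ofBijective (iterateFrobenius F p k) ⟨(iterateFrobenius F p k).injective, Finite.surjective_of_injective (iterateFrobenius F p k).injective⟩

lemma frobE_apply (k : ℕ) (x : F) : frobE p k x = x ^ (p ^ k) := rfl

lemma frobE_zero : frobE (F := F) p 0 = 1 := by
  ext x
  simp [frobE_apply]

lemma frobE_add (j k : ℕ) : frobE (F := F) p j * frobE p k = frobE p (j + k) := by
  ext x
  change (x ^ p ^ k) ^ p ^ j = x ^ p ^ (j + k)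
  rw [← pow_mul, ← pow_add, add_comm]

lemma frobE_pow (k : ℕ) : (frobE (F := F) p 1) ^ k = frobE p k := by
  induction k with
  | zero => rw [pow_zero, frobE_zero]
  | succ k ih => rw [pow_succ', ih, frobE_add, add_comm]

lemma orderOf_frobE {f : ℕ} (hf : 1 ≤ f) (hF : Fintype.card F = p ^ f) : orderOf (frobE (F := F) p 1) = f := by
  have hp1 : p.Prime := hp.out
  rw [orderOf_eq_iff (by omega)]
  refine ⟨?_, ?_⟩
  · rw [frobE_pow]
    ext x
    change x ^ p ^ f = x
    rw [← hF, FiniteField.pow_card]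
  · intro k hk hk0 h
    rw [frobE_pow] at h
    have h1 : ∀ x : F, x ^ p ^ k = x := fun x => by
      have := congrArg (fun σ : F ≃+* F => σ x) h
      exact this
    have hq : 2 ≤ p ^ k := by
      calc 2 ≤ p := hp1.two_le
        _ = p ^ 1 := (pow_one p).symm
        _ ≤ p ^ k := Nat.pow_le_pow_right hp1.pos hk0
    have h2 : ∀ u : Fˣ, u ^ (p ^ k - 1) = 1 := by
      intro u
      apply Units.ext
      have h3 := h1 (u : F)
      rw [Units.val_pow_eq_pow_val, Units.val_one]
      apply mul_left_cancel₀ (Units.ne_zero u)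
      rw [mul_one, ← pow_succ', Nat.sub_add_cancel (by omega), h3]
    have h3 := (FiniteField.forall_pow_eq_one_iff F (p ^ k - 1)).1 h2
    rw [hF] at h3
    have h4 := Nat.le_of_dvd (by omega) h3
    have h5 : p ^ k < p ^ f := Nat.pow_lt_pow_right hp1.one_lt hk
    omega

end frobE

section SF

variable {F : Type*} [Field F] [Fintype F] {a b : F} {K : Type*} [Field K] [Algebra F K] (E : QuadExt a b K)
variable (p : ℕ) [hp : Fact p.Prime] [CharP F p] [CharP K p] [Fintype K] {f : ℕ} (hF : Fintype.card F = p ^ f) (hf : 1 ≤ f)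
variable (n : ℕ)

/-- The power map on the whole space. -/
noncomputable def gV (k : ℕ) (v : (Fin n ⊕ Fin n) ⊕ Fin 2 → F) : (Fin n ⊕ Fin n) ⊕ Fin 2 → F :=
  Sum.elim (fun i => v (Sum.inl i) ^ (p ^ k)) (E.gP p k (fun j => v (Sum.inr j)))

lemma gV_inl (k : ℕ) (v : (Fin n ⊕ Fin n) ⊕ Fin 2 → F) (i : Fin n ⊕ Fin n) : gV E p n k v (Sum.inl i) = v (Sum.inl i) ^ (p ^ k) := rfl

lemma gV_inr (k : ℕ) (v : (Fin n ⊕ Fin n) ⊕ Fin 2 → F) (j : Fin 2) : gV E p n k v (Sum.inr j) = E.gP p k (fun j => v (Sum.inr j)) j := rfl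

lemma gV_add (k : ℕ) (x y : (Fin n ⊕ Fin n) ⊕ Fin 2 → F) : gV E p n k (x + y) = gV E p n k x + gV E p n k y := by
  ext (i | j)
  · simp only [gV_inl, Pi.add_apply, add_pow_char_pow]
  · simp only [gV_inr, Pi.add_apply]
    have : (fun j => x (Sum.inr j) + y (Sum.inr j)) = (fun j => x (Sum.inr j)) + (fun j => y (Sum.inr j)) := rfl
    rw [this, E.gP_add]
    rfl

lemma gV_smul (k : ℕ) (t : F) (x : (Fin n ⊕ Fin n) ⊕ Fin 2 → F) : gV E p n k (t • x) = t ^ (p ^ k) • gV E p n k x := by
  ext (i | j)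
  · simp only [gV_inl, Pi.smul_apply, smul_eq_mul, mul_pow]
  · simp only [gV_inr, Pi.smul_apply]
    have : (fun j => t • x (Sum.inr j)) = t • (fun j => x (Sum.inr j)) := rfl
    rw [this, E.gP_smul]
    rfl

lemma gV_comp (j k : ℕ) (x : (Fin n ⊕ Fin n) ⊕ Fin 2 → F) : gV E p n j (gV E p n k x) = gV E p n (j + k) x := by
  ext (i | l)
  · simp only [gV_inl]
    rw [← pow_mul, ← pow_add, add_comm]
  · simp only [gV_inr]
    have : (fun l => E.gP p k (fun j => x (Sum.inr j)) l) = E.gP p k (fun j => x (Sum.inr j)) := rfl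
    rw [this, E.gP_comp]

lemma gV_zero' (x : (Fin n ⊕ Fin n) ⊕ Fin 2 → F) : gV E p n 0 x = x := by
  ext (i | l)
  · simp [gV_inl]
  · simp only [gV_inr]
    rw [E.gP_zero']

lemma gV_inj (k : ℕ) {x : (Fin n ⊕ Fin n) ⊕ Fin 2 → F} (h : gV E p n k x = 0) : x = 0 := by
  have h1 : E.gP p k (fun j => x (Sum.inr j)) = 0 := by
    ext j
    exact congrFun h (Sum.inr j)
  have h2 := E.gP_eq_zero p h1
  ext (i | l)
  · have h3 : x (Sum.inl i) ^ (p ^ k) = 0 := congrFun h (Sum.inl i)
    exact pow_eq_zero_iff (pow_ne_zero _ hp.out.ne_zero) |>.1 h3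
  · exact congrFun h2 l

/-- The power map as an additive map. -/
noncomputable def gVadd (k : ℕ) : ((Fin n ⊕ Fin n) ⊕ Fin 2 → F) →+ ((Fin n ⊕ Fin n) ⊕ Fin 2 → F) where
  toFun := gV E p n k
  map_zero' := by
    ext (i | l)
    · simp [gV_inl, hp.out.ne_zero]
    · simp only [gV_inr, Pi.zero_apply]
      have h := E.lin_gP p k 0
      rw [map_zero, zero_pow (pow_ne_zero _ hp.out.ne_zero), E.lin.map_eq_zero_iff] at h
      change E.gP p k 0 l = 0
      rw [h]
      rfl
  map_add' := gV_add E p n k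

include hF hf

/-- The semisimilarities. -/
noncomputable def SF (k : ℕ) : SS (Qminus n F a b) where
  g := AddEquiv.ofBijective (gVadd E p n k) (by
    have hinj : Function.Injective (gVadd E p n k) := by
      rw [injective_iff_map_eq_zero]
      intro x hx
      exact gV_inj E p n k hx
    exact ⟨hinj, Finite.surjective_of_injective hinj⟩)
  σ := frobE p k
  μ := 1
  hμ := one_ne_zero
  smul t x := gV_smul E p n k t x
  q x := by
    change Qminus n F a b (gV E p n k x) = 1 * frobE p k (Qminus n F a b x)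
    rw [Qminus_apply, Qminus_apply, one_mul]
    simp only [Cfsg.quadFormMinus, gV_inl, gV_inr, frobE_apply]
    have e0 : ∀ i, x (Sum.inl (Sum.inl i)) ^ p ^ k * x (Sum.inl (Sum.inr i)) ^ p ^ k =
        frobE p k (x (Sum.inl (Sum.inl i)) * x (Sum.inl (Sum.inr i))) := fun i => by
      rw [frobE_apply, mul_pow]
    have e1 := E.gP_norm p hF hf k (fun j => x (Sum.inr j))
    rw [e1]
    simp only [e0]
    rw [← map_sum, ← frobE_apply p k, ← frobE_apply p k, ← map_add]

lemma SF_g (k : ℕ) (v : (Fin n ⊕ Fin n) ⊕ Fin 2 → F) : (SF E p hF hf n k).g v = gV E p n k v := rfl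

lemma SF_σ (k : ℕ) : (SF E p hF hf n k).σ = frobE p k := rfl

end SF

section final

variable {F : Type*} [Field F] [Fintype F] {n : ℕ}

lemma charP_of_card {p f : ℕ} [hp : Fact p.Prime] (hf : 1 ≤ f) (hF : Fintype.card F = p ^ f) : CharP F p := by
  have hp1 : p.Prime := hp.out
  obtain ⟨r, hr⟩ := CharP.exists F
  obtain ⟨m, hrp, hm⟩ := FiniteField.card F r
  have h1 : p ∣ r ^ (m : ℕ) := by
    rw [← hm, hF]
    exact dvd_pow_self p (by omega)
  have h2 : p = r := (Nat.prime_dvd_prime_iff_eq hp1 hrp).1 (hp1.dvd_of_dvd_pow h1)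
  rw [h2]
  exact hr

theorem exists_frob {p f : ℕ} [hp : Fact p.Prime] (hf : 1 ≤ f) (hF : Fintype.card F = p ^ f) (a b : F)
    (hab : ∀ z₁ z₂ : F, z₁ ^ 2 + a * z₁ * z₂ + b * z₂ ^ 2 = 0 → z₁ = 0 ∧ z₂ = 0) [hND : ND (Qminus n F a b)] :
    ∃ (S : SS (Qminus n F a b)) (vR : (Fin n ⊕ Fin n) ⊕ Fin 2 → F) (hv : Qminus n F a b vR ≠ 0),
      orderOf S.σ = f ∧ (act S) ^ f = Ψ (⇑(Qminus n F a b)) (isoSim (reflIso _ vR hv)) := by
  classical
  have hp1 : p.Prime := hp.out
  haveI hchar : CharP F p := charP_of_card hf hF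
  obtain ⟨K, iK, iA, ω, hK, hω⟩ := exists_quad' a b hab
  haveI : FiniteDimensional F K := FiniteDimensional.of_finrank_pos (by rw [hK]; norm_num)
  haveI : Finite K := Module.finite_of_finite F
  letI : Fintype K := Fintype.ofFinite K
  haveI : CharP K p := charP_of_injective_algebraMap (algebraMap F K).injective p
  have hnr : ∀ t : F, ω ≠ algebraMap F K t := by
    intro t ht
    have h3 : t ^ 2 + a * t * (-1) + b * (-1) ^ 2 = 0 := by
      apply (algebraMap F K).injective
      rw [ht] at hω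
      simp only [map_add, map_mul, map_pow, map_neg, map_one, map_zero]
      linear_combination hω
    exact one_ne_zero (neg_eq_zero.1 (hab t (-1) h3).2)
  let E : QuadExt a b K := ⟨ω, hK, hω, hnr⟩
  let vR : (Fin n ⊕ Fin n) ⊕ Fin 2 → F := Sum.elim 0 ![-a, 2]
  have hq : Qminus n F a b vR = (-a) ^ 2 + a * (-a) * 2 + b * 2 ^ 2 := by
    rw [Qminus_apply]
    simp [Cfsg.quadFormMinus, vR]
  have hv : Qminus n F a b vR ≠ 0 := by
    rw [hq]
    intro h0
    obtain ⟨h1, h2⟩ := hab _ _ h0
    apply E.omega_ne p hF hf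
    rw [E.omega_pow p hF hf]
    have h3 : algebraMap F K a = 0 := by
      rw [neg_eq_zero.1 h1, map_zero]
    have h4 : (2 : K) = 0 := by
      have := congrArg (algebraMap F K) h2
      rwa [map_ofNat, map_zero] at this
    rw [h3]
    linear_combination -E.ω * h4
  refine ⟨SF E p hF hf n 1, vR, hv, ?_, ?_⟩
  · rw [SF_σ]
    exact orderOf_frobE p hf hF
  · have hpow : ∀ k, (act (SF E p hF hf n 1)) ^ k = act (SF E p hF hf n k) := by
      intro k
      induction k with
      | zero =>
        rw [pow_zero, ← act_one]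
        apply act_congr
        intro v
        exact (gV_zero' E p n v).symm
      | succ k ih =>
        rw [pow_succ, ih, ← act_comp]
        apply act_congr
        intro v
        exact gV_comp E p n k 1 v
    rw [hpow, ← act_ofSim]
    apply act_congr
    intro v
    rw [SF_g, ofSim_g]
    have hc : (((isoSim (reflIso (Qminus n F a b) vR hv)).1 : Matrix.GeneralLinearGroup _ F) : Matrix _ _ F) = Cfsg.reflectionMatrix (⇑(Qminus n F a b)) vR := rfl
    rw [hc, reflectionMatrix_mulVec]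
    have hpol : QuadraticMap.polar (⇑(Qminus n F a b)) vR v = Qminus n F a b vR * v (Sum.inr 1) := by
      simp only [QuadraticMap.polar]
      rw [hq, Qminus_apply, Qminus_apply]
      simp only [Cfsg.quadFormMinus, Pi.add_apply, vR, Sum.elim_inl, Sum.elim_inr, Pi.zero_apply, zero_add, mul_zero, zero_mul,
        Finset.sum_const_zero, Matrix.cons_val_zero, Matrix.cons_val_one, Matrix.cons_val_fin_one]
      ring
    rw [hpol, ← mul_assoc, inv_mul_cancel₀ hv, one_mul]
    ext (i | j)
    · rw [gV_inl]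
      simp only [Pi.sub_apply, Pi.smul_apply, vR, Sum.elim_inl, Pi.zero_apply, smul_zero, sub_zero]
      rw [← hF, FiniteField.pow_card]
    · rw [gV_inr, E.gP_f p hF hf]
      fin_cases j
      · simp [vR]
        ring
      · simp [vR]
        ring

end final

end Cfsg.Agent.Lib.AutPO
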