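import Mathlib
import Cfsg.Agent.Lib.AutPO.Frob

/-!
The outer automorphism groups of the orthogonal groups of minus type.
-/

set_option autoImplicit false
set_option linter.unusedSectionVars false
set_option linter.unusedVariables false

open scoped Matrix

namespace Cfsg.Agent.Lib.AutPO

open Cfsg.Agent.Lib.Classical Cfsg.Agent.Lib.Classical.Witt Cfsg.Agent.Lib.Classical.Abs Cfsg.Agent.Lib.Classical.Orth
open Cfsg.Agent.Lib.Known3.SimAut Cfsg.Agent.Lib.Known3.OmegaTrans Cfsg.Agent.Lib.Known3.OmegaCalc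
open Cfsg.Agent.Lib.Known3.Spinor Cfsg.Agent.Lib.Known3.OmegaSum
open scoped commutatorElement
open Module Ln

local notation "P" => QuadraticMap.polarBilin

section gal

variable {F : Type*} [Field F] [Fintype F]

lemma card_gal {p f : ℕ} [hp : Fact p.Prime] (hf : 1 ≤ f) (hF : Fintype.card F = p ^ f) : Nat.card (F ≃+* F) = f := by
  obtain ⟨e⟩ := Cfsg.Agent.Lib.AutPSL.exists_gal_iso hF hf
  rw [Nat.card_congr e.toEquiv]
  haveI : NeZero f := ⟨by omega⟩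
  change Nat.card (ZMod f) = f
  rw [Nat.card_eq_fintype_card, ZMod.card]

lemma gal_gen {p f : ℕ} [hp : Fact p.Prime] (hf : 1 ≤ f) (hF : Fintype.card F = p ^ f) (φ : F ≃+* F) (hφ : orderOf φ = f)
    (t : F ≃+* F) : t ∈ Subgroup.zpowers φ := by
  have hc := card_gal hf hF
  haveI : Finite (F ≃+* F) := Nat.finite_of_card_ne_zero (by omega)
  have : Subgroup.zpowers φ = ⊤ := Subgroup.eq_top_of_card_eq _ (by rw [Nat.card_zpowers, hφ, hc])
  rw [this]
  trivial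

end gal

section generic

variable {ι : Type} [Fintype ι] [DecidableEq ι] {F : Type*} [Field F] [Fintype F] {Q : QuadraticForm F (ι → F)} [hND : ND Q]
variable (H : 9 ≤ finrank F (ι → F) ∨ NoSkew Q)

lemma inn_le_sig : Cfsg.Inn (Cfsg.POmega F (⇑Q)) ≤ (sig H).ker := by
  rw [sig_ker]
  exact inn_le_pgo

/-- The field automorphism attached to an outer automorphism. -/
noncomputable def piO : Cfsg.Out (Cfsg.POmega F (⇑Q)) →* (F ≃+* F) := barSig _ (sig H) (inn_le_sig H)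

/-- The class of an automorphism. -/
noncomputable def cls (Q : QuadraticForm F (ι → F)) : MulAut (Cfsg.POmega F (⇑Q)) →* Cfsg.Out (Cfsg.POmega F (⇑Q)) :=
  QuotientGroup.mk' _

lemma cls_surj : Function.Surjective (cls Q) := QuotientGroup.mk'_surjective _

lemma cls_eq_one {β : MulAut (Cfsg.POmega F (⇑Q))} : cls Q β = 1 ↔ β ∈ Cfsg.Inn (Cfsg.POmega F (⇑Q)) :=
  QuotientGroup.eq_one_iff _

lemma piO_cls (β : MulAut (Cfsg.POmega F (⇑Q))) : piO H (cls Q β) = sig H β := rfl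

lemma piO_act (S : SS Q) : piO H (cls Q (act S)) = S.σ := by
  rw [piO_cls, sig_act]

lemma mem_ker_piO {x : Cfsg.Out (Cfsg.POmega F (⇑Q))} (hx : x ∈ (piO H).ker) :
    ∃ g : Sim (⇑Q), cls Q (Ψ (⇑Q) g) = x := by
  obtain ⟨β, rfl⟩ := cls_surj x
  have h1 : sig H β = 1 := hx
  rw [sig_eq_one_iff, pgoAut_eq] at h1
  obtain ⟨g, -, rfl⟩ := mem_img.1 h1
  exact ⟨g, rfl⟩

lemma cls_Ψ_mem (g : Sim (⇑Q)) : cls Q (Ψ (⇑Q) g) ∈ (piO H).ker := by
  rw [MonoidHom.mem_ker, piO_cls, sig_eq_one_iff, pgoAut_eq]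
  exact mem_img.2 ⟨g, g.2, rfl⟩

lemma sig_surj_of_gen (S : SS Q) (hgen : ∀ t, t ∈ Subgroup.zpowers S.σ) : Function.Surjective (sig H) := by
  intro t
  obtain ⟨k, rfl⟩ := Subgroup.mem_zpowers_iff.1 (hgen t)
  exact ⟨(act S) ^ k, by rw [map_zpow, sig_act]⟩

lemma card_out (S : SS Q) (hgen : ∀ t, t ∈ Subgroup.zpowers S.σ) :
    Nat.card (Cfsg.Out (Cfsg.POmega F (⇑Q))) = Nat.card (piO H).ker * Nat.card (F ≃+* F) :=
  card_quot _ (sig H) (inn_le_sig H) (sig_surj_of_gen H S hgen)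

include H in
lemma order_dvd (S : SS Q) {k : ℕ} (h : (cls Q (act S)) ^ k = 1) : orderOf S.σ ∣ k := by
  apply orderOf_dvd_of_pow_eq_one
  have := congrArg (piO H) h
  rwa [map_pow, map_one, piO_act] at this

include H in
/-- The order of a lift whose power is an involution. -/
lemma orderOf_lift (S : SS Q) {f : ℕ} (hf : 1 ≤ f) (hord : orderOf S.σ = f) {y : MulAut (Cfsg.POmega F (⇑Q))}
    (hy : (act S) ^ f = y) (hy1 : y ∉ Cfsg.Inn (Cfsg.POmega F (⇑Q))) (hy2 : y * y = 1) :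
    orderOf (cls Q (act S)) = 2 * f := by
  set Φ := cls Q (act S) with hΦ
  have h1 : Φ ^ f = cls Q y := by
    rw [hΦ, ← map_pow, hy]
  have h2 : Φ ^ (2 * f) = 1 := by
    rw [mul_comm, pow_mul, h1, ← map_pow, pow_two, hy2, map_one]
  have h3 : f ∣ orderOf Φ := by
    rw [← hord]
    exact order_dvd H S (pow_orderOf_eq_one Φ)
  obtain ⟨j, hj⟩ := h3
  have h4 : orderOf Φ ∣ 2 * f := orderOf_dvd_of_pow_eq_one h2
  rw [hj, mul_comm f j] at h4
  have h5 : j ∣ 2 := Nat.dvd_of_mul_dvd_mul_right (by omega) h4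
  have h6 : j ≠ 1 := by
    rintro rfl
    rw [mul_one] at hj
    have h7 : Φ ^ f = 1 := by
      rw [← hj]
      exact pow_orderOf_eq_one Φ
    rw [h1] at h7
    exact hy1 (cls_eq_one.1 h7)
  have h7 : j = 2 := by
    have := (Nat.dvd_prime Nat.prime_two).1 h5
    tauto
  rw [hj, h7, mul_comm]

theorem cyclic_of_frob (S : SS Q) {f : ℕ} (hf : 1 ≤ f) (hord : orderOf S.σ = f) (hgal : Nat.card (F ≃+* F) = f)
    (hgen : ∀ t, t ∈ Subgroup.zpowers S.σ) {y : MulAut (Cfsg.POmega F (⇑Q))}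
    (hy : (act S) ^ f = y) (hy1 : y ∉ Cfsg.Inn (Cfsg.POmega F (⇑Q))) (hy2 : y * y = 1) (hk : Nat.card (piO H).ker = 2) :
    IsCyclic (Cfsg.Out (Cfsg.POmega F (⇑Q))) ∧ Nat.card (Cfsg.Out (Cfsg.POmega F (⇑Q))) = 2 * f := by
  have hc : Nat.card (Cfsg.Out (Cfsg.POmega F (⇑Q))) = 2 * f := by
    rw [card_out H S hgen, hk, hgal]
  refine ⟨?_, hc⟩
  haveI : Finite (Cfsg.Out (Cfsg.POmega F (⇑Q))) := Nat.finite_of_card_ne_zero (by omega)
  exact isCyclic_of_orderOf_eq_card (cls Q (act S)) (by rw [orderOf_lift H S hf hord hy hy1 hy2, hc])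

end generic

section char2

variable {ι : Type} [Fintype ι] [DecidableEq ι] {F : Type*} [Field F] [Fintype F] {Q : QuadraticForm F (ι → F)} [hND : ND Q]
variable (H : 9 ≤ finrank F (ι → F) ∨ NoSkew Q)
variable (h2 : (2 : F) = 0) (hQ : (P Q).Nondegenerate) (hrk : Fintype.card F ≠ 2 ∨ finrank F (ι → F) ≠ 4)
variable (vR : ι → F) (hv : Q vR ≠ 0)

include h2 hQ hrk in
lemma pgo_char2_cases (g : Sim (⇑Q)) :
    Ψ (⇑Q) g ∈ Cfsg.Inn (Cfsg.POmega F (⇑Q)) ∨ Ψ (⇑Q) g * Ψ (⇑Q) (isoSim (reflIso Q vR hv)) ∈ Cfsg.Inn (Cfsg.POmega F (⇑Q)) := by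
  classical
  have hne : ∃ v, Q v ≠ 0 := ⟨vR, hv⟩
  haveI : CharP F 2 := CharTwo.of_one_ne_zero_of_two_eq_zero one_ne_zero h2
  have hring : ringChar F = 2 := ringChar.eq F 2
  obtain ⟨c, k, rfl, hk⟩ := exists_scal_mul (hne := hne) g ((aa_eq_one_iff g).2 (FiniteField.isSquare_of_char_two hring _))
  rw [map_mul, Ψ_scal, one_mul]
  let k' : Cfsg.isometryGroup F (⇑Q) := ⟨k.1, hk⟩
  have hk' : k = isoSim k' := rfl
  obtain ⟨L, hL⟩ := exists_prodL hQ hrk (toOG Q k')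
  have hInn : ∀ w : Cfsg.isometryGroup F (⇑Q), w ∈ Cfsg.Omega F (⇑Q) → Ψ (⇑Q) (isoSim w) ∈ Cfsg.Inn (Cfsg.POmega F (⇑Q)) := by
    intro w hw
    rw [Inn_eq]
    exact mem_img.2 ⟨isoSim w, ⟨w, hw, rfl⟩, rfl⟩
  by_cases he : Even L.length
  · left
    rw [hk']
    apply hInn
    rw [mem_Omega_iff, hL, mem_comm_even h2 hQ hrk]
    exact he
  · right
    have h3 : k' * reflIso Q vR hv ∈ Cfsg.Omega F (⇑Q) := by
      rw [mem_Omega_iff, map_mul, hL, toOG_reflIso]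
      have h4 : prodL L * refl Q vR hv = prodL (L ++ [⟨vR, hv⟩]) := by
        rw [prodL_append, prodL_cons, prodL_nil, mul_one]
      rw [h4, mem_comm_even h2 hQ hrk, List.length_append, List.length_singleton, Nat.even_add_one]
      exact he
    have h5 := hInn _ h3
    have h6 : isoSim (k' * reflIso Q vR hv) = k * isoSim (reflIso Q vR hv) := rfl
    rw [h6, map_mul] at h5
    exact h5

include h2 hQ hrk in
lemma r_notin_char2 : Ψ (⇑Q) (isoSim (reflIso Q vR hv)) ∉ Cfsg.Inn (Cfsg.POmega F (⇑Q)) := by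
  intro h
  rw [Inn_eq] at h
  obtain ⟨w, ⟨ω, hω, hωw⟩, hw⟩ := mem_img.1 h
  have hgω : w = isoSim ω := Subtype.ext hωw.symm
  subst hgω
  rw [← act_ofSim, ← act_ofSim] at hw
  obtain ⟨-, l, hl, h3⟩ := act_eq (act_inj hw)
  have hb : ∀ v, (reflIso Q vR hv).1.1 *ᵥ v = l • (ω.1.1 *ᵥ v) := by
    intro v
    have := h3 v
    rwa [ofSim_g, ofSim_g] at this
  have hl2 : l = 1 := by
    have h4 := hb vR
    have h5 := congrArg Q h4
    have h6 : Q ((reflIso Q vR hv).1.1 *ᵥ vR) = Q vR := (mem_isometryGroup_iff _ _).1 (reflIso Q vR hv).2 vR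
    have h7 : Q (ω.1.1 *ᵥ vR) = Q vR := (mem_isometryGroup_iff _ _).1 ω.2 vR
    rw [h6, Q_smul, h7] at h5
    have h8 : (l - 1) * (l - 1) = 0 := by
      have h9 : (l * l - 1) * Q vR = 0 := by linear_combination -h5
      have h10 : l * l - 1 = 0 := (mul_eq_zero.1 h9).resolve_right hv
      linear_combination h10 - l * h2 + h2
    have := mul_self_eq_zero.1 h8
    linear_combination this
  have h5 : reflIso Q vR hv = ω := by
    apply (toOG Q).injective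
    apply OG_ext
    intro v
    rw [toOG_apply, toOG_apply, hb, hl2, one_smul]
  rw [← h5] at hω
  have hω' : reflIso Q vR hv ∈ Cfsg.Omega F (⇑Q) := hω
  rw [mem_Omega_iff, toOG_reflIso] at hω'
  have h6 : refl Q vR hv = prodL [⟨vR, hv⟩] := by
    rw [prodL_cons, prodL_nil, mul_one]
  rw [h6, mem_comm_even h2 hQ hrk] at hω'
  simp at hω'

lemma refl_sq : Ψ (⇑Q) (isoSim (reflIso Q vR hv)) * Ψ (⇑Q) (isoSim (reflIso Q vR hv)) = 1 := by
  rw [← map_mul]
  have : isoSim (reflIso Q vR hv) * isoSim (reflIso Q vR hv) = 1 := by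
    apply Subtype.ext
    have := congrArg Subtype.val (reflIso_mul_self vR hv)
    exact this
  rw [this, map_one]

include h2 hQ hrk vR hv in
lemma ker_card_char2 : Nat.card (piO H).ker = 2 := by
  rw [Nat.card_eq_two_iff' (1 : (piO H).ker)]
  set r := Ψ (⇑Q) (isoSim (reflIso Q vR hv)) with hr
  refine ⟨⟨cls Q r, cls_Ψ_mem H _⟩, ?_, ?_⟩
  · intro h
    have h3 : cls Q r = 1 := congrArg Subtype.val h
    exact r_notin_char2 h2 hQ hrk vR hv (cls_eq_one.1 h3)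
  · rintro ⟨x, hx⟩ hne
    obtain ⟨g, rfl⟩ := mem_ker_piO H hx
    apply Subtype.ext
    change cls Q (Ψ (⇑Q) g) = cls Q r
    rcases pgo_char2_cases h2 hQ hrk vR hv g with h3 | h3
    · exfalso
      apply hne
      apply Subtype.ext
      exact cls_eq_one.2 h3
    · have h4 := cls_eq_one.2 h3
      rw [map_mul] at h4
      have h5 : cls Q r * cls Q r = 1 := by
        rw [← map_mul, refl_sq, map_one]
      calc cls Q (Ψ (⇑Q) g) = cls Q (Ψ (⇑Q) g) * (cls Q r * cls Q r) := by rw [h5, mul_one]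
        _ = (cls Q (Ψ (⇑Q) g) * cls Q r) * cls Q r := by rw [mul_assoc]
        _ = cls Q r := by rw [h4, one_mul]

end char2

section final

variable {F : Type*} [Field F] [Fintype F] {n : ℕ}

lemma nd_minus (hn : 3 ≤ n) {a b : F} (hab : ∀ z₁ z₂ : F, z₁ ^ 2 + a * z₁ * z₂ + b * z₂ ^ 2 = 0 → z₁ = 0 ∧ z₂ = 0) :
    ND (Qminus n F a b) := by
  have hfr : finrank F ((Fin n ⊕ Fin n) ⊕ Fin 2 → F) = n + n + 2 := by
    simp [Module.finrank_fintype_fun_eq_card]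
  exact ⟨Qminus_nondeg hab n, by omega⟩

lemma H_minus (hn : 3 ≤ n) {a b : F} (hab : ∀ z₁ z₂ : F, z₁ ^ 2 + a * z₁ * z₂ + b * z₂ ^ 2 = 0 → z₁ = 0 ∧ z₂ = 0) :
    9 ≤ finrank F ((Fin n ⊕ Fin n) ⊕ Fin 2 → F) ∨ NoSkew (Qminus n F a b) := by
  have hfr : finrank F ((Fin n ⊕ Fin n) ⊕ Fin 2 → F) = n + n + 2 := by
    simp [Module.finrank_fintype_fun_eq_card]
  by_cases h4 : 4 ≤ n
  · left
    omega
  · right
    have : n = 3 := by omega
    subst this
    exact noSkew_minus hab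

theorem out_minus_two {f : ℕ} (hf : 1 ≤ f) (hF : Fintype.card F = 2 ^ f) (hn : 3 ≤ n) (a b : F)
    (hab : ∀ z₁ z₂ : F, z₁ ^ 2 + a * z₁ * z₂ + b * z₂ ^ 2 = 0 → z₁ = 0 ∧ z₂ = 0) :
    IsCyclic (Cfsg.Out (Cfsg.POmega F (⇑(Qminus n F a b)))) ∧ Nat.card (Cfsg.Out (Cfsg.POmega F (⇑(Qminus n F a b)))) = 2 * f := by
  classical
  haveI hND : ND (Qminus n F a b) := nd_minus hn hab
  have H := H_minus hn hab
  haveI hchar : CharP F 2 := charP_of_card hf hF
  have h2 : (2 : F) = 0 := CharTwo.two_eq_zero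
  obtain ⟨S, vR, hv, hord, hpow⟩ := exists_frob (n := n) hf hF a b hab
  have hfr : finrank F ((Fin n ⊕ Fin n) ⊕ Fin 2 → F) = n + n + 2 := by
    simp [Module.finrank_fintype_fun_eq_card]
  have hrk : Fintype.card F ≠ 2 ∨ finrank F ((Fin n ⊕ Fin n) ⊕ Fin 2 → F) ≠ 4 := Or.inr (by omega)
  exact cyclic_of_frob H S hf hord (card_gal hf hF) (gal_gen hf hF _ hord) hpow
    (r_notin_char2 h2 (Qminus_nondeg hab n) hrk vR hv) (refl_sq vR hv) (ker_card_char2 H h2 (Qminus_nondeg hab n) hrk vR hv)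

end final

end Cfsg.Agent.Lib.AutPO
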