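import Mathlib
import Cfsg.Agent.Lib.AutPO.OutMinus

/-!
The outer automorphism groups of the orthogonal groups of minus type, odd characteristic.
-/

set_option autoImplicit false
set_option linter.unusedSectionVars false
set_option linter.unusedVariables false

open scoped Matrix

namespace Cfsg.Agent.Lib.AutPO

open Cfsg.Agent.Lib.Classical Cfsg.Agent.Lib.Classical.Witt Cfsg.Agent.Lib.Classical.Abs Cfsg.Agent.Lib.Classical.Orth
open Cfsg.Agent.Lib.Known3.SimAut Cfsg.Agent.Lib.Known3.OmegaTrans Cfsg.Agent.Lib.Known3.OmegaCalc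
open Cfsg.Agent.Lib.Known3.Spinor Cfsg.Agent.Lib.Known3.OmegaSum
open scoped commutatorElement
open Module Ln

local notation "P" => QuadraticMap.polarBilin

section dih

variable {ι : Type} [Fintype ι] [DecidableEq ι] {F : Type*} [Field F] [Fintype F] {Q : QuadraticForm F (ι → F)} [hND : ND Q]
variable (H : 9 ≤ finrank F (ι → F) ∨ NoSkew Q)

theorem out_dih (S : SS Q) {f : ℕ} (hfodd : Odd f) (hord : orderOf S.σ = f)
    (hgen : ∀ t, t ∈ Subgroup.zpowers S.σ) {y : MulAut (Cfsg.POmega F (⇑Q))}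
    (hy : (act S) ^ f = y) (hy2 : y * y = 1) (e : (piO H).ker ≃* DihedralGroup 4) :
    Nonempty (Cfsg.Out (Cfsg.POmega F (⇑Q)) ≃* DihedralGroup 4 × (F ≃+* F)) := by
  set Φ := cls Q (act S) with hΦ
  set y' := Φ ^ 2 with hy'
  have hπ : piO H Φ = S.σ := piO_act H S
  have h1 : y' ^ f = 1 := by
    rw [hy', ← pow_mul, mul_comm, pow_mul, hΦ, ← map_pow, hy, ← map_pow, pow_two, hy2, map_one]
  obtain ⟨u, hu⟩ := hfodd
  have hπy : ∀ k : ℤ, piO H (y' ^ k) = (S.σ ^ 2) ^ k := by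
    intro k
    rw [map_zpow, hy', map_pow, hπ]
  obtain ⟨e2⟩ := split_prod (piO H) (Subgroup.zpowers y')
    (by
      intro h hh hh1
      obtain ⟨k, rfl⟩ := Subgroup.mem_zpowers_iff.1 hh
      rw [hπy, ← zpow_natCast, ← zpow_mul] at hh1
      have h3 := (orderOf_dvd_iff_zpow_eq_one).2 hh1
      rw [hord] at h3
      have h4 : IsCoprime (f : ℤ) ((2 : ℕ) : ℤ) := by
        rw [Nat.isCoprime_iff_coprime, hu]
        simp
      obtain ⟨j, hj⟩ := h4.dvd_of_dvd_mul_left h3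
      rw [hj, zpow_mul, zpow_natCast, h1, one_zpow])
    (by
      intro t
      obtain ⟨k, rfl⟩ := Subgroup.mem_zpowers_iff.1 (hgen t)
      refine ⟨y' ^ (((u + 1 : ℕ) : ℤ) * k), Subgroup.mem_zpowers_iff.2 ⟨_, rfl⟩, ?_⟩
      rw [hπy, zpow_mul, zpow_natCast, ← pow_mul]
      have h3 : 2 * (u + 1) = f + 1 := by omega
      rw [h3, pow_succ, ← hord, pow_orderOf_eq_one, one_mul])
    (by
      intro h hh n hn
      obtain ⟨k, rfl⟩ := Subgroup.mem_zpowers_iff.1 hh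
      exact (odd_acts (piO H).ker e ⟨u, hu⟩ h1 hn).zpow_left k)
  exact ⟨e2.trans (MulEquiv.prodCongr e (MulEquiv.refl _))⟩

end dih

section conj

variable {ι : Type} [Fintype ι] [DecidableEq ι] {F : Type*} [Field F] [Fintype F] {Q : QuadraticForm F (ι → F)} [hND : ND Q]

lemma act_inv (S : SS Q) : act S.inv = (act S)⁻¹ := by
  apply eq_inv_of_mul_eq_one_right
  rw [← act_comp, ← act_one]
  apply act_congr
  intro v
  exact S.g.apply_symm_apply v

/-- The conjugate of a similarity by a semisimilarity. -/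
noncomputable def conjT (S : SS Q) (g : Sim (⇑Q)) : SS Q := (S.comp (ofSim g)).comp S.inv

lemma conjT_σ (S : SS Q) (g : Sim (⇑Q)) : (conjT S g).σ = 1 := by
  ext t
  change S.σ (S.σ.symm t) = t
  exact S.σ.apply_symm_apply t

lemma conjT_g (S : SS Q) (g : Sim (⇑Q)) (v : ι → F) : (conjT S g).g v = S.g ((g.1 : Matrix ι ι F) *ᵥ S.g.symm v) := by
  change S.g ((ofSim g).g (S.g.symm v)) = _
  rw [ofSim_g]

/-- The conjugate as a similarity. -/
noncomputable def conjSim (S : SS Q) (g : Sim (⇑Q)) : Sim (⇑Q) := simOf (conjT S g) (conjT_σ S g)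

lemma conjSim_mulVec (S : SS Q) (g : Sim (⇑Q)) (v : ι → F) :
    ((conjSim S g).1 : Matrix ι ι F) *ᵥ v = S.g ((g.1 : Matrix ι ι F) *ᵥ S.g.symm v) := by
  rw [conjSim, simOf_mulVec, conjT_g]

lemma act_conjSim (S : SS Q) (g : Sim (⇑Q)) : Ψ (⇑Q) (conjSim S g) = act S * Ψ (⇑Q) g * (act S)⁻¹ := by
  rw [conjSim, ← act_simOf, conjT, act_comp, act_comp, act_inv, act_ofSim]

variable (hne : ∃ v, Q v ≠ 0)

lemma mu_conjSim (S : SS Q) (g : Sim (⇑Q)) :
    ((mu Q hne (conjSim S g) : Fˣ) : F) = S.σ ((mu Q hne g : Fˣ) : F) := by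
  have h := mu_unique (hne := hne) (conjSim S g) (Units.map (S.σ : F →* F) (mu Q hne g)) (by
    intro v
    rw [conjSim_mulVec, S.q, mu_spec (hne := hne), map_mul]
    have h1 := S.q (S.g.symm v)
    rw [S.g.apply_symm_apply] at h1
    rw [h1]
    simp only [Units.coe_map]
    change S.μ * (S.σ _ * S.σ _) = S.σ _ * (S.μ * S.σ _)
    ring)
  rw [h]
  rfl

lemma det_conjSim (S : SS Q) (g : Sim (⇑Q)) :
    ((conjSim S g).1 : Matrix ι ι F).det = S.σ ((g.1 : Matrix ι ι F).det) := by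
  have h1 : ((conjSim S g).1 : Matrix ι ι F) =
      (matOf S : Matrix ι ι F) * (g.1 : Matrix ι ι F).map S.σ * ((matOf S)⁻¹ : Matrix.GeneralLinearGroup ι F).1 := by
    apply Matrix.toLin'.injective
    refine LinearMap.ext fun w => ?_
    rw [Matrix.toLin'_apply, Matrix.toLin'_apply, conjSim_mulVec]
    rw [← Matrix.mulVec_mulVec, ← Matrix.mulVec_mulVec]
    obtain ⟨u, rfl⟩ := S.g.surjective w
    rw [S.g.symm_apply_apply, matOf_inv_mulVec, ← S.lin_hat, matOf_mulVec]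
    congr 1
    ext i
    rw [hat_apply]
    have := RingHom.map_mulVec (S.σ : F →+* F) (g.1 : Matrix ι ι F) u i
    exact this
  rw [h1, Matrix.det_mul, Matrix.det_mul]
  have h2 : (((matOf S)⁻¹ : Matrix.GeneralLinearGroup ι F).1).det * (matOf S : Matrix ι ι F).det = 1 := by
    rw [← Matrix.det_mul]
    have : ((matOf S)⁻¹ : Matrix.GeneralLinearGroup ι F).1 * (matOf S : Matrix ι ι F) = 1 :=
      congrArg Units.val (inv_mul_cancel (matOf S))
    rw [this, Matrix.det_one]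
  have h3 : ((g.1 : Matrix ι ι F).map S.σ).det = S.σ ((g.1 : Matrix ι ι F).det) :=
    ((S.σ : F →+* F).map_det (g.1 : Matrix ι ι F)).symm
  rw [h3]
  linear_combination (S.σ ((g.1 : Matrix ι ι F).det)) * h2

lemma aa_conjSim (S : SS Q) (g : Sim (⇑Q)) : aa Q hne (conjSim S g) = aa Q hne g := by
  have key : aa Q hne (conjSim S g) = 1 ↔ aa Q hne g = 1 := by
    rw [aa_eq_one_iff, aa_eq_one_iff, mu_conjSim]
    constructor
    · intro h
      have := h.map S.σ.symm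
      rwa [RingEquiv.symm_apply_apply] at this
    · intro h
      exact h.map S.σ
  rcases Int.units_eq_one_or (aa Q hne g) with h | h
  · rw [h, key.2 h]
  · rcases Int.units_eq_one_or (aa Q hne (conjSim S g)) with h3 | h3
    · have := key.1 h3
      rw [h] at this
      exact absurd this (by decide)
    · rw [h, h3]

variable (hQ : (P Q).Nondegenerate) (h2 : (2 : F) ≠ 0) {h : ℕ} (hc : Fintype.card ι = 2 * h)

lemma eps_conjSim (S : SS Q) (g : Sim (⇑Q)) : eps Q hne hQ h2 hc (conjSim S g) = eps Q hne hQ h2 hc g := by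
  have key : eps Q hne hQ h2 hc (conjSim S g) = 1 ↔ eps Q hne hQ h2 hc g = 1 := by
    rw [eps_eq_one_iff, eps_eq_one_iff, mu_conjSim, det_conjSim, ← map_pow]
    exact S.σ.injective.eq_iff
  rcases Int.units_eq_one_or (eps Q hne hQ h2 hc g) with h3 | h3
  · rw [h3, key.2 h3]
  · rcases Int.units_eq_one_or (eps Q hne hQ h2 hc (conjSim S g)) with h4 | h4
    · have := key.1 h4
      rw [h3] at this
      exact absurd this (by decide)
    · rw [h3, h4]

lemma inn_of_theta (hneg : ¬ NegOm Q) (g : Sim (⇑Q)) (h1 : aa Q hne g = 1) (h3 : eps Q hne hQ h2 hc g = 1) :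
    Ψ (⇑Q) g ∈ Cfsg.Inn (Cfsg.POmega F (⇑Q)) := by
  rw [← pso_eq_inn h2 hQ (by rw [hc]; exact even_two_mul _) hneg, psoAut_eq]
  obtain ⟨c, k, rfl, hk⟩ := exists_scal_mul g h1
  rw [map_mul, eps_scal, one_mul] at h3
  refine mem_img.2 ⟨k, ⟨hk, mem_SL.2 ((eps_of_iso k hk).1 h3)⟩, ?_⟩
  rw [map_mul, Ψ_scal, one_mul]

lemma theta_of_inn (hn : 5 ≤ Fintype.card ι) (g : Sim (⇑Q)) (hg : Ψ (⇑Q) g ∈ Cfsg.Inn (Cfsg.POmega F (⇑Q))) :
    aa Q hne g = 1 ∧ eps Q hne hQ h2 hc g = 1 := by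
  rw [Inn_eq] at hg
  obtain ⟨w, ⟨ω, hω, hωw⟩, hw⟩ := mem_img.1 hg
  have hSO : w.1 ∈ Cfsg.specialIsometryGL F (⇑Q) := OmegaGL_le_SO h2 hQ ⟨ω, hω, hωw⟩
  have h3 : Ψ (⇑Q) (g * w⁻¹) = 1 := by
    rw [map_mul, map_inv, hw, mul_inv_cancel]
  obtain ⟨c, hc'⟩ := scalar_of_Ψ h2 hQ hn _ h3
  have h4 : g = scal Q c * w := by
    rw [← hc']
    group
  subst h4
  constructor
  · rw [map_mul, aa_scal, one_mul]
    exact aa_of_iso w hSO.1
  · rw [map_mul, eps_scal, one_mul]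
    exact (eps_of_iso w hSO.1).2 (mem_SL.1 hSO.2)

end conj

section else_case

variable {ι : Type} [Fintype ι] [DecidableEq ι] {F : Type*} [Field F] [Fintype F] {Q : QuadraticForm F (ι → F)} [hND : ND Q]
variable (H : 9 ≤ finrank F (ι → F) ∨ NoSkew Q) (hne : ∃ v, Q v ≠ 0)
variable (hQ : (P Q).Nondegenerate) (h2 : (2 : F) ≠ 0) {h : ℕ} (hc : Fintype.card ι = 2 * h)

include hne hQ h2 hc in
theorem central_ker (hneg : ¬ NegOm Q) (y : Cfsg.Out (Cfsg.POmega F (⇑Q))) {n : Cfsg.Out (Cfsg.POmega F (⇑Q))}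
    (hn : n ∈ (piO H).ker) : Commute y n := by
  obtain ⟨β, rfl⟩ := cls_surj y
  obtain ⟨S, rfl⟩ := act_surj H β
  obtain ⟨g, rfl⟩ := mem_ker_piO H hn
  have h3 : Ψ (⇑Q) (conjSim S g * g⁻¹) ∈ Cfsg.Inn (Cfsg.POmega F (⇑Q)) := by
    apply inn_of_theta hne hQ h2 hc hneg
    · rw [map_mul, map_inv, aa_conjSim, mul_inv_cancel]
    · rw [map_mul, map_inv, eps_conjSim, mul_inv_cancel]
  have h4 := cls_eq_one.2 h3
  rw [map_mul, act_conjSim] at h4
  simp only [map_mul, map_inv] at h4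
  change _ * _ = _ * _
  have h5 : cls Q (act S) * cls Q (Ψ (⇑Q) g) * (cls Q (act S))⁻¹ = cls Q (Ψ (⇑Q) g) := by
    have := mul_inv_eq_one.1 h4
    exact this
  calc cls Q (act S) * cls Q (Ψ (⇑Q) g) = (cls Q (act S) * cls Q (Ψ (⇑Q) g) * (cls Q (act S))⁻¹) * cls Q (act S) := by group
    _ = _ := by rw [h5]

theorem out_else (hneg : ¬ NegOm Q) (hn : 5 ≤ Fintype.card ι) (S : SS Q) {f : ℕ} (hf : 1 ≤ f) (hord : orderOf S.σ = f)
    (hgal : Nat.card (F ≃+* F) = f) (hgen : ∀ t, t ∈ Subgroup.zpowers S.σ) (vR : ι → F) (hv : Q vR ≠ 0)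
    (hy : (act S) ^ f = Ψ (⇑Q) (isoSim (reflIso Q vR hv))) (d : Sim (⇑Q)) (hd1 : aa Q hne d = -1)
    (hd2 : eps Q hne hQ h2 hc d = 1) (e : (piO H).ker ≃* Multiplicative (ZMod 2 × ZMod 2)) :
    Nonempty (Cfsg.Out (Cfsg.POmega F (⇑Q)) ≃* Multiplicative (ZMod 2 × ZMod (2 * f))) := by
  obtain ⟨hr1, hr2⟩ := exists_refl hne hQ h2 hc vR hv
  set r := isoSim (reflIso Q vR hv) with hr
  have hrI : Ψ (⇑Q) r ∉ Cfsg.Inn (Cfsg.POmega F (⇑Q)) := by
    intro h3
    have := (theta_of_inn hne hQ h2 hc hn r h3).2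
    rw [hr2] at this
    exact absurd this (by decide)
  set Φ := cls Q (act S) with hΦ
  have hordΦ : orderOf Φ = 2 * f := orderOf_lift H S hf hord hy hrI (refl_sq vR hv)
  set dbar := cls Q (Ψ (⇑Q) d) with hdbar
  have hdmem : dbar ∈ (piO H).ker := cls_Ψ_mem H d
  have hd3 : dbar ^ 2 = 1 := by
    rw [hdbar, ← map_pow, ← map_pow, cls_eq_one]
    apply inn_of_theta hne hQ h2 hc hneg
    · rw [map_pow, hd1]
      decide
    · rw [map_pow, hd2, one_pow]
  have hd4 : dbar ≠ 1 := by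
    intro h3
    have := (theta_of_inn hne hQ h2 hc hn d (cls_eq_one.1 h3)).1
    rw [hd1] at this
    exact absurd this (by decide)
  haveI : Fact (Nat.Prime 2) := ⟨Nat.prime_two⟩
  have hordd : orderOf dbar = 2 := orderOf_eq_prime hd3 hd4
  have hker : ∀ x ∈ Subgroup.zpowers dbar, x ∈ (piO H).ker := by
    intro x hx
    obtain ⟨k, rfl⟩ := Subgroup.mem_zpowers_iff.1 hx
    exact Subgroup.zpow_mem _ hdmem k
  have hcard4 : Nat.card (piO H).ker = 4 := by
    rw [Nat.card_congr e.toEquiv]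
    change Nat.card (ZMod 2 × ZMod 2) = 4
    rw [Nat.card_prod, Nat.card_eq_fintype_card, ZMod.card]
  have hcardO : Nat.card (Cfsg.Out (Cfsg.POmega F (⇑Q))) = 4 * f := by
    rw [card_out H S hgen, hcard4, hgal]
  haveI : Finite (Cfsg.Out (Cfsg.POmega F (⇑Q))) := Nat.finite_of_card_ne_zero (by omega)
  obtain ⟨e1⟩ := prod_of_commute (Subgroup.zpowers Φ) (Subgroup.zpowers dbar)
    (fun a _ b hb => central_ker H hne hQ h2 hc hneg a (hker b hb))
    (by
      intro x hx1 hx2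
      obtain ⟨k, rfl⟩ := Subgroup.mem_zpowers_iff.1 hx1
      have h3 : piO H (Φ ^ k) = 1 := hker _ hx2
      rw [map_zpow, piO_act] at h3
      have h4 := (orderOf_dvd_iff_zpow_eq_one).2 h3
      rw [hord] at h4
      obtain ⟨j, rfl⟩ := h4
      obtain ⟨i, hi⟩ := Subgroup.mem_zpowers_iff.1 hx2
      have h5 : Φ ^ ((f : ℤ) * j) = cls Q (Ψ (⇑Q) (r ^ j)) := by
        rw [zpow_mul, zpow_natCast, hΦ, ← map_pow, hy, map_zpow, map_zpow]
      rw [h5] at hi
      have h6 : cls Q (Ψ (⇑Q) (r ^ j * (d ^ i)⁻¹)) = 1 := by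
        rw [map_mul, map_mul, map_inv, map_inv, map_zpow (Ψ (⇑Q)) d i, map_zpow (cls Q) _ i, ← hi, mul_inv_cancel]
      have h7 := (theta_of_inn hne hQ h2 hc hn _ (cls_eq_one.1 h6)).1
      rw [map_mul, map_inv, map_zpow, map_zpow, hr1, hd1, one_zpow, one_mul, inv_eq_one] at h7
      rcases Int.even_or_odd' i with ⟨t, rfl | rfl⟩
      · rw [h5, ← hi, zpow_mul]
        have : dbar ^ (2 : ℤ) = 1 := by
          exact_mod_cast hd3
        rw [this, one_zpow]
      · exfalso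
        rw [zpow_add, zpow_mul] at h7
        have : ((-1 : ℤˣ) ^ (2 : ℤ)) = 1 := by decide
        rw [this, one_zpow, one_mul] at h7
        exact absurd h7 (by decide))
    (by
      rw [Nat.card_zpowers, Nat.card_zpowers, hordΦ, hordd, hcardO]
      ring)
  obtain ⟨e2⟩ := nonempty_cyclic_equiv (inferInstance : IsCyclic (Subgroup.zpowers Φ)) (n := 2 * f)
    (by rw [Nat.card_zpowers, hordΦ])
  obtain ⟨e3⟩ := nonempty_cyclic_equiv (inferInstance : IsCyclic (Subgroup.zpowers dbar)) (n := 2)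
    (by rw [Nat.card_zpowers, hordd])
  exact ⟨e1.trans ((MulEquiv.prodComm).trans ((MulEquiv.prodCongr e3 e2).trans
    (MulEquiv.prodMultiplicative (ZMod 2) (ZMod (2 * f))).symm))⟩

end else_case

section final

variable {F : Type*} [Field F] [Fintype F] {n : ℕ}

set_option maxHeartbeats 2000000 in
theorem out_minus_odd {p f : ℕ} [hp : Fact p.Prime] (hf : 1 ≤ f) (hF : Fintype.card F = p ^ f) (hp2 : p ≠ 2) (hn : 3 ≤ n) (a b : F)
    (hab : ∀ z₁ z₂ : F, z₁ ^ 2 + a * z₁ * z₂ + b * z₂ ^ 2 = 0 → z₁ = 0 ∧ z₂ = 0) :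
    if p ^ f % 4 = 3 ∧ Even n then
      Nonempty (Cfsg.Out (Cfsg.POmega F (⇑(Qminus n F a b))) ≃* DihedralGroup 4 × Multiplicative (ZMod f))
    else Nonempty (Cfsg.Out (Cfsg.POmega F (⇑(Qminus n F a b))) ≃* Multiplicative (ZMod 2 × ZMod (2 * f))) := by
  classical
  have hp1 : p.Prime := hp.out
  haveI hND : ND (Qminus n F a b) := nd_minus hn hab
  have H := H_minus hn hab
  have hpodd : Odd p := hp1.odd_of_ne_two hp2
  have hodd : Odd (Fintype.card F) := by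
    rw [hF]
    exact hpodd.pow
  have h2 : (2 : F) ≠ 0 := two_ne_of_odd rfl hodd
  obtain ⟨S, vR, hv, hord, hpow⟩ := exists_frob (n := n) hf hF a b hab
  have hgen := gal_gen hf hF _ hord
  have hgal := card_gal hf hF
  obtain ⟨e3⟩ := Cfsg.Agent.Lib.AutPSL.exists_gal_iso hF hf
  have hcases := minus_pgo_inn (m := n) hodd (by omega) a b hab
  rw [hF] at hcases
  split_ifs with hc
  · obtain ⟨φ, hφ1, hφ2⟩ := hcases.1 ⟨hc.2, hc.1⟩
    obtain ⟨e1⟩ := ker_equiv _ _ (sig H) (inn_le_sig H) (sig_ker H) φ hφ1 hφ2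
    have hfodd : Odd f := by
      by_contra hcon
      rw [Nat.not_odd_iff_even] at hcon
      obtain ⟨t, rfl⟩ := hcon
      have h3 := hc.1
      rw [pow_add] at h3
      have hx : Odd (p ^ t) := hpodd.pow
      have h4 : p ^ t % 4 = 1 ∨ p ^ t % 4 = 3 := by
        rw [Nat.odd_iff] at hx
        omega
      rw [Nat.mul_mod] at h3
      rcases h4 with h4 | h4 <;> rw [h4] at h3 <;> omega
    obtain ⟨e2⟩ := out_dih H S hfodd hord hgen hpow (refl_sq vR hv) e1
    exact ⟨e2.trans (MulEquiv.prodCongr (MulEquiv.refl _) e3)⟩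
  · have hc' : ¬ (Even n ∧ p ^ f % 4 = 3) := fun h => hc ⟨h.2, h.1⟩
    obtain ⟨φ, hφ1, hφ2⟩ := hcases.2 hc'
    obtain ⟨e1⟩ := ker_equiv _ _ (sig H) (inn_le_sig H) (sig_ker H) φ hφ1 hφ2
    have hneg : ¬ NegOm (Qminus n F a b) := by
      rw [negOm_minus rfl hodd a b hab, hF]
      exact hc'
    obtain ⟨ν, hν0, hν⟩ := exists_nonsq h2
    obtain ⟨s, t, hst⟩ := exists_rep h2 a b hab ν
    have hne := ne_minus (m := n) h2 a b hab
    have hd : ¬ IsSquare ((mu _ hne (dMinus a b ν s t hν0 hst : Sim (⇑(Qminus n F a b))) : Fˣ) : F) := by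
      rw [mu_dMinus a b hab h2]
      exact hν
    have hd1 : aa _ hne (dMinus a b ν s t hν0 hst : Sim (⇑(Qminus n F a b))) = -1 := by
      rcases Int.units_eq_one_or (aa _ hne (dMinus a b ν s t hν0 hst : Sim (⇑(Qminus n F a b)))) with h3 | h3
      · exact absurd ((aa_eq_one_iff _).1 h3) hd
      · exact h3
    exact out_else H hne (Qminus_nondeg hab n) h2 card_minus hneg (by rw [card_minus]; omega) S hf hord hgal hgen vR hv hpow
      (dMinus a b ν s t hν0 hst) hd1 (eps_dMinus a b hab h2 ν s t hν0 hst) e1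

end final

end Cfsg.Agent.Lib.AutPO
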