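import Mathlib
import Cfsg.Agent.Lib.AutPO.LangOdd
import Cfsg.Agent.Lib.AutPO.OutMinus2

/-!
The two parity classes of Lagrangian subspaces, and how semisimilarities act on them.
-/

set_option autoImplicit false
set_option linter.unusedSectionVars false
set_option linter.unusedVariables false

open scoped Matrix

namespace Cfsg.Agent.Lib.AutPO

open Cfsg.Agent.Lib.Classical Cfsg.Agent.Lib.Classical.Witt Cfsg.Agent.Lib.Classical.Abs Cfsg.Agent.Lib.Classical.Orth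
open Cfsg.Agent.Lib.Known3.SimAut Cfsg.Agent.Lib.Known3.OmegaTrans Cfsg.Agent.Lib.Known3.OmegaCalc
open Cfsg.Agent.Lib.Known3.Spinor Cfsg.Agent.Lib.Known3.OmegaSum
open scoped commutatorElement
open Module Ln

local notation "P" => QuadraticMap.polarBilin

section parity

variable {ι : Type} [Fintype ι] [DecidableEq ι] {F : Type*} [Field F] [Fintype F] {Q : QuadraticForm F (ι → F)} {n : ℕ}

/-- The parity relation between subspaces of a given dimension. -/
def Par (n : ℕ) (U W : Submodule F (ι → F)) : Prop := Even (n - finrank F (U ⊓ W : Submodule F (ι → F)))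

lemma par_comm (U W : Submodule F (ι → F)) : Par n U W ↔ Par n W U := by
  rw [Par, Par, inf_comm]

lemma par_self {U : Submodule F (ι → F)} (hU : finrank F U = n) : Par n U U := by
  rw [Par, inf_idem, hU]
  simp

lemma exists_list_between (hQ : (P Q).Nondegenerate) (hrk : Fintype.card F ≠ 2 ∨ finrank F (ι → F) ≠ 4)
    {U W : Submodule F (ι → F)} (hU : IsLagr Q n U) (hW : IsLagr Q n W) : ∃ L : List (NS Q), im (prodL L) U = W := by
  obtain ⟨g, -, hg⟩ := exists_OG_of_equiv (Q := Q) hQ U W (LinearEquiv.ofFinrankEq U W (by rw [hU.dim, hW.dim])) (by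
    intro x
    rw [hW.ts _ (LinearEquiv.ofFinrankEq U W (by rw [hU.dim, hW.dim]) x).2, hU.ts _ x.2])
  obtain ⟨L, hL⟩ := exists_prodL hQ hrk g
  exact ⟨L, by rw [← hL, hg]⟩

theorem par_trans (hQ : (P Q).Nondegenerate) (hrk : Fintype.card F ≠ 2 ∨ finrank F (ι → F) ≠ 4) (hV : finrank F (ι → F) = 2 * n)
    {U W W' : Submodule F (ι → F)} (hU : IsLagr Q n U) (hW : IsLagr Q n W) (hW' : IsLagr Q n W') :
    Par n U W' ↔ (Par n U W ↔ Par n W W') := by
  obtain ⟨L₁, h1⟩ := exists_list_between hQ hrk hU hW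
  obtain ⟨L₂, h2⟩ := exists_list_between hQ hrk hW hW'
  have e1 := parity_prodL hQ hV hU L₁
  have e2 := parity_prodL hQ hV hW L₂
  have e3 := parity_prodL hQ hV hU (L₂ ++ L₁)
  rw [h1] at e1
  rw [h2] at e2
  rw [prodL_append, im_mul, h1, h2, List.length_append, Nat.even_add] at e3
  rw [Par, Par, Par, e3, e1, e2]
  tauto

/-- The image of a subspace under a semisimilarity. -/
def SS.img (S : SS Q) (U : Submodule F (ι → F)) : Submodule F (ι → F) where
  carrier := S.g '' U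
  add_mem' := by
    rintro _ _ ⟨a, ha, rfl⟩ ⟨b, hb, rfl⟩
    exact ⟨a + b, U.add_mem ha hb, map_add _ _ _⟩
  zero_mem' := ⟨0, U.zero_mem, map_zero _⟩
  smul_mem' := by
    rintro t _ ⟨a, ha, rfl⟩
    exact ⟨S.σ.symm t • a, U.smul_mem _ ha, by rw [S.smul, RingEquiv.apply_symm_apply]⟩

lemma SS.mem_img {S : SS Q} {U : Submodule F (ι → F)} {x : ι → F} : x ∈ S.img U ↔ ∃ u ∈ U, S.g u = x := Iff.rfl

lemma SS.finrank_img (S : SS Q) (U : Submodule F (ι → F)) : finrank F (S.img U) = finrank F U := by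
  have h : Nat.card (S.img U) = Nat.card U := by
    refine Nat.card_congr ?_
    exact (Equiv.Set.image S.g.toEquiv (U : Set (ι → F)) S.g.injective).symm
  have e : ∀ W : Submodule F (ι → F), Nat.card W = Nat.card F ^ finrank F W := fun W => Module.natCard_eq_pow_finrank
  rw [e, e] at h
  have h1 : 2 ≤ Nat.card F := by
    rw [Nat.card_eq_fintype_card]
    exact Fintype.one_lt_card
  exact Nat.pow_right_injective h1 h

lemma SS.img_inf (S : SS Q) (U W : Submodule F (ι → F)) : S.img (U ⊓ W) = S.img U ⊓ S.img W := by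
  ext x
  constructor
  · rintro ⟨u, ⟨h1, h2⟩, rfl⟩
    exact ⟨⟨u, h1, rfl⟩, ⟨u, h2, rfl⟩⟩
  · rintro ⟨⟨u, h1, rfl⟩, ⟨w, h2, h3⟩⟩
    have := S.g.injective h3
    subst this
    exact ⟨w, ⟨h1, h2⟩, rfl⟩

lemma SS.isLagr_img (S : SS Q) {U : Submodule F (ι → F)} (hU : IsLagr Q n U) : IsLagr Q n (S.img U) := by
  constructor
  · rw [S.finrank_img]
    exact hU.dim
  · rintro _ ⟨u, hu, rfl⟩
    rw [S.q, hU.ts u hu, map_zero, mul_zero]

lemma SS.par_img (S : SS Q) (U W : Submodule F (ι → F)) : Par n (S.img U) (S.img W) ↔ Par n U W := by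
  rw [Par, Par, ← S.img_inf, S.finrank_img]

/-- The parity of the image of a Lagrangian does not depend on the Lagrangian. -/
theorem par_indep (hQ : (P Q).Nondegenerate) (hrk : Fintype.card F ≠ 2 ∨ finrank F (ι → F) ≠ 4) (hV : finrank F (ι → F) = 2 * n)
    (S : SS Q) {U W : Submodule F (ι → F)} (hU : IsLagr Q n U) (hW : IsLagr Q n W) :
    Par n U (S.img U) ↔ Par n W (S.img W) := by
  have hSU := S.isLagr_img hU
  have hSW := S.isLagr_img hW
  have e1 := par_trans hQ hrk hV hU hW hSU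
  have e2 := par_trans hQ hrk hV hW hSW hSU
  have e3 := S.par_img (n := n) W U
  have e4 := par_comm (n := n) W U
  rw [e1, e2, e3, e4]
  tauto

lemma SS.img_comp (S S' : SS Q) (U : Submodule F (ι → F)) : (S.comp S').img U = S.img (S'.img U) := by
  ext x
  constructor
  · rintro ⟨u, hu, rfl⟩
    exact ⟨S'.g u, ⟨u, hu, rfl⟩, rfl⟩
  · rintro ⟨_, ⟨u, hu, rfl⟩, rfl⟩
    exact ⟨u, hu, rfl⟩

/-- The parity of a composite. -/
theorem par_comp (hQ : (P Q).Nondegenerate) (hrk : Fintype.card F ≠ 2 ∨ finrank F (ι → F) ≠ 4) (hV : finrank F (ι → F) = 2 * n)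
    (S S' : SS Q) {U : Submodule F (ι → F)} (hU : IsLagr Q n U) :
    Par n U ((S.comp S').img U) ↔ (Par n U (S'.img U) ↔ Par n U (S.img U)) := by
  have hS'U := S'.isLagr_img hU
  have hSS' := S.isLagr_img hS'U
  rw [SS.img_comp, par_trans hQ hrk hV hU hS'U hSS', par_indep hQ hrk hV S hS'U hU]

variable [hND : ND Q]

lemma img_ofSim_mul (g h : Sim (⇑Q)) (U : Submodule F (ι → F)) : (ofSim (g * h)).img U = ((ofSim g).comp (ofSim h)).img U := by
  ext x
  constructor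
  · rintro ⟨u, hu, rfl⟩
    refine ⟨u, hu, ?_⟩
    rw [SS.comp_g, ofSim_g, ofSim_g, ofSim_g, Matrix.mulVec_mulVec]
    rfl
  · rintro ⟨u, hu, rfl⟩
    refine ⟨u, hu, ?_⟩
    rw [SS.comp_g, ofSim_g, ofSim_g, ofSim_g, Matrix.mulVec_mulVec]
    rfl

lemma img_ofSim (g : Sim (⇑Q)) (U : Submodule F (ι → F)) : (ofSim g).img U = Cfsg.imageSubmodule g.1.1 U := by
  ext x
  rw [image_eq, Submodule.mem_map, SS.mem_img]
  constructor
  · rintro ⟨u, hu, rfl⟩
    exact ⟨u, hu, (ofSim_g g u).symm⟩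
  · rintro ⟨u, hu, rfl⟩
    exact ⟨u, hu, ofSim_g g u⟩

/-- The description of the class-preserving matrices. -/
lemma psc_iff_par (hQ : (P Q).Nondegenerate) (hV : finrank F (ι → F) = 2 * n) {U₀ : Submodule F (ι → F)} (hU₀ : IsLagr Q n U₀) (g : Matrix ι ι F) :
    Cfsg.PreservesSingularClasses (⇑Q) g ↔ ∀ U, IsLagr Q n U → Par n U (Cfsg.imageSubmodule g U) := by
  constructor
  · intro h U hU
    have := h U (max_of_lagr hQ hV hU)
    rw [Cfsg.SameParityClass, hU.dim] at this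
    exact this
  · intro h U hU
    have hU' := lagr_of_max hQ hV hU₀ hU
    rw [Cfsg.SameParityClass, hU'.dim]
    exact h U hU'

lemma img_of_scal {S T : SS Q} (e : Fˣ) (h : ∀ v, S.g v = (e : F) • T.g v) (U : Submodule F (ι → F)) : S.img U = T.img U := by
  ext x
  constructor
  · rintro ⟨u, hu, rfl⟩
    refine ⟨(T.σ.symm (e : F)) • u, U.smul_mem _ hu, ?_⟩
    rw [T.smul, RingEquiv.apply_symm_apply, h]
  · rintro ⟨u, hu, rfl⟩
    refine ⟨(S.σ.symm ((e : F)⁻¹)) • u, U.smul_mem _ hu, ?_⟩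
    rw [S.smul, RingEquiv.apply_symm_apply, h, smul_smul, inv_mul_cancel₀ (Units.ne_zero e), one_smul]

lemma par_comp' (hQ : (P Q).Nondegenerate) (hrk : Fintype.card F ≠ 2 ∨ finrank F (ι → F) ≠ 4) (hV : finrank F (ι → F) = 2 * n)
    (g h : Sim (⇑Q)) {U : Submodule F (ι → F)} (hU : IsLagr Q n U) :
    Par n U (Cfsg.imageSubmodule (g * h).1.1 U) ↔ (Par n U (Cfsg.imageSubmodule h.1.1 U) ↔ Par n U (Cfsg.imageSubmodule g.1.1 U)) := by
  rw [← img_ofSim, ← img_ofSim, ← img_ofSim, img_ofSim_mul, par_comp hQ hrk hV _ _ hU]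

section sim

variable (hQ : (P Q).Nondegenerate) (hrk : Fintype.card F ≠ 2 ∨ finrank F (ι → F) ≠ 4) (hV : finrank F (ι → F) = 2 * n)
  {U₀ : Submodule F (ι → F)} (hU₀ : IsLagr Q n U₀)

include hQ hrk hV hU₀

lemma psc_iff_one (g : Sim (⇑Q)) : Cfsg.PreservesSingularClasses (⇑Q) g.1.1 ↔ Par n U₀ (Cfsg.imageSubmodule g.1.1 U₀) := by
  rw [psc_iff_par hQ hV hU₀]
  constructor
  · intro h
    exact h U₀ hU₀
  · intro h U hU
    rw [← img_ofSim] at h ⊢
    exact (par_indep hQ hrk hV (ofSim g) hU₀ hU).1 h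

lemma psc_mul_iff (g h : Sim (⇑Q)) : Cfsg.PreservesSingularClasses (⇑Q) (g * h).1.1 ↔
    (Cfsg.PreservesSingularClasses (⇑Q) h.1.1 ↔ Cfsg.PreservesSingularClasses (⇑Q) g.1.1) := by
  rw [psc_iff_one hQ hrk hV hU₀, psc_iff_one hQ hrk hV hU₀, psc_iff_one hQ hrk hV hU₀, ← par_comp' hQ hrk hV g h hU₀]

lemma psc_one' : Cfsg.PreservesSingularClasses (⇑Q) (1 : Sim (⇑Q)).1.1 := by
  rw [psc_iff_one hQ hrk hV hU₀]
  have : Cfsg.imageSubmodule (1 : Sim (⇑Q)).1.1 U₀ = U₀ := by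
    ext x
    simp [Cfsg.imageSubmodule]
  rw [this]
  exact par_self hU₀.dim

lemma psc_inv' (g : Sim (⇑Q)) (h : Cfsg.PreservesSingularClasses (⇑Q) g.1.1) : Cfsg.PreservesSingularClasses (⇑Q) (g⁻¹).1.1 := by
  have h1 := (psc_mul_iff hQ hrk hV hU₀ g⁻¹ g).1 (by
    rw [inv_mul_cancel]
    exact psc_one' hQ hrk hV hU₀)
  exact h1.1 h

lemma psc_dich (g h : Sim (⇑Q)) (hh : ¬ Cfsg.PreservesSingularClasses (⇑Q) h.1.1) :
    Cfsg.PreservesSingularClasses (⇑Q) g.1.1 ∨ Cfsg.PreservesSingularClasses (⇑Q) (g * h).1.1 := by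
  rw [psc_mul_iff hQ hrk hV hU₀]
  tauto

lemma not_psc_refl (v : ι → F) (hv : Q v ≠ 0) : ¬ Cfsg.PreservesSingularClasses (⇑Q) (isoSim (reflIso Q v hv)).1.1 := by
  rw [psc_iff_one hQ hrk hV hU₀]
  have h1 : (isoSim (reflIso Q v hv)).1.1 = (reflIso Q v hv).1.1 := rfl
  rw [h1, image_iso, toOG_reflIso]
  have h2 := parity_prodL hQ hV hU₀ [⟨v, hv⟩]
  rw [prodL_cons, prodL_nil, mul_one] at h2
  rw [Par, h2]
  simp

end sim

end parity

end Cfsg.Agent.Lib.AutPO
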