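import Mathlib
import Cfsg.Agent.Lib.AutPO.Parity

/-!
Models of semisimilarities of prime order over the fixed field, and the parity they have.
-/

set_option autoImplicit false
set_option linter.unusedSectionVars false
set_option linter.unusedVariables false

open scoped Matrix

namespace Cfsg.Agent.Lib.AutPO

open Cfsg.Agent.Lib.Classical Cfsg.Agent.Lib.Classical.Witt Cfsg.Agent.Lib.Classical.Abs Cfsg.Agent.Lib.Classical.Orth
open Cfsg.Agent.Lib.Known3.SimAut Cfsg.Agent.Lib.Known3.OmegaTrans Cfsg.Agent.Lib.Known3.OmegaCalc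
open Cfsg.Agent.Lib.Known3.Spinor Cfsg.Agent.Lib.Known3.OmegaSum
open scoped commutatorElement
open Module Ln

local notation "P" => QuadraticMap.polarBilin
local notation "GLn" => Matrix.GeneralLinearGroup

section model

variable {ι : Type} [Fintype ι] [DecidableEq ι] {F : Type*} [Field F] [Fintype F] {Q : QuadraticForm F (ι → F)} [hND : ND Q]
variable {σ : F ≃+* F} {S : SS Q}
variable {κ : Type} [Fintype κ] [DecidableEq κ]

lemma LD.h₀_inv (D : LD σ S) (u : ι → F) : ((D.h₀⁻¹ : GLn ι F) : Matrix ι ι F) *ᵥ ((D.h₀ : Matrix ι ι F) *ᵥ u) = u := by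
  rw [Matrix.mulVec_mulVec, ← Units.val_mul, inv_mul_cancel, Units.val_one, Matrix.one_mulVec]

lemma LD.h₀_inv' (D : LD σ S) (u : ι → F) : (D.h₀ : Matrix ι ι F) *ᵥ (((D.h₀⁻¹ : GLn ι F) : Matrix ι ι F) *ᵥ u) = u := by
  rw [Matrix.mulVec_mulVec, ← Units.val_mul, mul_inv_cancel, Units.val_one, Matrix.one_mulVec]

/-- The model of a semisimilarity coming from an isometry over the fixed field. -/
lemma LD.exists_model (D : LD σ S) (θ₀ : (ι → fixF σ) ≃ₗ[fixF σ] (κ → fixF σ)) (Q' : QuadraticForm F (κ → F))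
    (hQ' : ∀ v, Q' (ext0 (θ₀ v)) = ((D.Q₀ v : fixF σ) : F)) :
    ∃ E : (κ → F) ≃ₗ[F] (ι → F), (∀ w, S.g (E w) = (D.d : F) • E (hat σ w)) ∧ (∀ w, Q (E w) = (D.z : F) * Q' w) := by
  let R : (ι → F) ≃ₗ[F] (κ → F) := liftE θ₀
  have hR : ∀ w, hat σ (R.symm w) = R.symm (hat σ w) := by
    intro w
    apply R.injective
    rw [R.apply_symm_apply]
    have := liftE_hat θ₀ (R.symm w)
    change R _ = hat σ (R _) at this
    rw [this, R.apply_symm_apply]
  have hq : ∀ u, Q' (R u) = D.Q₂ u := by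
    have key := quad_eq_of_ext0 (σ := σ) (Q'.comp (R : (ι → F) →ₗ[F] (κ → F))) D.Q₂ (by
      intro v
      change Q' (liftE θ₀ (ext0 v)) = _
      rw [liftE_ext0, hQ', LD.Q₀_apply])
    intro u
    exact key u
  refine ⟨R.symm.trans (glLin D.h₀), ?_, ?_⟩
  · intro w
    simp only [LinearEquiv.trans_apply, glLin_apply]
    rw [D.hS, D.h₀_inv, hR]
  · intro w
    simp only [LinearEquiv.trans_apply, glLin_apply]
    have h1 := hq (R.symm w)
    rw [R.apply_symm_apply, LD.Q₂_apply] at h1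
    rw [h1]
    have hz : (D.z : F) ≠ 0 := Units.ne_zero _
    simp only [Units.val_inv_eq_inv_val]
    field_simp

/-- A model of plus type has a fixed Lagrangian. -/
lemma par_model_plus {n : ℕ} (E : (Fin n ⊕ Fin n → F) ≃ₗ[F] (ι → F)) (d z : F)
    (hE : ∀ w, S.g (E w) = d • E (hat σ w)) (hq : ∀ w, Q (E w) = z * Qplus n F w) :
    ∃ U, IsLagr Q n U ∧ Par n U (S.img U) := by
  set U₁ : Submodule F (Fin n ⊕ Fin n → F) := LinearMap.ker (LinearMap.funLeft F F (Sum.inr : Fin n → Fin n ⊕ Fin n)) with hU₁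
  have hL : IsLagr (Qplus n F) n U₁ := U0_lagr
  let U : Submodule F (ι → F) := U₁.map (E : (Fin n ⊕ Fin n → F) →ₗ[F] (ι → F))
  have hU : IsLagr Q n U := by
    constructor
    · rw [LinearEquiv.finrank_map_eq]
      exact hL.dim
    · rintro _ ⟨w, hw, rfl⟩
      change Q (E w) = 0
      rw [hq, hL.ts w hw, mul_zero]
  refine ⟨U, hU, ?_⟩
  have hle : S.img U ≤ U := by
    rintro _ ⟨_, ⟨w, hw, rfl⟩, rfl⟩
    change S.g (E w) ∈ U
    rw [hE]
    apply U.smul_mem
    refine ⟨hat σ w, ?_, rfl⟩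
    have hw' : ∀ i, w (Sum.inr i) = 0 := fun i => congrFun (LinearMap.mem_ker.1 hw) i
    apply LinearMap.mem_ker.2
    funext i
    change σ (w (Sum.inr i)) = 0
    rw [hw', map_zero]
  have heq : S.img U = U := Submodule.eq_of_le_of_finrank_eq hle (S.finrank_img U)
  rw [heq]
  exact par_self hU.dim

/-- A model of minus type over the fixed field has a Lagrangian of the other parity. -/
lemma par_model_minus {k : ℕ} (E : ((Fin k ⊕ Fin k) ⊕ Fin 2 → F) ≃ₗ[F] (ι → F)) (d z : F) (hd : d ≠ 0)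
    (hE : ∀ w, S.g (E w) = d • E (hat σ w)) (ζ ω : F) (hq : ∀ w, Q (E w) = z * Qminus k F 1 ζ w)
    (hω : ω ^ 2 + 1 * ω + ζ = 0) (hσ : σ ω ≠ ω) :
    ∃ U, IsLagr Q (k + 1) U ∧ ¬ Par (k + 1) U (S.img U) := by
  set U₁ : Submodule F ((Fin k ⊕ Fin k) ⊕ Fin 2 → F) := LinearMap.range (lagrMap (m := k) ω) with hU₁
  set U₂ : Submodule F ((Fin k ⊕ Fin k) ⊕ Fin 2 → F) := LinearMap.range (lagrMap (m := k) (σ ω)) with hU₂
  have hL : IsLagr (Qminus k F 1 ζ) (k + 1) U₁ := lagr_ext hω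
  let U : Submodule F (ι → F) := U₁.map (E : ((Fin k ⊕ Fin k) ⊕ Fin 2 → F) →ₗ[F] (ι → F))
  have hU : IsLagr Q (k + 1) U := by
    constructor
    · rw [LinearEquiv.finrank_map_eq]
      exact hL.dim
    · rintro _ ⟨w, hw, rfl⟩
      change Q (E w) = 0
      rw [hq, hL.ts w hw, mul_zero]
  refine ⟨U, hU, ?_⟩
  have hdim₂ : finrank F U₂ = k + 1 := by
    rw [hU₂, LinearMap.finrank_range_of_inj (lagrMap_inj _)]
    simp
  have hhat : ∀ x : Fin k ⊕ Unit → F, hat σ (lagrMap (m := k) ω x) = lagrMap (m := k) (σ ω) (hat σ x) := by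
    intro x
    funext j
    rcases j with (j | j) | j
    · rfl
    · simp [lagrMap, hat_apply]
    · by_cases hj : j = 0
      · simp [lagrMap, hat_apply, hj]
      · simp [lagrMap, hat_apply, hj]
  have hle : S.img U ≤ U₂.map (E : ((Fin k ⊕ Fin k) ⊕ Fin 2 → F) →ₗ[F] (ι → F)) := by
    rintro _ ⟨_, ⟨w, ⟨x, rfl⟩, rfl⟩, rfl⟩
    change S.g (E (lagrMap (m := k) ω x)) ∈ _
    rw [hE, hhat]
    apply Submodule.smul_mem
    exact ⟨_, ⟨_, rfl⟩, rfl⟩
  have heq : S.img U = U₂.map (E : ((Fin k ⊕ Fin k) ⊕ Fin 2 → F) →ₗ[F] (ι → F)) := by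
    apply Submodule.eq_of_le_of_finrank_eq hle
    rw [S.finrank_img, LinearEquiv.finrank_map_eq, LinearEquiv.finrank_map_eq, hL.dim, hdim₂]
  let φ : (Fin k → F) →ₗ[F] ((Fin k ⊕ Fin k) ⊕ Fin 2 → F) :=
    { toFun := fun t => Sum.elim (Sum.elim t 0) 0
      map_add' := by intro a b; funext i; rcases i with (i | i) | i <;> simp
      map_smul' := by intro c a; funext i; rcases i with (i | i) | i <;> simp }
  have hφ : Function.Injective φ := by
    intro a b hab
    funext i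
    exact congrFun hab (Sum.inl (Sum.inl i))
  have hint : U₁ ⊓ U₂ = LinearMap.range φ := by
    apply le_antisymm
    · rintro y ⟨⟨x, rfl⟩, ⟨x', hx'⟩⟩
      have h1 := congrFun hx' (Sum.inr 1)
      have h0 := congrFun hx' (Sum.inr 0)
      simp [lagrMap] at h1 h0
      have h3 : x (Sum.inr ()) = 0 := by
        rw [h1] at h0
        have h4 : (σ ω - ω) * x (Sum.inr ()) = 0 := by linear_combination h0
        exact (mul_eq_zero.1 h4).resolve_left (sub_ne_zero.2 hσ)
      refine ⟨fun i => x (Sum.inl i), ?_⟩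
      funext j
      rcases j with (j | j) | j
      · rfl
      · simp [φ, lagrMap]
      · by_cases hj : j = 0
        · simp [φ, lagrMap, hj, h3]
        · simp [φ, lagrMap, hj, h3]
    · rintro _ ⟨t, rfl⟩
      have key : ∀ θ : F, φ t = lagrMap (m := k) θ (Sum.elim t 0) := by
        intro θ
        funext j
        rcases j with (j | j) | j
        · rfl
        · simp [φ, lagrMap]
        · by_cases hj : j = 0
          · simp [φ, lagrMap, hj]
          · simp [φ, lagrMap, hj]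
      exact ⟨⟨_, (key ω).symm⟩, ⟨_, (key (σ ω)).symm⟩⟩
  rw [heq, Par, ← Submodule.map_inf _ (E.injective), LinearEquiv.finrank_map_eq, hint, LinearMap.finrank_range_of_inj hφ]
  simp

end model

end Cfsg.Agent.Lib.AutPO
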