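import Mathlib
import Cfsg.Agent.Lib.AutPO.Model

/-!
Lang's theorem for the field and graph-field automorphisms of the orthogonal groups of plus type.
-/

set_option autoImplicit false
set_option linter.unusedSectionVars false
set_option linter.unusedVariables false

open scoped Matrix

namespace Cfsg.Agent.Lib.AutPO

open Cfsg.Agent.Lib.Classical Cfsg.Agent.Lib.Classical.Witt Cfsg.Agent.Lib.Classical.Abs Cfsg.Agent.Lib.Classical.Orth
open Cfsg.Agent.Lib.Known3.SimAut Cfsg.Agent.Lib.Known3.OmegaTrans Cfsg.Agent.Lib.Known3.OmegaCalc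
open Cfsg.Agent.Lib.Known3.Spinor Cfsg.Agent.Lib.Known3.OmegaSum Cfsg.Agent.Lib.Known3.QuadIso
open scoped commutatorElement
open Module Ln

local notation "P" => QuadraticMap.polarBilin
local notation "GLn" => Matrix.GeneralLinearGroup

section hom

lemma hom_conj_one {G A : Type*} [Group G] [Group A] (f : G →* A) {x α γ φ : G} (h1 : f x = 1) (h2 : f γ = 1)
    (h : α * x * α⁻¹ = γ * φ) : f φ = 1 := by
  have h4 := congrArg f h
  rw [map_mul, map_mul, h1, mul_one, map_inv, mul_inv_cancel, map_mul, h2, one_mul] at h4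
  exact h4.symm

end hom

section binary

universe u

variable {K₀ : Type u} [Field K₀] [Fintype K₀]

lemma exists_quadExt (a b : K₀) (hab : ∀ z₁ z₂ : K₀, z₁ ^ 2 + a * z₁ * z₂ + b * z₂ ^ 2 = 0 → z₁ = 0 ∧ z₂ = 0) :
    ∃ (L : Type u) (_ : Field L) (_ : Algebra K₀ L), Nonempty (QuadExt a b L) := by
  obtain ⟨K, iK, iA, ω, hK, hω⟩ := exists_quad' a b hab
  have hnr : ∀ t : K₀, ω ≠ algebraMap K₀ K t := by
    intro t ht
    have h3 : t ^ 2 + a * t * (-1) + b * (-1) ^ 2 = 0 := by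
      apply (algebraMap K₀ K).injective
      rw [ht] at hω
      simp only [map_add, map_mul, map_pow, map_neg, map_one, map_zero]
      linear_combination hω
    exact one_ne_zero (neg_eq_zero.1 (hab t (-1) h3).2)
  exact ⟨K, iK, iA, ⟨⟨ω, hK, hω, hnr⟩⟩⟩

open Polynomial in
/-- All anisotropic binary forms over a finite field are isometric. -/
theorem binary_isometric (a b a' b' : K₀) (hab : ∀ z₁ z₂ : K₀, z₁ ^ 2 + a * z₁ * z₂ + b * z₂ ^ 2 = 0 → z₁ = 0 ∧ z₂ = 0)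
    (hab' : ∀ z₁ z₂ : K₀, z₁ ^ 2 + a' * z₁ * z₂ + b' * z₂ ^ 2 = 0 → z₁ = 0 ∧ z₂ = 0) :
    ∃ A : (Fin 2 → K₀) ≃ₗ[K₀] (Fin 2 → K₀), ∀ z, (A z 0) ^ 2 + a' * (A z 0) * (A z 1) + b' * (A z 1) ^ 2 = z 0 ^ 2 + a * z 0 * z 1 + b * z 1 ^ 2 := by
  classical
  obtain ⟨L, iL, iA, ⟨E⟩⟩ := exists_quadExt a b hab
  obtain ⟨L', iL', iA', ⟨E'⟩⟩ := exists_quadExt a' b' hab'
  obtain ⟨p, hp⟩ := CharP.exists K₀
  obtain ⟨f, hp1, hF⟩ := FiniteField.card K₀ p
  haveI : Fact p.Prime := ⟨hp1⟩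
  haveI : FiniteDimensional K₀ L := FiniteDimensional.of_finrank_pos (by rw [E.dim]; norm_num)
  haveI : FiniteDimensional K₀ L' := FiniteDimensional.of_finrank_pos (by rw [E'.dim]; norm_num)
  haveI : Finite L := Module.finite_of_finite K₀
  haveI : Finite L' := Module.finite_of_finite K₀
  letI : Fintype L := Fintype.ofFinite L
  letI : Fintype L' := Fintype.ofFinite L'
  haveI : CharP L p := charP_of_injective_algebraMap (algebraMap K₀ L).injective p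
  haveI : CharP L' p := charP_of_injective_algebraMap (algebraMap K₀ L').injective p
  have hc : Fintype.card L = Fintype.card L' := by
    rw [Module.card_eq_pow_finrank (K := K₀) (V := L), Module.card_eq_pow_finrank (K := K₀) (V := L'), E.dim, E'.dim]
  haveI h1 : IsSplittingField K₀ L (X ^ Fintype.card L - X) := FiniteField.isSplittingField_sub L K₀
  haveI h2 : IsSplittingField K₀ L' (X ^ Fintype.card L - X) := by
    rw [hc]
    exact FiniteField.isSplittingField_sub L' K₀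
  let e : L ≃ₐ[K₀] L' := (IsSplittingField.algEquiv L (X ^ Fintype.card L - X : K₀[X])).trans
    (IsSplittingField.algEquiv L' (X ^ Fintype.card L - X : K₀[X])).symm
  refine ⟨E.lin.trans (e.toLinearEquiv.trans E'.lin.symm), fun z => ?_⟩
  have hf : 1 ≤ (f : ℕ) := f.2
  apply (algebraMap K₀ L').injective
  rw [E'.norm_eq p hF hf]
  have h3 : E'.lin ((E.lin.trans (e.toLinearEquiv.trans E'.lin.symm)) z) = e (E.lin z) := by
    simp
  rw [h3, ← map_pow, ← map_mul, ← E.norm_eq p hF hf]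
  exact e.commutes _

/-- All minus-type forms over a finite field are isometric. -/
theorem minus_isometric (m : ℕ) (a b a' b' : K₀) (hab : ∀ z₁ z₂ : K₀, z₁ ^ 2 + a * z₁ * z₂ + b * z₂ ^ 2 = 0 → z₁ = 0 ∧ z₂ = 0)
    (hab' : ∀ z₁ z₂ : K₀, z₁ ^ 2 + a' * z₁ * z₂ + b' * z₂ ^ 2 = 0 → z₁ = 0 ∧ z₂ = 0) :
    ∃ e : ((Fin m ⊕ Fin m) ⊕ Fin 2 → K₀) ≃ₗ[K₀] ((Fin m ⊕ Fin m) ⊕ Fin 2 → K₀),
      ∀ v, Cfsg.quadFormMinus m K₀ a' b' (e v) = Cfsg.quadFormMinus m K₀ a b v := by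
  obtain ⟨A, hA⟩ := binary_isometric a b a' b' hab hab'
  let e : ((Fin m ⊕ Fin m) ⊕ Fin 2 → K₀) ≃ₗ[K₀] ((Fin m ⊕ Fin m) ⊕ Fin 2 → K₀) :=
    { toFun := fun v => Sum.elim (fun i => v (Sum.inl i)) (A (fun j => v (Sum.inr j)))
      invFun := fun v => Sum.elim (fun i => v (Sum.inl i)) (A.symm (fun j => v (Sum.inr j)))
      map_add' := by
        intro x y
        funext i
        rcases i with i | i
        · rfl
        · have : (fun j => (x + y) (Sum.inr j)) = (fun j => x (Sum.inr j)) + (fun j => y (Sum.inr j)) := rfl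
          simp only [Sum.elim_inr, this, map_add]
          rfl
      map_smul' := by
        intro c x
        funext i
        rcases i with i | i
        · rfl
        · have : (fun j => (c • x) (Sum.inr j)) = c • (fun j => x (Sum.inr j)) := rfl
          simp only [Sum.elim_inr, this, map_smul]
          rfl
      left_inv := by
        intro v
        funext i
        rcases i with i | i
        · rfl
        · simp
      right_inv := by
        intro v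
        funext i
        rcases i with i | i
        · rfl
        · simp }
  refine ⟨e, fun v => ?_⟩
  have := hA (fun j => v (Sum.inr j))
  simp only [Cfsg.quadFormMinus]
  change (∑ i, v (Sum.inl (Sum.inl i)) * v (Sum.inl (Sum.inr i))) + ((A (fun j => v (Sum.inr j)) 0) ^ 2 + a' * (A (fun j => v (Sum.inr j)) 0) * (A (fun j => v (Sum.inr j)) 1) + b' * (A (fun j => v (Sum.inr j)) 1) ^ 2) = _
  rw [this]

end binary

section comm

variable {ι : Type} [Fintype ι] [DecidableEq ι] {F : Type*} [Field F] [Fintype F] {Q : QuadraticForm F (ι → F)} [hND : ND Q]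

/-- A reflection in an eigenvector of a semisimilarity commutes with it. -/
lemma refl_comm_of_eigen (S : SS Q) (v : ι → F) (hv : Q v ≠ 0) (d : F) (hd : d ≠ 0) (hS : S.g v = d • v) :
    Ψ (⇑Q) (isoSim (reflIso Q v hv)) * act S * (Ψ (⇑Q) (isoSim (reflIso Q v hv)))⁻¹ = act S := by
  set ρ := isoSim (reflIso Q v hv) with hρ
  have hρg : ∀ y, (ofSim ρ).g y = y - ((Q v)⁻¹ * P Q v y) • v := by
    intro y
    rw [ofSim_g, ← refl_apply hv, ← toOG_reflIso, toOG_apply]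
    rfl
  have key : act ((ofSim ρ).comp S) = act (S.comp (ofSim ρ)) := by
    apply act_congr
    intro y
    rw [SS.comp_g, SS.comp_g, hρg, hρg, map_sub, S.smul, hS, smul_smul]
    congr 2
    have h1 := S.polar v y
    have h2 := S.q v
    rw [hS, map_smul] at h1
    rw [hS, Q_smul] at h2
    simp only [LinearMap.smul_apply, smul_eq_mul] at h1
    have hσ : S.σ (Q v) ≠ 0 := by simpa using hv
    rw [map_mul, map_inv₀]
    field_simp
    have hμ : S.μ * S.σ (Q v) = d * d * Q v := h2.symm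
    have h3 : d * (P Q v (S.g y)) = S.μ * S.σ (P Q v y) := h1
    have h5 : P Q v (S.g y) * S.σ (Q v) = d * Q v * S.σ (P Q v y) := by
      apply mul_left_cancel₀ hd
      linear_combination S.σ (Q v) * h3 + (S.σ (P Q v y)) * hμ
    linear_combination h5
  rw [act_comp, act_comp, act_ofSim] at key
  rw [key, mul_inv_cancel_right]

variable {σ : F ≃+* F} {S : SS Q}

/-- A reflection commuting with the semisimilarity, for a rational vector. -/
lemma LD.exists_refl_comm (D : LD σ S) : ∃ (v : ι → F) (hv : Q v ≠ 0),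
    Ψ (⇑Q) (isoSim (reflIso Q v hv)) * act S * (Ψ (⇑Q) (isoSim (reflIso Q v hv)))⁻¹ = act S := by
  obtain ⟨u, hu⟩ : ∃ u : ι → fixF σ, Q ((D.h₀ : Matrix ι ι F) *ᵥ ext0 u) ≠ 0 := by
    by_contra hcon
    push Not at hcon
    have h0 : ∀ u, D.Q₂ u = (0 : QuadraticForm F (ι → F)) u :=
      quad_eq_of_ext0 (σ := σ) D.Q₂ 0 (by
        intro v
        rw [LD.Q₂_apply, hcon]
        simp)
    obtain ⟨w, hw⟩ := exists_ne_zero (Q := Q)
    apply hw
    have h1 := h0 (((D.h₀⁻¹ : GLn ι F) : Matrix ι ι F) *ᵥ w)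
    rw [LD.Q₂_apply, D.h₀_inv'] at h1
    have hz : ((D.z⁻¹ : Fˣ) : F) ≠ 0 := Units.ne_zero _
    exact (mul_eq_zero.1 h1).resolve_right hz
  refine ⟨_, hu, refl_comm_of_eigen S _ hu D.d (Units.ne_zero _) ?_⟩
  rw [D.hS, D.h₀_inv, hat_ext0]

end comm

section closure

variable {ι : Type} [Fintype ι] [DecidableEq ι] {F : Type*} [Field F] {q : (ι → F) → F}

/-- Elements of a subgroup generated by induced automorphisms. -/
lemma mem_closure_induced {R : Matrix ι ι F → Prop} (hone : R (1 : Sim q).1.1) (hmul : ∀ g h : Sim q, R g.1.1 → R h.1.1 → R (g * h).1.1)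
    (hinv : ∀ g : Sim q, R g.1.1 → R (g⁻¹).1.1) {δ : MulAut (Cfsg.POmega F q)}
    (hδ : δ ∈ Cfsg.autSubgroupOf (fun β => ∃ g : GLn ι F, g ∈ Cfsg.Geo.quadSimilarityGroup (F := F) q ∧ R g ∧
      Cfsg.IsInducedBySemilinearPOmega q g (RingEquiv.refl F) β)) :
    ∃ g : Sim q, R g.1.1 ∧ Ψ q g = δ := by
  induction hδ using Subgroup.closure_induction with
  | mem β hβ =>
    obtain ⟨g, hg, hR, hi⟩ := hβ
    exact ⟨⟨g, hg⟩, hR, (eq_Ψ_of_induced q ⟨g, hg⟩ β hi).symm⟩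
  | one => exact ⟨1, hone, map_one _⟩
  | mul a b _ _ ha hb =>
    obtain ⟨g, hg, rfl⟩ := ha
    obtain ⟨h, hh, rfl⟩ := hb
    exact ⟨g * h, hmul g h hg hh, map_mul _ _ _⟩
  | inv a _ ha =>
    obtain ⟨g, hg, rfl⟩ := ha
    exact ⟨g⁻¹, hinv g hg, map_inv _ _⟩

end closure

section ext

variable {F : Type*} [Field F] {σ : F ≃+* F} {m k : ℕ}

lemma plus_ext0 (w : Fin m ⊕ Fin m → fixF σ) : Qplus m F (ext0 w) = ((Cfsg.quadFormPlus m (fixF σ) w : fixF σ) : F) := by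
  rw [Qplus_apply]
  simp [Cfsg.quadFormPlus, ext0]

lemma minus_ext0 (a b : fixF σ) (w : (Fin k ⊕ Fin k) ⊕ Fin 2 → fixF σ) :
    Qminus k F (a : F) (b : F) (ext0 w) = ((Cfsg.quadFormMinus k (fixF σ) a b w : fixF σ) : F) := by
  rw [Qminus_apply]
  simp [Cfsg.quadFormMinus, ext0]

end ext

section core

variable {ι : Type} [Fintype ι] [DecidableEq ι] {F : Type*} [Field F] [Fintype F] {Q : QuadraticForm F (ι → F)} [hND : ND Q]

/-- The core of the conjugacy argument. -/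
theorem conj_core (H : 9 ≤ finrank F (ι → F) ∨ NoSkew Q) {x δ : MulAut (Cfsg.POmega F (⇑Q))} (hsx : sig H x ≠ 1) {r : ℕ} (hr : r.Prime)
    (hxpow : x ^ r = 1) (hypow : (δ * x) ^ r = 1) (hδ1 : sig H δ = 1)
    (htype : ∀ (σ : F ≃+* F) (S S' : SS Q) (D : LD σ S) (D' : LD σ S'), act S = x → act S' = δ * x →
      ∃ θ₀ : (ι → fixF σ) ≃ₗ[fixF σ] (ι → fixF σ), ∀ u, D'.Q₀ (θ₀ u) = D.Q₀ u) :
    ∃ (θ : Sim (⇑Q)) (v : ι → F) (hv : Q v ≠ 0), δ * x = Ψ (⇑Q) θ * x * (Ψ (⇑Q) θ)⁻¹ ∧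
      Ψ (⇑Q) (isoSim (reflIso Q v hv)) * x * (Ψ (⇑Q) (isoSim (reflIso Q v hv)))⁻¹ = x := by
  obtain ⟨S, hS⟩ := act_surj H x
  obtain ⟨S', hS'⟩ := act_surj H (δ * x)
  have hSσ : S.σ = sig H x := by rw [← hS, sig_act]
  have hSσ' : S'.σ = sig H x := by rw [← sig_act H S', hS', map_mul, hδ1, one_mul]
  haveI : Fact r.Prime := ⟨hr⟩
  have hord : orderOf (sig H x) = r := orderOf_eq_prime (by rw [← map_pow, hxpow, map_one]) hsx
  obtain ⟨D⟩ := exists_LD S hSσ hord hr.ne_zero (by rw [hS, hxpow])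
  obtain ⟨D'⟩ := exists_LD S' hSσ' hord hr.ne_zero (by rw [hS', hypow])
  obtain ⟨θ₀, hθ₀⟩ := htype _ S S' D D' hS hS'
  obtain ⟨θ, hθ, -⟩ := conj_of_LD D D' θ₀ 1 (fun u => by rw [hθ₀]; simp)
  obtain ⟨v, hv, hcomm⟩ := D.exists_refl_comm
  refine ⟨θ, v, hv, ?_, ?_⟩
  · rw [← hS', hθ, hS]
  · rw [← hS]
    exact hcomm

/-- The parity agreement of semisimilarities differing by a class-preserving similarity. -/
lemma par_rel (hQ : (P Q).Nondegenerate) (hrk : Fintype.card F ≠ 2 ∨ finrank F (ι → F) ≠ 4) {n : ℕ} (hV : finrank F (ι → F) = 2 * n)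
    {U₀ : Submodule F (ι → F)} (hU₀ : IsLagr Q n U₀) (g : Sim (⇑Q)) (hg : Cfsg.PreservesSingularClasses (⇑Q) g.1.1) (S S' : SS Q)
    (h : act S' = Ψ (⇑Q) g * act S) {U : Submodule F (ι → F)} (hU : IsLagr Q n U) : Par n U (S.img U) ↔ Par n U (S'.img U) := by
  let T : SS Q := (ofSim g).comp S
  have hT : act T = act S' := by
    simp only [T]
    rw [act_comp, act_ofSim, h]
  obtain ⟨-, l, hl, hl2⟩ := act_eq (act_inj hT)
  have h1 : S'.img U = (ofSim g).img (S.img U) := by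
    rw [img_of_scal (Units.mk0 l hl) (T := T) hl2, SS.img_comp]
  have hSU := S.isLagr_img hU
  have h2 : Par n (S.img U) (S'.img U) := by
    rw [h1, img_ofSim]
    exact (psc_iff_par hQ hV hU₀ g.1.1).1 hg _ hSU
  have h3 := par_trans hQ hrk hV hU hSU (S'.isLagr_img hU)
  tauto

/-- The core for a class of matrices containing some of each coset. -/
theorem conj_psc {hQ : (P Q).Nondegenerate} {hrk : Fintype.card F ≠ 2 ∨ finrank F (ι → F) ≠ 4} {n : ℕ} (hV : finrank F (ι → F) = 2 * n)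
    {U₀ : Submodule F (ι → F)} (hU₀ : IsLagr Q n U₀) (H : 9 ≤ finrank F (ι → F) ∨ NoSkew Q) {x δ : MulAut (Cfsg.POmega F (⇑Q))} (hsx : sig H x ≠ 1) {r : ℕ} (hr : r.Prime)
    (hxpow : x ^ r = 1) (hypow : (δ * x) ^ r = 1) (g : Sim (⇑Q)) (hg : Cfsg.PreservesSingularClasses (⇑Q) g.1.1) (hδ : Ψ (⇑Q) g = δ)
    (htype : ∀ (σ : F ≃+* F) (S S' : SS Q) (D : LD σ S) (D' : LD σ S'), act S = x → act S' = δ * x →
      (∀ U, IsLagr Q n U → (Par n U (S.img U) ↔ Par n U (S'.img U))) →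
      ∃ θ₀ : (ι → fixF σ) ≃ₗ[fixF σ] (ι → fixF σ), ∀ u, D'.Q₀ (θ₀ u) = D.Q₀ u) :
    ∃ θ : Sim (⇑Q), Cfsg.PreservesSingularClasses (⇑Q) θ.1.1 ∧ δ * x = Ψ (⇑Q) θ * x * (Ψ (⇑Q) θ)⁻¹ := by
  have hδ1 : sig H δ = 1 := by
    rw [sig_eq_one_iff, pgoAut_eq]
    exact mem_img.2 ⟨g, g.2, hδ⟩
  obtain ⟨θ, v, hv, h1, h2⟩ := conj_core H hsx hr hxpow hypow hδ1 (by
    intro σ S S' D D' hS hS'
    exact htype σ S S' D D' hS hS' (fun U hU => par_rel hQ hrk hV hU₀ g hg S S' (by rw [hS, hS', hδ]) hU))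
  rcases psc_dich hQ hrk hV hU₀ θ (isoSim (reflIso Q v hv)) (not_psc_refl hQ hrk hV hU₀ v hv) with h | h
  · exact ⟨θ, h, h1⟩
  · refine ⟨θ * isoSim (reflIso Q v hv), h, ?_⟩
    rw [h1, map_mul]
    nth_rewrite 1 [← h2]
    group

end core

section final

variable {F : Type*} [Field F] [Fintype F] {m : ℕ}

/-- The standard semisimilarity. -/
def hatPlus (m : ℕ) (σ : F ≃+* F) : SS (Qplus m F) where
  g := hat σ
  σ := σ
  μ := 1
  hμ := one_ne_zero
  smul := hat_smul σ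
  q x := by
    rw [Qplus_apply, Qplus_apply, one_mul]
    simp [Cfsg.quadFormPlus, hat_apply, map_sum]

/-- A Lagrangian and the parity of a semisimilarity with trivial-power image, in terms of the type of the descended form. -/
lemma par_types {σ : F ≃+* F} {S : SS (Qplus (m + 1) F)} [hND : ND (Qplus (m + 1) F)] (D : LD σ S) :
    ((∃ θ₀ : (Fin (m + 1) ⊕ Fin (m + 1) → fixF σ) ≃ₗ[fixF σ] (Fin (m + 1) ⊕ Fin (m + 1) → fixF σ), ∀ v, Cfsg.quadFormPlus (m + 1) (fixF σ) (θ₀ v) = D.Q₀ v) ∧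
      ∃ U, IsLagr (Qplus (m + 1) F) (m + 1) U ∧ Par (m + 1) U (S.img U)) ∨
    ((∃ (ζ : fixF σ) (θ₀ : (Fin (m + 1) ⊕ Fin (m + 1) → fixF σ) ≃ₗ[fixF σ] ((Fin m ⊕ Fin m) ⊕ Fin 2 → fixF σ)), (∀ t : fixF σ, t ^ 2 + t + ζ ≠ 0) ∧
        ∀ v, Cfsg.quadFormMinus m (fixF σ) 1 ζ (θ₀ v) = D.Q₀ v) ∧
      ∃ U, IsLagr (Qplus (m + 1) F) (m + 1) U ∧ ¬ Par (m + 1) U (S.img U)) := by
  classical
  have hV₀ : finrank (fixF σ) (Fin (m + 1) ⊕ Fin (m + 1) → fixF σ) = 2 * (m + 1) := by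
    simp [Module.finrank_fintype_fun_eq_card]
    ring
  rcases isometry_even (m := m + 1) (by omega) hV₀ D.Q₀ D.Q₀_nondeg with ⟨θ₀, hθ₀⟩ | ⟨ζ, θ₀, hζ, hθ₀⟩
  · left
    refine ⟨⟨θ₀, hθ₀⟩, ?_⟩
    obtain ⟨E, hE, hq⟩ := D.exists_model θ₀ (Qplus (m + 1) F) (by
      intro v
      rw [plus_ext0, hθ₀])
    exact par_model_plus E D.d D.z hE hq
  · right
    refine ⟨⟨ζ, θ₀, hζ, hθ₀⟩, ?_⟩
    obtain ⟨E, hE, hq⟩ := D.exists_model (κ := (Fin m ⊕ Fin m) ⊕ Fin 2) θ₀ (Qminus m F ((1 : fixF σ) : F) ((ζ : fixF σ) : F)) (by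
      intro v
      rw [minus_ext0]
      exact congrArg _ (hθ₀ v))
    have hone : ((1 : fixF σ) : F) = 1 := rfl
    rw [hone] at hq
    have hroot : ∃ ω : F, ω ^ 2 + 1 * ω + (ζ : F) = 0 := by
      by_contra hcon
      push Not at hcon
      have hanis : ∀ t : F, t ^ 2 + t + (ζ : F) ≠ 0 := by
        intro t ht
        exact hcon t (by linear_combination ht)
      obtain ⟨U, hU, hUd⟩ := Known3.Witt.exists_singular_plus (F := F) (m + 1)
      have h1 := Known3.Witt.finrank_le_of_singular_minus m 1 (ζ : F) (anisotropic_of _ hanis)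
        (U.map (E.symm : (Fin (m + 1) ⊕ Fin (m + 1) → F) →ₗ[F] _)) (by
          rintro _ ⟨u, hu, rfl⟩
          change Cfsg.quadFormMinus m F 1 (ζ : F) (E.symm u) = 0
          have h2 := hq (E.symm u)
          rw [E.apply_symm_apply, Qplus_apply, hU u hu, Qminus_apply] at h2
          exact (mul_eq_zero.1 h2.symm).resolve_left (Units.ne_zero _))
      rw [LinearEquiv.finrank_map_eq, hUd] at h1
      omega
    obtain ⟨ω, hω⟩ := hroot
    have hσ : σ ω ≠ ω := by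
      intro h
      apply hζ ⟨ω, h⟩
      apply Subtype.ext
      change ω ^ 2 + ω + (ζ : F) = 0
      linear_combination hω
    exact par_model_minus E D.d D.z (Units.ne_zero _) hE (ζ : F) ω hq hω hσ

/-- The main theorem for plus type: every automorphism outside `PGO` has this property. -/
theorem lang_plus (hm : 4 ≤ m) {q : (Fin (m + 1) ⊕ Fin (m + 1) → F) → F} (hq : ⇑(Qplus (m + 1) F) = q) (x δ : MulAut (Cfsg.POmega F q))
    (hsx : x ∉ Cfsg.pgoAut F q) {r : ℕ} (hr : r.Prime) (hxr : orderOf x = r)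
    (hδ : δ ∈ Cfsg.autSubgroupOf (fun β => ∃ g : GLn (Fin (m + 1) ⊕ Fin (m + 1)) F, g ∈ Cfsg.Geo.quadSimilarityGroup (F := F) q ∧
      Cfsg.PreservesSingularClasses q (g : Matrix (Fin (m + 1) ⊕ Fin (m + 1)) (Fin (m + 1) ⊕ Fin (m + 1)) F) ∧
      Cfsg.IsInducedBySemilinearPOmega q g (RingEquiv.refl F) β)) :
    orderOf (δ * x) = r ↔ Cfsg.IsConjUnder (Cfsg.autSubgroupOf (fun β => ∃ g : GLn (Fin (m + 1) ⊕ Fin (m + 1)) F, g ∈ Cfsg.Geo.quadSimilarityGroup (F := F) q ∧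
      Cfsg.PreservesSingularClasses q (g : Matrix (Fin (m + 1) ⊕ Fin (m + 1)) (Fin (m + 1) ⊕ Fin (m + 1)) F) ∧
      Cfsg.IsInducedBySemilinearPOmega q g (RingEquiv.refl F) β)) x (δ * x) := by
  classical
  subst hq
  have hV : finrank F (Fin (m + 1) ⊕ Fin (m + 1) → F) = 2 * (m + 1) := by
    simp [Module.finrank_fintype_fun_eq_card]
    ring
  have hQ : (P (Qplus (m + 1) F)).Nondegenerate := Qplus_nondeg _
  haveI hND : ND (Qplus (m + 1) F) := ⟨hQ, by omega⟩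
  have H : 9 ≤ finrank F (Fin (m + 1) ⊕ Fin (m + 1) → F) ∨ NoSkew (Qplus (m + 1) F) := Or.inl (by omega)
  have hrk : Fintype.card F ≠ 2 ∨ finrank F (Fin (m + 1) ⊕ Fin (m + 1) → F) ≠ 4 := Or.inr (by omega)
  have hU₀ : IsLagr (Qplus (m + 1) F) (m + 1) _ := U0_lagr (m := m + 1) (F' := F)
  constructor
  swap
  · intro h
    rw [isConj_order h, hxr]
  intro hy
  have hypow : (δ * x) ^ r = 1 := by rw [← hy]; exact pow_orderOf_eq_one _
  have hxpow : x ^ r = 1 := by rw [← hxr]; exact pow_orderOf_eq_one _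
  have hsx' : sig H x ≠ 1 := fun h => hsx ((sig_eq_one_iff H x).1 h)
  obtain ⟨g, hg, hgδ⟩ := mem_closure_induced (R := Cfsg.PreservesSingularClasses (⇑(Qplus (m + 1) F))) (psc_one' hQ hrk hV hU₀)
    (fun g h hg hh => by
      rw [psc_mul_iff hQ hrk hV hU₀]
      tauto)
    (psc_inv' hQ hrk hV hU₀) hδ
  obtain ⟨θ, h1, h2⟩ := conj_psc (hQ := hQ) (hrk := hrk) hV hU₀ H hsx' hr hxpow hypow g hg hgδ (by
    intro σ S S' D D' hS hS' hrel
    rcases par_types D with ⟨⟨θ, hθ⟩, U, hU, hpar⟩ | ⟨⟨ζ, θ, hζ, hθ⟩, U, hU, hpar⟩ <;>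
      rcases par_types D' with ⟨⟨θ', hθ'⟩, U', hU', hpar'⟩ | ⟨⟨ζ', θ', hζ', hθ'⟩, U', hU', hpar'⟩
    · refine ⟨θ.trans θ'.symm, fun u => ?_⟩
      rw [← hθ', LinearEquiv.trans_apply, θ'.apply_symm_apply, hθ]
    · exfalso
      exact hpar' ((par_indep hQ hrk hV S' hU hU').1 ((hrel U hU).1 hpar))
    · exfalso
      exact hpar ((hrel U hU).2 ((par_indep hQ hrk hV S' hU' hU).1 hpar'))
    · obtain ⟨e, he⟩ := minus_isometric m 1 ζ 1 ζ' (anisotropic_of _ hζ) (anisotropic_of _ hζ')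
      refine ⟨θ.trans (e.trans θ'.symm), fun u => ?_⟩
      rw [← hθ', LinearEquiv.trans_apply, LinearEquiv.trans_apply, θ'.apply_symm_apply, he, hθ])
  exact ⟨Ψ (⇑(Qplus (m + 1) F)) θ, Subgroup.subset_closure ⟨θ.1, θ.2, h1, Ψ_induced _ θ⟩, h2⟩

theorem notpgo_plus (hm : 4 ≤ m) {q : (Fin (m + 1) ⊕ Fin (m + 1) → F) → F} (hq : ⇑(Qplus (m + 1) F) = q) (x : MulAut (Cfsg.POmega F q))
    (hx : (∃ (α φ : MulAut (Cfsg.POmega F q)) (σ : F ≃+* F), σ ≠ RingEquiv.refl F ∧ Cfsg.IsFieldAutPOmegaOf q σ φ ∧ α * x * α⁻¹ = φ) ∨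
      (∃ (α γ φ : MulAut (Cfsg.POmega F q)) (σ : F ≃+* F) (v : Fin (m + 1) ⊕ Fin (m + 1) → F) (r₀ : GLn (Fin (m + 1) ⊕ Fin (m + 1)) F),
        σ ≠ RingEquiv.refl F ∧ q v ≠ 0 ∧ (∀ i, σ (v i) = v i) ∧
        (r₀ : Matrix (Fin (m + 1) ⊕ Fin (m + 1)) (Fin (m + 1) ⊕ Fin (m + 1)) F) = Cfsg.reflectionMatrix q v ∧
        Cfsg.IsInducedBySemilinearPOmega q r₀ (RingEquiv.refl F) γ ∧
        Cfsg.IsFieldAutPOmegaOf q σ φ ∧ α * x * α⁻¹ = γ * φ)) : x ∉ Cfsg.pgoAut F q := by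
  classical
  subst hq
  have hV : finrank F (Fin (m + 1) ⊕ Fin (m + 1) → F) = 2 * (m + 1) := by
    simp [Module.finrank_fintype_fun_eq_card]
    ring
  have hQ : (P (Qplus (m + 1) F)).Nondegenerate := Qplus_nondeg _
  haveI hND : ND (Qplus (m + 1) F) := ⟨hQ, by omega⟩
  have H : 9 ≤ finrank F (Fin (m + 1) ⊕ Fin (m + 1) → F) ∨ NoSkew (Qplus (m + 1) F) := Or.inl (by omega)
  intro hxp
  have hs1 : sig H x = 1 := (sig_eq_one_iff H x).2 hxp
  have hφσ : ∀ (φ : MulAut (Cfsg.POmega F (⇑(Qplus (m + 1) F)))) (σ : F ≃+* F), Cfsg.IsFieldAutPOmegaOf (⇑(Qplus (m + 1) F)) σ φ → sig H φ = σ := by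
    intro φ σ hφ
    have hφs : φ = act (hatPlus (m + 1) σ) := eq_act_of_field (hatPlus (m + 1) σ) (fun v => rfl) φ hφ
    rw [hφs, sig_act]
    rfl
  rcases hx with ⟨α, φ, σ, hσ, hφ, hαx⟩ | ⟨α, γ, φ, σ, v, r₀, hσ, hv, -, hr₀, hγ, hφ, hαx⟩
  · apply hσ
    have h3 := hφσ φ σ hφ
    rw [← h3]
    exact hom_conj_one (sig H) hs1 (map_one _) (by rw [hαx, one_mul])
  · apply hσ
    have hr₁ : r₀ = (reflIso (Qplus (m + 1) F) v hv).1 := by
      apply Units.ext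
      rw [hr₀]
      exact (reflIso_coe _ v hv).symm
    have hr₂ : r₀ ∈ Sim (⇑(Qplus (m + 1) F)) := by
      rw [hr₁]
      exact (isoSim (reflIso (Qplus (m + 1) F) v hv)).2
    have hγ1 : sig H γ = 1 := by
      rw [sig_eq_one_iff, pgoAut_eq]
      exact mem_img.2 ⟨⟨r₀, hr₂⟩, hr₂, (eq_Ψ_of_induced _ ⟨r₀, hr₂⟩ γ hγ).symm⟩
    have h3 := hφσ φ σ hφ
    rw [← h3]
    exact hom_conj_one (sig H) hs1 hγ1 hαx

end final

end Cfsg.Agent.Lib.AutPO
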