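import Mathlib
import Cfsg.Agent.Lib.AutPO.LangPlus

/-!
Lang's theorem for the field automorphisms of the orthogonal groups of minus type.
-/

set_option autoImplicit false
set_option linter.unusedSectionVars false
set_option linter.unusedVariables false

open scoped Matrix

namespace Cfsg.Agent.Lib.AutPO

open Cfsg.Agent.Lib.Classical Cfsg.Agent.Lib.Classical.Witt Cfsg.Agent.Lib.Classical.Abs Cfsg.Agent.Lib.Classical.Orth
open Cfsg.Agent.Lib.Known3.SimAut Cfsg.Agent.Lib.Known3.OmegaTrans Cfsg.Agent.Lib.Known3.OmegaCalc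
open Cfsg.Agent.Lib.Known3.Spinor Cfsg.Agent.Lib.Known3.OmegaSum Cfsg.Agent.Lib.Known3.QuadIso Cfsg.Agent.Lib.Known3.QuadStd
open scoped commutatorElement
open Module Ln

local notation "P" => QuadraticMap.polarBilin
local notation "GLn" => Matrix.GeneralLinearGroup

section mapK

variable {ι : Type} [Fintype ι] [DecidableEq ι] {F : Type*} [Field F] {K : Type*} [Field K] [Algebra F K]

/-- Extension of scalars on coordinates. -/
def extK (v : ι → F) : ι → K := fun i => algebraMap F K (v i)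

lemma extK_add (u v : ι → F) : (extK (u + v) : ι → K) = extK u + extK v := by
  funext i
  simp [extK]

lemma extK_single (i : ι) : (extK (Pi.single i (1 : F)) : ι → K) = Pi.single i 1 := by
  funext j
  by_cases h : j = i
  · subst h
    simp [extK]
  · simp [extK, h]

lemma mulVec_extK (M : Matrix ι ι F) (v : ι → F) : M.map (algebraMap F K) *ᵥ extK v = extK (M *ᵥ v) := by
  funext i
  exact (RingHom.map_mulVec (algebraMap F K) M v i).symm

variable {QF : QuadraticForm F (ι → F)} {QK : QuadraticForm K (ι → K)}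

lemma polar_extK (hext : ∀ v, QK (extK v) = algebraMap F K (QF v)) (u v : ι → F) :
    P QK (extK u) (extK v) = algebraMap F K (P QF u v) := by
  have h1 := Q_add QK (extK u) (extK v)
  have h2 := Q_add QF u v
  rw [← extK_add, hext, hext, hext, h2, map_add, map_add] at h1
  linear_combination -h1

lemma sim_extK (hext : ∀ v, QK (extK v) = algebraMap F K (QF v)) (M : Matrix ι ι F) (c : F) (hc : ∀ v, QF (M *ᵥ v) = c * QF v) (w : ι → K) :
    QK (M.map (algebraMap F K) *ᵥ w) = algebraMap F K c * QK w := by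
  have hpol : ∀ u v, P QF (M *ᵥ u) (M *ᵥ v) = c * P QF u v := by
    intro u v
    have h1 := Q_add QF (M *ᵥ u) (M *ᵥ v)
    have h2 := Q_add QF u v
    rw [← Matrix.mulVec_add, hc, hc, hc, h2] at h1
    linear_combination -h1
  have key := ext_on_basis (Pi.basisFun K ι) (QK.comp (Matrix.toLin' (M.map (algebraMap F K)))) (algebraMap F K c • QK) (by
    intro i
    change QK (M.map (algebraMap F K) *ᵥ (Pi.basisFun K ι i)) = algebraMap F K c * QK (Pi.basisFun K ι i)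
    rw [Pi.basisFun_apply, ← extK_single (F := F), mulVec_extK, hext, hext, hc, map_mul]) (by
    intro i j
    rw [polar_comp]
    change P QK (M.map (algebraMap F K) *ᵥ (Pi.basisFun K ι i)) (M.map (algebraMap F K) *ᵥ (Pi.basisFun K ι j)) =
      QuadraticMap.polar (algebraMap F K c • ⇑QK) (Pi.basisFun K ι i) (Pi.basisFun K ι j)
    have e : ∀ k, Pi.basisFun K ι k = extK (Pi.single k (1 : F)) := by
      intro k
      rw [Pi.basisFun_apply, extK_single]
    rw [QuadraticMap.polar_smul, e i, e j, mulVec_extK, mulVec_extK, polar_extK hext, hpol, map_mul]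
    change _ = algebraMap F K c * P QK _ _
    rw [polar_extK hext])
  exact key w

lemma refl_extK (hext : ∀ v, QK (extK v) = algebraMap F K (QF v)) (v : ι → F) :
    Cfsg.reflectionMatrix (⇑QK) (extK v) = (Cfsg.reflectionMatrix (⇑QF) v).map (algebraMap F K) := by
  ext i j
  have hp : ∀ j, Cfsg.polarVec (⇑QK) (extK v) j = algebraMap F K (Cfsg.polarVec (⇑QF) v j) := by
    intro j
    have := polar_extK hext v (Pi.single j 1)
    rw [extK_single] at this
    exact this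
  simp only [Cfsg.reflectionMatrix, Matrix.sub_apply, Matrix.smul_apply, Matrix.vecMulVec_apply, smul_eq_mul, Matrix.map_apply, hp, hext,
    map_sub, map_mul, map_inv₀]
  congr 1
  by_cases h : i = j
  · subst h
    simp
  · simp [h]

end mapK

section pscm

universe u

variable {F : Type u} [Field F] [Fintype F] {m : ℕ} {a b : F}

lemma Qminus_extK {K : Type*} [Field K] [Algebra F K] (v : (Fin m ⊕ Fin m) ⊕ Fin 2 → F) :
    Qminus m K (algebraMap F K a) (algebraMap F K b) (extK v) = algebraMap F K (Qminus m F a b v) := by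
  rw [Qminus_apply, Qminus_apply]
  simp [Cfsg.quadFormMinus, extK, map_sum]

/-- A generic dichotomy over an extension. -/
lemma psc_ext_dich {ι : Type} [Fintype ι] [DecidableEq ι] {K : Type*} [Field K] [Fintype K] [Algebra F K]
    {QF : QuadraticForm F (ι → F)} {QK : QuadraticForm K (ι → K)} [hND : ND QK] (hext : ∀ v, QK (extK v) = algebraMap F K (QF v))
    (hQK : (P QK).Nondegenerate) (hrk : Fintype.card K ≠ 2 ∨ finrank K (ι → K) ≠ 4) {n : ℕ} (hV : finrank K (ι → K) = 2 * n)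
    {U₀ : Submodule K (ι → K)} (hU₀ : IsLagr QK n U₀) (g : Sim (⇑QF)) (v : ι → F) (hv : QF v ≠ 0) :
    Cfsg.PreservesSingularClasses (⇑QK) (g.1.1.map (algebraMap F K)) ∨
      Cfsg.PreservesSingularClasses (⇑QK) ((g * isoSim (reflIso QF v hv)).1.1.map (algebraMap F K)) := by
  have simK : ∀ g : Sim (⇑QF), ∃ g' : Sim (⇑QK), g'.1.1 = g.1.1.map (algebraMap F K) := by
    intro g
    obtain ⟨c, hc⟩ := g.2
    let g' : GLn ι K := Matrix.GeneralLinearGroup.map (algebraMap F K) g.1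
    refine ⟨⟨g', ⟨Units.map (algebraMap F K).toMonoidHom c, fun w => ?_⟩⟩, rfl⟩
    exact sim_extK hext g.1.1 c hc w
  obtain ⟨gK, hgK⟩ := simK g
  have hvK : QK (extK v) ≠ 0 := by
    rw [hext]
    simpa using hv
  have hρ : (isoSim (reflIso QK (extK v) hvK)).1.1 = (isoSim (reflIso QF v hv)).1.1.map (algebraMap F K) := by
    change (reflIso QK (extK v) hvK).1.1 = ((reflIso QF v hv).1.1).map (algebraMap F K)
    rw [reflIso_coe, reflIso_coe, refl_extK hext]
  have hmul : (gK * isoSim (reflIso QK (extK v) hvK)).1.1 = (g * isoSim (reflIso QF v hv)).1.1.map (algebraMap F K) := by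
    change gK.1.1 * (isoSim (reflIso QK (extK v) hvK)).1.1 = (g.1.1 * (isoSim (reflIso QF v hv)).1.1).map (algebraMap F K)
    rw [hgK, hρ, Matrix.map_mul]
  rw [← hgK, ← hmul]
  exact psc_dich hQK hrk hV hU₀ gK _ (not_psc_refl hQK hrk hV hU₀ _ hvK)

theorem pscm_dich (hm : 3 ≤ m) (hab : ∀ z₁ z₂ : F, z₁ ^ 2 + a * z₁ * z₂ + b * z₂ ^ 2 = 0 → z₁ = 0 ∧ z₂ = 0)
    (g : Sim (⇑(Qminus m F a b))) (v : (Fin m ⊕ Fin m) ⊕ Fin 2 → F) (hv : Qminus m F a b v ≠ 0) :
    Cfsg.PreservesSingularClassesMinus m a b g.1.1 ∨ Cfsg.PreservesSingularClassesMinus m a b (g * isoSim (reflIso _ v hv)).1.1 := by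
  classical
  obtain ⟨K, iK, iA, ω, hK, hω⟩ := exists_quad' a b hab
  haveI : Finite K := finite_ext hK
  letI : Fintype K := Fintype.ofFinite K
  have hQK : (P (Qminus m K (algebraMap F K a) (algebraMap F K b))).Nondegenerate := nondeg_ext a b hab
  have hV : finrank K ((Fin m ⊕ Fin m) ⊕ Fin 2 → K) = 2 * (m + 1) := by
    simp [Module.finrank_fintype_fun_eq_card]
    ring
  haveI hND : ND (Qminus m K (algebraMap F K a) (algebraMap F K b)) := ⟨hQK, by omega⟩
  have hU₀ := lagr_ext (m := m) (θ := -ω) (a' := algebraMap F K a) (b' := algebraMap F K b) (by linear_combination hω)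
  rcases psc_ext_dich (QK := Qminus m K (algebraMap F K a) (algebraMap F K b)) Qminus_extK hQK (Or.inr (by omega)) hV hU₀ g v hv with h | h
  · left
    refine ⟨K, iK, iA, hK, ?_⟩
    rw [← coe_Qminus]
    exact h
  · right
    refine ⟨K, iK, iA, hK, ?_⟩
    rw [← coe_Qminus]
    exact h

end pscm

section transport

variable {G G' : Type*} [Group G] [Group G']

lemma mem_comm_iso (e : G ≃* G') {x : G} (hx : x ∈ commutator G) : e x ∈ commutator G' := by
  have h : (commutator G).map e.toMonoidHom ≤ commutator G' := by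
    rw [commutator_def, Subgroup.map_commutator]
    exact Subgroup.commutator_mono le_top le_top
  exact h ⟨x, hx, rfl⟩

/-- The isomorphism of commutator subgroups. -/
def commIso (e : G ≃* G') : commutator G ≃* commutator G' where
  toFun x := ⟨e x.1, mem_comm_iso e x.2⟩
  invFun x := ⟨e.symm x.1, mem_comm_iso e.symm x.2⟩
  left_inv x := Subtype.ext (e.symm_apply_apply _)
  right_inv x := Subtype.ext (e.apply_symm_apply _)
  map_mul' x y := Subtype.ext (map_mul e _ _)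

/-- The isomorphism of projective commutator subgroups. -/
def projIso (e : G ≃* G') : (↥(commutator G) ⧸ Subgroup.center ↥(commutator G)) ≃* (↥(commutator G') ⧸ Subgroup.center ↥(commutator G')) :=
  QuotientGroup.congr _ _ (commIso e) (RC.map_center_eq (commIso e))

lemma projIso_mk (e : G ≃* G') (x : commutator G) : projIso e (QuotientGroup.mk x) = QuotientGroup.mk (commIso e x) := rfl

lemma projIso_autP (e : G ≃* G') (a : MulAut G) (a' : MulAut G') (h : ∀ y, e (a y) = a' (e y)) (x : ↥(commutator G) ⧸ Subgroup.center ↥(commutator G)) :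
    projIso e (autP a x) = autP a' (projIso e x) := by
  induction x using QuotientGroup.induction_on with
  | H z =>
    rw [autP_mk, projIso_mk, projIso_mk, autP_mk]
    congr 1
    exact Subtype.ext (h z.1)

variable {ι : Type} [Fintype ι] [DecidableEq ι] {F : Type*} [Field F] {q q' : (ι → F) → F}

lemma E_inv_mulVec (E : GLn ι F) (v : ι → F) : ((E⁻¹ : GLn ι F) : Matrix ι ι F) *ᵥ ((E : Matrix ι ι F) *ᵥ v) = v := by
  rw [Matrix.mulVec_mulVec, ← Units.val_mul, inv_mul_cancel, Units.val_one, Matrix.one_mulVec]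

lemma E_mulVec_inv (E : GLn ι F) (v : ι → F) : (E : Matrix ι ι F) *ᵥ (((E⁻¹ : GLn ι F) : Matrix ι ι F) *ᵥ v) = v := by
  rw [Matrix.mulVec_mulVec, ← Units.val_mul, mul_inv_cancel, Units.val_one, Matrix.one_mulVec]

/-- Conjugation by an isometry between two forms. -/
def cE (E : GLn ι F) (hE : ∀ v, q' ((E : Matrix ι ι F) *ᵥ v) = q v) : Cfsg.isometryGroup F q ≃* Cfsg.isometryGroup F q' where
  toFun h := ⟨E * h.1 * E⁻¹, by
    rw [mem_isometryGroup_iff]
    intro v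
    rw [Units.val_mul, Units.val_mul, ← Matrix.mulVec_mulVec, ← Matrix.mulVec_mulVec, hE, (mem_isometryGroup_iff _ _).1 h.2]
    rw [← hE, E_mulVec_inv]⟩
  invFun h := ⟨E⁻¹ * h.1 * E, by
    rw [mem_isometryGroup_iff]
    intro v
    rw [Units.val_mul, Units.val_mul, ← Matrix.mulVec_mulVec, ← Matrix.mulVec_mulVec, ← hE, E_mulVec_inv, (mem_isometryGroup_iff _ _).1 h.2, hE]⟩
  left_inv h := by
    apply Subtype.ext
    change E⁻¹ * (E * h.1 * E⁻¹) * E = h.1
    group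
  right_inv h := by
    apply Subtype.ext
    change E * (E⁻¹ * h.1 * E) * E⁻¹ = h.1
    group
  map_mul' h k := by
    apply Subtype.ext
    change E * (h.1 * k.1) * E⁻¹ = (E * h.1 * E⁻¹) * (E * k.1 * E⁻¹)
    group

lemma sim_conj (E : GLn ι F) (hE : ∀ v, q' ((E : Matrix ι ι F) *ᵥ v) = q v) (g : Sim q) : E * g.1 * E⁻¹ ∈ Sim q' := by
  obtain ⟨c, hc⟩ := g.2
  refine ⟨c, fun v => ?_⟩
  rw [Units.val_mul, Units.val_mul, ← Matrix.mulVec_mulVec, ← Matrix.mulVec_mulVec, hE, hc]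
  rw [← hE, E_mulVec_inv]

lemma proj_Ψ (E : GLn ι F) (hE : ∀ v, q' ((E : Matrix ι ι F) *ᵥ v) = q v) (g : Sim q) (y : Cfsg.POmega F q) :
    projIso (cE E hE) (Ψ q g y) = Ψ q' ⟨E * g.1 * E⁻¹, sim_conj E hE g⟩ (projIso (cE E hE) y) := by
  apply projIso_autP
  intro h
  apply Subtype.ext
  change E * (g.1 * h.1 * g.1⁻¹) * E⁻¹ = (E * g.1 * E⁻¹) * (E * h.1 * E⁻¹) * (E * g.1 * E⁻¹)⁻¹
  group

/-- An isomorphism between the groups carries `PGO` of the first into a conjugate of `PGO` of the second. -/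
lemma conj_pgo (E : GLn ι F) (hE : ∀ v, q' ((E : Matrix ι ι F) *ᵥ v) = q v) (ψ : Cfsg.POmega F q ≃* Cfsg.POmega F q')
    (x : MulAut (Cfsg.POmega F q)) (hx : x ∈ Cfsg.pgoAut F q) :
    ∃ (α : MulAut (Cfsg.POmega F q')) (g' : Sim q'), α * ((ψ.symm.trans x).trans ψ) * α⁻¹ = Ψ q' g' := by
  rw [pgoAut_eq] at hx
  obtain ⟨g, -, rfl⟩ := mem_img.1 hx
  refine ⟨ψ.symm.trans (projIso (cE E hE)), ⟨E * g.1 * E⁻¹, sim_conj E hE g⟩, ?_⟩
  ext y
  obtain ⟨y', rfl⟩ := (projIso (cE E hE)).surjective y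
  rw [← proj_Ψ]
  change projIso (cE E hE) (ψ.symm (ψ (Ψ q g (ψ.symm (((ψ.symm.trans (projIso (cE E hE)))⁻¹ : MulAut _) (projIso (cE E hE) y')))))) = _
  have : ((ψ.symm.trans (projIso (cE E hE)))⁻¹ : MulAut (Cfsg.POmega F q')) (projIso (cE E hE) y') = ψ y' := by
    apply (ψ.symm.trans (projIso (cE E hE))).injective
    change (ψ.symm.trans (projIso (cE E hE))) ((ψ.symm.trans (projIso (cE E hE))).symm (projIso (cE E hE) y')) = _
    rw [MulEquiv.apply_symm_apply]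
    simp
  rw [this]
  simp

end transport

section hom

lemma mul_conj_aux {G : Type*} [Group G] (t r x : G) (h : r * x * r⁻¹ = x) : t * x * t⁻¹ = t * r * x * (t * r)⁻¹ := by
  nth_rewrite 1 [← h]
  group

end hom

section final

universe u

variable {F : Type u} [Field F] [Fintype F] {m : ℕ}

/-- The standard semisimilarity. -/
def hatMinus (m : ℕ) (a b : F) (σ : F ≃+* F) (ha : σ a = a) (hb : σ b = b) : SS (Qminus m F a b) where
  g := hat σ
  σ := σ
  μ := 1
  hμ := one_ne_zero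
  smul := hat_smul σ
  q x := by
    rw [Qminus_apply, Qminus_apply, one_mul]
    simp [Cfsg.quadFormMinus, hat_apply, map_sum, ha, hb]

theorem notpgo_minus (hm : 3 ≤ m) {a b a' b' : F} (hab : ∀ z₁ z₂ : F, z₁ ^ 2 + a * z₁ * z₂ + b * z₂ ^ 2 = 0 → z₁ = 0 ∧ z₂ = 0)
    (hab' : ∀ z₁ z₂ : F, z₁ ^ 2 + a' * z₁ * z₂ + b' * z₂ ^ 2 = 0 → z₁ = 0 ∧ z₂ = 0)
    (x : MulAut (Cfsg.POmega F (Cfsg.quadFormMinus m F a b))) (ψ : Cfsg.POmega F (Cfsg.quadFormMinus m F a b) ≃* Cfsg.POmega F (Cfsg.quadFormMinus m F a' b'))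
    (σ : F ≃+* F) (hσ : σ ≠ RingEquiv.refl F) (ha' : σ a' = a') (hb' : σ b' = b')
    (hφ : Cfsg.IsFieldAutPOmegaOf (Cfsg.quadFormMinus m F a' b') σ ((ψ.symm.trans x).trans ψ)) :
    x ∉ Cfsg.pgoAut F (Cfsg.quadFormMinus m F a b) := by
  classical
  intro hxp
  obtain ⟨e, he⟩ := minus_isometric m a b a' b' hab hab'
  let E : GLn ((Fin m ⊕ Fin m) ⊕ Fin 2) F := glLin.symm e
  have hE : ∀ v, Cfsg.quadFormMinus m F a' b' ((E : Matrix _ _ F) *ᵥ v) = Cfsg.quadFormMinus m F a b v := by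
    intro v
    rw [← glLin_apply, MulEquiv.apply_symm_apply, he]
  obtain ⟨α, g', hα⟩ := conj_pgo E hE ψ x hxp
  revert α g' hα hφ ψ
  rw [← coe_Qminus m a' b']
  intro ψ hφ α g' hα
  haveI hND : ND (Qminus m F a' b') := nd_minus hm hab'
  have H := H_minus hm hab'
  have hs : sig H ((ψ.symm.trans x).trans ψ) = σ := by
    rw [eq_act_of_field (hatMinus m a' b' σ ha' hb') (fun v => rfl) _ hφ, sig_act]
    rfl
  have hg' : sig H (Ψ (⇑(Qminus m F a' b')) g') = 1 := by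
    rw [sig_eq_one_iff, pgoAut_eq]
    exact mem_img.2 ⟨g', g'.2, rfl⟩
  apply hσ
  rw [← hs]
  refine hom_conj_one (sig H) (α := α⁻¹) (γ := 1) hg' (map_one _) ?_
  rw [← hα]
  group

lemma minus_types {a b : F} (hab : ∀ z₁ z₂ : F, z₁ ^ 2 + a * z₁ * z₂ + b * z₂ ^ 2 = 0 → z₁ = 0 ∧ z₂ = 0) {σ : F ≃+* F} {S : SS (Qminus m F a b)}
    [hND : ND (Qminus m F a b)] (D : LD σ S) :
    ∃ (ζ : fixF σ) (θ₀ : ((Fin m ⊕ Fin m) ⊕ Fin 2 → fixF σ) ≃ₗ[fixF σ] ((Fin m ⊕ Fin m) ⊕ Fin 2 → fixF σ)), (∀ t : fixF σ, t ^ 2 + t + ζ ≠ 0) ∧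
        ∀ v, Cfsg.quadFormMinus m (fixF σ) 1 ζ (θ₀ v) = D.Q₀ v := by
  classical
  have hV₀ : finrank (fixF σ) ((Fin m ⊕ Fin m) ⊕ Fin 2 → fixF σ) = 2 * (m + 1) := by
    simp [Module.finrank_fintype_fun_eq_card]
    ring
  rcases isometry_even (m := m + 1) (by omega) hV₀ D.Q₀ D.Q₀_nondeg with ⟨θ₀, hθ₀⟩ | ⟨ζ, θ₀, hζ, hθ₀⟩
  · exfalso
    obtain ⟨E, hE, hq⟩ := D.exists_model θ₀ (Qplus (m + 1) F) (by
      intro v
      rw [plus_ext0, hθ₀])
    obtain ⟨U, hU, hUd⟩ := Known3.Witt.exists_singular_plus (F := F) (m + 1)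
    have h1 := Known3.Witt.finrank_le_of_singular_minus m a b hab
      (U.map (E : (Fin (m + 1) ⊕ Fin (m + 1) → F) →ₗ[F] _)) (by
        rintro _ ⟨u, hu, rfl⟩
        change Cfsg.quadFormMinus m F a b (E u) = 0
        rw [← Qminus_apply, hq, Qplus_apply, hU u hu, mul_zero])
    rw [LinearEquiv.finrank_map_eq, hUd] at h1
    omega
  · exact ⟨ζ, θ₀, hζ, hθ₀⟩

/-- The main theorem for minus type: every automorphism outside `PGO` has this property. -/
theorem lang_minus (hm : 3 ≤ m) {a b : F} (hab : ∀ z₁ z₂ : F, z₁ ^ 2 + a * z₁ * z₂ + b * z₂ ^ 2 = 0 → z₁ = 0 ∧ z₂ = 0)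
    {q : ((Fin m ⊕ Fin m) ⊕ Fin 2 → F) → F} (hq : ⇑(Qminus m F a b) = q) (x δ : MulAut (Cfsg.POmega F q))
    (hsx : x ∉ Cfsg.pgoAut F q) {r : ℕ} (hr : r.Prime) (hxr : orderOf x = r)
    (hδ : δ ∈ Cfsg.autSubgroupOf (fun β => ∃ g : GLn ((Fin m ⊕ Fin m) ⊕ Fin 2) F, g ∈ Cfsg.Geo.quadSimilarityGroup (F := F) q ∧
      Cfsg.PreservesSingularClassesMinus m a b (g : Matrix ((Fin m ⊕ Fin m) ⊕ Fin 2) ((Fin m ⊕ Fin m) ⊕ Fin 2) F) ∧
      Cfsg.IsInducedBySemilinearPOmega q g (RingEquiv.refl F) β)) :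
    orderOf (δ * x) = r ↔ Cfsg.IsConjUnder (Cfsg.autSubgroupOf (fun β => ∃ g : GLn ((Fin m ⊕ Fin m) ⊕ Fin 2) F, g ∈ Cfsg.Geo.quadSimilarityGroup (F := F) q ∧
      Cfsg.PreservesSingularClassesMinus m a b (g : Matrix ((Fin m ⊕ Fin m) ⊕ Fin 2) ((Fin m ⊕ Fin m) ⊕ Fin 2) F) ∧
      Cfsg.IsInducedBySemilinearPOmega q g (RingEquiv.refl F) β)) x (δ * x) := by
  classical
  subst hq
  haveI hND : ND (Qminus m F a b) := nd_minus hm hab
  have H := H_minus hm hab
  constructor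
  swap
  · intro h
    rw [isConj_order h, hxr]
  intro hy
  have hypow : (δ * x) ^ r = 1 := by rw [← hy]; exact pow_orderOf_eq_one _
  have hxpow : x ^ r = 1 := by rw [← hxr]; exact pow_orderOf_eq_one _
  have hsx' : sig H x ≠ 1 := fun h => hsx ((sig_eq_one_iff H x).1 h)
  have hδ1 : sig H δ = 1 := by
    rw [sig_eq_one_iff]
    refine (Subgroup.closure_le _).2 ?_ hδ
    rintro β ⟨g, hg, -, hi⟩
    rw [pgoAut_eq]
    exact mem_img.2 ⟨⟨g, hg⟩, hg, (eq_Ψ_of_induced _ ⟨g, hg⟩ β hi).symm⟩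
  obtain ⟨θ, v, hv, h1, h2⟩ := conj_core H hsx' hr hxpow hypow hδ1 (by
    intro σ S S' D D' hS hS'
    obtain ⟨ζ, θ, hζ, hθ⟩ := minus_types hab D
    obtain ⟨ζ', θ', hζ', hθ'⟩ := minus_types hab D'
    obtain ⟨e, he⟩ := minus_isometric m 1 ζ 1 ζ' (anisotropic_of _ hζ) (anisotropic_of _ hζ')
    refine ⟨θ.trans (e.trans θ'.symm), fun u => ?_⟩
    rw [← hθ', LinearEquiv.trans_apply, LinearEquiv.trans_apply, θ'.apply_symm_apply, he, hθ])
  rcases pscm_dich hm hab θ v hv with h | h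
  · exact ⟨Ψ (⇑(Qminus m F a b)) θ, Subgroup.subset_closure ⟨θ.1, θ.2, h, Ψ_induced _ θ⟩, h1⟩
  · refine ⟨Ψ (⇑(Qminus m F a b)) (θ * isoSim (reflIso _ v hv)), Subgroup.subset_closure ⟨_, (θ * isoSim (reflIso _ v hv)).2, h, Ψ_induced _ _⟩, ?_⟩
    rw [h1, map_mul]
    exact mul_conj_aux _ _ _ h2

end final

end Cfsg.Agent.Lib.AutPO
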