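import Mathlib
import Cfsg.Agent.Lib.AutPO.LangMinus
import Cfsg.Agent.Lib.Known3.FieldAutPSp2
import Cfsg.Agent.Lib.Known3.FieldFix
import Cfsg.Agent.Lib.Known3.SplitCount

/-!
Centralizers of semisimilarities of prime order in the inner-diagonal groups of orthogonal groups, and class counts.
-/

set_option autoImplicit false
set_option linter.unusedSectionVars false
set_option linter.unusedVariables false

open scoped Matrix

namespace Cfsg.Agent.Lib.AutPO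

open Cfsg.Agent.Lib.Classical Cfsg.Agent.Lib.Classical.Witt Cfsg.Agent.Lib.Classical.Abs Cfsg.Agent.Lib.Classical.Orth
open Cfsg.Agent.Lib.Known3.SimAut Cfsg.Agent.Lib.Known3.OmegaTrans Cfsg.Agent.Lib.Known3.OmegaCalc
open Cfsg.Agent.Lib.Known3.Spinor Cfsg.Agent.Lib.Known3.OmegaSum Cfsg.Agent.Lib.Known3.QuadIso Cfsg.Agent.Lib.Known3.QuadStd
open scoped commutatorElement
open Module Ln

local notation "P" => QuadraticMap.polarBilin
local notation "GLn" => Matrix.GeneralLinearGroup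

section split

variable {X : Type*} [Group X]

/-- The number of `K`-classes in an `H`-class as an index. -/
theorem split_index (H K : Subgroup X) (hKH : K ≤ H) (hn : ∀ h ∈ H, ∀ k ∈ K, h * k * h⁻¹ ∈ K) (x : X) :
    Cfsg.splitClassCount H K x = ((K ⊔ (H ⊓ Subgroup.centralizer {x})).subgroupOf H).index := by
  classical
  set L := K ⊔ (H ⊓ Subgroup.centralizer {x}) with hL
  have hLH : L ≤ H := sup_le hKH inf_le_left
  let M : Subgroup X :=
    { carrier := {l | l ∈ H ∧ ∃ k ∈ K, l * x * l⁻¹ = k * x * k⁻¹}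
      one_mem' := ⟨H.one_mem, 1, K.one_mem, by simp⟩
      mul_mem' := by
        rintro a b ⟨ha, k, hk, e⟩ ⟨hb, k', hk', e'⟩
        refine ⟨H.mul_mem ha hb, a * k' * a⁻¹ * k, K.mul_mem (hn a ha k' hk') hk, ?_⟩
        calc a * b * x * (a * b)⁻¹ = a * (b * x * b⁻¹) * a⁻¹ := by group
          _ = a * k' * a⁻¹ * (a * x * a⁻¹) * (a * k' * a⁻¹)⁻¹ := by rw [e']; group
          _ = _ := by rw [e]; group
      inv_mem' := by
        rintro a ⟨ha, k, hk, e⟩
        refine ⟨H.inv_mem ha, a⁻¹ * k⁻¹ * a⁻¹⁻¹, hn _ (H.inv_mem ha) _ (K.inv_mem hk), ?_⟩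
        calc a⁻¹ * x * a⁻¹⁻¹ = a⁻¹ * (k⁻¹ * (k * x * k⁻¹) * k) * a := by group
          _ = a⁻¹ * (k⁻¹ * (a * x * a⁻¹) * k) * a := by rw [e]
          _ = _ := by group }
  have hLM : L ≤ M := by
    apply sup_le
    · intro k hk
      exact ⟨hKH hk, k, hk, rfl⟩
    · rintro c ⟨hc, hc'⟩
      refine ⟨hc, 1, K.one_mem, ?_⟩
      have : c * x = x * c := (Subgroup.mem_centralizer_iff.1 hc' x rfl).symm
      rw [this]
      group
  have hy : ∀ y : {y : X // Cfsg.IsConjUnder H x y}, ∃ g : H, y.1 = g.1 * x * g.1⁻¹ := by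
    rintro ⟨y, h, hh, rfl⟩
    exact ⟨⟨h, hh⟩, rfl⟩
  choose pick hpick using hy
  have key : ∀ g g' : H, Cfsg.IsConjUnder K (g.1 * x * g.1⁻¹) (g'.1 * x * g'.1⁻¹) → g⁻¹ * g' ∈ L.subgroupOf H := by
    rintro g g' ⟨k, hk, e⟩
    rw [Subgroup.mem_subgroupOf]
    have h1 : g.1⁻¹ * k * g.1 ∈ K := by
      have := hn _ (H.inv_mem g.2) k hk
      simpa using this
    have h2 : g.1⁻¹ * k⁻¹ * g'.1 ∈ H ⊓ Subgroup.centralizer {x} := by
      refine Subgroup.mem_inf.2 ⟨H.mul_mem (H.mul_mem (H.inv_mem g.2) (hKH (K.inv_mem hk))) g'.2, ?_⟩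
      rw [Subgroup.mem_centralizer_iff]
      intro t ht
      have ht' : t = x := ht
      rw [ht']
      have e2 : g'.1 * x = k * g.1 * x * g.1⁻¹ * k⁻¹ * g'.1 := by
        have : g'.1 * x = (g'.1 * x * g'.1⁻¹) * g'.1 := by group
        rw [this, e]
        group
      calc x * (g.1⁻¹ * k⁻¹ * g'.1) = g.1⁻¹ * k⁻¹ * (k * g.1 * x * g.1⁻¹ * k⁻¹ * g'.1) := by group
        _ = g.1⁻¹ * k⁻¹ * (g'.1 * x) := by rw [e2]
        _ = _ := by group
    have h3 : ((g⁻¹ * g' : H) : X) = (g.1⁻¹ * k * g.1) * (g.1⁻¹ * k⁻¹ * g'.1) := by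
      simp only [Subgroup.coe_mul, InvMemClass.coe_inv]
      group
    rw [h3]
    exact L.mul_mem ((le_sup_left : K ≤ L) h1) ((le_sup_right : _ ≤ L) h2)
  have key' : ∀ g g' : H, g⁻¹ * g' ∈ L.subgroupOf H → Cfsg.IsConjUnder K (g.1 * x * g.1⁻¹) (g'.1 * x * g'.1⁻¹) := by
    intro g g' h
    obtain ⟨-, k, hk, e⟩ := hLM (Subgroup.mem_subgroupOf.1 h)
    have e0 : ((g⁻¹ * g' : H) : X) = g.1⁻¹ * g'.1 := by simp
    rw [e0] at e
    refine ⟨g.1 * k * g.1⁻¹, hn _ g.2 k hk, ?_⟩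
    have e1 : g'.1 * x * g'.1⁻¹ = g.1 * (g.1⁻¹ * g'.1 * x * (g.1⁻¹ * g'.1)⁻¹) * g.1⁻¹ := by group
    rw [e1, e]
    group
  unfold Subgroup.index Cfsg.splitClassCount
  let Φ : Quot (fun y z : {y : X // Cfsg.IsConjUnder H x y} => Cfsg.IsConjUnder K y.1 z.1) → H ⧸ L.subgroupOf H :=
    Quot.lift (fun y => ((pick y : H) : H ⧸ L.subgroupOf H)) (by
      intro a b h
      apply QuotientGroup.eq.2
      apply key
      rw [← hpick, ← hpick]
      exact h)
  apply Nat.card_eq_of_bijective Φ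
  constructor
  · intro a b
    induction a using Quot.ind with
    | mk a =>
      induction b using Quot.ind with
      | mk b =>
        intro h
        apply Quot.sound
        have h1 := key' _ _ (QuotientGroup.eq.1 h)
        rw [← hpick, ← hpick] at h1
        exact h1
  · intro d
    induction d using QuotientGroup.induction_on with
    | H d =>
      let y : {y : X // Cfsg.IsConjUnder H x y} := ⟨d.1 * x * d.1⁻¹, d.1, d.2, rfl⟩
      refine ⟨Quot.mk _ y, ?_⟩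
      apply QuotientGroup.eq.2
      apply key
      rw [← hpick y]
      exact ⟨1, K.one_mem, by simp [y]⟩

end split

section range

variable {A X Y : Type*} [Group A] [Group X] [Group Y]

/-- Two homomorphisms with the same kernel have isomorphic ranges. -/
lemma range_equiv (f : A →* X) (g : A →* Y) (h : f.ker = g.ker) : Nonempty (f.range ≃* g.range) :=
  ⟨(QuotientGroup.quotientKerEquivRange f).symm.trans ((QuotientGroup.quotientMulEquivOfEq h).trans (QuotientGroup.quotientKerEquivRange g))⟩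

end range

section refl

variable {ι : Type} [Fintype ι] [DecidableEq ι] {F : Type*} [Field F] {Q : QuadraticForm F (ι → F)}

lemma reflIso_mulVec (v : ι → F) (hv : Q v ≠ 0) (x : ι → F) :
    ((isoSim (reflIso Q v hv)).1 : Matrix ι ι F) *ᵥ x = x - ((Q v)⁻¹ * P Q v x) • v := by
  rw [← refl_apply hv, ← toOG_reflIso, toOG_apply]
  rfl

end refl

section mdl

variable {ι κ : Type} [Fintype ι] [DecidableEq ι] [Fintype κ] [DecidableEq κ] {F : Type*} [Field F] [Fintype F]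
  {Q : QuadraticForm F (ι → F)} [hND : ND Q]

/-- A model of a semisimilarity. -/
structure Mdl (σ : F ≃+* F) (S : SS Q) (Q' : QuadraticForm F (κ → F)) where
  E : (κ → F) ≃ₗ[F] (ι → F)
  d : Fˣ
  z : Fˣ
  hE : ∀ w, S.g (E w) = (d : F) • E (hat σ w)
  hq : ∀ w, Q (E w) = (z : F) * Q' w

variable {σ : F ≃+* F} {S : SS Q} {Q' : QuadraticForm F (κ → F)}

namespace Mdl

variable (M : Mdl σ S Q')

/-- Transport of matrices. -/
noncomputable def cj : GLn κ F →* GLn ι F where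
  toFun g := glLin.symm (M.E.symm.trans ((glLin g).trans M.E))
  map_one' := by
    apply glLin.injective
    rw [MulEquiv.apply_symm_apply, map_one]
    ext1 v
    simp
  map_mul' g h := by
    apply glLin.injective
    have e : ∀ t : GLn ι F, glLin t = glLin t := fun _ => rfl
    rw [MulEquiv.apply_symm_apply, map_mul glLin (glLin.symm _) (glLin.symm _), MulEquiv.apply_symm_apply, MulEquiv.apply_symm_apply, map_mul glLin g h]
    ext1 v
    simp

lemma cj_apply (g : GLn κ F) (w : κ → F) : ((M.cj g : GLn ι F) : Matrix ι ι F) *ᵥ M.E w = M.E ((g : Matrix κ κ F) *ᵥ w) := by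
  rw [← glLin_apply]
  change glLin (glLin.symm (M.E.symm.trans ((glLin g).trans M.E))) (M.E w) = _
  rw [MulEquiv.apply_symm_apply]
  simp

lemma cj_mem (g : Sim ⇑Q') : M.cj g.1 ∈ Sim ⇑Q := by
  obtain ⟨c, hc⟩ := g.2
  refine ⟨c, fun v => ?_⟩
  obtain ⟨w, rfl⟩ := M.E.surjective v
  rw [cj_apply, M.hq, M.hq, hc]
  ring

/-- Transport of similarities. -/
noncomputable def cjS : Sim ⇑Q' →* Sim ⇑Q where
  toFun g := ⟨M.cj g.1, M.cj_mem g⟩
  map_one' := by
    apply Subtype.ext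
    exact map_one M.cj
  map_mul' g h := by
    apply Subtype.ext
    exact map_mul M.cj _ _

lemma cjS_apply (g : Sim ⇑Q') (w : κ → F) : ((M.cjS g).1 : Matrix ι ι F) *ᵥ M.E w = M.E ((g.1 : Matrix κ κ F) *ᵥ w) :=
  M.cj_apply g.1 w

lemma polar_E (u v : κ → F) : P Q (M.E u) (M.E v) = (M.z : F) * P Q' u v := by
  have h1 := Q_add Q (M.E u) (M.E v)
  have h2 := Q_add Q' u v
  rw [← map_add, M.hq, M.hq, M.hq, h2] at h1
  linear_combination -h1

lemma Q_E_ne {w : κ → F} (hw : Q' w ≠ 0) : Q (M.E w) ≠ 0 := by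
  rw [M.hq]
  exact mul_ne_zero (Units.ne_zero _) hw

lemma cjS_refl (w : κ → F) (hw : Q' w ≠ 0) :
    M.cjS (isoSim (reflIso Q' w hw)) = isoSim (reflIso Q (M.E w) (M.Q_E_ne hw)) := by
  apply Subtype.ext
  apply Units.ext
  apply Matrix.mulVec_injective
  funext v
  obtain ⟨y, rfl⟩ := M.E.surjective v
  change ((M.cjS (isoSim (reflIso Q' w hw))).1 : Matrix ι ι F) *ᵥ M.E y = ((isoSim (reflIso Q (M.E w) (M.Q_E_ne hw))).1 : Matrix ι ι F) *ᵥ M.E y
  rw [cjS_apply, reflIso_mulVec, reflIso_mulVec, map_sub, map_smul, polar_E, M.hq]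
  congr 2
  have hz : (M.z : F) ≠ 0 := Units.ne_zero _
  field_simp

variable {K₀ : Type*} [Field K₀] [Algebra K₀ F] {Q₀ : QuadraticForm K₀ (κ → K₀)}

/-- Extension of scalars for similarities. -/
noncomputable def extS (Q' : QuadraticForm F (κ → F)) (hext : ∀ v, Q' (extK v) = algebraMap K₀ F (Q₀ v)) : Sim ⇑Q₀ →* Sim ⇑Q' where
  toFun g := ⟨Matrix.GeneralLinearGroup.map (algebraMap K₀ F) g.1, by
    obtain ⟨c, hc⟩ := g.2
    exact ⟨Units.map (algebraMap K₀ F).toMonoidHom c, fun w => sim_extK hext g.1.1 c hc w⟩⟩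
  map_one' := by
    apply Subtype.ext
    exact map_one _
  map_mul' g h := by
    apply Subtype.ext
    exact map_mul _ _ _

lemma extS_coe (hext : ∀ v, Q' (extK v) = algebraMap K₀ F (Q₀ v)) (g : Sim ⇑Q₀) :
    ((extS Q' hext g).1 : Matrix κ κ F) = (g.1 : Matrix κ κ K₀).map (algebraMap K₀ F) := rfl

lemma extS_refl (hext : ∀ v, Q' (extK v) = algebraMap K₀ F (Q₀ v)) (v : κ → K₀) (hv : Q₀ v ≠ 0) (hv' : Q' (extK v) ≠ 0) :
    extS Q' hext (isoSim (reflIso Q₀ v hv)) = isoSim (reflIso Q' (extK v) hv') := by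
  apply Subtype.ext
  apply Units.ext
  rw [extS_coe]
  change ((reflIso Q₀ v hv).1 : Matrix κ κ K₀).map (algebraMap K₀ F) = ((reflIso Q' (extK v) hv').1 : Matrix κ κ F)
  rw [reflIso_coe, reflIso_coe, refl_extK hext]

/-- The lift of similarities. -/
noncomputable def lift (hext : ∀ v, Q' (extK v) = algebraMap K₀ F (Q₀ v)) : Sim ⇑Q₀ →* Sim ⇑Q :=
  M.cjS.comp (extS Q' hext)

lemma lift_apply (hext : ∀ v, Q' (extK v) = algebraMap K₀ F (Q₀ v)) (g : Sim ⇑Q₀) (w : κ → F) :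
    ((M.lift hext g).1 : Matrix ι ι F) *ᵥ M.E w = M.E ((g.1 : Matrix κ κ K₀).map (algebraMap K₀ F) *ᵥ w) :=
  M.cjS_apply _ w

lemma lift_refl (hext : ∀ v, Q' (extK v) = algebraMap K₀ F (Q₀ v)) (v : κ → K₀) (hv : Q₀ v ≠ 0) (hv' : Q (M.E (extK v)) ≠ 0) :
    M.lift hext (isoSim (reflIso Q₀ v hv)) = isoSim (reflIso Q (M.E (extK v)) hv') := by
  have h1 : Q' (extK v) ≠ 0 := by
    rw [hext]
    simpa using hv
  change M.cjS (extS Q' hext (isoSim (reflIso Q₀ v hv))) = _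
  rw [extS_refl hext v hv h1, cjS_refl]

/-- The lift of a similarity commutes with the semisimilarity. -/
lemma lift_comm (hext : ∀ v, Q' (extK v) = algebraMap K₀ F (Q₀ v)) (hσ : ∀ t, σ (algebraMap K₀ F t) = algebraMap K₀ F t) (g : Sim ⇑Q₀) :
    Ψ (⇑Q) (M.lift hext g) * act S = act S * Ψ (⇑Q) (M.lift hext g) := by
  rw [← act_ofSim, ← act_comp, ← act_comp]
  apply act_congr
  intro v
  obtain ⟨w, rfl⟩ := M.E.surjective v
  rw [SS.comp_g, SS.comp_g, ofSim_g, ofSim_g, M.hE, Matrix.mulVec_smul, lift_apply, lift_apply, M.hE]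
  congr 2
  have h1 : hat σ ((g.1 : Matrix κ κ K₀).map (algebraMap K₀ F) *ᵥ w) = ((g.1 : Matrix κ κ K₀).map (algebraMap K₀ F)) *ᵥ hat σ w := by
    funext i
    have h2 := RingHom.map_mulVec (σ : F →+* F) ((g.1 : Matrix κ κ K₀).map (algebraMap K₀ F)) w i
    have h3 : ((g.1 : Matrix κ κ K₀).map (algebraMap K₀ F)).map (σ : F →+* F) = (g.1 : Matrix κ κ K₀).map (algebraMap K₀ F) := by
      ext a b
      exact hσ _
    rw [h3] at h2
    exact h2
  exact h1.symm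

open Cfsg.Agent.Lib.Known3.FieldAut in
/-- Every similarity commuting with the semisimilarity is a scalar times a lift. -/
theorem exists_lift_of_comm (hext : ∀ v, Q' (extK v) = algebraMap K₀ F (Q₀ v)) (hfix : ∀ t, σ t = t ↔ t ∈ (algebraMap K₀ F).range)
    {r : ℕ} (hord : orderOf σ = r) (hr0 : r ≠ 0) (hv₀ : ∃ v, Q₀ v ≠ 0) (g : Sim ⇑Q) (hg : Ψ (⇑Q) g * act S = act S * Ψ (⇑Q) g) :
    ∃ (c : Fˣ) (g₀ : Sim ⇑Q₀), g = scal Q c * M.lift hext g₀ := by
  classical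
  have hcomm : act ((ofSim g).comp S) = act (S.comp (ofSim g)) := by
    rw [act_comp, act_comp, act_ofSim, hg]
  obtain ⟨-, l, hl, h1⟩ := act_eq (act_inj hcomm)
  let M₂ : GLn κ F := glLin.symm (M.E.trans ((glLin g.1).trans M.E.symm))
  have hM₂ : ∀ w, M.E ((M₂ : Matrix κ κ F) *ᵥ w) = (g.1 : Matrix ι ι F) *ᵥ M.E w := by
    intro w
    rw [← glLin_apply]
    change M.E (glLin (glLin.symm (M.E.trans ((glLin g.1).trans M.E.symm))) w) = _
    rw [MulEquiv.apply_symm_apply]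
    simp
  let lu : Fˣ := Units.mk0 l hl
  have hd : (M.d : F) ≠ 0 := Units.ne_zero _
  have hσM : mp σ M₂ = M₂ * sc lu := by
    apply Units.ext
    apply Matrix.mulVec_injective
    funext u
    obtain ⟨w, rfl⟩ := (hat σ).surjective u
    rw [← hat_mulVec, Units.val_mul, sc_coe, ← Matrix.mulVec_mulVec, Matrix.smul_mulVec, Matrix.one_mulVec, Matrix.mulVec_smul]
    apply M.E.injective
    have h2 := h1 (M.E w)
    rw [SS.comp_g, SS.comp_g, ofSim_g, ofSim_g, M.hE, Matrix.mulVec_smul, ← hM₂, ← hM₂, M.hE, smul_smul] at h2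
    have h3 : (M.d : F) • M.E (hat σ ((M₂ : Matrix κ κ F) *ᵥ w)) = (M.d : F) • M.E ((lu : F) • ((M₂ : Matrix κ κ F) *ᵥ hat σ w)) := by
      rw [h2, map_smul, smul_smul, mul_comm]
      rfl
    exact smul_right_injective _ hd h3
  have hσr : σ ^ r = 1 := by
    rw [← hord]
    exact pow_orderOf_eq_one σ
  have hpow := mp_pow_of_eq σ hσM r
  rw [hσr, mp_id] at hpow
  have hκ : Nonempty κ := by
    obtain ⟨v, hv⟩ := hv₀
    by_contra hne
    rw [not_nonempty_iff] at hne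
    apply hv
    have : v = 0 := Subsingleton.elim _ _
    rw [this, map_zero]
  have hnu : nu σ r lu = 1 := by
    have h3 : sc (nu σ r lu) = (1 : GLn κ F) := by
      have h4 : M₂ * sc (nu σ r lu) = M₂ * 1 := by rw [← hpow, mul_one]
      exact mul_left_cancel h4
    obtain ⟨i⟩ := hκ
    apply Units.ext
    have h5 := congrArg (fun t : GLn κ F => (t : Matrix κ κ F) i i) h3
    simpa [sc_coe] using h5
  obtain ⟨y, hy⟩ := hilbert90_units σ hord hr0 lu hnu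
  have hfixed : mp σ (M₂ * sc y) = M₂ * sc y := by
    rw [map_mul, hσM, mp_sc, mul_assoc, ← sc_mul, hy]
  obtain ⟨g₀, hg₀⟩ := exists_map_eq σ (algebraMap K₀ F) (algebraMap K₀ F).injective hfix _ hfixed
  obtain ⟨μ, hμ⟩ := g.2
  have hz : (M.z : F) ≠ 0 := Units.ne_zero _
  have hQ₁ : ∀ w, Q' ((M₂ : Matrix κ κ F) *ᵥ w) = (μ : F) * Q' w := by
    intro w
    apply mul_left_cancel₀ hz
    rw [← M.hq, hM₂, hμ, M.hq]
    ring
  have hM₁ : ∀ w, (((M₂ * sc y : GLn κ F)) : Matrix κ κ F) *ᵥ w = (y : F) • ((M₂ : Matrix κ κ F) *ᵥ w) := by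
    intro w
    rw [Units.val_mul, sc_coe, ← Matrix.mulVec_mulVec, Matrix.smul_mulVec, Matrix.one_mulVec, Matrix.mulVec_smul]
  have hmap : ∀ v : κ → K₀, (((M₂ * sc y : GLn κ F)) : Matrix κ κ F) *ᵥ extK v = extK ((g₀ : Matrix κ κ K₀) *ᵥ v) := by
    intro v
    rw [← hg₀]
    exact mulVec_extK _ v
  have hgen : ∀ v : κ → K₀, algebraMap K₀ F (Q₀ ((g₀ : Matrix κ κ K₀) *ᵥ v)) = ((y : F) * y * μ) * algebraMap K₀ F (Q₀ v) := by
    intro v
    rw [← hext, ← hext, ← hmap, hM₁, Q_smul, hQ₁]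
    ring
  obtain ⟨v₀, hv₀⟩ := hv₀
  set t : K₀ := Q₀ ((g₀ : Matrix κ κ K₀) *ᵥ v₀) / Q₀ v₀ with ht
  have hv₀' : algebraMap K₀ F (Q₀ v₀) ≠ 0 := by simpa using hv₀
  have hy0 : (y : F) ≠ 0 := Units.ne_zero _
  have hμ0 : (μ : F) ≠ 0 := Units.ne_zero _
  have hta : algebraMap K₀ F t = (y : F) * y * μ := by
    rw [ht, map_div₀, hgen]
    field_simp
  have ht0 : t ≠ 0 := by
    intro h
    rw [h, map_zero] at hta
    exact mul_ne_zero (mul_ne_zero hy0 hy0) hμ0 hta.symm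
  let g₀S : Sim ⇑Q₀ := ⟨g₀, ⟨Units.mk0 t ht0, fun v => by
    apply (algebraMap K₀ F).injective
    rw [hgen, Units.val_mk0, map_mul, hta]⟩⟩
  refine ⟨y⁻¹, g₀S, ?_⟩
  apply Subtype.ext
  apply Units.ext
  apply Matrix.mulVec_injective
  funext v
  obtain ⟨w, rfl⟩ := M.E.surjective v
  change (g.1 : Matrix ι ι F) *ᵥ M.E w = (((scal Q y⁻¹).1 : Matrix ι ι F) * ((M.lift hext g₀S).1 : Matrix ι ι F)) *ᵥ M.E w
  rw [← Matrix.mulVec_mulVec, lift_apply, scal_coe, Matrix.smul_mulVec, Matrix.one_mulVec]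
  have h5 : (g₀S.1 : Matrix κ κ K₀).map (algebraMap K₀ F) = (((M₂ * sc y : GLn κ F)) : Matrix κ κ F) := by
    rw [← hg₀]
    rfl
  rw [h5, hM₁, map_smul, hM₂, smul_smul, Units.val_inv_eq_inv_val, inv_mul_cancel₀ hy0, one_smul]

end Mdl

section ker

variable {ι' : Type} [Fintype ι'] [DecidableEq ι'] {K : Type*} [Field K] [Fintype K] {Q₁ : QuadraticForm K (ι' → K)} [hND₁ : ND Q₁]

/-- The kernel of `Ψ`. -/
lemma Ψ_eq_one_iff (g : Sim ⇑Q₁) : Ψ (⇑Q₁) g = 1 ↔ ∃ c : Kˣ, g = scal Q₁ c := by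
  constructor
  · intro h
    rw [← act_ofSim] at h
    obtain ⟨-, l, hl, h2⟩ := act_eq_one_scalar _ h
    refine ⟨Units.mk0 l hl, ?_⟩
    apply Subtype.ext
    apply Units.ext
    apply Matrix.mulVec_injective
    funext v
    have h3 := h2 v
    rw [ofSim_g] at h3
    rw [h3, scal_coe, Matrix.smul_mulVec, Matrix.one_mulVec]
    rfl
  · rintro ⟨c, rfl⟩
    exact Ψ_scal c

end ker

namespace Mdl

variable (M : Mdl σ S Q') {K₀ : Type*} [Field K₀] [Fintype K₀] [Algebra K₀ F] {Q₀ : QuadraticForm K₀ (κ → K₀)} [hND₀ : ND Q₀]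

lemma lift_scal (hext : ∀ v, Q' (extK v) = algebraMap K₀ F (Q₀ v)) (c : K₀ˣ) :
    M.lift hext (scal Q₀ c) = scal Q (Units.map (algebraMap K₀ F).toMonoidHom c) := by
  apply Subtype.ext
  apply Units.ext
  apply Matrix.mulVec_injective
  funext v
  obtain ⟨w, rfl⟩ := M.E.surjective v
  change ((M.lift hext (scal Q₀ c)).1 : Matrix ι ι F) *ᵥ M.E w = ((scal Q (Units.map (algebraMap K₀ F).toMonoidHom c)).1 : Matrix ι ι F) *ᵥ M.E w
  rw [lift_apply, scal_coe, scal_coe, Matrix.smul_mulVec, Matrix.one_mulVec]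
  have h1 : ((c : K₀) • (1 : Matrix κ κ K₀)).map (algebraMap K₀ F) = (algebraMap K₀ F (c : K₀)) • (1 : Matrix κ κ F) := by
    ext i j
    by_cases h : i = j
    · subst h
      simp
    · simp [h]
  rw [h1, Matrix.smul_mulVec, Matrix.one_mulVec, map_smul]
  rfl

lemma lift_ker (hext : ∀ v, Q' (extK v) = algebraMap K₀ F (Q₀ v)) (g₀ : Sim ⇑Q₀) : Ψ (⇑Q) (M.lift hext g₀) = 1 ↔ Ψ (⇑Q₀) g₀ = 1 := by
  classical
  constructor
  · intro h
    rw [Ψ_eq_one_iff] at h ⊢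
    obtain ⟨c, hc⟩ := h
    have hκ : Nonempty κ := by
      by_contra hne
      rw [not_nonempty_iff] at hne
      have h7 := hND₀.dim
      have : finrank K₀ (κ → K₀) = 0 := by simp
      omega
    obtain ⟨i₀⟩ := hκ
    have hmat : (g₀.1 : Matrix κ κ K₀).map (algebraMap K₀ F) = (c : F) • 1 := by
      apply Matrix.mulVec_injective
      funext w
      apply M.E.injective
      rw [← lift_apply M hext, hc, scal_coe, Matrix.smul_mulVec, Matrix.one_mulVec, Matrix.smul_mulVec, Matrix.one_mulVec, map_smul]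
    have hc0 : algebraMap K₀ F ((g₀.1 : Matrix κ κ K₀) i₀ i₀) = c := by
      have := congrFun (congrFun hmat i₀) i₀
      simpa using this
    have hne : (g₀.1 : Matrix κ κ K₀) i₀ i₀ ≠ 0 := by
      intro h0
      rw [h0, map_zero] at hc0
      exact Units.ne_zero c hc0.symm
    refine ⟨Units.mk0 _ hne, ?_⟩
    apply Subtype.ext
    apply Units.ext
    apply Matrix.map_injective (algebraMap K₀ F).injective
    change (g₀.1 : Matrix κ κ K₀).map (algebraMap K₀ F) = ((((g₀.1 : Matrix κ κ K₀) i₀ i₀) • (1 : Matrix κ κ K₀))).map (algebraMap K₀ F)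
    rw [hmat, ← hc0]
    ext i j
    by_cases h : i = j
    · subst h
      simp
    · simp [h]
  · intro h
    rw [Ψ_eq_one_iff] at h
    obtain ⟨c, rfl⟩ := h
    rw [lift_scal]
    exact Ψ_scal _

/-- The centralizer isomorphism. -/
theorem centr_iso (hext : ∀ v, Q' (extK v) = algebraMap K₀ F (Q₀ v)) (A₀ : Subgroup ↥(Sim ⇑Q₀)) (G₁ : Subgroup (MulAut (Cfsg.POmega F (⇑Q))))
    (G₀ : Subgroup (MulAut (Cfsg.POmega K₀ (⇑Q₀))))
    (h₁ : ∀ β, β ∈ G₁ ⊓ Subgroup.centralizer {act S} ↔ ∃ g₀ ∈ A₀, Ψ (⇑Q) (M.lift hext g₀) = β)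
    (h₀ : ∀ β, β ∈ G₀ ↔ ∃ g₀ ∈ A₀, Ψ (⇑Q₀) g₀ = β) : Nonempty (↥(G₁ ⊓ Subgroup.centralizer {act S}) ≃* ↥G₀) := by
  let f₁ : A₀ →* MulAut (Cfsg.POmega F (⇑Q)) := (Ψ (⇑Q)).comp ((M.lift hext).comp A₀.subtype)
  let f₀ : A₀ →* MulAut (Cfsg.POmega K₀ (⇑Q₀)) := (Ψ (⇑Q₀)).comp A₀.subtype
  have hker : f₁.ker = f₀.ker := by
    ext g
    rw [MonoidHom.mem_ker, MonoidHom.mem_ker]
    exact M.lift_ker hext g.1
  obtain ⟨e⟩ := range_equiv f₁ f₀ hker
  have e1 : G₁ ⊓ Subgroup.centralizer {act S} = f₁.range := by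
    ext β
    rw [h₁]
    constructor
    · rintro ⟨g₀, hg₀, rfl⟩
      exact ⟨⟨g₀, hg₀⟩, rfl⟩
    · rintro ⟨g₀, rfl⟩
      exact ⟨g₀.1, g₀.2, rfl⟩
  have e2 : G₀ = f₀.range := by
    ext β
    rw [h₀]
    constructor
    · rintro ⟨g₀, hg₀, rfl⟩
      exact ⟨⟨g₀, hg₀⟩, rfl⟩
    · rintro ⟨g₀, rfl⟩
      exact ⟨g₀.1, g₀.2, rfl⟩
  exact ⟨(MulEquiv.subgroupCongr e1).trans (e.trans (MulEquiv.subgroupCongr e2).symm)⟩

end Mdl

end mdl

end Cfsg.Agent.Lib.AutPO
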