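import Mathlib
import Cfsg.Agent.Lib.AutPO.Centr

/-!
Centralizers of field automorphisms: lists of reflections, squares in field extensions.
-/

set_option autoImplicit false
set_option linter.unusedSectionVars false
set_option linter.unusedVariables false

open scoped Matrix

namespace Cfsg.Agent.Lib.AutPO

open Cfsg.Agent.Lib.Classical Cfsg.Agent.Lib.Classical.Witt Cfsg.Agent.Lib.Classical.Abs Cfsg.Agent.Lib.Classical.Orth
open Cfsg.Agent.Lib.Known3.SimAut Cfsg.Agent.Lib.Known3.OmegaTrans Cfsg.Agent.Lib.Known3.OmegaCalc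
open Cfsg.Agent.Lib.Known3.Spinor Cfsg.Agent.Lib.Known3.OmegaSum Cfsg.Agent.Lib.Known3.QuadIso Cfsg.Agent.Lib.Known3.QuadStd
open scoped commutatorElement
open Module Ln

local notation "P" => QuadraticMap.polarBilin
local notation "GLn" => Matrix.GeneralLinearGroup

section squares

variable {F K₀ : Type*} [Field F] [Fintype F] [Field K₀] [Algebra K₀ F] {σ : F ≃+* F}

open Cfsg.Agent.Lib.Known3.FieldAut in
/-- A non-square of the fixed field stays a non-square in an extension of odd degree. -/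
lemma nonsq_ext (hfix : ∀ t, σ t = t ↔ t ∈ (algebraMap K₀ F).range) {r : ℕ} (hord : orderOf σ = r) (hodd : Odd r) {ν₀ : K₀}
    (hν₀ : ν₀ ≠ 0) (h : IsSquare (algebraMap K₀ F ν₀)) : IsSquare ν₀ := by
  classical
  obtain ⟨s, hs⟩ := h
  have hν₀' : algebraMap K₀ F ν₀ ≠ 0 := by simpa using hν₀
  have hs0 : s ≠ 0 := by
    rintro rfl
    exact hν₀' (by simpa using hs)
  let su : Fˣ := Units.mk0 s hs0
  let n : Fˣ := nu σ r su
  have hσr : σ ^ r = 1 := by
    rw [← hord]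
    exact pow_orderOf_eq_one σ
  have hn : σ (n : F) = n := by
    rw [nu_coe, map_prod]
    have h1 : ∀ i, σ ((σ ^ i) (su : F)) = (σ ^ (i + 1)) (su : F) := by
      intro i
      rw [pow_succ']
      rfl
    simp only [h1]
    obtain ⟨k, hk⟩ : ∃ k, r = k + 1 := ⟨r - 1, by
      have := hodd.pos
      omega⟩
    rw [hk, Finset.prod_range_succ, Finset.prod_range_succ']
    have h2 : (σ ^ (k + 1)) (su : F) = (σ ^ 0) (su : F) := by
      rw [← hk, hσr, pow_zero]
    rw [h2, mul_comm]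
  obtain ⟨n₀, hn₀⟩ := (hfix _).1 hn
  have hpow : ∀ i, (σ ^ i) (algebraMap K₀ F ν₀) = algebraMap K₀ F ν₀ := by
    intro i
    induction i with
    | zero => rfl
    | succ i ih =>
      rw [pow_succ']
      change σ ((σ ^ i) _) = _
      rw [ih]
      exact (hfix _).2 ⟨ν₀, rfl⟩
  have hprod : ((n : F)) * n = algebraMap K₀ F ν₀ ^ r := by
    rw [nu_coe, ← Finset.prod_mul_distrib]
    have : ∀ i ∈ Finset.range r, (σ ^ i) (su : F) * (σ ^ i) (su : F) = algebraMap K₀ F ν₀ := by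
      intro i _
      rw [← map_mul]
      change (σ ^ i) (s * s) = _
      rw [← hs, hpow]
    rw [Finset.prod_congr rfl this, Finset.prod_const, Finset.card_range]
  have h3 : n₀ * n₀ = ν₀ ^ r := by
    apply (algebraMap K₀ F).injective
    rw [map_mul, hn₀, hprod, map_pow]
  obtain ⟨k, rfl⟩ := hodd
  refine ⟨n₀ / ν₀ ^ k, ?_⟩
  field_simp
  rw [sq n₀, h3]
  ring

end squares

section lists

variable {ι κ : Type} [Fintype ι] [DecidableEq ι] [Fintype κ] [DecidableEq κ] {F : Type*} [Field F] [Fintype F]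
  {Q : QuadraticForm F (ι → F)} [hND : ND Q]
variable {σ : F ≃+* F} {S : SS Q} {Q' : QuadraticForm F (κ → F)}

lemma isoL_cons {K₁ : Type*} [Field K₁] [Fintype K₁] {Q₁ : QuadraticForm K₁ (κ → K₁)} (v : NS Q₁) (L : List (NS Q₁)) : isoL Q₁ (v :: L) = reflIso Q₁ v.1 v.2 * isoL Q₁ L := by
  apply (toOG Q₁).injective
  rw [map_mul, toOG_isoL, toOG_isoL, toOG_reflIso, prodL_cons]

lemma isoL_nil {K₁ : Type*} [Field K₁] [Fintype K₁] {Q₁ : QuadraticForm K₁ (κ → K₁)} : isoL Q₁ [] = 1 := by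
  apply (toOG Q₁).injective
  rw [map_one, toOG_isoL, prodL_nil]

namespace Mdl

variable (M : Mdl σ S Q') {K₀ : Type*} [Field K₀] [Fintype K₀] [Algebra K₀ F] {Q₀ : QuadraticForm K₀ (κ → K₀)}

/-- The list of reflections transported. -/
def mapL (hext : ∀ v, Q' (extK v) = algebraMap K₀ F (Q₀ v)) (L : List (NS Q₀)) : List (NS Q) :=
  L.map fun v => ⟨M.E (extK v.1), by
    apply M.Q_E_ne
    rw [hext]
    simpa using v.2⟩

lemma length_mapL (hext : ∀ v, Q' (extK v) = algebraMap K₀ F (Q₀ v)) (L : List (NS Q₀)) : (M.mapL hext L).length = L.length := by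
  simp [mapL]

lemma prod_mapL (hext : ∀ v, Q' (extK v) = algebraMap K₀ F (Q₀ v)) (L : List (NS Q₀)) :
    ((M.mapL hext L).map (fun v => Q v.1)).prod = (M.z : F) ^ L.length * algebraMap K₀ F ((L.map (fun v => Q₀ v.1)).prod) := by
  induction L with
  | nil => simp [mapL]
  | cons v L ih =>
    have h1 : M.mapL hext (v :: L) = ⟨M.E (extK v.1), by
        apply M.Q_E_ne
        rw [hext]
        simpa using v.2⟩ :: M.mapL hext L := rfl
    rw [h1, List.map_cons, List.prod_cons, ih, M.hq, hext]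
    simp only [List.map_cons, List.prod_cons, List.length_cons, map_mul, pow_succ]
    ring

lemma lift_isoL (hext : ∀ v, Q' (extK v) = algebraMap K₀ F (Q₀ v)) (L : List (NS Q₀)) :
    M.lift hext (isoSim (isoL Q₀ L)) = isoSim (isoL Q (M.mapL hext L)) := by
  induction L with
  | nil =>
    have h1 : M.mapL hext [] = [] := rfl
    rw [h1, isoL_nil, isoL_nil]
    exact map_one _
  | cons v L ih =>
    have h1 : M.mapL hext (v :: L) = ⟨M.E (extK v.1), by
        apply M.Q_E_ne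
        rw [hext]
        simpa using v.2⟩ :: M.mapL hext L := rfl
    rw [h1, isoL_cons, isoL_cons]
    have h2 : isoSim (reflIso Q₀ v.1 v.2 * isoL Q₀ L) = isoSim (reflIso Q₀ v.1 v.2) * isoSim (isoL Q₀ L) := rfl
    rw [h2, map_mul, ih, M.lift_refl hext v.1 v.2 (M.Q_E_ne (by
      rw [hext]
      simpa using v.2))]
    rfl

end Mdl

end lists

section model

variable {ι κ : Type} [Fintype ι] [DecidableEq ι] [Fintype κ] [DecidableEq κ] {F : Type*} [Field F] [Fintype F]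
  {Q : QuadraticForm F (ι → F)} [hND : ND Q] {σ : F ≃+* F} {S : SS Q}

/-- A model from descent data and an isometry up to a scalar. -/
lemma LD.exists_mdl (D : LD σ S) (θ₀ : (ι → fixF σ) ≃ₗ[fixF σ] (κ → fixF σ)) (Q' : QuadraticForm F (κ → F)) (c : Fˣ)
    (hQ' : ∀ v, Q' (ext0 (θ₀ v)) = (c : F) * ((D.Q₀ v : fixF σ) : F)) : Nonempty (Mdl σ S Q') := by
  obtain ⟨E, h1, h2⟩ := D.exists_model θ₀ (((c⁻¹ : Fˣ) : F) • Q') (by
    intro v
    rw [QuadraticMap.smul_apply, hQ', smul_eq_mul, ← mul_assoc, Units.inv_mul, one_mul])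
  refine ⟨⟨E, D.d, D.z * c⁻¹, h1, fun w => ?_⟩⟩
  rw [h2, QuadraticMap.smul_apply, smul_eq_mul, Units.val_mul]
  ring

end model

section generic

variable {ι κ : Type} [Fintype ι] [DecidableEq ι] [Fintype κ] [DecidableEq κ] {F : Type*} [Field F] [Fintype F]
  {Q : QuadraticForm F (ι → F)} [hND : ND Q] {σ : F ≃+* F} {S : SS Q} {Q' : QuadraticForm F (κ → F)}
  {K₀ : Type*} [Field K₀] [Fintype K₀] [Algebra K₀ F] {Q₀ : QuadraticForm K₀ (κ → K₀)} [hND₀ : ND Q₀]

/-- Elements of a subgroup commuting with `S`, in terms of a predicate on similarities. -/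
theorem Mdl.mem_centr_iff (M : Mdl σ S Q') (hext : ∀ v, Q' (extK v) = algebraMap K₀ F (Q₀ v)) (hfix : ∀ t, σ t = t ↔ t ∈ (algebraMap K₀ F).range)
    {r : ℕ} (hord : orderOf σ = r) (hr0 : r ≠ 0) (hv₀ : ∃ v, Q₀ v ≠ 0) (R : Sim (⇑Q) → Prop) (R₀ : Sim (⇑Q₀) → Prop)
    (hR : ∀ c g, R (scal Q c * g) ↔ R g) (hlift : ∀ g₀, R (M.lift hext g₀) ↔ R₀ g₀) (β : MulAut (Cfsg.POmega F (⇑Q))) :
    ((∃ g, R g ∧ Ψ (⇑Q) g = β) ∧ β ∈ Subgroup.centralizer {act S}) ↔ ∃ g₀, R₀ g₀ ∧ Ψ (⇑Q) (M.lift hext g₀) = β := by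
  have hσ : ∀ t, σ (algebraMap K₀ F t) = algebraMap K₀ F t := fun t => (hfix _).2 ⟨t, rfl⟩
  constructor
  · rintro ⟨⟨g, hg, rfl⟩, hc⟩
    have hcomm : Ψ (⇑Q) g * act S = act S * Ψ (⇑Q) g := (Subgroup.mem_centralizer_iff.1 hc (act S) rfl).symm
    obtain ⟨c, g₀, rfl⟩ := M.exists_lift_of_comm hext hfix hord hr0 hv₀ g hcomm
    refine ⟨g₀, (hlift g₀).1 ((hR c _).1 hg), ?_⟩
    rw [map_mul, Ψ_scal, one_mul]
  · rintro ⟨g₀, hg₀, rfl⟩
    refine ⟨⟨_, (hlift g₀).2 hg₀, rfl⟩, ?_⟩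
    rw [Subgroup.mem_centralizer_iff]
    intro t ht
    have ht' : t = act S := ht
    rw [ht']
    exact (M.lift_comm hext hσ g₀).symm

end generic

end Cfsg.Agent.Lib.AutPO
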