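import Mathlib
import Cfsg.Agent.Lib.AutPO.Centr2

/-!
Centralizers of field automorphisms of the odd-dimensional orthogonal groups.
-/

set_option autoImplicit false
set_option linter.unusedSectionVars false
set_option linter.unusedVariables false

open scoped Matrix

namespace Cfsg.Agent.Lib.AutPO

open Cfsg.Agent.Lib.Classical Cfsg.Agent.Lib.Classical.Witt Cfsg.Agent.Lib.Classical.Abs Cfsg.Agent.Lib.Classical.Orth
open Cfsg.Agent.Lib.Known3.SimAut Cfsg.Agent.Lib.Known3.OmegaTrans Cfsg.Agent.Lib.Known3.OmegaCalc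
open Cfsg.Agent.Lib.Known3.Spinor Cfsg.Agent.Lib.Known3.OmegaSum Cfsg.Agent.Lib.Known3.QuadIso Cfsg.Agent.Lib.Known3.QuadStd
open scoped commutatorElement
open Module Ln

local notation "P" => QuadraticMap.polarBilin
local notation "GLn" => Matrix.GeneralLinearGroup

section generic

variable {ι : Type} [Fintype ι] [DecidableEq ι] {F : Type*} [Field F] [Fintype F] {Q : QuadraticForm F (ι → F)}

/-- An isometry of determinant one with image in `T` lies in `Ω`, in odd dimension. -/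
theorem mem_Omega_of_inn_odd (h2 : (2 : F) ≠ 0) (hQ : (P Q).Nondegenerate) (hn : 5 ≤ Fintype.card ι) (hne : ∃ v, Q v ≠ 0)
    (hodd : Odd (Fintype.card ι)) (k : Cfsg.isometryGroup F (⇑Q)) (hdet : k.1.1.det = 1) (hk : Ψ (⇑Q) (isoSim k) ∈ Cfsg.Inn (Cfsg.POmega F (⇑Q))) :
    k ∈ Cfsg.Omega F (⇑Q) := by
  rw [Inn_eq] at hk
  obtain ⟨g, ⟨ω, hω, hωg⟩, hg⟩ := mem_img.1 hk
  have hgω : g = isoSim ω := Subtype.ext hωg.symm
  subst hgω
  have h3 : Ψ (⇑Q) (isoSim k * (isoSim ω)⁻¹) = 1 := by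
    rw [map_mul, map_inv, hg, mul_inv_cancel]
  obtain ⟨c, hc⟩ := scalar_of_Ψ h2 hQ hn _ h3
  have h4 : (scal Q c).1 ∈ Cfsg.isometryGroup F (⇑Q) := by
    rw [← hc]
    exact (Cfsg.isometryGroup F (⇑Q)).mul_mem k.2 ((Cfsg.isometryGroup F (⇑Q)).inv_mem ω.2)
  have h5 : isoSim k = scal Q c * isoSim ω := by
    rw [← hc]
    group
  have hdω : ω.1.1.det = 1 := mem_SL.1 (OmegaGL_le_SO h2 hQ ⟨ω, hω, rfl⟩).2
  rcases scal_iso_cases hne h4 with rfl | rfl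
  · have : k = ω := by
      have h6 : scal Q 1 = 1 := by
        apply Subtype.ext
        apply Units.ext
        change ((1 : Fˣ) : F) • (1 : Matrix ι ι F) = 1
        simp
      rw [h6, one_mul] at h5
      have h7 : (isoSim k).1 = (isoSim ω).1 := congrArg Subtype.val h5
      exact Subtype.ext h7
    rwa [this]
  · exfalso
    have h6 : k.1.1 = ((-1 : Fˣ) : F) • ω.1.1 := by
      have h7 : (isoSim k).1.1 = (scal Q (-1) * isoSim ω).1.1 := congrArg (fun t : Sim (⇑Q) => t.1.1) h5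
      rw [show (isoSim k).1.1 = k.1.1 from rfl] at h7
      rw [h7]
      change ((scal Q (-1)).1.1 * ω.1.1 : Matrix ι ι F) = _
      rw [scal_coe, Matrix.smul_mul, Matrix.one_mul]
    rw [h6, Matrix.det_smul, hdω, mul_one] at hdet
    simp only [Units.val_neg, Units.val_one, Odd.neg_one_pow hodd] at hdet
    exact h2 (by linear_combination -hdet)

lemma inn_normal {G : Type*} [Group G] (h k : MulAut G) (hk : k ∈ Cfsg.Inn G) : h * k * h⁻¹ ∈ Cfsg.Inn G := by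
  obtain ⟨y, rfl⟩ := hk
  exact ⟨h y, by
    ext z
    simp [MulAut.conj_apply, MulAut.mul_apply]⟩

end generic

section cards

variable {F F₀ : Type*} [Field F] [Fintype F] [Field F₀] [Fintype F₀] [Algebra F₀ F]

/-- The degree of the extension from the cardinalities. -/
lemma finrank_of_cards {p f r : ℕ} (hp : p.Prime) (hF : Fintype.card F = p ^ f) (hF₀ : Fintype.card F₀ = p ^ (f / r)) (hr : r.Prime) (hd : r ∣ f) (hf : 1 ≤ f) :
    finrank F₀ F = r := by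
  have h1 := Module.card_eq_pow_finrank (K := F₀) (V := F)
  rw [hF, hF₀, ← pow_mul] at h1
  have h2 := Nat.pow_right_injective hp.two_le h1
  obtain ⟨t, rfl⟩ := hd
  rw [Nat.mul_div_cancel_left _ hr.pos] at h2
  have ht : 0 < t := by
    rcases Nat.eq_zero_or_pos t with rfl | h
    · simp at hf
    · exact h
  have h3 : t * r = t * finrank F₀ F := by
    rw [mul_comm t r]
    exact h2
  exact (Nat.eq_of_mul_eq_mul_left ht h3).symm

end cards

section core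

variable {ι κ : Type} [Fintype ι] [DecidableEq ι] [Fintype κ] [DecidableEq κ] {F : Type*} [Field F] [Fintype F]
  {Q : QuadraticForm F (ι → F)} [hND : ND Q] {σ : F ≃+* F} {S : SS Q} {Q' : QuadraticForm F (κ → F)}
  {K₀ : Type*} [Field K₀] [Fintype K₀] [Algebra K₀ F] {Q₀ : QuadraticForm K₀ (κ → K₀)} [hND₀ : ND Q₀]

/-- The centralizer and the class count in odd dimension. -/
theorem centr_count_odd (M : Mdl σ S Q') (hext : ∀ v, Q' (extK v) = algebraMap K₀ F (Q₀ v)) (hfix : ∀ t, σ t = t ↔ t ∈ (algebraMap K₀ F).range)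
    {r : ℕ} (hord : orderOf σ = r) (hr : r.Prime) (h2 : (2 : F) ≠ 0) (hcard : Odd (Fintype.card ι)) (hcard₀ : Odd (Fintype.card κ))
    (hn5 : 5 ≤ Fintype.card ι) (hn5₀ : 5 ≤ Fintype.card κ) :
    Nonempty (↥(Cfsg.pgoAut F (⇑Q) ⊓ Subgroup.centralizer {act S}) ≃* ↥(Cfsg.pgoAut K₀ (⇑Q₀))) ∧
      (Odd r → Cfsg.splitClassCount (Cfsg.pgoAut F (⇑Q)) (Cfsg.Inn (Cfsg.POmega F (⇑Q))) (act S) = 1) ∧
      (finrank K₀ F = 2 → Cfsg.splitClassCount (Cfsg.pgoAut F (⇑Q)) (Cfsg.Inn (Cfsg.POmega F (⇑Q))) (act S) = 2) := by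
  classical
  have h2₀ : (2 : K₀) ≠ 0 := by
    intro h
    apply h2
    have := congrArg (algebraMap K₀ F) h
    rwa [map_ofNat, map_zero] at this
  have hne := exists_ne_zero (Q := Q)
  have hne₀ := exists_ne_zero (Q := Q₀)
  have hcentr : ∀ β : MulAut (Cfsg.POmega F (⇑Q)), β ∈ Cfsg.pgoAut F (⇑Q) ⊓ Subgroup.centralizer {act S} ↔
      ∃ g₀ : Sim (⇑Q₀), Ψ (⇑Q) (M.lift hext g₀) = β := by
    intro β
    have key := M.mem_centr_iff hext hfix hord hr.ne_zero hne₀ (fun _ => True) (fun _ => True) (fun _ _ => Iff.rfl) (fun _ => Iff.rfl) β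
    rw [Subgroup.mem_inf, pgoAut_eq, mem_img]
    constructor
    · rintro ⟨⟨g, -, hg⟩, h⟩
      obtain ⟨g₀, -, h3⟩ := key.1 ⟨⟨g, trivial, hg⟩, h⟩
      exact ⟨g₀, h3⟩
    · rintro ⟨g₀, h3⟩
      obtain ⟨⟨g, -, hg⟩, h⟩ := key.2 ⟨g₀, trivial, h3⟩
      exact ⟨⟨g, g.2, hg⟩, h⟩
  have hQ := hND.nd
  have hQ₀ := hND₀.nd
  refine ⟨?_, ?_, ?_⟩
  · exact M.centr_iso hext ⊤ _ _ (by
      intro β
      rw [hcentr]
      simp) (by
      intro β
      rw [pgoAut_eq, mem_img]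
      constructor
      · rintro ⟨g, -, hg⟩
        exact ⟨g, trivial, hg⟩
      · rintro ⟨g, -, hg⟩
        exact ⟨g, g.2, hg⟩)
  all_goals
    obtain ⟨φ', hφ'1, hφ'2⟩ := odd_pgo hne hQ h2 hcard hn5
    rw [split_index _ _ inn_le_pgo (fun h _ k hk => inn_normal h k hk)]
  · -- odd degree
    intro hrodd
    obtain ⟨ν, hν0, hν⟩ := exists_nonsq h2₀
    have hfr₂ : 2 ≤ finrank K₀ (κ → K₀) := by
      rw [Module.finrank_fintype_fun_eq_card]
      omega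
    obtain ⟨u, hu⟩ := exists_Q_eq (c := 1) h2₀ hQ₀ hfr₂
    obtain ⟨w, hw⟩ := exists_Q_eq (c := ν) h2₀ hQ₀ hfr₂
    let L₀ : List (NS Q₀) := [⟨u, by rw [hu]; exact one_ne_zero⟩, ⟨w, by rw [hw]; exact hν0⟩]
    set c₀ := Ψ (⇑Q) (M.lift hext (isoSim (isoL _ L₀))) with hc₀
    have hc₁ : c₀ ∈ Cfsg.pgoAut F (⇑Q) ⊓ Subgroup.centralizer {act S} := (hcentr _).2 ⟨_, rfl⟩
    have hc₂ : c₀ ∉ Cfsg.Inn (Cfsg.POmega F (⇑Q)) := by
      intro hin
      rw [hc₀, M.lift_isoL] at hin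
      have h5 := mem_Omega_of_inn_odd h2 hQ hn5 hne hcard _ (by
        rw [isoL_coe, det_mL, M.length_mapL]
        simp [L₀]) hin
      rw [mem_Omega_iff, toOG_isoL, mem_comm_odd h2 hQ, M.prod_mapL] at h5
      have h6 := h5.2
      simp only [L₀, List.map_cons, List.map_nil, List.prod_cons, List.prod_nil, List.length_cons, List.length_nil, hu, hw, one_mul, mul_one] at h6
      have h7 : IsSquare (algebraMap K₀ F ν) := by
        obtain ⟨s, hs⟩ := h6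
        refine ⟨s / (M.z : F), ?_⟩
        have hz0 : (M.z : F) ≠ 0 := Units.ne_zero _
        field_simp
        linear_combination hs
      exact hν (nonsq_ext hfix hord hrodd hν0 h7)
    rw [Subgroup.index_eq_one]
    rw [eq_top_iff]
    rintro ⟨β, hβ⟩ -
    rw [Subgroup.mem_subgroupOf]
    have hcK : φ' ⟨c₀, hc₁.1⟩ = -1 := by
      rcases Int.units_eq_one_or (φ' ⟨c₀, hc₁.1⟩) with h5 | h5
      · exfalso
        have h6 : (⟨c₀, hc₁.1⟩ : Cfsg.pgoAut F (⇑Q)) ∈ φ'.ker := h5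
        rw [hφ'2] at h6
        exact hc₂ (Subgroup.mem_subgroupOf.1 h6)
      · exact h5
    rcases Int.units_eq_one_or (φ' ⟨β, hβ⟩) with h5 | h5
    · have h6 : (⟨β, hβ⟩ : Cfsg.pgoAut F (⇑Q)) ∈ φ'.ker := h5
      rw [hφ'2] at h6
      exact (le_sup_left : _ ≤ Cfsg.Inn _ ⊔ _) (Subgroup.mem_subgroupOf.1 h6)
    · have h6 : (⟨β, hβ⟩ * ⟨c₀, hc₁.1⟩ : Cfsg.pgoAut F (⇑Q)) ∈ φ'.ker := by
        rw [MonoidHom.mem_ker, map_mul, h5, hcK]
        rfl
      rw [hφ'2] at h6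
      have h7 : β * c₀ ∈ Cfsg.Inn (Cfsg.POmega F (⇑Q)) := Subgroup.mem_subgroupOf.1 h6
      have h8 : β = (β * c₀) * c₀⁻¹ := by group
      change β ∈ Cfsg.Inn _ ⊔ _
      rw [h8]
      exact Subgroup.mul_mem _ ((le_sup_left : _ ≤ Cfsg.Inn _ ⊔ _) h7) ((le_sup_right : _ ≤ Cfsg.Inn _ ⊔ _) (Subgroup.inv_mem _ hc₁))
  · -- degree two
    intro hdeg
    have hle : Cfsg.pgoAut F (⇑Q) ⊓ Subgroup.centralizer {act S} ≤ Cfsg.Inn (Cfsg.POmega F (⇑Q)) := by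
      intro β hβ
      obtain ⟨g₀, rfl⟩ := (hcentr β).1 hβ
      obtain ⟨c₁, k₀, rfl, hk₀⟩ := exists_scal_SO hne₀ hQ₀ hcard₀ g₀
      rw [map_mul, M.lift_scal, map_mul, Ψ_scal, one_mul]
      let k₀' : Cfsg.isometryGroup K₀ (⇑Q₀) := ⟨k₀.1, hk₀.1⟩
      obtain ⟨L₀, hL₀⟩ := exists_list_of h2₀ hQ₀ k₀'
      have hk₀L : k₀' = isoL _ L₀ := (toOG _).injective (by rw [hL₀, toOG_isoL])
      have hk₀s : k₀ = isoSim (isoL _ L₀) := by
        rw [← hk₀L]
        rfl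
      have hdet : (-1 : K₀) ^ L₀.length = 1 := by
        rw [← det_mL, ← isoL_coe, ← hk₀L]
        exact mem_SL.1 hk₀.2
      have hne1 : (-1 : K₀) ≠ 1 := fun h5 => h2₀ (by linear_combination -h5)
      have heven : Even L₀.length := (neg_one_pow_eq_one_iff_even hne1).1 hdet
      have hΩ : isoL Q (M.mapL hext L₀) ∈ Cfsg.Omega F (⇑Q) := by
        rw [mem_Omega_iff, toOG_isoL, mem_comm_odd h2 hQ, M.length_mapL, M.prod_mapL]
        refine ⟨heven, ?_⟩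
        exact (heven.isSquare_pow _).mul (isSquare_base hdeg h2₀ _)
      rw [hk₀s, M.lift_isoL, Inn_eq]
      exact mem_img.2 ⟨_, ⟨_, hΩ, rfl⟩, rfl⟩
    have hsup : Cfsg.Inn (Cfsg.POmega F (⇑Q)) ⊔ (Cfsg.pgoAut F (⇑Q) ⊓ Subgroup.centralizer {act S}) = Cfsg.Inn _ :=
      sup_eq_left.2 hle
    rw [hsup, ← hφ'2, Subgroup.index_ker, MonoidHom.range_eq_top.2 hφ'1]
    simp

end core

section final

variable {F : Type*} [Field F] [Fintype F] {m : ℕ}

lemma odd_ext0 {σ : F ≃+* F} (w : Unit ⊕ (Fin m ⊕ Fin m) → fixF σ) : Qodd m F (ext0 w) = ((Qodd m (fixF σ) w : fixF σ) : F) := by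
  rw [Qodd_apply, Qodd_apply]
  simp [Cfsg.quadFormOdd, ext0]

lemma odd_extK {K₀ : Type*} [Field K₀] [Algebra K₀ F] (v : Unit ⊕ (Fin m ⊕ Fin m) → K₀) : Qodd m F (extK v) = algebraMap K₀ F (Qodd m K₀ v) := by
  rw [Qodd_apply, Qodd_apply]
  simp [Cfsg.quadFormOdd, extK, map_sum]

theorem field_odd_main {p f : ℕ} [hp : Fact p.Prime] (hF : Fintype.card F = p ^ f) (hf : 1 ≤ f) (hodd : Odd (Fintype.card F)) (hm : 3 ≤ m)
    {q : (Unit ⊕ (Fin m ⊕ Fin m) → F) → F} (hq : ⇑(Qodd m F) = q) (x : MulAut (Cfsg.POmega F q)) (hx : Cfsg.IsFieldAutClassPOmega q x)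
    {r : ℕ} (hr : r.Prime) (hxr : orderOf x = r) (F₀ : Type*) [Field F₀] [Fintype F₀] (hF₀ : Fintype.card F₀ = p ^ (f / r))
    {q₀ : (Unit ⊕ (Fin m ⊕ Fin m) → F₀) → F₀} (hq₀ : ⇑(Qodd m F₀) = q₀) :
    r ∣ f ∧ Nonempty (↥(Cfsg.pgoAut F q ⊓ Subgroup.centralizer {x}) ≃* ↥(Cfsg.pgoAut F₀ q₀)) ∧
      (Odd r → Cfsg.splitClassCount (Cfsg.pgoAut F q) (Cfsg.Inn (Cfsg.POmega F q)) x = 1) ∧
      (r = 2 → Cfsg.splitClassCount (Cfsg.pgoAut F q) (Cfsg.Inn (Cfsg.POmega F q)) x = 2) := by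
  classical
  subst hq hq₀
  have h2 : (2 : F) ≠ 0 := P2.two_ne_zero_of_odd hodd
  have hfr : finrank F (Unit ⊕ (Fin m ⊕ Fin m) → F) = 1 + (m + m) := by
    simp [Module.finrank_fintype_fun_eq_card]
  haveI hND : ND (Qodd m F) := ⟨Qodd_nondeg h2 m, by omega⟩
  have H : 9 ≤ finrank F (Unit ⊕ (Fin m ⊕ Fin m) → F) ∨ NoSkew (Qodd m F) := by
    by_cases h4 : 4 ≤ m
    · left
      omega
    · right
      have : m = 3 := by omega
      subst this
      exact noSkew_odd h2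
  have hxpow : x ^ r = 1 := by rw [← hxr]; exact pow_orderOf_eq_one _
  obtain ⟨α, φ, σ', hσ', hφ, hαx⟩ := hx
  have hφs : φ = act (hatOdd m σ') := eq_act_of_field (hatOdd m σ') (fun v => rfl) φ hφ
  have hsx : sig H x ≠ 1 := by
    intro h1
    apply hσ'
    have h3 : sig H φ = σ' := by
      rw [hφs, sig_act]
      rfl
    rw [← h3]
    exact hom_conj_one (sig H) h1 (map_one _) (by rw [hαx, one_mul])
  obtain ⟨σ, hσdef⟩ : ∃ σ, σ = sig H x := ⟨_, rfl⟩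
  rw [← hσdef] at hsx
  haveI : Fact r.Prime := ⟨hr⟩
  have hord : orderOf σ = r := orderOf_eq_prime (by rw [hσdef, ← map_pow, hxpow, map_one]) hsx
  obtain ⟨hdvd, e, he, hfix⟩ := Known3.FieldFix.exists_fix_embed hF σ hr hord F₀ hF₀
  letI iA : Algebra F₀ F := e.toAlgebra
  have hfix' : ∀ t, σ t = t ↔ t ∈ (algebraMap F₀ F).range := hfix
  have h2₀ : (2 : F₀) ≠ 0 := by
    intro h
    apply h2
    have := congrArg (algebraMap F₀ F) h
    rwa [map_ofNat, map_zero] at this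
  have hfr₀ : finrank F₀ (Unit ⊕ (Fin m ⊕ Fin m) → F₀) = 1 + (m + m) := by
    simp [Module.finrank_fintype_fun_eq_card]
  haveI hND₀ : ND (Qodd m F₀) := ⟨Qodd_nondeg h2₀ m, by omega⟩
  have hcard : Fintype.card (Unit ⊕ (Fin m ⊕ Fin m)) = 2 * m + 1 := by
    simp
    ring
  have hcardodd : Odd (Fintype.card (Unit ⊕ (Fin m ⊕ Fin m))) := by
    rw [hcard]
    exact ⟨m, rfl⟩
  obtain ⟨S, hS⟩ := act_surj H x
  have hSσ : S.σ = σ := by rw [hσdef, ← hS, sig_act]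
  obtain ⟨D⟩ := exists_LD S hSσ hord hr.ne_zero (by rw [hS, hxpow])
  have hfrσ : finrank (fixF σ) (Unit ⊕ (Fin m ⊕ Fin m) → fixF σ) = 2 * m + 1 := by
    simp [Module.finrank_fintype_fun_eq_card]
    ring
  obtain ⟨θ, c, hc⟩ := std_odd_sim hfrσ D.Q₀ D.Q₀_nondeg
  have hc0 : ((c : fixF σ) : F) ≠ 0 := fun h => Units.ne_zero c (Subtype.ext h)
  obtain ⟨M⟩ := D.exists_mdl θ (Qodd m F) (Units.mk0 _ hc0) (by
    intro v
    rw [odd_ext0, hc]
    rfl)
  have hext : ∀ v, Qodd m F (extK v) = algebraMap F₀ F (Qodd m F₀ v) := odd_extK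
  subst hS
  obtain ⟨h1, h3, h4⟩ := centr_count_odd M hext hfix' hord hr h2 hcardodd hcardodd (by rw [hcard]; omega) (by rw [hcard]; omega)
  refine ⟨hdvd, h1, h3, ?_⟩
  intro hr2
  apply h4
  subst hr2
  exact finrank_of_cards hp.out hF hF₀ hr hdvd hf

end final

end Cfsg.Agent.Lib.AutPO
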