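import Mathlib
import Cfsg.Agent.Lib.AutPO.Centr2

/-!
Preservation of the parity classes over an extension field.
-/

set_option autoImplicit false
set_option linter.unusedSectionVars false
set_option linter.unusedVariables false

open scoped Matrix

namespace Cfsg.Agent.Lib.AutPO

open Cfsg.Agent.Lib.Classical Cfsg.Agent.Lib.Classical.Witt Cfsg.Agent.Lib.Classical.Abs Cfsg.Agent.Lib.Classical.Orth
open Cfsg.Agent.Lib.Known3.SimAut Cfsg.Agent.Lib.Known3.OmegaTrans Cfsg.Agent.Lib.Known3.OmegaCalc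
open Cfsg.Agent.Lib.Known3.Spinor Cfsg.Agent.Lib.Known3.OmegaSum Cfsg.Agent.Lib.Known3.QuadIso Cfsg.Agent.Lib.Known3.QuadStd
open scoped commutatorElement
open Module Ln

local notation "P" => QuadraticMap.polarBilin
local notation "GLn" => Matrix.GeneralLinearGroup

section ext

variable {ι : Type} [Fintype ι] [DecidableEq ι] {F : Type*} [Field F] [Fintype F] {K : Type*} [Field K] [Fintype K] [Algebra F K]
  {QF : QuadraticForm F (ι → F)} {QK : QuadraticForm K (ι → K)} [hND : ND QK]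
  (hext : ∀ v, QK (extK v) = algebraMap F K (QF v))

/-- The similarity over the extension preserves the classes. -/
def RK (QK : QuadraticForm K (ι → K)) (hext : ∀ v, QK (extK v) = algebraMap F K (QF v)) (g : Sim (⇑QF)) : Prop :=
  Cfsg.PreservesSingularClasses (⇑QK) (g.1.1.map (algebraMap F K))

variable (hQ : (P QK).Nondegenerate) (hrk : Fintype.card K ≠ 2 ∨ finrank K (ι → K) ≠ 4) {n : ℕ} (hV : finrank K (ι → K) = 2 * n)
  {U₀ : Submodule K (ι → K)} (hU₀ : IsLagr QK n U₀)

include hQ hrk hV hU₀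

lemma RK_mul (g h : Sim (⇑QF)) : RK QK hext (g * h) ↔ (RK QK hext h ↔ RK QK hext g) := by
  have e : ∀ g : Sim (⇑QF), g.1.1.map (algebraMap F K) = (Mdl.extS QK hext g).1.1 := fun _ => rfl
  simp only [RK, e, map_mul]
  exact psc_mul_iff hQ hrk hV hU₀ _ _

lemma RK_one : RK QK hext (1 : Sim (⇑QF)) := by
  have e : ∀ g : Sim (⇑QF), g.1.1.map (algebraMap F K) = (Mdl.extS QK hext g).1.1 := fun _ => rfl
  simp only [RK, e, map_one]
  exact psc_one' hQ hrk hV hU₀

lemma RK_inv (g : Sim (⇑QF)) (h : RK QK hext g) : RK QK hext g⁻¹ := by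
  have h1 := (RK_mul hext hQ hrk hV hU₀ g⁻¹ g).1 (by
    rw [inv_mul_cancel]
    exact RK_one hext hQ hrk hV hU₀)
  exact h1.1 h

lemma RK_refl (v : ι → F) (hv : QF v ≠ 0) : ¬ RK QK hext (isoSim (reflIso QF v hv)) := by
  have hv' : QK (extK v) ≠ 0 := by
    rw [hext]
    simpa using hv
  have e : (isoSim (reflIso QF v hv)).1.1.map (algebraMap F K) = (isoSim (reflIso QK (extK v) hv')).1.1 := by
    have := Mdl.extS_refl hext v hv hv'
    exact congrArg (fun g : Sim (⇑QK) => g.1.1) this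
  rw [RK, e]
  exact not_psc_refl hQ hrk hV hU₀ _ hv'

lemma RK_isoL (L : List (NS QF)) : RK QK hext (isoSim (isoL QF L)) ↔ Even L.length := by
  induction L with
  | nil =>
    rw [isoL_nil]
    simp only [List.length_nil, Even.zero, iff_true]
    exact RK_one hext hQ hrk hV hU₀
  | cons v L ih =>
    rw [isoL_cons, List.length_cons, Nat.even_add_one]
    have h1 : isoSim (reflIso QF v.1 v.2 * isoL QF L) = isoSim (reflIso QF v.1 v.2) * isoSim (isoL QF L) := rfl
    rw [h1, RK_mul hext hQ hrk hV hU₀, ih]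
    have := RK_refl hext hQ hrk hV hU₀ v.1 v.2
    tauto

lemma RK_scal (c : Fˣ) : RK QK hext (scal QF c) := by
  have h1 : (scal QF c).1.1.map (algebraMap F K) = (algebraMap F K (c : F)) • (1 : Matrix ι ι K) := by
    rw [scal_coe]
    ext i j
    by_cases h : i = j
    · subst h
      simp
    · simp [h]
  rw [RK, h1, psc_iff_par hQ hV hU₀]
  intro U hU
  have hc0 : algebraMap F K (c : F) ≠ 0 := by simp
  rw [image_scal _ hc0]
  have h2 : Cfsg.imageSubmodule (1 : Matrix ι ι K) U = U := by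
    ext x
    simp [Cfsg.imageSubmodule]
  rw [h2]
  exact par_self hU.dim

lemma RK_scal_mul (c : Fˣ) (g : Sim (⇑QF)) : RK QK hext (scal QF c * g) ↔ RK QK hext g := by
  rw [RK_mul hext hQ hrk hV hU₀]
  have := RK_scal hext hQ hrk hV hU₀ c
  tauto

end ext

section root

universe u

open Polynomial in
/-- Any quadratic extension of a finite field contains a root of any polynomial of degree two. -/
lemma exists_root_quad {K₀ : Type u} [Field K₀] [Fintype K₀] {L : Type*} [Field L] [Algebra K₀ L] (hL : finrank K₀ L = 2) (a b : K₀)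
    (hab : ∀ z₁ z₂ : K₀, z₁ ^ 2 + a * z₁ * z₂ + b * z₂ ^ 2 = 0 → z₁ = 0 ∧ z₂ = 0) :
    ∃ ω : L, ω ^ 2 + algebraMap K₀ L a * ω + algebraMap K₀ L b = 0 := by
  classical
  have hab' : ∀ z₁ z₂ : K₀, z₁ ^ 2 + (-a) * z₁ * z₂ + b * z₂ ^ 2 = 0 → z₁ = 0 ∧ z₂ = 0 := by
    intro z₁ z₂ h
    obtain ⟨h1, h2⟩ := hab z₁ (-z₂) (by linear_combination h)
    exact ⟨h1, by simpa using h2⟩
  obtain ⟨L', iL', iA', ω, hL', hω⟩ := exists_quad' (-a) b hab'
  haveI : FiniteDimensional K₀ L := FiniteDimensional.of_finrank_pos (by rw [hL]; norm_num)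
  haveI : FiniteDimensional K₀ L' := FiniteDimensional.of_finrank_pos (by rw [hL']; norm_num)
  haveI : Finite L := Module.finite_of_finite K₀
  haveI : Finite L' := Module.finite_of_finite K₀
  letI : Fintype L := Fintype.ofFinite L
  letI : Fintype L' := Fintype.ofFinite L'
  have hc : Fintype.card L' = Fintype.card L := by
    rw [Module.card_eq_pow_finrank (K := K₀) (V := L), Module.card_eq_pow_finrank (K := K₀) (V := L'), hL, hL']
  haveI h1 : IsSplittingField K₀ L' (X ^ Fintype.card L' - X) := FiniteField.isSplittingField_sub L' K₀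
  haveI h2 : IsSplittingField K₀ L (X ^ Fintype.card L' - X) := by
    rw [hc]
    exact FiniteField.isSplittingField_sub L K₀
  let e : L' ≃ₐ[K₀] L := (IsSplittingField.algEquiv L' (X ^ Fintype.card L' - X : K₀[X])).trans
    (IsSplittingField.algEquiv L (X ^ Fintype.card L' - X : K₀[X])).symm
  refine ⟨e ω, ?_⟩
  have h3 := congrArg e hω
  rw [map_add, map_sub, map_mul, map_pow, map_zero, e.commutes, e.commutes, map_neg] at h3
  linear_combination h3

end root

section minus

universe u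

variable {F : Type u} [Field F] [Fintype F] {m : ℕ} {a b : F} {K : Type*} [Field K] [Fintype K] [Algebra F K]

/-- A quadratic extension splits the form. -/
lemma exists_lagr_ext (hab : ∀ z₁ z₂ : F, z₁ ^ 2 + a * z₁ * z₂ + b * z₂ ^ 2 = 0 → z₁ = 0 ∧ z₂ = 0) (hK : finrank F K = 2) :
    ∃ U₀, IsLagr (Qminus m K (algebraMap F K a) (algebraMap F K b)) (m + 1) U₀ := by
  obtain ⟨ω, hω⟩ := exists_root_quad hK a b hab
  exact ⟨_, lagr_ext hω⟩

/-- In characteristic two, the property of preserving the classes over a quadratic extension does not depend on the extension. -/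
lemma RK_minus_char2 (hm : 3 ≤ m) (h2 : (2 : F) = 0) (hab : ∀ z₁ z₂ : F, z₁ ^ 2 + a * z₁ * z₂ + b * z₂ ^ 2 = 0 → z₁ = 0 ∧ z₂ = 0) (hK : finrank F K = 2)
    (g : Sim (⇑(Qminus m F a b))) :
    RK (Qminus m K (algebraMap F K a) (algebraMap F K b)) Qminus_extK g ↔
      ∃ (c : Fˣ) (L : List (NS (Qminus m F a b))), g = scal _ c * isoSim (isoL _ L) ∧ Even L.length := by
  classical
  have hQK : (P (Qminus m K (algebraMap F K a) (algebraMap F K b))).Nondegenerate := nondeg_ext a b hab
  have hV : finrank K ((Fin m ⊕ Fin m) ⊕ Fin 2 → K) = 2 * (m + 1) := by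
    simp [Module.finrank_fintype_fun_eq_card]
    ring
  haveI hND : ND (Qminus m K (algebraMap F K a) (algebraMap F K b)) := ⟨hQK, by omega⟩
  obtain ⟨U₀, hU₀⟩ := exists_lagr_ext (m := m) hab hK
  have hrk : Fintype.card K ≠ 2 ∨ finrank K ((Fin m ⊕ Fin m) ⊕ Fin 2 → K) ≠ 4 := Or.inr (by omega)
  have hQ := Qminus_nondeg hab m
  have hfr : finrank F ((Fin m ⊕ Fin m) ⊕ Fin 2 → F) = m + m + 2 := by
    simp [Module.finrank_fintype_fun_eq_card]
  obtain ⟨v, hv⟩ : ∃ v, Qminus m F a b v ≠ 0 := by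
    haveI : ND (Qminus m F a b) := ⟨hQ, by omega⟩
    exact exists_ne_zero
  have hne : ∃ v, Qminus m F a b v ≠ 0 := ⟨v, hv⟩
  haveI : CharP F 2 := CharTwo.of_one_ne_zero_of_two_eq_zero one_ne_zero h2
  have hring : ringChar F = 2 := ringChar.eq F 2
  obtain ⟨c, k, hgk, hk⟩ := exists_scal_mul (hne := hne) g ((aa_eq_one_iff g).2 (FiniteField.isSquare_of_char_two hring _))
  let k' : Cfsg.isometryGroup F (⇑(Qminus m F a b)) := ⟨k.1, hk⟩
  obtain ⟨L, hL⟩ := exists_prodL hQ (Or.inr (by omega)) (toOG _ k')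
  have hkL : k = isoSim (isoL _ L) := by
    have : k' = isoL _ L := (toOG _).injective (by rw [hL, toOG_isoL])
    rw [← this]
    rfl
  constructor
  · intro h
    refine ⟨c, L, by rw [hgk, hkL], ?_⟩
    rw [hgk, RK_scal_mul Qminus_extK hQK hrk hV hU₀, hkL, RK_isoL Qminus_extK hQK hrk hV hU₀] at h
    exact h
  · rintro ⟨c', L', rfl, h⟩
    rw [RK_scal_mul Qminus_extK hQK hrk hV hU₀, RK_isoL Qminus_extK hQK hrk hV hU₀]
    exact h

end minus

end Cfsg.Agent.Lib.AutPO
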