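import Mathlib
import Cfsg.Agent.Lib.AutPO.CentrOdd
import Cfsg.Agent.Lib.AutPO.PscExt

/-!
Centralizers of semisimilarities of prime order in the inner-diagonal groups of the even-dimensional orthogonal groups.
-/

set_option autoImplicit false
set_option linter.unusedSectionVars false
set_option linter.unusedVariables false

open scoped Matrix

namespace Cfsg.Agent.Lib.AutPO

open Cfsg.Agent.Lib.Classical Cfsg.Agent.Lib.Classical.Witt Cfsg.Agent.Lib.Classical.Abs Cfsg.Agent.Lib.Classical.Orth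
open Cfsg.Agent.Lib.Known3.SimAut Cfsg.Agent.Lib.Known3.OmegaTrans Cfsg.Agent.Lib.Known3.OmegaCalc
open Cfsg.Agent.Lib.Known3.Spinor Cfsg.Agent.Lib.Known3.OmegaSum Cfsg.Agent.Lib.Known3.QuadIso Cfsg.Agent.Lib.Known3.QuadStd
open scoped commutatorElement
open Module Ln

local notation "P" => QuadraticMap.polarBilin
local notation "GLn" => Matrix.GeneralLinearGroup

section parpred

variable {ι : Type} [Fintype ι] [DecidableEq ι] {F : Type*} [Field F] [Fintype F]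

/-- A parity predicate on matrices. -/
structure ParPred (Q : QuadraticForm F (ι → F)) (R : Matrix ι ι F → Prop) : Prop where
  hmul : ∀ g h : Sim (⇑Q), R (g * h).1.1 ↔ (R h.1.1 ↔ R g.1.1)
  hscal : ∀ c : Fˣ, R (scal Q c).1.1
  hrefl : ∀ (v : ι → F) (hv : Q v ≠ 0), ¬ R (isoSim (reflIso Q v hv)).1.1

/-- The subgroup of automorphisms attached to a predicate on matrices. -/
abbrev GR (q : (ι → F) → F) (R : Matrix ι ι F → Prop) : Subgroup (MulAut (Cfsg.POmega F q)) :=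
  Cfsg.autSubgroupOf (fun β => ∃ g : GLn ι F, g ∈ Cfsg.Geo.quadSimilarityGroup (F := F) q ∧ R g ∧
    Cfsg.IsInducedBySemilinearPOmega q g (RingEquiv.refl F) β)

namespace ParPred

variable {Q : QuadraticForm F (ι → F)} {R : Matrix ι ι F → Prop}

lemma scal_one : scal Q (1 : Fˣ) = 1 := by
  apply Subtype.ext
  apply Units.ext
  change ((1 : Fˣ) : F) • (1 : Matrix ι ι F) = 1
  simp

lemma one (hP : ParPred Q R) : R (1 : Sim (⇑Q)).1.1 := by
  have h := hP.hscal 1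
  rwa [scal_one] at h

lemma inv (hP : ParPred Q R) (g : Sim (⇑Q)) (h : R g.1.1) : R (g⁻¹).1.1 := by
  have h1 := (hP.hmul g⁻¹ g).1 (by
    rw [inv_mul_cancel]
    exact hP.one)
  exact h1.1 h

lemma scal_mul (hP : ParPred Q R) (c : Fˣ) (g : Sim (⇑Q)) : R (scal Q c * g).1.1 ↔ R g.1.1 := by
  rw [hP.hmul]
  have := hP.hscal c
  tauto

lemma isoL' (hP : ParPred Q R) (L : List (NS Q)) : R (isoSim (isoL Q L)).1.1 ↔ Even L.length := by
  induction L with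
  | nil =>
    rw [isoL_nil]
    simp only [List.length_nil, Even.zero, iff_true]
    exact hP.one
  | cons v L ih =>
    rw [isoL_cons, List.length_cons, Nat.even_add_one]
    have h1 : isoSim (reflIso Q v.1 v.2 * isoL Q L) = isoSim (reflIso Q v.1 v.2) * isoSim (isoL Q L) := rfl
    rw [h1, hP.hmul, ih]
    have := hP.hrefl v.1 v.2
    tauto

/-- The subgroup of similarities attached to a predicate. -/
def sub (hP : ParPred Q R) : Subgroup (Sim (⇑Q)) where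
  carrier := {g | R g.1.1}
  one_mem' := hP.one
  mul_mem' := by
    intro a b ha hb
    have ha' : R a.1.1 := ha
    have hb' : R b.1.1 := hb
    change R (a * b).1.1
    rw [hP.hmul]
    tauto
  inv_mem' := by
    intro a ha
    exact hP.inv a ha

lemma mem_sub (hP : ParPred Q R) (g : Sim (⇑Q)) : g ∈ hP.sub ↔ R g.1.1 := Iff.rfl

lemma mem_GR (hP : ParPred Q R) (β : MulAut (Cfsg.POmega F (⇑Q))) : β ∈ GR (⇑Q) R ↔ ∃ g : Sim (⇑Q), R g.1.1 ∧ Ψ (⇑Q) g = β := by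
  constructor
  · intro h
    exact mem_closure_induced hP.one (fun g h hg hh => by
      rw [hP.hmul]
      tauto) hP.inv h
  · rintro ⟨g, hg, rfl⟩
    exact Subgroup.subset_closure ⟨g.1, g.2, hg, Ψ_induced _ g⟩

lemma GR_le_pgo (hP : ParPred Q R) : GR (⇑Q) R ≤ Cfsg.pgoAut F (⇑Q) := by
  intro β hβ
  obtain ⟨g, -, rfl⟩ := (hP.mem_GR β).1 hβ
  rw [pgoAut_eq]
  exact mem_img.2 ⟨g, g.2, rfl⟩

end ParPred

end parpred

section instances

variable {ι : Type} [Fintype ι] [DecidableEq ι] {F : Type*} [Field F] [Fintype F] {Q : QuadraticForm F (ι → F)}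

/-- Preservation of classes is a parity predicate. -/
lemma parPred_psc [hND : ND Q] (hQ : (P Q).Nondegenerate) (hrk : Fintype.card F ≠ 2 ∨ finrank F (ι → F) ≠ 4) {n : ℕ} (hV : finrank F (ι → F) = 2 * n)
    {U₀ : Submodule F (ι → F)} (hU₀ : IsLagr Q n U₀) : ParPred Q (Cfsg.PreservesSingularClasses (⇑Q)) where
  hmul g h := psc_mul_iff hQ hrk hV hU₀ g h
  hscal c := by
    rw [psc_iff_par hQ hV hU₀]
    intro U hU
    rw [scal_coe, image_scal _ (Units.ne_zero c)]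
    have h2 : Cfsg.imageSubmodule (1 : Matrix ι ι F) U = U := by
      ext x
      simp [Cfsg.imageSubmodule]
    rw [h2]
    exact par_self hU.dim
  hrefl v hv := not_psc_refl hQ hrk hV hU₀ v hv

variable {K : Type*} [Field K] [Fintype K] [Algebra F K] {QK : QuadraticForm K (ι → K)} [hND : ND QK]

/-- Preservation of classes over an extension is a parity predicate. -/
lemma parPred_RK (hext : ∀ v, QK (extK v) = algebraMap F K (Q v)) (hQ : (P QK).Nondegenerate) (hrk : Fintype.card K ≠ 2 ∨ finrank K (ι → K) ≠ 4) {n : ℕ} (hV : finrank K (ι → K) = 2 * n)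
    {U₀ : Submodule K (ι → K)} (hU₀ : IsLagr QK n U₀) : ParPred Q (fun M => Cfsg.PreservesSingularClasses (⇑QK) (M.map (algebraMap F K))) where
  hmul g h := RK_mul hext hQ hrk hV hU₀ g h
  hscal c := RK_scal hext hQ hrk hV hU₀ c
  hrefl v hv := RK_refl hext hQ hrk hV hU₀ v hv

end instances

section minus

universe u

variable {F : Type u} [Field F] [Fintype F] {m : ℕ} {a b : F}

/-- The class-preservation predicate of the minus-type form is a parity predicate. -/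
lemma parPred_minus (hm : 3 ≤ m) (hab : ∀ z₁ z₂ : F, z₁ ^ 2 + a * z₁ * z₂ + b * z₂ ^ 2 = 0 → z₁ = 0 ∧ z₂ = 0) :
    ParPred (Qminus m F a b) (Cfsg.PreservesSingularClassesMinus m a b) := by
  classical
  obtain ⟨K, iK, iA, ω, hK, hω⟩ := exists_quad' a b hab
  haveI : Finite K := finite_ext hK
  letI : Fintype K := Fintype.ofFinite K
  have hQK : (P (Qminus m K (algebraMap F K a) (algebraMap F K b))).Nondegenerate := nondeg_ext a b hab
  have hV : finrank K ((Fin m ⊕ Fin m) ⊕ Fin 2 → K) = 2 * (m + 1) := by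
    simp [Module.finrank_fintype_fun_eq_card]
    ring
  haveI hND : ND (Qminus m K (algebraMap F K a) (algebraMap F K b)) := ⟨hQK, by omega⟩
  have hU₀ := lagr_ext (m := m) (θ := -ω) (a' := algebraMap F K a) (b' := algebraMap F K b) (by linear_combination hω)
  have hrk : Fintype.card K ≠ 2 ∨ finrank K ((Fin m ⊕ Fin m) ⊕ Fin 2 → K) ≠ 4 := Or.inr (by omega)
  have h0 := parPred_RK (Q := Qminus m F a b) (QK := Qminus m K (algebraMap F K a) (algebraMap F K b)) Qminus_extK hQK hrk hV hU₀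
  have hiff : ∀ g : Sim (⇑(Qminus m F a b)), Cfsg.PreservesSingularClassesMinus m a b g.1.1 ↔
      Cfsg.PreservesSingularClasses (⇑(Qminus m K (algebraMap F K a) (algebraMap F K b))) (g.1.1.map (algebraMap F K)) := by
    intro g
    constructor
    · rintro ⟨K', iK', iA', hK', hp⟩
      rw [← coe_Qminus] at hp
      haveI : Finite K' := finite_ext hK'
      letI : Fintype K' := Fintype.ofFinite K'
      by_cases h2 : (2 : F) = 0
      · have h3 := (RK_minus_char2 hm h2 hab hK' g).1 hp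
        exact (RK_minus_char2 hm h2 hab hK g).2 h3
      · have h3 := (psc_ext a b hab hK' h2 g).1 hp
        exact (psc_ext a b hab hK h2 g).2 h3
    · intro h
      refine ⟨K, iK, iA, hK, ?_⟩
      rw [← coe_Qminus]
      exact h
  refine ⟨fun g h => ?_, fun c => ?_, fun v hv => ?_⟩
  · rw [hiff, hiff, hiff]
    exact h0.hmul g h
  · rw [hiff]
    exact h0.hscal c
  · rw [hiff]
    exact h0.hrefl v hv

end minus

section lift

variable {ι κ : Type} [Fintype ι] [DecidableEq ι] [Fintype κ] [DecidableEq κ] {F : Type*} [Field F] [Fintype F]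
  {Q : QuadraticForm F (ι → F)} [hND : ND Q] {σ : F ≃+* F} {S : SS Q} {Q' : QuadraticForm F (κ → F)}
  {K₀ : Type*} [Field K₀] [Fintype K₀] [Algebra K₀ F] {Q₀ : QuadraticForm K₀ (κ → K₀)}

namespace Mdl

variable (M : Mdl σ S Q')

lemma cj_det (g : GLn κ F) : ((M.cj g : GLn ι F) : Matrix ι ι F).det = (g : Matrix κ κ F).det := by
  have h1 : (Matrix.toLin' ((M.cj g : GLn ι F) : Matrix ι ι F)) =
      ((M.E : (κ → F) →ₗ[F] (ι → F)) ∘ₗ (Matrix.toLin' (g : Matrix κ κ F)) ∘ₗ (M.E.symm : (ι → F) →ₗ[F] (κ → F))) := by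
    apply LinearMap.ext
    intro v
    obtain ⟨w, rfl⟩ := M.E.surjective v
    simp only [Matrix.toLin'_apply, LinearMap.comp_apply, LinearEquiv.coe_coe, LinearEquiv.symm_apply_apply]
    exact M.cj_apply g w
  rw [← LinearMap.det_toLin', h1, LinearMap.det_conj, LinearMap.det_toLin']

lemma lift_det (hext : ∀ v, Q' (extK v) = algebraMap K₀ F (Q₀ v)) (g₀ : Sim ⇑Q₀) :
    (M.lift hext g₀).1.1.det = algebraMap K₀ F g₀.1.1.det := by
  change ((M.cj (Mdl.extS Q' hext g₀).1 : GLn ι F) : Matrix ι ι F).det = _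
  rw [cj_det, extS_coe, ← RingHom.mapMatrix_apply, ← RingHom.map_det]

lemma lift_mu (hext : ∀ v, Q' (extK v) = algebraMap K₀ F (Q₀ v)) (hne : ∃ v, Q v ≠ 0) (hne₀ : ∃ v, Q₀ v ≠ 0) (g₀ : Sim ⇑Q₀) :
    (mu Q hne (M.lift hext g₀) : F) = algebraMap K₀ F (mu Q₀ hne₀ g₀ : K₀) := by
  have h1 : mu Q hne (M.lift hext g₀) = Units.map (algebraMap K₀ F).toMonoidHom (mu Q₀ hne₀ g₀) := by
    apply mu_unique
    intro v
    obtain ⟨w, rfl⟩ := M.E.surjective v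
    rw [lift_apply, M.hq, M.hq, sim_extK hext g₀.1.1 (mu Q₀ hne₀ g₀ : K₀) (mu_spec hne₀ g₀)]
    simp only [Units.coe_map]
    change _ = algebraMap K₀ F _ * _
    ring
  rw [h1]
  rfl

variable (hext : ∀ v, Q' (extK v) = algebraMap K₀ F (Q₀ v))

lemma lift_eps {hne : ∃ v, Q v ≠ 0} {hne₀ : ∃ v, Q₀ v ≠ 0} {hQ : (P Q).Nondegenerate} {hQ₀ : (P Q₀).Nondegenerate} {h2 : (2 : F) ≠ 0} {h2₀ : (2 : K₀) ≠ 0} {h : ℕ}
    {hc : Fintype.card ι = 2 * h} {hc₀ : Fintype.card κ = 2 * h} (g₀ : Sim ⇑Q₀) :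
    eps Q hne hQ h2 hc (M.lift hext g₀) = 1 ↔ eps Q₀ hne₀ hQ₀ h2₀ hc₀ g₀ = 1 := by
  rw [eps_eq_one_iff, eps_eq_one_iff, lift_det, lift_mu M hext hne hne₀, ← map_pow]
  exact ((algebraMap K₀ F).injective).eq_iff

/-- In characteristic two: parity predicates agree on the lifts. -/
theorem lift_char2 [hND₀ : ND Q₀] {R : Matrix ι ι F → Prop} {R₀ : Matrix κ κ K₀ → Prop} (hP : ParPred Q R) (hP₀ : ParPred Q₀ R₀) (h2₀ : (2 : K₀) = 0) (hQ₀ : (P Q₀).Nondegenerate)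
    (hrk₀ : Fintype.card K₀ ≠ 2 ∨ finrank K₀ (κ → K₀) ≠ 4) (hne₀ : ∃ v, Q₀ v ≠ 0) (g₀ : Sim ⇑Q₀) : R (M.lift hext g₀).1.1 ↔ R₀ g₀.1.1 := by
  classical
  haveI : CharP K₀ 2 := CharTwo.of_one_ne_zero_of_two_eq_zero one_ne_zero h2₀
  have hring : ringChar K₀ = 2 := ringChar.eq K₀ 2
  obtain ⟨c, k, rfl, hk⟩ := exists_scal_mul (hne := hne₀) g₀ ((aa_eq_one_iff g₀).2 (FiniteField.isSquare_of_char_two hring _))
  let k' : Cfsg.isometryGroup K₀ (⇑Q₀) := ⟨k.1, hk⟩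
  obtain ⟨L, hL⟩ := exists_prodL hQ₀ hrk₀ (toOG _ k')
  have hkL : k = isoSim (isoL _ L) := by
    have : k' = isoL _ L := (toOG _).injective (by rw [hL, toOG_isoL])
    rw [← this]
    rfl
  rw [hkL, map_mul, lift_scal, hP.scal_mul, lift_isoL, hP.isoL', hP₀.scal_mul, hP₀.isoL', length_mapL]

end Mdl

end lift

section centr

variable {ι κ : Type} [Fintype ι] [DecidableEq ι] [Fintype κ] [DecidableEq κ] {F : Type*} [Field F] [Fintype F]
  {Q : QuadraticForm F (ι → F)} [hND : ND Q] {σ : F ≃+* F} {S : SS Q} {Q' : QuadraticForm F (κ → F)}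
  {K₀ : Type*} [Field K₀] [Fintype K₀] [Algebra K₀ F] {Q₀ : QuadraticForm K₀ (κ → K₀)} [hND₀ : ND Q₀]
  {R : Matrix ι ι F → Prop} {R₀ : Matrix κ κ K₀ → Prop}

namespace Mdl

variable (M : Mdl σ S Q') (hext : ∀ v, Q' (extK v) = algebraMap K₀ F (Q₀ v))

/-- Elements of the centralizer in terms of lifts. -/
lemma mem_centr_even (hfix : ∀ t, σ t = t ↔ t ∈ (algebraMap K₀ F).range) {r : ℕ} (hord : orderOf σ = r) (hr0 : r ≠ 0)
    (hP : ParPred Q R) (hlift : ∀ g₀ : Sim ⇑Q₀, R (M.lift hext g₀).1.1 ↔ R₀ g₀.1.1) (β : MulAut (Cfsg.POmega F (⇑Q))) :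
    β ∈ GR (⇑Q) R ⊓ Subgroup.centralizer {act S} ↔ ∃ g₀ : Sim ⇑Q₀, R₀ g₀.1.1 ∧ Ψ (⇑Q) (M.lift hext g₀) = β := by
  rw [Subgroup.mem_inf, hP.mem_GR]
  exact M.mem_centr_iff hext hfix hord hr0 (exists_ne_zero (Q := Q₀)) (fun g => R g.1.1) (fun g₀ => R₀ g₀.1.1) (fun c g => hP.scal_mul c g) hlift β

/-- The centralizer in the inner-diagonal group. -/
theorem centr_even (hfix : ∀ t, σ t = t ↔ t ∈ (algebraMap K₀ F).range) {r : ℕ} (hord : orderOf σ = r) (hr0 : r ≠ 0)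
    (hP : ParPred Q R) (hP₀ : ParPred Q₀ R₀) (hlift : ∀ g₀ : Sim ⇑Q₀, R (M.lift hext g₀).1.1 ↔ R₀ g₀.1.1) :
    Nonempty (↥(GR (⇑Q) R ⊓ Subgroup.centralizer {act S}) ≃* ↥(GR (⇑Q₀) R₀)) := by
  apply M.centr_iso hext hP₀.sub
  · intro β
    rw [M.mem_centr_even hext hfix hord hr0 hP hlift]
    rfl
  · intro β
    rw [hP₀.mem_GR]
    rfl

end Mdl

end centr

section count

lemma count_one_of_cover {X : Type*} [Group X] (H K : Subgroup X) (hKH : K ≤ H) (hn : ∀ h ∈ H, ∀ k ∈ K, h * k * h⁻¹ ∈ K) (x : X)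
    (hc : ∀ β ∈ H, β ∈ K ⊔ (H ⊓ Subgroup.centralizer {x})) : Cfsg.splitClassCount H K x = 1 := by
  rw [split_index H K hKH hn x, Subgroup.index_eq_one, eq_top_iff]
  rintro ⟨β, hβ⟩ -
  exact Subgroup.mem_subgroupOf.2 (hc β hβ)

variable {ι κ : Type} [Fintype ι] [DecidableEq ι] [Fintype κ] [DecidableEq κ] {F : Type*} [Field F] [Fintype F]
  {Q : QuadraticForm F (ι → F)} [hND : ND Q] {σ : F ≃+* F} {S : SS Q} {Q' : QuadraticForm F (κ → F)}
  {K₀ : Type*} [Field K₀] [Fintype K₀] [Algebra K₀ F] {Q₀ : QuadraticForm K₀ (κ → K₀)} [hND₀ : ND Q₀]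
  {R : Matrix ι ι F → Prop} {R₀ : Matrix κ κ K₀ → Prop}

lemma ParPred.inn_le (hP : ParPred Q R) (hQ : (P Q).Nondegenerate) (hrk : Fintype.card F ≠ 2 ∨ finrank F (ι → F) ≠ 4) :
    Cfsg.Inn (Cfsg.POmega F (⇑Q)) ≤ GR (⇑Q) R := by
  intro β hβ
  rw [Inn_eq] at hβ
  obtain ⟨g, ⟨ω, hω, hωg⟩, rfl⟩ := mem_img.1 hβ
  have hgω : g = isoSim ω := Subtype.ext hωg.symm
  subst hgω
  rw [hP.mem_GR]
  refine ⟨isoSim ω, ?_, rfl⟩
  obtain ⟨L, hL⟩ := exists_prodL hQ hrk (toOG _ ω)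
  have h1 : ω = isoL _ L := (toOG _).injective (by rw [hL, toOG_isoL])
  subst h1
  rw [hP.isoL']
  have hω' : isoL Q L ∈ Cfsg.Omega F (⇑Q) := hω
  rw [mem_Omega_iff, toOG_isoL] at hω'
  by_cases h2 : (2 : F) = 0
  · exact (mem_comm_even h2 hQ hrk L).1 hω'
  · exact ((mem_comm_odd h2 hQ L).1 hω').1

lemma inn_of_Omega (ω : Cfsg.isometryGroup F (⇑Q)) (hω : ω ∈ Cfsg.Omega F (⇑Q)) : Ψ (⇑Q) (isoSim ω) ∈ Cfsg.Inn (Cfsg.POmega F (⇑Q)) := by
  rw [Inn_eq]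
  exact mem_img.2 ⟨_, ⟨ω, hω, rfl⟩, rfl⟩

/-- In characteristic two the inner-diagonal group is the inner automorphism group. -/
lemma ParPred.le_inn_char2 (hP : ParPred Q R) (hQ : (P Q).Nondegenerate) (hrk : Fintype.card F ≠ 2 ∨ finrank F (ι → F) ≠ 4) (h2 : (2 : F) = 0) :
    GR (⇑Q) R ≤ Cfsg.Inn (Cfsg.POmega F (⇑Q)) := by
  classical
  intro β hβ
  obtain ⟨g, hg, rfl⟩ := (hP.mem_GR β).1 hβ
  haveI : CharP F 2 := CharTwo.of_one_ne_zero_of_two_eq_zero one_ne_zero h2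
  have hring : ringChar F = 2 := ringChar.eq F 2
  obtain ⟨c, k, rfl, hk⟩ := exists_scal_mul (hne := exists_ne_zero (Q := Q)) g ((aa_eq_one_iff g).2 (FiniteField.isSquare_of_char_two hring _))
  let k' : Cfsg.isometryGroup F (⇑Q) := ⟨k.1, hk⟩
  obtain ⟨L, hL⟩ := exists_prodL hQ hrk (toOG _ k')
  have hkL : k = isoSim (isoL _ L) := by
    have : k' = isoL _ L := (toOG _).injective (by rw [hL, toOG_isoL])
    rw [← this]
    rfl
  subst hkL
  rw [hP.scal_mul, hP.isoL'] at hg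
  rw [map_mul, Ψ_scal, one_mul]
  apply inn_of_Omega
  rw [mem_Omega_iff, toOG_isoL, mem_comm_even h2 hQ hrk]
  exact hg

namespace Mdl

variable (M : Mdl σ S Q') (hext : ∀ v, Q' (extK v) = algebraMap K₀ F (Q₀ v))

open scoped _root_.Classical in
lemma nonsq_mul_nonsq (h2 : (2 : F) ≠ 0) {u v : F} (hu0 : u ≠ 0) (hv0 : v ≠ 0) (hu : ¬ IsSquare u) (hv : ¬ IsSquare v) : IsSquare (u * v) := by
  have hchar : ringChar F ≠ 2 := by
    intro h
    apply h2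
    have := ringChar.Nat.cast_ringChar (R := F)
    rw [h] at this
    exact_mod_cast this
  rw [← quadraticChar_one_iff_isSquare (mul_ne_zero hu0 hv0), map_mul, quadraticChar_neg_one_iff_not_isSquare.2 hu, quadraticChar_neg_one_iff_not_isSquare.2 hv]
  norm_num

/-- Covering when the multiplier is a square. -/
lemma cover_sq (hfix : ∀ t, σ t = t ↔ t ∈ (algebraMap K₀ F).range) {r : ℕ} (hord : orderOf σ = r) (hr0 : r ≠ 0) (h2 : (2 : F) ≠ 0) (hQ : (P Q).Nondegenerate) (hQ₀ : (P Q₀).Nondegenerate)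
    (hP : ParPred Q R) (hP₀ : ParPred Q₀ R₀) (hlift : ∀ g₀ : Sim ⇑Q₀, R (M.lift hext g₀).1.1 ↔ R₀ g₀.1.1)
    (h2₀ : (2 : K₀) ≠ 0) (hfr₀ : 2 ≤ finrank K₀ (κ → K₀)) (ν₀ : K₀) (hν₀0 : ν₀ ≠ 0) (hν₀ : ¬ IsSquare (algebraMap K₀ F ν₀))
    (g : Sim (⇑Q)) (hg : R g.1.1) (hsq : IsSquare (mu Q (exists_ne_zero (Q := Q)) g : F)) :
    Ψ (⇑Q) g ∈ Cfsg.Inn (Cfsg.POmega F (⇑Q)) ⊔ (GR (⇑Q) R ⊓ Subgroup.centralizer {act S}) := by
  classical
  obtain ⟨c, k, rfl, hk⟩ := exists_scal_mul (hne := exists_ne_zero (Q := Q)) g ((aa_eq_one_iff g).2 hsq)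
  let k' : Cfsg.isometryGroup F (⇑Q) := ⟨k.1, hk⟩
  obtain ⟨L, hL⟩ := exists_list_of h2 hQ k'
  have hkL : k = isoSim (isoL _ L) := by
    have : k' = isoL _ L := (toOG _).injective (by rw [hL, toOG_isoL])
    rw [← this]
    rfl
  subst hkL
  rw [hP.scal_mul, hP.isoL'] at hg
  rw [map_mul, Ψ_scal, one_mul]
  by_cases hprod : IsSquare (L.map (fun v => Q v.1)).prod
  · apply (le_sup_left : Cfsg.Inn (Cfsg.POmega F (⇑Q)) ≤ _)
    apply inn_of_Omega
    rw [mem_Omega_iff, toOG_isoL, mem_comm_odd h2 hQ]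
    exact ⟨hg, hprod⟩
  · obtain ⟨u, hu⟩ := exists_Q_eq (c := 1) h2₀ hQ₀ hfr₀
    obtain ⟨w, hw⟩ := exists_Q_eq (c := ν₀) h2₀ hQ₀ hfr₀
    let L₀ : List (NS Q₀) := [⟨u, by rw [hu]; exact one_ne_zero⟩, ⟨w, by rw [hw]; exact hν₀0⟩]
    have hL₀2 : L₀.length = 2 := rfl
    have hL₀p : (L₀.map (fun v => Q₀ v.1)).prod = ν₀ := by
      simp [L₀, hu, hw]
    set L' := M.mapL hext L₀ with hL'
    have hL'Ω : isoL Q (L ++ L') ∈ Cfsg.Omega F (⇑Q) := by
      rw [mem_Omega_iff, toOG_isoL, mem_comm_odd h2 hQ]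
      refine ⟨?_, ?_⟩
      · rw [List.length_append, hL', length_mapL, hL₀2]
        exact hg.add (by norm_num)
      · rw [List.map_append, List.prod_append, hL', prod_mapL, hL₀2, hL₀p]
        have h5 : IsSquare ((L.map (fun v => Q v.1)).prod * algebraMap K₀ F ν₀) := by
          apply nonsq_mul_nonsq h2 (prod_ne_zero L) (by simpa using hν₀0) hprod hν₀
        obtain ⟨s, hs⟩ := h5
        refine ⟨s * (M.z : F), ?_⟩
        linear_combination ((M.z : F) ^ 2) * hs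
    have h6 : isoL Q (L ++ L') = isoL Q L * isoL Q L' := by
      apply (toOG Q).injective
      rw [map_mul, toOG_isoL, toOG_isoL, toOG_isoL, prodL_append]
    have h7 : isoSim (isoL Q L) = isoSim (isoL Q (L ++ L')) * (isoSim (isoL Q L'))⁻¹ := by
      rw [h6]
      have : isoSim (isoL Q L * isoL Q L') = isoSim (isoL Q L) * isoSim (isoL Q L') := rfl
      rw [this, mul_inv_cancel_right]
    rw [h7, map_mul]
    apply Subgroup.mul_mem
    · exact (le_sup_left : Cfsg.Inn (Cfsg.POmega F (⇑Q)) ≤ _) (inn_of_Omega _ hL'Ω)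
    · apply (le_sup_right : _ ≤ Cfsg.Inn (Cfsg.POmega F (⇑Q)) ⊔ _)
      rw [map_inv]
      apply Subgroup.inv_mem
      rw [M.mem_centr_even hext hfix hord hr0 hP hlift]
      refine ⟨isoSim (isoL Q₀ L₀), ?_, ?_⟩
      · rw [hP₀.isoL', hL₀2]
        exact even_two
      · rw [lift_isoL]

/-- Covering when the degree is odd. -/
theorem cover_odd (hfix : ∀ t, σ t = t ↔ t ∈ (algebraMap K₀ F).range) {r : ℕ} (hord : orderOf σ = r) (hodd : Odd r) (h2 : (2 : F) ≠ 0) (hQ : (P Q).Nondegenerate) (hQ₀ : (P Q₀).Nondegenerate)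
    (hP : ParPred Q R) (hP₀ : ParPred Q₀ R₀) (hlift : ∀ g₀ : Sim ⇑Q₀, R (M.lift hext g₀).1.1 ↔ R₀ g₀.1.1)
    (hfr₀ : 2 ≤ finrank K₀ (κ → K₀)) (d₀ : Sim ⇑Q₀) (hd₀ : R₀ d₀.1.1) (hd₀μ : ¬ IsSquare (mu Q₀ (exists_ne_zero (Q := Q₀)) d₀ : K₀)) (g : Sim (⇑Q)) (hg : R g.1.1) :
    Ψ (⇑Q) g ∈ Cfsg.Inn (Cfsg.POmega F (⇑Q)) ⊔ (GR (⇑Q) R ⊓ Subgroup.centralizer {act S}) := by
  classical
  have hr0 : r ≠ 0 := by
    obtain ⟨k, hk⟩ := hodd
    omega
  have h2₀ : (2 : K₀) ≠ 0 := by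
    intro h
    apply h2
    have := congrArg (algebraMap K₀ F) h
    rwa [map_ofNat, map_zero] at this
  set ν₀ : K₀ := (mu Q₀ (exists_ne_zero (Q := Q₀)) d₀ : K₀) with hν₀
  have hν₀0 : ν₀ ≠ 0 := Units.ne_zero _
  have hν₁ : ¬ IsSquare (algebraMap K₀ F ν₀) := fun h => hd₀μ (nonsq_ext hfix hord hodd hν₀0 h)
  have hcov := M.cover_sq hext hfix hord hr0 h2 hQ hQ₀ hP hP₀ hlift h2₀ hfr₀ ν₀ hν₀0 hν₁
  by_cases hsq : IsSquare (mu Q (exists_ne_zero (Q := Q)) g : F)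
  · exact hcov g hg hsq
  · set d := M.lift hext d₀ with hd
    have hdμ : (mu Q (exists_ne_zero (Q := Q)) d : F) = algebraMap K₀ F ν₀ := M.lift_mu hext _ _ d₀
    have hRd : R d.1.1 := (hlift d₀).2 hd₀
    have h3 : R (g * d⁻¹).1.1 := by
      rw [hP.hmul]
      have := hP.inv d hRd
      tauto
    have h4 : IsSquare (mu Q (exists_ne_zero (Q := Q)) (g * d⁻¹) : F) := by
      rw [map_mul, map_inv, Units.val_mul, Units.val_inv_eq_inv_val, hdμ]
      have h5 := nonsq_mul_nonsq h2 (Units.ne_zero _) (inv_ne_zero (show algebraMap K₀ F ν₀ ≠ 0 by simpa using hν₀0)) hsq (fun h => hν₁ (by simpa using h.inv))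
      exact h5
    have h5 := hcov _ h3 h4
    have h6 : g = (g * d⁻¹) * d := by group
    rw [h6, map_mul]
    apply Subgroup.mul_mem _ h5
    apply (le_sup_right : _ ≤ Cfsg.Inn (Cfsg.POmega F (⇑Q)) ⊔ _)
    rw [M.mem_centr_even hext hfix hord hr0 hP hlift]
    exact ⟨d₀, hd₀, rfl⟩

/-- The count in odd degree. -/
theorem count_odd (hfix : ∀ t, σ t = t ↔ t ∈ (algebraMap K₀ F).range) {r : ℕ} (hord : orderOf σ = r) (hodd : Odd r) (h2 : (2 : F) ≠ 0) (hQ : (P Q).Nondegenerate) (hQ₀ : (P Q₀).Nondegenerate)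
    (hrk : Fintype.card F ≠ 2 ∨ finrank F (ι → F) ≠ 4)
    (hP : ParPred Q R) (hP₀ : ParPred Q₀ R₀) (hlift : ∀ g₀ : Sim ⇑Q₀, R (M.lift hext g₀).1.1 ↔ R₀ g₀.1.1)
    (hfr₀ : 2 ≤ finrank K₀ (κ → K₀)) (d₀ : Sim ⇑Q₀) (hd₀ : R₀ d₀.1.1) (hd₀μ : ¬ IsSquare (mu Q₀ (exists_ne_zero (Q := Q₀)) d₀ : K₀)) :
    Cfsg.splitClassCount (GR (⇑Q) R) (Cfsg.Inn (Cfsg.POmega F (⇑Q))) (act S) = 1 := by
  apply count_one_of_cover _ _ (hP.inn_le hQ hrk) (fun h _ k hk => inn_normal h k hk)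
  intro β hβ
  obtain ⟨g, hg, rfl⟩ := (hP.mem_GR β).1 hβ
  exact M.cover_odd hext hfix hord hodd h2 hQ hQ₀ hP hP₀ hlift hfr₀ d₀ hd₀ hd₀μ g hg

end Mdl

/-- The count in characteristic two. -/
theorem count_char2 (hP : ParPred Q R) (hQ : (P Q).Nondegenerate) (hrk : Fintype.card F ≠ 2 ∨ finrank F (ι → F) ≠ 4) (h2 : (2 : F) = 0) (x : MulAut (Cfsg.POmega F (⇑Q))) :
    Cfsg.splitClassCount (GR (⇑Q) R) (Cfsg.Inn (Cfsg.POmega F (⇑Q))) x = 1 := by
  apply count_one_of_cover _ _ (hP.inn_le hQ hrk) (fun h _ k hk => inn_normal h k hk)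
  intro β hβ
  exact (le_sup_left : Cfsg.Inn (Cfsg.POmega F (⇑Q)) ≤ _) (hP.le_inn_char2 hQ hrk h2 hβ)

end count

end Cfsg.Agent.Lib.AutPO
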