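import Mathlib
import Cfsg.Agent.Lib.AutPO.CentrEven

/-!
Class counts for semisimilarities of order two.
-/

set_option autoImplicit false
set_option linter.unusedSectionVars false
set_option linter.unusedVariables false

open scoped Matrix

namespace Cfsg.Agent.Lib.AutPO

open Cfsg.Agent.Lib.Classical Cfsg.Agent.Lib.Classical.Witt Cfsg.Agent.Lib.Classical.Abs Cfsg.Agent.Lib.Classical.Orth
open Cfsg.Agent.Lib.Known3.SimAut Cfsg.Agent.Lib.Known3.OmegaTrans Cfsg.Agent.Lib.Known3.OmegaCalc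
open Cfsg.Agent.Lib.Known3.Spinor Cfsg.Agent.Lib.Known3.OmegaSum Cfsg.Agent.Lib.Known3.QuadIso Cfsg.Agent.Lib.Known3.QuadStd
open scoped commutatorElement
open Module Ln

local notation "P" => QuadraticMap.polarBilin
local notation "GLn" => Matrix.GeneralLinearGroup

section abstract

variable {X : Type*} [Group X]

/-- An index computation. -/
lemma index_sup_two (G T H' : Subgroup X) [hT : T.Normal] (hTG : T ≤ G) (hH' : H' ≤ G) (hidx : T.relIndex G = 4) (c : X) (hc : c ∈ H') (hcT : c ∉ T)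
    (hc2 : c * c ∈ T) (hcov : ∀ β ∈ H', β ∈ T ∨ β * c⁻¹ ∈ T) : ((T ⊔ H').subgroupOf G).index = 2 := by
  have hLG : T ⊔ H' ≤ G := sup_le hTG hH'
  have h2 : T.relIndex (T ⊔ H') = 2 := by
    rw [Subgroup.relIndex, Subgroup.index_eq_two_iff]
    have hcL : c ∈ T ⊔ H' := (le_sup_right : H' ≤ _) hc
    refine ⟨⟨c, hcL⟩, ?_⟩
    rintro ⟨b, hb⟩
    simp only [Subgroup.mem_subgroupOf, Subgroup.coe_mul]
    obtain ⟨t, ht, h, hh, rfl⟩ := Subgroup.mem_sup_of_normal_left.1 hb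
    rcases hcov h hh with h3 | h3
    · right
      refine ⟨T.mul_mem ht h3, ?_⟩
      intro h4
      apply hcT
      have h5 : c = (t * h)⁻¹ * (t * h * c) := by group
      rw [h5]
      exact T.mul_mem (T.inv_mem (T.mul_mem ht h3)) h4
    · left
      have h5 : t * h * c = t * (h * c⁻¹) * (c * c) := by group
      refine ⟨by rw [h5]; exact T.mul_mem (T.mul_mem ht h3) hc2, ?_⟩
      intro h4
      apply hcT
      have h6 : c = (h * c⁻¹)⁻¹ * (t⁻¹ * (t * h)) := by group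
      rw [h6]
      exact T.mul_mem (T.inv_mem h3) (T.mul_mem (T.inv_mem ht) h4)
  have h3 := Subgroup.relIndex_mul_relIndex T (T ⊔ H') G le_sup_left hLG
  rw [h2, hidx] at h3
  have h4 : (T ⊔ H').relIndex G = 2 := by omega
  exact h4

end abstract

section squares

variable {F K₀ : Type*} [Field F] [Fintype F] [Field K₀] [Fintype K₀] [Algebra K₀ F] {σ : F ≃+* F}

open Cfsg.Agent.Lib.Known3.FieldAut in
/-- An element of a quadratic extension is a square exactly when its norm is a square. -/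
lemma isSquare_iff_norm (hfix : ∀ t, σ t = t ↔ t ∈ (algebraMap K₀ F).range) (hord : orderOf σ = 2) (hdeg : finrank K₀ F = 2) (h2₀ : (2 : K₀) ≠ 0) {y : F} (hy : y ≠ 0)
    {n : K₀} (hn : algebraMap K₀ F n = y * σ y) : IsSquare y ↔ IsSquare n := by
  have hσ2 : ∀ t, σ (σ t) = t := by
    intro t
    have h1 : σ ^ 2 = 1 := by
      rw [← hord]
      exact pow_orderOf_eq_one σ
    have h2 := congrArg (fun τ : F ≃+* F => τ t) h1
    simpa [pow_two] using h2
  constructor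
  · rintro ⟨w, rfl⟩
    have h1 : σ (w * σ w) = w * σ w := by
      rw [map_mul, hσ2, mul_comm]
    obtain ⟨w₀, hw₀⟩ := (hfix _).1 h1
    refine ⟨w₀, ?_⟩
    apply (algebraMap K₀ F).injective
    rw [hn, map_mul, map_mul, hw₀]
    ring
  · rintro ⟨n₀, rfl⟩
    have hy' : σ y ≠ 0 := by simpa using hy
    have hn₀ : algebraMap K₀ F n₀ ≠ 0 := by
      intro h
      rw [map_mul, h, zero_mul] at hn
      exact mul_ne_zero hy hy' hn.symm
    let lu : Fˣ := Units.mk0 (y / algebraMap K₀ F n₀) (div_ne_zero hy hn₀)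
    have hnu : nu σ 2 lu = 1 := by
      apply Units.ext
      rw [nu_coe]
      simp only [Finset.prod_range_succ, Finset.prod_range_zero, one_mul, pow_zero, pow_one]
      change (1 : F ≃+* F) (y / algebraMap K₀ F n₀) * σ (y / algebraMap K₀ F n₀) = 1
      have h3 : σ (algebraMap K₀ F n₀) = algebraMap K₀ F n₀ := (hfix _).2 ⟨n₀, rfl⟩
      have e1 : (1 : F ≃+* F) (y / algebraMap K₀ F n₀) = y / algebraMap K₀ F n₀ := rfl
      rw [e1, map_div₀, h3]
      rw [map_mul] at hn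
      field_simp
      linear_combination -hn
    obtain ⟨z, hz⟩ := hilbert90_units σ hord (by norm_num) lu hnu
    have hz1 : (lu : F) * σ (z : F) = z := by
      have := congrArg Units.val hz
      simpa using this
    have hz0 : (z : F) ≠ 0 := Units.ne_zero z
    have hz0' : σ (z : F) ≠ 0 := by simpa using hz0
    have h1 : σ ((z : F) * σ z) = (z : F) * σ z := by
      rw [map_mul, hσ2, mul_comm]
    obtain ⟨w₀, hw₀⟩ := (hfix _).1 h1
    obtain ⟨s, hs⟩ := isSquare_base hdeg h2₀ n₀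
    obtain ⟨s', hs'⟩ := isSquare_base hdeg h2₀ w₀
    have hs'0 : s' ≠ 0 := by
      rintro rfl
      rw [mul_zero, hw₀] at hs'
      exact mul_ne_zero hz0 hz0' hs'
    refine ⟨s * z / s', ?_⟩
    have h5 : y = algebraMap K₀ F n₀ * ((z : F) / σ z) := by
      have h6 : (lu : F) = y / algebraMap K₀ F n₀ := rfl
      rw [h6] at hz1
      field_simp at hz1 ⊢
      linear_combination hz1
    have h6 : (z : F) / σ z = z * z / (s' * s') := by
      rw [← hs', hw₀]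
      field_simp
    rw [h5, h6, hs]
    field_simp

end squares

section lists

variable {ι κ : Type} [Fintype ι] [DecidableEq ι] [Fintype κ] [DecidableEq κ] {F : Type*} [Field F] [Fintype F]
  {Q : QuadraticForm F (ι → F)} [hND : ND Q] {σ : F ≃+* F} {S : SS Q} {Q' : QuadraticForm F (κ → F)}

namespace Mdl

variable (M : Mdl σ S Q')

/-- The list of reflections transported. -/
def mapE (L : List (NS Q')) : List (NS Q) := L.map fun v => ⟨M.E v.1, M.Q_E_ne v.2⟩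

lemma length_mapE (L : List (NS Q')) : (M.mapE L).length = L.length := by simp [mapE]

lemma prod_mapE (L : List (NS Q')) :
    ((M.mapE L).map (fun v => Q v.1)).prod = (M.z : F) ^ L.length * (L.map (fun v => Q' v.1)).prod := by
  induction L with
  | nil => simp [mapE]
  | cons v L ih =>
    have h1 : M.mapE (v :: L) = ⟨M.E v.1, M.Q_E_ne v.2⟩ :: M.mapE L := rfl
    rw [h1, List.map_cons, List.prod_cons, ih, M.hq]
    simp only [List.map_cons, List.prod_cons, List.length_cons, pow_succ]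
    ring

lemma cjS_isoL (L : List (NS Q')) : M.cjS (isoSim (isoL Q' L)) = isoSim (isoL Q (M.mapE L)) := by
  induction L with
  | nil =>
    have h1 : M.mapE [] = [] := rfl
    rw [h1, isoL_nil, isoL_nil]
    exact map_one _
  | cons v L ih =>
    have h1 : M.mapE (v :: L) = ⟨M.E v.1, M.Q_E_ne v.2⟩ :: M.mapE L := rfl
    rw [h1, isoL_cons, isoL_cons]
    have h2 : isoSim (reflIso Q' v.1 v.2 * isoL Q' L) = isoSim (reflIso Q' v.1 v.2) * isoSim (isoL Q' L) := rfl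
    rw [h2, map_mul, ih, M.cjS_refl v.1 v.2]
    rfl

lemma cjS_scal (c : Fˣ) : M.cjS (scal Q' c) = scal Q c := by
  apply Subtype.ext
  apply Units.ext
  apply Matrix.mulVec_injective
  funext v
  obtain ⟨w, rfl⟩ := M.E.surjective v
  change ((M.cjS (scal Q' c)).1 : Matrix ι ι F) *ᵥ M.E w = ((scal Q c).1 : Matrix ι ι F) *ᵥ M.E w
  rw [cjS_apply, scal_coe, scal_coe, Matrix.smul_mulVec, Matrix.one_mulVec, Matrix.smul_mulVec, Matrix.one_mulVec, map_smul]

lemma isSquare_of_mul_even {L : ℕ} (hL : Even L) (z : F) (hz : z ≠ 0) (w : F) (h : IsSquare (z ^ L * w)) : IsSquare w := by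
  obtain ⟨k, rfl⟩ := hL
  obtain ⟨s, hs⟩ := h
  refine ⟨s / z ^ k, ?_⟩
  rw [pow_add] at hs
  field_simp
  linear_combination hs

variable {K₀ : Type*} [Field K₀] [Fintype K₀] [Algebra K₀ F] {Q₀ : QuadraticForm K₀ (κ → K₀)} (hext : ∀ v, Q' (extK v) = algebraMap K₀ F (Q₀ v))

/-- Membership of a lift in `T`, from a decomposition of the similarity over the large field. -/
lemma lift_mem_inn_iff (g₀ : Sim ⇑Q₀) (c : Fˣ) (L : List (NS Q')) (hdec : Mdl.extS Q' hext g₀ = scal Q' c * isoSim (isoL Q' L)) (h2 : (2 : F) ≠ 0) (hQ : (P Q).Nondegenerate)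
    (hn : 5 ≤ Fintype.card ι) (hneg : NegOm Q) (heven : Even L.length) :
    Ψ (⇑Q) (M.lift hext g₀) ∈ Cfsg.Inn (Cfsg.POmega F (⇑Q)) ↔ IsSquare (L.map (fun v => Q' v.1)).prod := by
  have h1 : M.lift hext g₀ = scal Q c * isoSim (isoL Q (M.mapE L)) := by
    change M.cjS (Mdl.extS Q' hext g₀) = _
    rw [hdec, map_mul, cjS_scal, cjS_isoL]
  rw [h1, map_mul, Ψ_scal, one_mul]
  constructor
  · intro h3
    have h4 := mem_Omega_of_inn h2 hQ hn exists_ne_zero hneg _ h3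
    rw [mem_Omega_iff, toOG_isoL, mem_comm_odd h2 hQ, prod_mapE] at h4
    exact isSquare_of_mul_even heven _ (Units.ne_zero _) _ h4.2
  · intro h3
    apply inn_of_Omega
    rw [mem_Omega_iff, toOG_isoL, mem_comm_odd h2 hQ, prod_mapE, length_mapE]
    exact ⟨heven, (heven.isSquare_pow _).mul h3⟩

end Mdl

end lists

section deg2

variable {ι κ : Type} [Fintype ι] [DecidableEq ι] [Fintype κ] [DecidableEq κ] {F : Type*} [Field F] [Fintype F]
  {Q : QuadraticForm F (ι → F)} [hND : ND Q] {σ : F ≃+* F} {S : SS Q} {Q' : QuadraticForm F (κ → F)}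
  {K₀ : Type*} [Field K₀] [Fintype K₀] [Algebra K₀ F] {Q₀ : QuadraticForm K₀ (κ → K₀)} [hND₀ : ND Q₀]
  {R : Matrix ι ι F → Prop} {R₀ : Matrix κ κ K₀ → Prop}

namespace Mdl

variable (M : Mdl σ S Q') (hext : ∀ v, Q' (extK v) = algebraMap K₀ F (Q₀ v))

/-- A class-preserving element with square multiplier lifts into `T`. -/
lemma lift_inn_of_sq (hdeg : finrank K₀ F = 2) (h2 : (2 : F) ≠ 0) (h2₀ : (2 : K₀) ≠ 0) (hQ : (P Q).Nondegenerate) (hQ₀ : (P Q₀).Nondegenerate) (hP₀ : ParPred Q₀ R₀)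
    (g₀ : Sim ⇑Q₀) (hg₀ : R₀ g₀.1.1) (hsq : IsSquare (mu Q₀ (exists_ne_zero (Q := Q₀)) g₀ : K₀)) :
    Ψ (⇑Q) (M.lift hext g₀) ∈ Cfsg.Inn (Cfsg.POmega F (⇑Q)) := by
  classical
  obtain ⟨c, k, rfl, hk⟩ := exists_scal_mul (hne := exists_ne_zero (Q := Q₀)) g₀ ((aa_eq_one_iff g₀).2 hsq)
  let k' : Cfsg.isometryGroup K₀ (⇑Q₀) := ⟨k.1, hk⟩
  obtain ⟨L, hL⟩ := exists_list_of h2₀ hQ₀ k'
  have hkL : k = isoSim (isoL _ L) := by
    have : k' = isoL _ L := (toOG _).injective (by rw [hL, toOG_isoL])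
    rw [← this]
    rfl
  subst hkL
  rw [hP₀.scal_mul, hP₀.isoL'] at hg₀
  rw [map_mul, lift_scal, map_mul, Ψ_scal, one_mul, lift_isoL]
  apply inn_of_Omega
  rw [mem_Omega_iff, toOG_isoL, mem_comm_odd h2 hQ, length_mapL, prod_mapL]
  exact ⟨hg₀, (hg₀.isSquare_pow _).mul (isSquare_base hdeg h2₀ _)⟩

/-- The class counts in degree two. -/
theorem count_deg2 (hfix : ∀ t, σ t = t ↔ t ∈ (algebraMap K₀ F).range) {r : ℕ} (hord : orderOf σ = r) (hr0 : r ≠ 0) (hdeg : finrank K₀ F = 2) (h2 : (2 : F) ≠ 0) (h2₀ : (2 : K₀) ≠ 0)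
    (hQ : (P Q).Nondegenerate) (hQ₀ : (P Q₀).Nondegenerate) (hrk : Fintype.card F ≠ 2 ∨ finrank F (ι → F) ≠ 4) {h : ℕ} (hc : Fintype.card ι = 2 * h) (hn : 5 ≤ Fintype.card ι)
    (hP : ParPred Q R) (hP₀ : ParPred Q₀ R₀) (hlift : ∀ g₀ : Sim ⇑Q₀, R (M.lift hext g₀).1.1 ↔ R₀ g₀.1.1)
    (hR : ∀ g : Sim (⇑Q), R g.1.1 ↔ eps Q (exists_ne_zero (Q := Q)) hQ h2 hc g = 1) (hneg : NegOm Q)
    (d : Sim (⇑Q)) (hd : ¬ IsSquare (mu Q (exists_ne_zero (Q := Q)) d : F)) (hde : eps Q (exists_ne_zero (Q := Q)) hQ h2 hc d = 1)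
    (d₀ : Sim ⇑Q₀) (hd₀ : R₀ d₀.1.1) (hd₀μ : ¬ IsSquare (mu Q₀ (exists_ne_zero (Q := Q₀)) d₀ : K₀)) :
    (Ψ (⇑Q) (M.lift hext d₀) ∈ Cfsg.Inn (Cfsg.POmega F (⇑Q)) → Cfsg.splitClassCount (GR (⇑Q) R) (Cfsg.Inn (Cfsg.POmega F (⇑Q))) (act S) = 4) ∧
    (Ψ (⇑Q) (M.lift hext d₀) ∉ Cfsg.Inn (Cfsg.POmega F (⇑Q)) → Cfsg.splitClassCount (GR (⇑Q) R) (Cfsg.Inn (Cfsg.POmega F (⇑Q))) (act S) = 2) := by
  classical
  have hidx : (Cfsg.Inn (Cfsg.POmega F (⇑Q))).relIndex (GR (⇑Q) R) = 4 := by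
    have e : GR (⇑Q) R = img (⇑Q) (keps Q exists_ne_zero hQ h2 hc) := inndiag_eq exists_ne_zero hQ h2 hc R hR
    rw [e]
    exact keps_relIndex exists_ne_zero hQ h2 hc hn d hd hde hneg
  have hTG := hP.inn_le hQ hrk
  rw [split_index _ _ hTG (fun h _ k hk => inn_normal h k hk)]
  set H' := GR (⇑Q) R ⊓ Subgroup.centralizer {act S} with hH'
  have hmem : ∀ g₀ : Sim ⇑Q₀, R₀ g₀.1.1 → Ψ (⇑Q) (M.lift hext g₀) ∈ H' := by
    intro g₀ hg₀
    rw [hH', M.mem_centr_even hext hfix hord hr0 hP hlift]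
    exact ⟨g₀, hg₀, rfl⟩
  have hin := fun g₀ hg₀ hsq => M.lift_inn_of_sq hext hdeg h2 h2₀ hQ hQ₀ hP₀ g₀ hg₀ hsq
  have hcov : ∀ β ∈ H', β ∈ Cfsg.Inn (Cfsg.POmega F (⇑Q)) ∨ β * (Ψ (⇑Q) (M.lift hext d₀))⁻¹ ∈ Cfsg.Inn (Cfsg.POmega F (⇑Q)) := by
    intro β hβ
    rw [hH', M.mem_centr_even hext hfix hord hr0 hP hlift] at hβ
    obtain ⟨g₀, hg₀, rfl⟩ := hβ
    by_cases hsq : IsSquare (mu Q₀ (exists_ne_zero (Q := Q₀)) g₀ : K₀)
    · exact Or.inl (hin g₀ hg₀ hsq)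
    · right
      rw [← map_inv, ← map_inv, ← map_mul, ← map_mul]
      apply hin
      · rw [hP₀.hmul]
        have := hP₀.inv d₀ hd₀
        tauto
      · rw [map_mul, map_inv, Units.val_mul, Units.val_inv_eq_inv_val]
        exact nonsq_mul_nonsq h2₀ (Units.ne_zero _) (inv_ne_zero (Units.ne_zero _)) hsq (fun h => hd₀μ (by simpa using h.inv))
  constructor
  · intro hin₀
    have hle : H' ≤ Cfsg.Inn (Cfsg.POmega F (⇑Q)) := by
      intro β hβ
      rcases hcov β hβ with h3 | h3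
      · exact h3
      · have h4 : β = (β * (Ψ (⇑Q) (M.lift hext d₀))⁻¹) * Ψ (⇑Q) (M.lift hext d₀) := by group
        rw [h4]
        exact Subgroup.mul_mem _ h3 hin₀
    rw [sup_eq_left.2 hle]
    exact hidx
  · intro hno
    haveI : (Cfsg.Inn (Cfsg.POmega F (⇑Q))).Normal := Cfsg.innNormal _
    apply index_sup_two (GR (⇑Q) R) _ H' hTG inf_le_left hidx (Ψ (⇑Q) (M.lift hext d₀)) (hmem d₀ hd₀) hno _ hcov
    rw [← map_mul, ← map_mul]
    apply hin
    · rw [hP₀.hmul]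
    · rw [map_mul, Units.val_mul]
      exact ⟨_, rfl⟩

end Mdl

end deg2

end Cfsg.Agent.Lib.AutPO
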