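import Mathlib
import Cfsg.Agent.Lib.AutPO.CentrDeg2

/-!
Centralizers of field automorphisms of the orthogonal groups of plus type.
-/

set_option autoImplicit false
set_option linter.unusedSectionVars false
set_option linter.unusedVariables false

open scoped Matrix

namespace Cfsg.Agent.Lib.AutPO

open Cfsg.Agent.Lib.Classical Cfsg.Agent.Lib.Classical.Witt Cfsg.Agent.Lib.Classical.Abs Cfsg.Agent.Lib.Classical.Orth
open Cfsg.Agent.Lib.Known3.SimAut Cfsg.Agent.Lib.Known3.OmegaTrans Cfsg.Agent.Lib.Known3.OmegaCalc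
open Cfsg.Agent.Lib.Known3.Spinor Cfsg.Agent.Lib.Known3.OmegaSum Cfsg.Agent.Lib.Known3.QuadIso Cfsg.Agent.Lib.Known3.QuadStd
open scoped commutatorElement
open Module Ln

local notation "P" => QuadraticMap.polarBilin
local notation "GLn" => Matrix.GeneralLinearGroup

section squares

variable {K : Type*} [Field K] [Fintype K]

open scoped _root_.Classical in
lemma isSquare_mul_nonsq (h2 : (2 : K) ≠ 0) {u v : K} (hu0 : u ≠ 0) (hv0 : v ≠ 0) (hv : ¬ IsSquare v) : IsSquare (u * v) ↔ ¬ IsSquare u := by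
  constructor
  · intro h hu
    apply hv
    obtain ⟨a, ha⟩ := h
    obtain ⟨b, hb⟩ := hu
    have hb0 : b ≠ 0 := by
      rintro rfl
      exact hu0 (by simpa using hb)
    refine ⟨a / b, ?_⟩
    rw [hb] at ha
    field_simp
    linear_combination ha
  · intro hu
    exact Mdl.nonsq_mul_nonsq h2 hu0 hv0 hu hv

lemma card_mod_four (h2 : (2 : K) ≠ 0) : Fintype.card K % 4 = 1 ∨ Fintype.card K % 4 = 3 := by
  have hchar : ringChar K ≠ 2 := by
    intro h
    apply h2
    have := ringChar.Nat.cast_ringChar (R := K)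
    rw [h] at this
    exact_mod_cast this
  have h1 := FiniteField.odd_card_of_char_ne_two hchar
  omega

/-- The square class of a power of minus a non-square. -/
lemma isSquare_neg_pow_nonsq (h2 : (2 : K) ≠ 0) {ν : K} (hν0 : ν ≠ 0) (hν : ¬ IsSquare ν) (m : ℕ) :
    IsSquare ((-ν) ^ m) ↔ ¬ (Odd m ∧ Fintype.card K % 4 = 1) := by
  have hchar : ringChar K ≠ 2 := by
    intro h
    apply h2
    have := ringChar.Nat.cast_ringChar (R := K)
    rw [h] at this
    exact_mod_cast this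
  rcases Nat.even_or_odd m with hm | hm
  · have h1 : ¬ Odd m := Nat.not_odd_iff_even.2 hm
    simp only [h1, false_and, not_false_eq_true, iff_true]
    exact hm.isSquare_pow _
  · obtain ⟨j, rfl⟩ := hm
    have h3 : (-ν) ^ (2 * j + 1) = ((-ν) ^ j) * ((-ν) ^ j) * (-ν) := by ring
    have h4 : IsSquare ((-ν) ^ (2 * j + 1)) ↔ IsSquare (-ν) := by
      rw [h3]
      constructor
      · rintro ⟨a, ha⟩
        have h5 : (-ν) ^ j ≠ 0 := pow_ne_zero _ (neg_ne_zero.2 hν0)
        refine ⟨a / (-ν) ^ j, ?_⟩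
        field_simp
        linear_combination ha
      · rintro ⟨a, ha⟩
        exact ⟨(-ν) ^ j * a, by rw [ha]; ring⟩
    have h5 : -ν = (-1) * ν := by ring
    rw [h4, h5, isSquare_mul_nonsq h2 (neg_ne_zero.2 one_ne_zero) hν0 hν, FiniteField.isSquare_neg_one_iff]
    have h6 := card_mod_four h2
    simp only [show Odd (2 * j + 1) from ⟨j, rfl⟩, true_and]
    omega

end squares

section parity

variable {ι : Type} [Fintype ι] [DecidableEq ι] {F : Type*} [Field F] [Fintype F] {Q : QuadraticForm F (ι → F)} [hND : ND Q]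

/-- The parity is invariant under conjugation. -/
lemma par_conj (hQ : (P Q).Nondegenerate) (hrk : Fintype.card F ≠ 2 ∨ finrank F (ι → F) ≠ 4) {n : ℕ} (hV : finrank F (ι → F) = 2 * n)
    (S T A : SS Q) (h : act (A.comp S) = act (T.comp A)) {U U' : Submodule F (ι → F)} (hU : IsLagr Q n U) (hU' : IsLagr Q n U') :
    Par n U (S.img U) ↔ Par n U' (T.img U') := by
  obtain ⟨-, l, hl, hl2⟩ := act_eq (act_inj h)
  have h1 : A.img (S.img U) = T.img (A.img U) := by
    rw [← SS.img_comp, ← SS.img_comp]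
    exact (img_of_scal (Units.mk0 l hl) (S := T.comp A) (T := A.comp S) hl2 U).symm
  rw [← A.par_img U, h1]
  exact par_indep hQ hrk hV T (A.isLagr_img hU) hU'

end parity

section final

universe u v

variable {F : Type u} [Field F] [Fintype F] {m : ℕ}

lemma Qplus_extK {K₀ : Type*} [Field K₀] [Algebra K₀ F] (v : Fin m ⊕ Fin m → K₀) :
    Qplus m F (extK v) = algebraMap K₀ F (Qplus m K₀ v) := by
  rw [Qplus_apply, Qplus_apply]
  simp [Cfsg.quadFormPlus, extK, map_sum]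

lemma char_eq_zero {p f : ℕ} (hF : Fintype.card F = p ^ f) (hf : 1 ≤ f) : (p : F) = 0 := by
  have h1 : ((Fintype.card F : ℕ) : F) = 0 := Nat.cast_card_eq_zero F
  rw [hF, Nat.cast_pow] at h1
  exact pow_eq_zero_iff (by omega) |>.1 h1

lemma two_ne_of_ne {p f : ℕ} (hp : p.Prime) (hF : Fintype.card F = p ^ f) (hp2 : p ≠ 2) : (2 : F) ≠ 0 := by
  apply P2.two_ne_zero_of_odd
  rw [hF]
  exact (hp.odd_of_ne_two hp2).pow

lemma dPlus_square {K₀ : Type*} [Field K₀] [Fintype K₀] [Algebra K₀ F] (hext : ∀ v, Qplus m F (extK v) = algebraMap K₀ F (Qplus m K₀ v)) (ν₀ : K₀) (hν₀0 : ν₀ ≠ 0) (c : F) (hc0 : c ≠ 0)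
    (hc : algebraMap K₀ F ν₀ = c * c) :
    Mdl.extS (Qplus m F) hext (dPlus ν₀ hν₀0) = dPlus c hc0 * dPlus c hc0 := by
  apply Subtype.ext
  apply Units.ext
  change (dPlusM ν₀).map (algebraMap K₀ F) = dPlusM c * dPlusM c
  rw [dPlusM, dPlusM, Matrix.diagonal_mul_diagonal]
  ext i j
  by_cases h : i = j
  · subst h
    rcases i with i | i <;> simp [hc]
  · simp [h]

set_option maxHeartbeats 2000000 in
/-- The core of the theorem for plus type and field automorphisms. -/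
theorem field_plus_core {p f : ℕ} [hp : Fact p.Prime] (hF : Fintype.card F = p ^ f) (hf : 1 ≤ f) (hm : 4 ≤ m)
    {q : (Fin m ⊕ Fin m → F) → F} (hq : ⇑(Qplus m F) = q) (S : SS (Qplus m F)) (x : MulAut (Cfsg.POmega F q)) (hSx : HEq (act S) x)
    {σ : F ≃+* F} (hSσ : S.σ = σ) {r : ℕ} (hr : r.Prime) (hord : orderOf σ = r) (hxpow : x ^ r = 1)
    (hU : ∃ U, IsLagr (Qplus m F) m U ∧ Par m U (S.img U)) (F₀ : Type v) [Field F₀] [Fintype F₀] (hF₀ : Fintype.card F₀ = p ^ (f / r))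
    {q₀ : (Fin m ⊕ Fin m → F₀) → F₀} (hq₀ : ⇑(Qplus m F₀) = q₀) :
    r ∣ f ∧ Nonempty (↥(GR q (Cfsg.PreservesSingularClasses q) ⊓ Subgroup.centralizer {x}) ≃* ↥(GR q₀ (Cfsg.PreservesSingularClasses q₀))) ∧
      ((Odd r ∨ p = 2) → Cfsg.splitClassCount (GR q (Cfsg.PreservesSingularClasses q)) (Cfsg.Inn (Cfsg.POmega F q)) x = 1) ∧
      ((r = 2 ∧ p ≠ 2 ∧ Odd m ∧ p ^ (f / 2) % 4 = 1) → Cfsg.splitClassCount (GR q (Cfsg.PreservesSingularClasses q)) (Cfsg.Inn (Cfsg.POmega F q)) x = 2) ∧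
      ((r = 2 ∧ p ≠ 2 ∧ ¬ (Odd m ∧ p ^ (f / 2) % 4 = 1)) → Cfsg.splitClassCount (GR q (Cfsg.PreservesSingularClasses q)) (Cfsg.Inn (Cfsg.POmega F q)) x = 4) := by
  classical
  subst hq hq₀
  have hSx' : act S = x := eq_of_heq hSx
  subst hSx'
  obtain ⟨k, rfl⟩ : ∃ k, m = k + 1 := ⟨m - 1, by omega⟩
  have hV : finrank F (Fin (k + 1) ⊕ Fin (k + 1) → F) = 2 * (k + 1) := by
    simp [Module.finrank_fintype_fun_eq_card]
    ring
  have hV₀ : finrank F₀ (Fin (k + 1) ⊕ Fin (k + 1) → F₀) = 2 * (k + 1) := by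
    simp [Module.finrank_fintype_fun_eq_card]
    ring
  have hQ : (P (Qplus (k + 1) F)).Nondegenerate := Qplus_nondeg _
  have hQ₀ : (P (Qplus (k + 1) F₀)).Nondegenerate := Qplus_nondeg _
  haveI hND : ND (Qplus (k + 1) F) := ⟨hQ, by omega⟩
  haveI hND₀ : ND (Qplus (k + 1) F₀) := ⟨hQ₀, by omega⟩
  have hrk : Fintype.card F ≠ 2 ∨ finrank F (Fin (k + 1) ⊕ Fin (k + 1) → F) ≠ 4 := Or.inr (by omega)
  have hrk₀ : Fintype.card F₀ ≠ 2 ∨ finrank F₀ (Fin (k + 1) ⊕ Fin (k + 1) → F₀) ≠ 4 := Or.inr (by omega)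
  obtain ⟨hdvd, e, he, hfix⟩ := Known3.FieldFix.exists_fix_embed hF σ hr hord F₀ hF₀
  letI iA : Algebra F₀ F := e.toAlgebra
  have hfix' : ∀ t, σ t = t ↔ t ∈ (algebraMap F₀ F).range := hfix
  obtain ⟨D⟩ := exists_LD S hSσ hord hr.ne_zero hxpow
  have hU₀ : IsLagr (Qplus (k + 1) F) (k + 1) _ := U0_lagr (m := k + 1) (F' := F)
  have hU₀₀ : IsLagr (Qplus (k + 1) F₀) (k + 1) _ := U0_lagr (m := k + 1) (F' := F₀)
  obtain ⟨θ₀, hθ₀⟩ : ∃ θ₀ : (Fin (k + 1) ⊕ Fin (k + 1) → fixF σ) ≃ₗ[fixF σ] (Fin (k + 1) ⊕ Fin (k + 1) → fixF σ), ∀ v, Cfsg.quadFormPlus (k + 1) (fixF σ) (θ₀ v) = D.Q₀ v := by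
    obtain ⟨U, hU, hpar⟩ := hU
    rcases par_types D with ⟨h, -⟩ | ⟨-, U', hU', hpar'⟩
    · exact h
    · exact absurd ((par_indep hQ hrk hV S hU hU').1 hpar) hpar'
  obtain ⟨M⟩ := D.exists_mdl θ₀ (Qplus (k + 1) F) 1 (by
    intro v
    rw [plus_ext0, hθ₀]
    simp)
  have hext : ∀ v, Qplus (k + 1) F (extK v) = algebraMap F₀ F (Qplus (k + 1) F₀ v) := Qplus_extK
  have hP := parPred_psc hQ hrk hV hU₀
  have hP₀ := parPred_psc hQ₀ hrk₀ hV₀ hU₀₀
  have hcard : Fintype.card (Fin (k + 1) ⊕ Fin (k + 1)) = 2 * (k + 1) := card_plus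
  have hlift : ∀ g₀ : Sim ⇑(Qplus (k + 1) F₀), Cfsg.PreservesSingularClasses (⇑(Qplus (k + 1) F)) (M.lift hext g₀).1.1 ↔
      Cfsg.PreservesSingularClasses (⇑(Qplus (k + 1) F₀)) g₀.1.1 := by
    intro g₀
    by_cases h2 : (2 : F) = 0
    · have h2₀ : (2 : F₀) = 0 := by
        apply (algebraMap F₀ F).injective
        rw [map_ofNat, map_zero, h2]
      exact M.lift_char2 hext hP hP₀ h2₀ hQ₀ hrk₀ exists_ne_zero g₀
    · have h2₀ : (2 : F₀) ≠ 0 := by
        intro h
        apply h2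
        have := congrArg (algebraMap F₀ F) h
        rwa [map_ofNat, map_zero] at this
      rw [psc_plus h2 (by omega), psc_plus h2₀ (by omega)]
      exact M.lift_eps hext g₀
  refine ⟨hdvd, M.centr_even hext hfix' hord hr.ne_zero hP hP₀ hlift, ?_, ?_, ?_⟩
  · intro hcase
    by_cases h2 : (2 : F) = 0
    · exact count_char2 hP hQ hrk h2 _
    · have hodd : Odd r := by
        rcases hcase with h | h
        · exact h
        · exfalso
          apply h2
          have := char_eq_zero hF hf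
          rwa [h] at this
      have h2₀ : (2 : F₀) ≠ 0 := by
        intro h
        apply h2
        have := congrArg (algebraMap F₀ F) h
        rwa [map_ofNat, map_zero] at this
      obtain ⟨ν₀, hν₀0, hν₀⟩ := exists_nonsq h2₀
      refine M.count_odd hext hfix' hord hodd h2 hQ hQ₀ hrk hP hP₀ hlift (by omega) (dPlus ν₀ hν₀0) ?_ ?_
      · rw [psc_plus h2₀ (by omega)]
        exact eps_dPlus h2₀ (by omega) ν₀ hν₀0
      · have := mu_dPlus h2₀ (by omega : 1 ≤ k + 1) ν₀ hν₀0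
        intro h3
        apply hν₀
        rw [← this]
        exact h3
  all_goals
    rintro ⟨rfl, hp2, hcase⟩
    have h2 : (2 : F) ≠ 0 := two_ne_of_ne hp.out hF hp2
    have h2₀ : (2 : F₀) ≠ 0 := by
      intro h
      apply h2
      have := congrArg (algebraMap F₀ F) h
      rwa [map_ofNat, map_zero] at this
    have hdeg : finrank F₀ F = 2 := finrank_of_cards hp.out hF hF₀ hr hdvd hf
    obtain ⟨ν₀, hν₀0, hν₀⟩ := exists_nonsq h2₀
    obtain ⟨c, hc⟩ := isSquare_base hdeg h2₀ ν₀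
    have hν₁ : algebraMap F₀ F ν₀ ≠ 0 := by simpa using hν₀0
    have hc0 : c ≠ 0 := by
      rintro rfl
      rw [mul_zero] at hc
      exact hν₁ hc
    have hσc : σ c = -c := by
      have h3 : σ c * σ c = c * c := by
        rw [← map_mul, ← hc]
        exact (hfix' _).2 ⟨ν₀, rfl⟩
      have h4 : (σ c - c) * (σ c + c) = 0 := by linear_combination h3
      rcases mul_eq_zero.1 h4 with h5 | h5
      · exfalso
        obtain ⟨c₀, hc₀⟩ := (hfix' c).1 (sub_eq_zero.1 h5)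
        apply hν₀
        refine ⟨c₀, ?_⟩
        apply (algebraMap F₀ F).injective
        rw [map_mul, hc₀, hc]
      · linear_combination h5
    obtain ⟨L, hL1, hL2, hL3⟩ := dPlus_sq (m := k + 1) c hc0
    have hdec : Mdl.extS (Qplus (k + 1) F) hext (dPlus ν₀ hν₀0) = scal _ (Units.mk0 c hc0) * isoSim (isoL _ L) := by
      rw [dPlus_square hext ν₀ hν₀0 c hc0 hc, hL3]
    have hcardF : Fintype.card F = Fintype.card F₀ ^ 2 := by
      rw [Module.card_eq_pow_finrank (K := F₀) (V := F), hdeg]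
    have hoddF : Odd (Fintype.card F) := by
      rw [hF]
      exact (hp.out.odd_of_ne_two hp2).pow
    have hneg : NegOm (Qplus (k + 1) F) := by
      rw [negOm_plus rfl hoddF]
      rintro ⟨-, h3⟩
      rw [hcardF, Nat.pow_mod] at h3
      rcases card_mod_four h2₀ with h4 | h4 <;> rw [h4] at h3 <;> omega
    obtain ⟨ν, hν0, hν⟩ := exists_nonsq h2
    have hcount := M.count_deg2 hext hfix' hord hr.ne_zero hdeg h2 h2₀ hQ hQ₀ hrk (h := k + 1) hcard (by rw [hcard]; omega) hP hP₀ hlift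
      (fun g => psc_plus h2 (by omega) g) hneg (dPlus ν hν0) (by
        have := mu_dPlus h2 (by omega : 1 ≤ k + 1) ν hν0
        intro h3
        apply hν
        rw [← this]
        exact h3) (eps_dPlus h2 (by omega) ν hν0) (dPlus ν₀ hν₀0) (by
        rw [psc_plus h2₀ (by omega)]
        exact eps_dPlus h2₀ (by omega) ν₀ hν₀0) (by
        have := mu_dPlus h2₀ (by omega : 1 ≤ k + 1) ν₀ hν₀0
        intro h3
        apply hν₀
        rw [← this]
        exact h3)
    have hmem := M.lift_mem_inn_iff hext (dPlus ν₀ hν₀0) (Units.mk0 c hc0) L hdec h2 hQ (by rw [hcard]; omega) hneg (by rw [hL1]; exact even_two_mul _)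
    rw [hL2, isSquare_iff_norm hfix' hord hdeg h2₀ (pow_ne_zero _ hc0) (n := (-ν₀) ^ (k + 1)) (by
      rw [map_pow, map_pow, hσc, map_neg, hc, ← mul_pow]
      ring), isSquare_neg_pow_nonsq h2₀ hν₀0 hν₀, hF₀] at hmem
  · exact hcount.2 (fun h => (hmem.1 h) hcase)
  · exact hcount.1 (hmem.2 hcase)

end final

end Cfsg.Agent.Lib.AutPO
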