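import Mathlib
import Cfsg.Agent.Lib.AutPO.CentrPlus
import Cfsg.Agent.Lib.ChevAut.FieldCard

/-!
Centralizers of involutory graph-field automorphisms of the orthogonal groups of plus type.
-/

set_option autoImplicit false
set_option linter.unusedSectionVars false
set_option linter.unusedVariables false

open scoped Matrix

namespace Cfsg.Agent.Lib.AutPO

open Cfsg.Agent.Lib.Classical Cfsg.Agent.Lib.Classical.Witt Cfsg.Agent.Lib.Classical.Abs Cfsg.Agent.Lib.Classical.Orth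
open Cfsg.Agent.Lib.Known3.SimAut Cfsg.Agent.Lib.Known3.OmegaTrans Cfsg.Agent.Lib.Known3.OmegaCalc
open Cfsg.Agent.Lib.Known3.Spinor Cfsg.Agent.Lib.Known3.OmegaSum Cfsg.Agent.Lib.Known3.QuadIso Cfsg.Agent.Lib.Known3.QuadStd
open scoped commutatorElement
open Module Ln

local notation "P" => QuadraticMap.polarBilin
local notation "GLn" => Matrix.GeneralLinearGroup

section dec

variable {F : Type*} [Field F] [Fintype F] {m : ℕ}

/-- A similarity with square multiplier in the minus type, as a scalar times a product of reflections. -/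
lemma dMinus_eq_scal (a b ν s t c : F) (hν0 : ν ≠ 0) (hν : ν = s ^ 2 + a * s * t + b * t ^ 2) (hc0 : c ≠ 0) (hcc : c * c = ν)
    (hu : (s + c) ^ 2 + a * (s + c) * t + b * t ^ 2 ≠ 0) :
    ∃ L : List (NS (Qminus m F a b)), L.length = 2 * (m + 1) ∧
      (L.map (fun v => Qminus m F a b v.1)).prod = c ^ m * ((s + c) ^ 2 + a * (s + c) * t + b * t ^ 2) ∧
      (dMinus a b ν s t hν0 hν : Sim (⇑(Qminus m F a b))) = scal (Qminus m F a b) (Units.mk0 c hc0) * isoSim (isoL (Qminus m F a b) L) := by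
  obtain ⟨L₁, h1, h3, h4⟩ := exists_scale_first (Q := Qminus m F a b) (fun j => Sum.inl (Sum.inl j)) (fun j => Sum.inl (Sum.inr j)) (pair_minus m a b)
    (Sum.elim (Sum.elim (fun j : Fin m => (j : ℕ)) (fun j : Fin m => (j : ℕ))) (fun _ : Fin 2 => m))
    (Sum.elim (Sum.elim (fun _ => c) (fun _ => c⁻¹)) (fun _ => 1)) hc0 (fun _ => rfl) (fun _ => rfl) m le_rfl (by
      intro j hj k
      rcases k with (k | k) | k
      · simp [Fin.ext_iff]
      · simp [Fin.ext_iff]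
      · simp
        omega) m le_rfl
  have hu' : Qminus m F a b (pl (s + c) t) ≠ 0 := by
    rw [Q_pl]
    exact hu
  have he : Qminus m F a b (pl 1 0) ≠ 0 := by
    rw [Q_pl]
    simp
  refine ⟨L₁ ++ [⟨pl (s + c) t, hu'⟩, ⟨pl 1 0, he⟩], ?_, ?_, ?_⟩
  · simp [h1]
    ring
  · simp only [List.map_append, List.prod_append, h3, List.map_cons, List.map_nil, List.prod_cons, List.prod_nil, Q_pl]
    simp
  · apply Subtype.ext
    apply Units.ext
    change dMinusM a b ν s t = (c • (1 : Matrix _ _ F)) * (isoL (Qminus m F a b) _).1.1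
    rw [isoL_coe, Matrix.smul_mul, Matrix.one_mul]
    apply Matrix.mulVec_injective
    funext x k
    have hQe : Qminus m F a b (pl 1 0) = 1 := by
      rw [Q_pl]
      simp
    have hQu : Qminus m F a b (pl (s + c) t) = (s + c) ^ 2 + a * (s + c) * t + b * t ^ 2 := by
      rw [Q_pl]
    rw [Matrix.smul_mulVec, ← prodL_apply, prodL_append, Orth.mul_apply', Pi.smul_apply, h4]
    set y := (prodL [⟨pl (s + c) t, hu'⟩, ⟨pl 1 0, he⟩]).1 x with hy
    have hy1 : y = (refl (Qminus m F a b) (pl (s + c) t) hu').1 ((refl (Qminus m F a b) (pl 1 0) he).1 x) := by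
      rw [hy, prodL_cons, prodL_cons, prodL_nil, mul_one]
      rfl
    set z := (refl (Qminus m F a b) (pl 1 0) he).1 x with hz
    have hz1 : z = x - (2 * x (Sum.inr 0) + a * x (Sum.inr 1)) • pl 1 0 := by
      rw [hz, refl_apply, hQe, P_pl]
      congr 2
      ring
    set κ := (s + c) ^ 2 + a * (s + c) * t + b * t ^ 2 with hκ
    set W := 2 * (s + c) * z (Sum.inr 0) + a * ((s + c) * z (Sum.inr 1) + t * z (Sum.inr 0)) + 2 * b * (t * z (Sum.inr 1)) with hW
    have hy2 : y = z - (κ⁻¹ * W) • pl (s + c) t := by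
      rw [hy1, refl_apply, hQu, P_pl]
    have hzi : ∀ i, z (Sum.inl i) = x (Sum.inl i) := by
      intro i
      rw [hz1]
      simp [pl]
    have hyi : ∀ i, y (Sum.inl i) = x (Sum.inl i) := by
      intro i
      rw [hy2, ← hzi]
      simp [pl]
    have hz0 : z (Sum.inr 0) = x (Sum.inr 0) - (2 * x (Sum.inr 0) + a * x (Sum.inr 1)) := by
      rw [hz1]
      simp [pl]
    have hz1' : z (Sum.inr 1) = x (Sum.inr 1) := by
      rw [hz1]
      simp [pl]
    have hy0 : κ * y (Sum.inr 0) = κ * z (Sum.inr 0) - W * (s + c) := by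
      rw [hy2]
      simp [pl]
      field_simp
    have hy1' : κ * y (Sum.inr 1) = κ * z (Sum.inr 1) - W * t := by
      rw [hy2]
      simp [pl]
      field_simp
    have hκc : κ = c * (2 * c + 2 * s + a * t) := by
      rw [hκ]
      linear_combination -hν - hcc
    set A := 2 * c + 2 * s + a * t with hA
    have hA0 : A ≠ 0 := by
      intro h
      apply hu
      rw [hκc, h, mul_zero]
    have hW' : W = -A * x (Sum.inr 0) - x (Sum.inr 1) * (a * s + a * c + a * a * t - 2 * b * t) := by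
      rw [hW, hz0, hz1', hA]
      ring
    rcases k with (k | k) | k
    · rw [d_inl]
      simp [hyi]
      rw [← mul_assoc, hcc]
    · rw [d_inr]
      simp [hyi, hc0]
    · simp only [Sum.elim_inr, lt_irrefl, if_false]
      fin_cases k
      · change (dMinusM a b ν s t *ᵥ x) (Sum.inr 0) = c * y (Sum.inr 0)
        rw [d_0]
        apply mul_left_cancel₀ hA0
        have h5 : c * A * y (Sum.inr 0) = c * A * z (Sum.inr 0) - W * (s + c) := by
          rw [← hκc]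
          exact hy0
        rw [hκc] at hy0
        rw [hz0, hW'] at h5
        have hcν : c * c = s ^ 2 + a * s * t + b * t ^ 2 := by rw [hcc, hν]
        linear_combination -h5 + x (Sum.inr 1) * a * hcν
      · change (dMinusM a b ν s t *ᵥ x) (Sum.inr 1) = c * y (Sum.inr 1)
        rw [d_1]
        apply mul_left_cancel₀ hA0
        have h5 : c * A * y (Sum.inr 1) = c * A * z (Sum.inr 1) - W * t := by
          rw [← hκc]
          exact hy1'
        rw [hz1', hW'] at h5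
        have hcν : c * c = s ^ 2 + a * s * t + b * t ^ 2 := by rw [hcc, hν]
        linear_combination -h5 - 2 * x (Sum.inr 1) * hcν

end dec

section cyc

variable {F : Type*} [Field F] [Fintype F]

/-- A finite field has at most one automorphism of order two. -/
lemma invol_unique {σ σ' : F ≃+* F} (h : orderOf σ = 2) (h' : orderOf σ' = 2) : σ = σ' := by
  classical
  haveI : IsCyclic (F ≃+* F) := Cfsg.Agent.Lib.Chev.isCyclic_ringAut
  haveI : Finite (F ≃+* F) := Finite.of_injective (fun τ : F ≃+* F => (τ : F → F)) (fun a b hab => RingEquiv.ext (congrFun hab))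
  letI : Fintype (F ≃+* F) := Fintype.ofFinite _
  have hd : 2 ∣ Fintype.card (F ≃+* F) := by
    rw [← h]
    exact orderOf_dvd_card
  have h1 := IsCyclic.card_orderOf_eq_totient hd
  have h2 : (Finset.univ.filter (fun a : F ≃+* F => orderOf a = 2)).card ≤ 1 := by
    rw [h1]
    decide
  rw [Finset.card_le_one] at h2
  exact h2 σ (by simp [h]) σ' (by simp [h'])

end cyc

section hat

variable {F : Type*} [Field F] [Fintype F] {m : ℕ}

/-- The standard field automorphism fixes the standard maximal singular subspace. -/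
lemma hat_img_U0 (σ : F ≃+* F) : (hatPlus m σ).img (LinearMap.ker (LinearMap.funLeft F F (Sum.inr : Fin m → Fin m ⊕ Fin m))) =
    LinearMap.ker (LinearMap.funLeft F F (Sum.inr : Fin m → Fin m ⊕ Fin m)) := by
  have hmem : ∀ u : Fin m ⊕ Fin m → F, u ∈ LinearMap.ker (LinearMap.funLeft F F (Sum.inr : Fin m → Fin m ⊕ Fin m)) ↔ ∀ i, u (Sum.inr i) = 0 := by
    intro u
    rw [LinearMap.mem_ker]
    constructor
    · intro h i
      exact congrFun h i
    · intro h
      funext i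
      exact h i
  ext x
  rw [SS.mem_img, hmem]
  constructor
  · rintro ⟨u, hu, rfl⟩ i
    rw [hmem] at hu
    change σ (u (Sum.inr i)) = 0
    rw [hu, map_zero]
  · intro hx
    refine ⟨(hat σ).symm x, ?_, (hat σ).apply_symm_apply x⟩
    rw [hmem]
    intro i
    apply σ.injective
    rw [map_zero, ← hx i]
    have : (hat σ) ((hat σ).symm x) = x := (hat σ).apply_symm_apply x
    exact congrFun this (Sum.inr i)

end hat

section core

universe u v

variable {F : Type u} [Field F] [Fintype F]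

lemma dMinusM_map {m : ℕ} {K₀ : Type*} [Field K₀] [Algebra K₀ F] (a b ν s t : K₀) :
    (dMinusM (m := m) a b ν s t).map (algebraMap K₀ F) = dMinusM (algebraMap K₀ F a) (algebraMap K₀ F b) (algebraMap K₀ F ν) (algebraMap K₀ F s) (algebraMap K₀ F t) := by
  ext i j
  rcases i with (i | i) | i <;> rcases j with (j | j) | j <;>
    simp [dMinusM, Matrix.fromBlocks, Matrix.diagonal, Matrix.of_apply]
  all_goals
    first
    | (by_cases h : i = j <;> simp [h])
    | (fin_cases i <;> fin_cases j <;> simp)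

set_option maxHeartbeats 2000000 in
/-- The core of the theorem for plus type and graph-field automorphisms. -/
theorem gf_plus_core {p f k : ℕ} [hp : Fact p.Prime] (hF : Fintype.card F = p ^ f) (hf : 1 ≤ f) (hk : 3 ≤ k)
    {q : (Fin (k + 1) ⊕ Fin (k + 1) → F) → F} (hq : ⇑(Qplus (k + 1) F) = q) (S : SS (Qplus (k + 1) F)) (x : MulAut (Cfsg.POmega F q)) (hSx : HEq (act S) x)
    {σ : F ≃+* F} (hSσ : S.σ = σ) (hord : orderOf σ = 2) (hxpow : x ^ 2 = 1)
    (hU : ∃ U, IsLagr (Qplus (k + 1) F) (k + 1) U ∧ ¬ Par (k + 1) U (S.img U)) (F₀ : Type v) [Field F₀] [Fintype F₀] (hF₀ : Fintype.card F₀ = p ^ (f / 2)) :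
    2 ∣ f ∧ (∃ a₀ b₀ : F₀, (∀ z₁ z₂ : F₀, z₁ ^ 2 + a₀ * z₁ * z₂ + b₀ * z₂ ^ 2 = 0 → z₁ = 0 ∧ z₂ = 0) ∧
      ∀ q₀ : (((Fin k ⊕ Fin k) ⊕ Fin 2 → F₀) → F₀), ⇑(Qminus k F₀ a₀ b₀) = q₀ →
        Nonempty (↥(GR q (Cfsg.PreservesSingularClasses q) ⊓ Subgroup.centralizer {x}) ≃* ↥(GR q₀ (Cfsg.PreservesSingularClassesMinus k a₀ b₀)))) ∧
      (p = 2 → Cfsg.splitClassCount (GR q (Cfsg.PreservesSingularClasses q)) (Cfsg.Inn (Cfsg.POmega F q)) x = 1) ∧
      ((p ≠ 2 ∧ Odd (k + 1) ∧ p ^ (f / 2) % 4 = 1) → Cfsg.splitClassCount (GR q (Cfsg.PreservesSingularClasses q)) (Cfsg.Inn (Cfsg.POmega F q)) x = 4) ∧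
      ((p ≠ 2 ∧ ¬ (Odd (k + 1) ∧ p ^ (f / 2) % 4 = 1)) → Cfsg.splitClassCount (GR q (Cfsg.PreservesSingularClasses q)) (Cfsg.Inn (Cfsg.POmega F q)) x = 2) := by
  classical
  subst hq
  have hSx' : act S = x := eq_of_heq hSx
  subst hSx'
  have hV : finrank F (Fin (k + 1) ⊕ Fin (k + 1) → F) = 2 * (k + 1) := by
    simp [Module.finrank_fintype_fun_eq_card]
    ring
  have hQ : (P (Qplus (k + 1) F)).Nondegenerate := Qplus_nondeg _
  haveI hND : ND (Qplus (k + 1) F) := ⟨hQ, by omega⟩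
  have hrk : Fintype.card F ≠ 2 ∨ finrank F (Fin (k + 1) ⊕ Fin (k + 1) → F) ≠ 4 := Or.inr (by omega)
  have hr : Nat.Prime 2 := Nat.prime_two
  obtain ⟨hdvd, e, he, hfix⟩ := Known3.FieldFix.exists_fix_embed hF σ hr hord F₀ hF₀
  letI iA : Algebra F₀ F := e.toAlgebra
  have hfix' : ∀ t, σ t = t ↔ t ∈ (algebraMap F₀ F).range := hfix
  obtain ⟨D⟩ := exists_LD S hSσ hord (by norm_num) hxpow
  have hU₀ : IsLagr (Qplus (k + 1) F) (k + 1) _ := U0_lagr (m := k + 1) (F' := F)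
  obtain ⟨ζ, θ₀, hζ, hθ₀⟩ : ∃ (ζ : fixF σ) (θ₀ : (Fin (k + 1) ⊕ Fin (k + 1) → fixF σ) ≃ₗ[fixF σ] ((Fin k ⊕ Fin k) ⊕ Fin 2 → fixF σ)), (∀ t : fixF σ, t ^ 2 + t + ζ ≠ 0) ∧
        ∀ v, Cfsg.quadFormMinus k (fixF σ) 1 ζ (θ₀ v) = D.Q₀ v := by
    obtain ⟨U, hU, hpar⟩ := hU
    rcases par_types D with ⟨-, U', hU', hpar'⟩ | ⟨h, -⟩
    · exact absurd ((par_indep hQ hrk hV S hU' hU).1 hpar') hpar
    · exact h
  obtain ⟨b₀, hb₀⟩ := (hfix' (ζ : F)).1 ζ.2
  have hb₀' : ∀ t : F₀, t ^ 2 + t + b₀ ≠ 0 := by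
    intro t ht
    apply hζ ⟨algebraMap F₀ F t, (hfix' _).2 ⟨t, rfl⟩⟩
    apply Subtype.ext
    have h1 := congrArg (algebraMap F₀ F) ht
    simp only [map_add, map_pow, map_zero, hb₀] at h1
    exact h1
  have hab₀ := anisotropic_of b₀ hb₀'
  have h10 : Qminus k F (algebraMap F₀ F 1) (algebraMap F₀ F b₀) = Qminus k F ((1 : fixF σ) : F) ((ζ : fixF σ) : F) := by
    rw [hb₀, map_one]
    rfl
  obtain ⟨M⟩ := D.exists_mdl θ₀ (Qminus k F (algebraMap F₀ F 1) (algebraMap F₀ F b₀)) 1 (by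
    intro v
    rw [h10, minus_ext0]
    have := hθ₀ v
    simp only [Units.val_one, one_mul]
    exact congrArg _ this)
  have hext : ∀ v, Qminus k F (algebraMap F₀ F 1) (algebraMap F₀ F b₀) (extK v) = algebraMap F₀ F (Qminus k F₀ 1 b₀ v) := Qminus_extK
  haveI hND₀ : ND (Qminus k F₀ 1 b₀) := nd_minus hk hab₀
  have hfrV₀ : finrank F₀ ((Fin k ⊕ Fin k) ⊕ Fin 2 → F₀) = k + k + 2 := by
    simp [Module.finrank_fintype_fun_eq_card]
  have hrk₀ : Fintype.card F₀ ≠ 2 ∨ finrank F₀ ((Fin k ⊕ Fin k) ⊕ Fin 2 → F₀) ≠ 4 := Or.inr (by omega)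
  have hQ₀ := Qminus_nondeg hab₀ k
  have hP := parPred_psc hQ hrk hV hU₀
  have hP₀ := parPred_minus hk hab₀
  have hcard : Fintype.card (Fin (k + 1) ⊕ Fin (k + 1)) = 2 * (k + 1) := card_plus
  have hcard₀ : Fintype.card ((Fin k ⊕ Fin k) ⊕ Fin 2) = 2 * (k + 1) := card_minus
  have hlift : ∀ g₀ : Sim ⇑(Qminus k F₀ 1 b₀), Cfsg.PreservesSingularClasses (⇑(Qplus (k + 1) F)) (M.lift hext g₀).1.1 ↔
      Cfsg.PreservesSingularClassesMinus k 1 b₀ g₀.1.1 := by
    intro g₀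
    by_cases h2 : (2 : F) = 0
    · have h2₀ : (2 : F₀) = 0 := by
        apply (algebraMap F₀ F).injective
        rw [map_ofNat, map_zero, h2]
      exact M.lift_char2 hext hP hP₀ h2₀ hQ₀ hrk₀ exists_ne_zero g₀
    · have h2₀ : (2 : F₀) ≠ 0 := by
        intro h
        apply h2
        have := congrArg (algebraMap F₀ F) h
        rwa [map_ofNat, map_zero] at this
      rw [psc_plus h2 (by omega), psc_minus 1 b₀ hab₀ h2₀]
      exact M.lift_eps hext g₀
  refine ⟨hdvd, ⟨1, b₀, hab₀, ?_⟩, ?_, ?_, ?_⟩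
  · intro q₀ hq₀
    subst hq₀
    exact M.centr_even hext hfix' hord (by norm_num) hP hP₀ hlift
  · intro hp2
    apply count_char2 hP hQ hrk
    have := char_eq_zero hF hf
    rwa [hp2] at this
  all_goals
    rintro ⟨hp2, hcase⟩
    have h2 : (2 : F) ≠ 0 := two_ne_of_ne hp.out hF hp2
    have h2₀ : (2 : F₀) ≠ 0 := by
      intro h
      apply h2
      have := congrArg (algebraMap F₀ F) h
      rwa [map_ofNat, map_zero] at this
    have hdeg : finrank F₀ F = 2 := finrank_of_cards hp.out hF hF₀ hr hdvd hf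
    obtain ⟨ν₀, hν₀0, hν₀⟩ := exists_nonsq h2₀
    obtain ⟨s, t, hst⟩ := exists_rep h2₀ 1 b₀ hab₀ ν₀
    obtain ⟨c, hc⟩ := isSquare_base hdeg h2₀ ν₀
    have hν₁ : algebraMap F₀ F ν₀ ≠ 0 := by simpa using hν₀0
    have hc0 : c ≠ 0 := by
      rintro rfl
      rw [mul_zero] at hc
      exact hν₁ hc
    have hcnot : ∀ c₀ : F₀, c ≠ algebraMap F₀ F c₀ := by
      intro c₀ hc₀
      apply hν₀
      refine ⟨c₀, ?_⟩
      apply (algebraMap F₀ F).injective
      rw [map_mul, ← hc₀, hc]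
    have hσc : σ c = -c := by
      have h3 : σ c * σ c = c * c := by
        rw [← map_mul, ← hc]
        exact (hfix' _).2 ⟨ν₀, rfl⟩
      have h4 : (σ c - c) * (σ c + c) = 0 := by linear_combination h3
      rcases mul_eq_zero.1 h4 with h5 | h5
      · exfalso
        obtain ⟨c₀, hc₀⟩ := (hfix' c).1 (sub_eq_zero.1 h5)
        exact hcnot c₀ hc₀.symm
      · linear_combination h5
    have halg2 : algebraMap F₀ F 2 = 2 := map_ofNat _ 2
    set A : F := 2 * c + algebraMap F₀ F (2 * s + t) with hA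
    have hA0 : A ≠ 0 := by
      intro h
      apply hcnot (-(2 * s + t) / 2)
      rw [map_div₀, map_neg, halg2]
      rw [hA] at h
      field_simp
      linear_combination h
    have hν₂ : algebraMap F₀ F ν₀ = algebraMap F₀ F s ^ 2 + algebraMap F₀ F 1 * algebraMap F₀ F s * algebraMap F₀ F t + algebraMap F₀ F b₀ * algebraMap F₀ F t ^ 2 := by
      rw [hst]
      simp
    have hκ : (algebraMap F₀ F s + c) ^ 2 + algebraMap F₀ F 1 * (algebraMap F₀ F s + c) * algebraMap F₀ F t + algebraMap F₀ F b₀ * algebraMap F₀ F t ^ 2 = c * A := by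
      rw [hA]
      simp only [map_add, map_mul, map_one, halg2] at hν₂ ⊢
      linear_combination -hν₂ + hc
    obtain ⟨L, hL1, hL2, hL3⟩ := dMinus_eq_scal (m := k) (algebraMap F₀ F 1) (algebraMap F₀ F b₀) (algebraMap F₀ F ν₀) (algebraMap F₀ F s) (algebraMap F₀ F t) c hν₁ hν₂ hc0 hc.symm (by
      rw [hκ]
      exact mul_ne_zero hc0 hA0)
    have hdec : Mdl.extS (Qminus k F (algebraMap F₀ F 1) (algebraMap F₀ F b₀)) hext (dMinus 1 b₀ ν₀ s t hν₀0 hst) = scal _ (Units.mk0 c hc0) * isoSim (isoL _ L) := by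
      rw [← hL3]
      apply Subtype.ext
      apply Units.ext
      exact dMinusM_map 1 b₀ ν₀ s t
    have hcardF : Fintype.card F = Fintype.card F₀ ^ 2 := by
      rw [Module.card_eq_pow_finrank (K := F₀) (V := F), hdeg]
    have hoddF : Odd (Fintype.card F) := by
      rw [hF]
      exact (hp.out.odd_of_ne_two hp2).pow
    have hneg : NegOm (Qplus (k + 1) F) := by
      rw [negOm_plus rfl hoddF]
      rintro ⟨-, h3⟩
      rw [hcardF, Nat.pow_mod] at h3
      rcases card_mod_four h2₀ with h4 | h4 <;> rw [h4] at h3 <;> omega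
    obtain ⟨ν, hν0, hν⟩ := exists_nonsq h2
    have hcount := M.count_deg2 hext hfix' hord (by norm_num) hdeg h2 h2₀ hQ hQ₀ hrk (h := k + 1) hcard (by rw [hcard]; omega) hP hP₀ hlift
      (fun g => psc_plus h2 (by omega) g) hneg (dPlus ν hν0) (by
        have := mu_dPlus h2 (by omega : 1 ≤ k + 1) ν hν0
        intro h3
        apply hν
        rw [← this]
        exact h3) (eps_dPlus h2 (by omega) ν hν0) (dMinus 1 b₀ ν₀ s t hν₀0 hst) (by
        rw [psc_minus 1 b₀ hab₀ h2₀]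
        exact eps_dMinus 1 b₀ hab₀ h2₀ ν₀ s t hν₀0 hst) (by
        have := mu_dMinus 1 b₀ hab₀ h2₀ ν₀ s t hν₀0 hst (m := k)
        intro h3
        apply hν₀
        rw [← this]
        exact h3)
    have hmem := M.lift_mem_inn_iff hext (dMinus 1 b₀ ν₀ s t hν₀0 hst) (Units.mk0 c hc0) L hdec h2 hQ (by rw [hcard]; omega) hneg (by rw [hL1]; exact even_two_mul _)
    have hpr : (L.map (fun v => Qminus k F (algebraMap F₀ F 1) (algebraMap F₀ F b₀) v.1)).prod = c ^ (k + 1) * A := by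
      rw [hL2, hκ]
      ring
    have he1 : ¬ IsSquare (1 - 4 * b₀) := by
      rintro ⟨w, hw⟩
      apply hb₀' ((w - 1) / 2)
      field_simp
      linear_combination -hw
    have he0 : 1 - 4 * b₀ ≠ 0 := fun h => he1 (by rw [h]; exact IsSquare.zero)
    have ht0 : t ≠ 0 := by
      rintro rfl
      apply hν₀
      refine ⟨s, ?_⟩
      rw [hst]
      ring
    have hv0 : (1 - 4 * b₀) * (t * t) ≠ 0 := mul_ne_zero he0 (mul_ne_zero ht0 ht0)
    have hv1 : ¬ IsSquare ((1 - 4 * b₀) * (t * t)) := by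
      rintro ⟨w, hw⟩
      apply he1
      refine ⟨w / t, ?_⟩
      field_simp
      linear_combination hw
    have hnorm : algebraMap F₀ F ((-ν₀) ^ (k + 1) * ((1 - 4 * b₀) * (t * t))) = c ^ (k + 1) * A * σ (c ^ (k + 1) * A) := by
      have h6 : σ A = -2 * c + algebraMap F₀ F (2 * s + t) := by
        rw [hA, map_add, map_mul, hσc, (hfix' _).2 ⟨_, rfl⟩, map_ofNat]
        ring
      have h7 : σ (c ^ (k + 1) * A) = (-c) ^ (k + 1) * (-2 * c + algebraMap F₀ F (2 * s + t)) := by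
        rw [map_mul, map_pow, hσc, h6]
      rw [h7]
      have h80 : (2 * s + t) ^ 2 - 4 * ν₀ = (1 - 4 * b₀) * (t * t) := by
        rw [hst]
        ring
      have h8 : A * (-2 * c + algebraMap F₀ F (2 * s + t)) = algebraMap F₀ F ((1 - 4 * b₀) * (t * t)) := by
        rw [hA, ← h80, map_sub, map_pow, map_mul, map_ofNat (algebraMap F₀ F) 4, hc]
        ring
      have h9 : algebraMap F₀ F ((-ν₀) ^ (k + 1)) = (c * -c) ^ (k + 1) := by
        rw [map_pow, map_neg, hc]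
        congr 1
        ring
      rw [map_mul, h9, ← h8, mul_pow]
      ring
    rw [hpr, isSquare_iff_norm hfix' hord hdeg h2₀ (mul_ne_zero (pow_ne_zero _ hc0) hA0) hnorm,
      isSquare_mul_nonsq h2₀ (pow_ne_zero _ (neg_ne_zero.2 hν₀0)) hv0 hv1, isSquare_neg_pow_nonsq h2₀ hν₀0 hν₀, hF₀, not_not] at hmem
  · exact hcount.1 (hmem.2 hcase)
  · exact hcount.2 (fun h => hcase (hmem.1 h))

end core

section final

universe u v

variable {F : Type u} [Field F] [Fintype F]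

/-- The data of a graph-field automorphism. -/
def GFData {k : ℕ} (q : (Fin (k + 1) ⊕ Fin (k + 1) → F) → F) (x : MulAut (Cfsg.POmega F q)) : Prop :=
  ∃ (α γ φ : MulAut (Cfsg.POmega F q)) (σ : F ≃+* F) (v : Fin (k + 1) ⊕ Fin (k + 1) → F) (r₀ : GLn (Fin (k + 1) ⊕ Fin (k + 1)) F),
    σ ≠ RingEquiv.refl F ∧ q v ≠ 0 ∧ (∀ i, σ (v i) = v i) ∧
    (r₀ : Matrix (Fin (k + 1) ⊕ Fin (k + 1)) (Fin (k + 1) ⊕ Fin (k + 1)) F) = Cfsg.reflectionMatrix q v ∧
    Cfsg.IsInducedBySemilinearPOmega q r₀ (RingEquiv.refl F) γ ∧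
    Cfsg.IsFieldAutPOmegaOf q σ φ ∧ α * x * α⁻¹ = γ * φ

/-- Graph-field automorphisms interchange the two classes of maximal singular subspaces. -/
lemma gf_notpar {k : ℕ} (hk : 4 ≤ k) (x : MulAut (Cfsg.POmega F (⇑(Qplus (k + 1) F)))) (hx : GFData (⇑(Qplus (k + 1) F)) x) (S : SS (Qplus (k + 1) F)) (hS : act S = x)
    {U : Submodule F (Fin (k + 1) ⊕ Fin (k + 1) → F)} (hU : IsLagr (Qplus (k + 1) F) (k + 1) U) : ¬ Par (k + 1) U (S.img U) := by
  classical
  have hV : finrank F (Fin (k + 1) ⊕ Fin (k + 1) → F) = 2 * (k + 1) := by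
    simp [Module.finrank_fintype_fun_eq_card]
    ring
  have hQ : (P (Qplus (k + 1) F)).Nondegenerate := Qplus_nondeg _
  haveI hND : ND (Qplus (k + 1) F) := ⟨hQ, by omega⟩
  have H : 9 ≤ finrank F (Fin (k + 1) ⊕ Fin (k + 1) → F) ∨ NoSkew (Qplus (k + 1) F) := Or.inl (by omega)
  have hrk : Fintype.card F ≠ 2 ∨ finrank F (Fin (k + 1) ⊕ Fin (k + 1) → F) ≠ 4 := Or.inr (by omega)
  have hU₀ : IsLagr (Qplus (k + 1) F) (k + 1) _ := U0_lagr (m := k + 1) (F' := F)
  obtain ⟨α, γ, φ, σ, v, r₀, hσ, hv, -, hr₀, hγ, hφ, hαx⟩ := hx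
  obtain ⟨A, hA⟩ := act_surj H α
  have hr₁ : r₀ = (reflIso (Qplus (k + 1) F) v hv).1 := by
    apply Units.ext
    rw [hr₀]
    exact (reflIso_coe _ v hv).symm
  have hr₂ : r₀ ∈ Sim (⇑(Qplus (k + 1) F)) := by
    rw [hr₁]
    exact (isoSim (reflIso (Qplus (k + 1) F) v hv)).2
  have hγe : γ = Ψ _ (isoSim (reflIso (Qplus (k + 1) F) v hv)) := by
    have h1 := eq_Ψ_of_induced _ ⟨r₀, hr₂⟩ γ hγ
    rw [h1]
    congr 1
    exact Subtype.ext hr₁
  have hφe : φ = act (hatPlus (k + 1) σ) := eq_act_of_field (hatPlus (k + 1) σ) (fun v => rfl) φ hφ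
  set ρ := isoSim (reflIso (Qplus (k + 1) F) v hv) with hρ
  let T : SS (Qplus (k + 1) F) := (ofSim ρ).comp (hatPlus (k + 1) σ)
  have hT : act T = γ * φ := by
    simp only [T]
    rw [act_comp, act_ofSim, hγe, hφe]
  have hcomm : act (A.comp S) = act (T.comp A) := by
    rw [act_comp, act_comp, hA, hS, hT, ← hαx]
    group
  rw [par_conj hQ hrk hV S T A hcomm hU hU₀]
  have h1 : T.img (LinearMap.ker (LinearMap.funLeft F F (Sum.inr : Fin (k + 1) → Fin (k + 1) ⊕ Fin (k + 1)))) =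
      Cfsg.imageSubmodule ρ.1.1 (LinearMap.ker (LinearMap.funLeft F F (Sum.inr : Fin (k + 1) → Fin (k + 1) ⊕ Fin (k + 1)))) := by
    simp only [T]
    rw [SS.img_comp, hat_img_U0, img_ofSim]
  rw [h1, ← psc_iff_one hQ hrk hV hU₀]
  exact not_psc_refl hQ hrk hV hU₀ v hv

set_option maxHeartbeats 1000000 in
/-- The main theorem for graph-field automorphisms. -/
theorem gf_plus_main {p f k : ℕ} [hp : Fact p.Prime] (hF : Fintype.card F = p ^ f) (hf : 1 ≤ f) (hk : 4 ≤ k)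
    {q : (Fin (k + 1) ⊕ Fin (k + 1) → F) → F} (hq : ⇑(Qplus (k + 1) F) = q) (x : MulAut (Cfsg.POmega F q)) (hx : GFData q x) (hx2 : orderOf x = 2)
    (F₀ : Type v) [Field F₀] [Fintype F₀] (hF₀ : Fintype.card F₀ = p ^ (f / 2)) :
    Even f ∧ (∀ y : MulAut (Cfsg.POmega F q), GFData q y → orderOf y = 2 → Cfsg.IsConjUnder (GR q (Cfsg.PreservesSingularClasses q)) x y) ∧
      (∃ a₀ b₀ : F₀, (∀ z₁ z₂ : F₀, z₁ ^ 2 + a₀ * z₁ * z₂ + b₀ * z₂ ^ 2 = 0 → z₁ = 0 ∧ z₂ = 0) ∧
      ∀ q₀ : (((Fin k ⊕ Fin k) ⊕ Fin 2 → F₀) → F₀), ⇑(Qminus k F₀ a₀ b₀) = q₀ →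
        Nonempty (↥(GR q (Cfsg.PreservesSingularClasses q) ⊓ Subgroup.centralizer {x}) ≃* ↥(GR q₀ (Cfsg.PreservesSingularClassesMinus k a₀ b₀)))) ∧
      (p = 2 → Cfsg.splitClassCount (GR q (Cfsg.PreservesSingularClasses q)) (Cfsg.Inn (Cfsg.POmega F q)) x = 1) ∧
      ((p ≠ 2 ∧ Odd (k + 1) ∧ p ^ (f / 2) % 4 = 1) → Cfsg.splitClassCount (GR q (Cfsg.PreservesSingularClasses q)) (Cfsg.Inn (Cfsg.POmega F q)) x = 4) ∧
      ((p ≠ 2 ∧ ¬ (Odd (k + 1) ∧ p ^ (f / 2) % 4 = 1)) → Cfsg.splitClassCount (GR q (Cfsg.PreservesSingularClasses q)) (Cfsg.Inn (Cfsg.POmega F q)) x = 2) := by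
  classical
  subst hq
  have hV : finrank F (Fin (k + 1) ⊕ Fin (k + 1) → F) = 2 * (k + 1) := by
    simp [Module.finrank_fintype_fun_eq_card]
    ring
  have hQ : (P (Qplus (k + 1) F)).Nondegenerate := Qplus_nondeg _
  haveI hND : ND (Qplus (k + 1) F) := ⟨hQ, by omega⟩
  have H : 9 ≤ finrank F (Fin (k + 1) ⊕ Fin (k + 1) → F) ∨ NoSkew (Qplus (k + 1) F) := Or.inl (by omega)
  have hrk : Fintype.card F ≠ 2 ∨ finrank F (Fin (k + 1) ⊕ Fin (k + 1) → F) ≠ 4 := Or.inr (by omega)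
  have hU₀ : IsLagr (Qplus (k + 1) F) (k + 1) _ := U0_lagr (m := k + 1) (F' := F)
  have hP := parPred_psc hQ hrk hV hU₀
  have hdata : ∀ y : MulAut (Cfsg.POmega F (⇑(Qplus (k + 1) F))), GFData (⇑(Qplus (k + 1) F)) y → orderOf y = 2 →
      y ∉ Cfsg.pgoAut F (⇑(Qplus (k + 1) F)) ∧ orderOf (sig H y) = 2 := by
    intro y hy hy2
    have hny : y ∉ Cfsg.pgoAut F (⇑(Qplus (k + 1) F)) := notpgo_plus (by omega) rfl y (Or.inr hy)
    refine ⟨hny, ?_⟩
    have h1 : sig H y ≠ 1 := fun h => hny ((sig_eq_one_iff H y).1 h)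
    haveI : Fact (Nat.Prime 2) := ⟨Nat.prime_two⟩
    exact orderOf_eq_prime (by rw [← map_pow, ← hy2, pow_orderOf_eq_one, map_one]) h1
  obtain ⟨hnx, hox⟩ := hdata x hx hx2
  obtain ⟨S, hS⟩ := act_surj H x
  have hSσ : S.σ = sig H x := by rw [← hS, sig_act]
  obtain ⟨h1, h2, h3, h4, h5⟩ := gf_plus_core hF hf (by omega : 3 ≤ k) rfl S x (heq_of_eq hS) hSσ hox (by rw [← hx2]; exact pow_orderOf_eq_one x)
    ⟨_, hU₀, gf_notpar hk x hx S hS hU₀⟩ F₀ hF₀
  refine ⟨?_, ?_, h2, h3, h4, h5⟩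
  · exact (even_iff_two_dvd).2 h1
  · intro y hy hy2
    obtain ⟨hny, hoy⟩ := hdata y hy hy2
    obtain ⟨S', hS'⟩ := act_surj H y
    have hs : sig H y = sig H x := invol_unique hoy hox
    have hδ1 : sig H (y * x⁻¹) = 1 := by
      rw [map_mul, map_inv, hs, mul_inv_cancel]
    rw [sig_eq_one_iff, pgoAut_eq] at hδ1
    obtain ⟨g, -, hg⟩ := mem_img.1 hδ1
    have hgpsc : Cfsg.PreservesSingularClasses (⇑(Qplus (k + 1) F)) g.1.1 := by
      rw [psc_iff_one hQ hrk hV hU₀, ← img_ofSim]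
      have hTS : act ((ofSim g).comp S) = act S' := by
        rw [act_comp, act_ofSim, hg, hS, hS']
        group
      obtain ⟨-, l, hl, hl2⟩ := act_eq (act_inj hTS)
      have hi : S'.img _ = ((ofSim g).comp S).img _ := img_of_scal (Units.mk0 l hl) hl2 (LinearMap.ker (LinearMap.funLeft F F (Sum.inr : Fin (k + 1) → Fin (k + 1) ⊕ Fin (k + 1))))
      have e1 := gf_notpar hk x hx S hS hU₀
      have e2 := gf_notpar hk y hy S' hS' hU₀
      rw [hi, par_comp hQ hrk hV _ _ hU₀] at e2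
      tauto
    have hδ : y * x⁻¹ ∈ GR (⇑(Qplus (k + 1) F)) (Cfsg.PreservesSingularClasses (⇑(Qplus (k + 1) F))) := (hP.mem_GR _).2 ⟨g, hgpsc, hg⟩
    have hconj := (lang_plus (m := k) hk rfl x (y * x⁻¹) hnx Nat.prime_two hx2 hδ).1 (by rw [inv_mul_cancel_right]; exact hy2)
    rw [inv_mul_cancel_right] at hconj
    exact hconj

end final

end Cfsg.Agent.Lib.AutPO
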