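import Mathlib
import Cfsg.Agent.Lib.AutPO.CentrGF

/-!
Automorphisms of `PΩ⁺₈` conjugate to a field automorphism are semisimilarities: they act on pairs of
commuting root groups as elements of `Ω`, hence preserve the geometric type of such a pair.
-/

set_option autoImplicit false
set_option linter.unusedSectionVars false
set_option linter.unusedVariables false

open scoped Matrix

namespace Cfsg.Agent.Lib.AutPO

open Cfsg.Agent.Lib.Classical Cfsg.Agent.Lib.Classical.Witt Cfsg.Agent.Lib.Classical.Abs Cfsg.Agent.Lib.Classical.Orth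
open Cfsg.Agent.Lib.Known3.SimAut Cfsg.Agent.Lib.Known3.OmegaTrans Cfsg.Agent.Lib.Known3.OmegaCalc
open Cfsg.Agent.Lib.Known3.Spinor Cfsg.Agent.Lib.Known3.OmegaSum Cfsg.Agent.Lib.Known3.QuadIso Cfsg.Agent.Lib.Known3.QuadStd
open scoped commutatorElement
open Module Ln

local notation "P" => QuadraticMap.polarBilin

section loc

variable {F V : Type*} [Field F] [AddCommGroup V] [Module F V] {Q : QuadraticForm F V}
variable [FiniteDimensional F V] [Fintype F] [hND : ND Q]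

/-- The two geometric types of a pair of commuting non-collinear root groups. -/
def Typ (W W' : Ln Q) : Prop := (Con W W' ∧ ¬ Per W W') ∨ (¬ Con W W' ∧ Per W W')

lemma Typ.ne {W W' : Ln Q} (h : Typ W W') : W.sp ≠ W'.sp := by
  intro e
  have h1 : Con W W' := ⟨W.a, W.na, W.a_mem, e ▸ W.a_mem⟩
  have h2 : Per W W' := fun x hx y hy => W.perp hx (e ▸ hy)
  rcases h with h | h
  · exact h.2 h2
  · exact h.1 h1

lemma Typ.not_coll {W W' : Ln Q} (h : Typ W W') : ¬ Coll W W' := by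
  rintro ⟨-, h1, h2⟩
  rcases h with h | h
  · exact h.2 h2
  · exact h.1 h1

lemma typ_rel (p : ℕ) [Fact p.Prime] [CharP F p] {β : PG Q ≃* PG Q} {W W' W₁ W₁' : Ln Q} (h : Rel β W W₁) (h' : Rel β W' W₁')
    (T : Typ W W') : Typ W₁ W₁' := by
  have h1 : Con W₁ W₁' ∨ Per W₁ W₁' := h.comm h' (by
    rcases T with T | T
    · exact Or.inl T.1
    · exact Or.inr T.2)
  have h2 : W₁.sp ≠ W₁'.sp := fun e => T.ne ((h.sp_iff h').mpr e)
  have h3 : ¬ Coll W₁ W₁' := fun e => T.not_coll ((h.coll_iff p h').mpr e)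
  by_cases h4 : Con W₁ W₁'
  · exact Or.inl ⟨h4, fun h5 => h3 ⟨h2, h4, h5⟩⟩
  · exact Or.inr ⟨h4, h1.resolve_left h4⟩

/-- On every pair of commuting non-collinear root groups, `β` acts as an element of `Ω`. -/
def LocIn (β : PG Q ≃* PG Q) : Prop :=
  ∀ W W' W₁ W₁' : Ln Q, Rel β W W₁ → Rel β W' W₁' → Typ W W' → ∃ g : KK Q, W₁.sp = (W.map g.1).sp ∧ W₁'.sp = (W'.map g.1).sp

lemma Good.of_locIn (p : ℕ) [Fact p.Prime] [CharP F p] {β : PG Q ≃* PG Q} (H : LocIn β) : Good β := by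
  intro W W' W₁ W₁' h h'
  constructor
  · rintro ⟨c, np⟩
    obtain ⟨g, e1, e2⟩ := H _ _ _ _ h h' (Or.inl ⟨c, np⟩)
    rw [con_congr e1 e2, per_congr e1 e2, con_map, per_map]
    exact ⟨c, np⟩
  · rintro ⟨c, np⟩
    have T : Typ W W' := typ_rel p h.symm h'.symm (Or.inl ⟨c, np⟩)
    obtain ⟨g, e1, e2⟩ := H _ _ _ _ h h' T
    rw [con_congr e1 e2, con_map] at c
    rw [per_congr e1 e2, per_map] at np
    exact ⟨c, np⟩

lemma rel_map {a : PG Q ≃* PG Q} {W V₁ : Ln Q} (h : Rel a W V₁) {g g' : KK Q} (ha : a (mk Q g') = mk Q g) :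
    Rel a (W.map g'.1) (V₁.map g.1) := by
  intro t
  have e1 := RG_conj W g' ((mk Q g')⁻¹ * t * mk Q g')
  have e2 := RG_conj V₁ g (a ((mk Q g')⁻¹ * t * mk Q g'))
  have e3 : mk Q g' * ((mk Q g')⁻¹ * t * mk Q g') * (mk Q g')⁻¹ = t := by group
  have e4 : mk Q g * a ((mk Q g')⁻¹ * t * mk Q g') * (mk Q g)⁻¹ = a t := by
    rw [map_mul, map_mul, map_inv, ha]
    group
  rw [e3] at e1
  rw [e4] at e2
  rw [← e1, h, e2]

lemma LocIn.conj (p : ℕ) [Fact p.Prime] [CharP F p] {a b φ : PG Q ≃* PG Q} (hconj : ∀ t, a (b t) = φ (a t)) (H : LocIn φ) : LocIn b := by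
  intro W W' W₁ W₁' h h' T
  obtain ⟨V₁, (hV : Rel a W V₁)⟩ := pres_rg p a W
  obtain ⟨V₂, (hV' : Rel a W' V₂)⟩ := pres_rg p a W'
  obtain ⟨X, (hX : Rel a W₁ X)⟩ := pres_rg p a W₁
  obtain ⟨X', (hX' : Rel a W₁' X')⟩ := pres_rg p a W₁'
  have key : ∀ {U U₁ Y Y₁ : Ln Q}, Rel a U Y → Rel a U₁ Y₁ → Rel b U U₁ → Rel φ Y Y₁ := by
    intro U U₁ Y Y₁ h1 h2 h3 t
    have e1 := h1 (a.symm t)
    have e2 := h3 (a.symm t)
    have e3 := h2 (b (a.symm t))
    rw [hconj] at e3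
    simp only [MulEquiv.apply_symm_apply] at e1 e3
    rw [← e1, e2, e3]
  have T' : Typ V₁ V₂ := typ_rel p hV hV' T
  obtain ⟨g, e1, e2⟩ := H _ _ _ _ (key hV hX h) (key hV' hX' h') T'
  obtain ⟨g', hg'⟩ := mk_surj (a.symm (mk Q g))
  have hg : a (mk Q g') = mk Q g := by rw [hg', MulEquiv.apply_symm_apply]
  refine ⟨g', ?_, ?_⟩
  · exact (hX.sp_iff (rel_map hV hg)).mpr e1
  · exact (hX'.sp_iff (rel_map hV' hg)).mpr e2

lemma exists_OG_family (hQ : (P Q).Nondegenerate) {n : ℕ} (v w : Fin n → V) (hv : LinearIndependent F v) (hw : LinearIndependent F w)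
    (hq : ∀ i, Q (w i) = Q (v i)) (hp : ∀ i j, P Q (w i) (w j) = P Q (v i) (v j)) : ∃ g : OG Q, ∀ i, g.1 (v i) = w i := by
  classical
  have hpol : ∀ c d : Fin n →₀ F, P Q (Finsupp.linearCombination F w c) (Finsupp.linearCombination F w d) =
      P Q (Finsupp.linearCombination F v c) (Finsupp.linearCombination F v d) := by
    intro c d
    induction c using Finsupp.induction_linear with
    | zero => simp
    | add c₁ c₂ h1 h2 => simp only [map_add, LinearMap.add_apply, h1, h2]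
    | single i t =>
      induction d using Finsupp.induction_linear with
      | zero => simp
      | add d₁ d₂ h1 h2 => simp only [map_add, h1, h2]
      | single j u =>
        simp only [Finsupp.linearCombination_single, map_smul, LinearMap.smul_apply, hp]
  have hquad : ∀ c : Fin n →₀ F, Q (Finsupp.linearCombination F w c) = Q (Finsupp.linearCombination F v c) := by
    intro c
    induction c using Finsupp.induction_linear with
    | zero => simp
    | add c₁ c₂ h1 h2 => rw [map_add (Finsupp.linearCombination F w), map_add (Finsupp.linearCombination F v), Q_add, Q_add, h1, h2, hpol]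
    | single i t => rw [Finsupp.linearCombination_single, Finsupp.linearCombination_single, Q_smul, Q_smul, hq]
  let φ : Submodule.span F (Set.range v) ≃ₗ[F] Submodule.span F (Set.range w) :=
    hv.linearCombinationEquiv.symm.trans hw.linearCombinationEquiv
  have hφ : ∀ c : Fin n →₀ F, (φ (hv.linearCombinationEquiv c) : V) = Finsupp.linearCombination F w c := by
    intro c
    simp only [φ, LinearEquiv.trans_apply, LinearEquiv.symm_apply_apply]
    rfl
  obtain ⟨g, h1, -⟩ := exists_OG_of_equiv (Q := Q) hQ _ _ φ (by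
    intro x
    obtain ⟨c, rfl⟩ := hv.linearCombinationEquiv.surjective x
    rw [hφ]
    exact hquad c)
  refine ⟨g, fun i => ?_⟩
  have h2 := h1 (hv.linearCombinationEquiv (Finsupp.single i 1))
  rw [hφ] at h2
  simpa [Finsupp.linearCombination_single] using h2

end loc

section star8

variable {F V : Type*} [Field F] [AddCommGroup V] [Module F V] {Q : QuadraticForm F V}
variable [FiniteDimensional F V] [Fintype F] [hND : ND Q]

/-- Correcting a list of even length to an element of `Ω`. -/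
lemma exists_KK_fix (L : List (NS Q)) (hL : Even L.length) {e f : V} (he : Q e = 0) (hf : Q f = 0) (hef : P Q e f = 1) :
    ∃ (g : KK Q) (d : F), d ≠ 0 ∧ ∀ x, g.1.1 x = (prodL L).1 (x + ((d - 1) * P Q f x) • e + ((d⁻¹ - 1) * P Q e x) • f) := by
  have hd0 : (L.map (fun v => Q v.1)).prod ≠ 0 := prod_ne_zero L
  obtain ⟨d, hd⟩ : ∃ d, d = (L.map (fun v => Q v.1)).prod := ⟨_, rfl⟩
  rw [← hd] at hd0
  have h1 : Q (d • e + f) ≠ 0 := by rw [Q_vd he hf hef]; exact hd0
  have h3 : Q ((1 : F) • e + f) ≠ 0 := by rw [Q_vd he hf hef]; exact one_ne_zero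
  have hm : prodL (L ++ [⟨_, h1⟩, ⟨_, h3⟩]) ∈ KK Q := by
    apply mem_comm_of (nd' Q) (Or.inr (by have := dim' Q; omega))
    · rw [List.length_append, Nat.even_add]
      exact iff_of_true hL ⟨1, rfl⟩
    · simp only [List.map_append, List.map_cons, List.map_nil, List.prod_append, List.prod_cons, List.prod_nil, Q_vd he hf hef, ← hd]
      exact ⟨d, by ring⟩
  refine ⟨⟨_, hm⟩, d, hd0, fun x => ?_⟩
  have e1 : prodL (L ++ [⟨_, h1⟩, ⟨_, h3⟩]) = prodL L * (refl Q _ h1 * refl Q _ h3) := by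
    simp [prodL_append]
  change (prodL (L ++ [⟨_, h1⟩, ⟨_, h3⟩])).1 x = _
  rw [e1, Orth.mul_apply', levi_apply he hf hef hd0 h1 h3]

/-- A singular partner orthogonal to a given subspace. -/
lemma exists_hyp_sep (W : Submodule F V) {e : V} (he : Q e = 0) (hW : ∀ u ∈ W, P Q u e = 0) (hn : e ∉ W) :
    ∃ f, Q f = 0 ∧ P Q e f = 1 ∧ ∀ u ∈ W, P Q u f = 0 := by
  obtain ⟨y, hy, hey⟩ := exists_sep (nd' Q) W hn
  refine ⟨y - Q y • e, ?_, ?_, ?_⟩
  · rw [Q_sub, Q_smul, he, map_smul, pol_comm Q y e, hey]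
    simp
  · rw [map_sub, map_smul, hey, pol_self, he]
    simp
  · intro u hu
    rw [map_sub, map_smul, hy u hu, hW u hu]
    simp

lemma rel_act (S : SS Q) (W : Ln Q) : Rel S.actP W (S.mapLn W) := by
  have hw : ∀ t : F, P Q W.a (t • W.b) = 0 := fun t => by rw [map_smul, W.pab, smul_zero]
  intro x
  constructor
  · rintro ⟨t, rfl⟩
    rw [actP_sO S W.qa (hw t)]
    refine ⟨S.μ⁻¹ * S.σ t, ?_⟩
    change rt Q (S.g W.a) _ = rt Q (S.g W.a) ((S.μ⁻¹ * S.σ t) • S.g W.b)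
    rw [S.smul, smul_smul]
  · rintro ⟨t, e⟩
    refine ⟨S.σ.symm (S.μ * t), ?_⟩
    apply S.actP.injective
    rw [e, actP_sO S W.qa (hw _)]
    change rt Q (S.g W.a) (t • S.g W.b) = rt Q (S.g W.a) (S.μ⁻¹ • S.g (S.σ.symm (S.μ * t) • W.b))
    rw [S.smul, RingEquiv.apply_symm_apply, smul_smul, ← mul_assoc, inv_mul_cancel₀ S.hμ, one_mul]

lemma mapLn_eq (S : SS Q) (g : OG Q) (W : Ln Q) (h1 : g.1 W.a = S.g W.a) (h2 : g.1 W.b = S.g W.b) :
    (S.mapLn W).sp = (W.map g).sp := by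
  change Submodule.span F {S.g W.a, S.g W.b} = Submodule.span F {g.1 W.a, g.1 W.b}
  rw [h1, h2]

lemma mapLn_congr (S : SS Q) {W W' : Ln Q} (h : W.sp = W'.sp) : (S.mapLn W).sp = (S.mapLn W').sp := by
  apply Ln.sp_eq
  · exact map_mem_sp S W' (h ▸ W.a_mem)
  · exact map_mem_sp S W' (h ▸ W.b_mem)

lemma map_congr (g : OG Q) {W W' : Ln Q} (h : W.sp = W'.sp) : (W.map g).sp = (W'.map g).sp := by
  apply Ln.sp_eq
  · exact Ln.map_mem W' g (h ▸ W.a_mem)
  · exact Ln.map_mem W' g (h ▸ W.b_mem)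

/-- Rescaling the second basis vector of a line. -/
def Ln.scale (W : Ln Q) {t : F} (ht : t ≠ 0) : Ln Q where
  a := W.a
  b := t • W.b
  qa := W.qa
  qb := by rw [Q_smul, W.qb, mul_zero]
  pab := by rw [map_smul, W.pab, smul_zero]
  na := W.na
  nb := by
    intro c h
    apply W.nb (t⁻¹ * c)
    rw [mul_smul, ← h, smul_smul, inv_mul_cancel₀ ht, one_smul]

lemma Ln.scale_sp (W : Ln Q) {t : F} (ht : t ≠ 0) : (W.scale ht).sp = W.sp := by
  apply Ln.sp_eq
  · exact W.a_mem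
  · exact Submodule.smul_mem _ _ W.b_mem

lemma SS.indep (S : SS Q) {n : ℕ} {v : Fin n → V} (hv : LinearIndependent F v) : LinearIndependent F (fun i => S.g (v i)) := by
  rw [Fintype.linearIndependent_iff] at hv ⊢
  intro c hc i
  have h1 : S.g (∑ i, S.σ.symm (c i) • v i) = 0 := by
    rw [map_sum]
    simp only [S.smul, RingEquiv.apply_symm_apply]
    exact hc
  have h2 := S.g.injective (h1.trans (map_zero _).symm)
  have := hv _ h2 i
  simpa using this

lemma exists_OG_of_SS (S : SS Q) (hμ : S.μ = 1) {n : ℕ} {v : Fin n → V} (hv : LinearIndependent F v)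
    (hq : ∀ i, S.σ (Q (v i)) = Q (v i)) (hp : ∀ i j, S.σ (P Q (v i) (v j)) = P Q (v i) (v j)) :
    ∃ g : OG Q, ∀ i, g.1 (v i) = S.g (v i) :=
  exists_OG_family (nd' Q) v (fun i => S.g (v i)) hv (S.indep hv)
    (fun i => by rw [S.q, hμ, one_mul, hq]) (fun i j => by rw [S.polar, hμ, one_mul, hp])

lemma indep3 {a b c : V} (ha0 : a ≠ 0) (hab : P Q a b = 0) (hac : P Q a c = 0) (hbb : P Q b b = 0) (hcc : P Q c c = 0) (hbc : P Q b c = 1) :
    LinearIndependent F ![a, b, c] := by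
  rw [Fintype.linearIndependent_iff]
  intro g hg
  simp only [Fin.sum_univ_three, Matrix.cons_val_zero, Matrix.cons_val_one, Matrix.cons_val] at hg
  have hba : P Q b a = 0 := by rw [pol_comm]; exact hab
  have hca : P Q c a = 0 := by rw [pol_comm]; exact hac
  have hcb : P Q c b = 1 := by rw [pol_comm]; exact hbc
  have h1 := congrArg (P Q b) hg
  have h2 := congrArg (P Q c) hg
  simp only [map_add, map_smul, hba, hbb, hbc, hca, hcb, hcc, map_zero, smul_eq_mul, mul_zero, mul_one, zero_add, add_zero] at h1 h2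
  rw [h1, h2, zero_smul, zero_smul, add_zero, add_zero] at hg
  have h3 := (smul_eq_zero.mp hg).resolve_right ha0
  intro i
  fin_cases i
  · exact h3
  · exact h2
  · exact h1

/-- Lines through a point, not perpendicular. -/
lemma aux_con (S : SS Q) (hμ : S.μ = 1) (E E₂ : Ln Q) (ha : E.a = E₂.a) (h1 : P Q E.b E₂.b = 1) :
    ∃ g : KK Q, g.1.1 E.a = S.g E.a ∧ g.1.1 E.b = S.g E.b ∧ g.1.1 E₂.b = S.g E₂.b := by
  classical
  have qa := E.qa
  have qb := E.qb
  have qc := E₂.qb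
  have pab := E.pab
  have pac : P Q E.a E₂.b = 0 := by rw [ha]; exact E₂.pab
  have paa := pol_self_of qa
  have pbb := pol_self_of qb
  have pcc := pol_self_of qc
  have pba : P Q E.b E.a = 0 := by rw [pol_comm]; exact pab
  have pca : P Q E₂.b E.a = 0 := by rw [pol_comm]; exact pac
  have pcb : P Q E₂.b E.b = 1 := by rw [pol_comm]; exact h1
  obtain ⟨g₀, hg₀⟩ := exists_OG_of_SS S hμ (indep3 E.na pab pac pbb pcc h1)
    (by
      intro i
      fin_cases i <;> simp [qa, qb, qc])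
    (by
      intro i j
      fin_cases i <;> fin_cases j <;> simp [paa, pab, pac, pba, pbb, h1, pca, pcb, pcc])
  have g0 := hg₀ 0
  have g1 := hg₀ 1
  have g2 := hg₀ 2
  simp only [Matrix.cons_val_zero, Matrix.cons_val_one, Matrix.cons_val] at g0 g1 g2
  obtain ⟨a', ha'⟩ := exists_P_eq_one (nd' Q) E.na
  obtain ⟨e, he0, he, hep⟩ := exists_sing_perp (Q := Q) (nd' Q) ![E.a, E.b, E₂.b, a'] (by simp; have := dim' Q; omega)
  have e0 := hep 0
  have e1 := hep 1
  have e2 := hep 2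
  have e3 := hep 3
  simp only [Matrix.cons_val_zero, Matrix.cons_val_one, Matrix.cons_val] at e0 e1 e2 e3
  have hsp : ∀ u ∈ Submodule.span F {E.a, E.b, E₂.b}, ∃ α β γ : F, α • E.a + β • E.b + γ • E₂.b = u := by
    intro u hu
    obtain ⟨α, β, γ, h⟩ := Submodule.mem_span_triple.mp hu
    exact ⟨α, β, γ, h⟩
  obtain ⟨f, hf, hef, hfu⟩ := exists_hyp_sep (Submodule.span F {E.a, E.b, E₂.b}) he
    (by
      intro u hu
      obtain ⟨α, β, γ, rfl⟩ := hsp u hu
      simp only [map_add, map_smul, LinearMap.add_apply, LinearMap.smul_apply, e0, e1, e2, smul_zero, add_zero])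
    (by
      intro hm
      obtain ⟨α, β, γ, rfl⟩ := hsp e hm
      have ha'' : P Q a' E.a = 1 := by rw [pol_comm]; exact ha'
      simp only [map_add, map_smul, smul_eq_mul, pba, pbb, h1, mul_zero, mul_one, zero_add] at e1
      simp only [map_add, map_smul, smul_eq_mul, pca, pcb, pcc, mul_zero, mul_one, zero_add, add_zero] at e2
      subst e1 e2
      simp only [zero_smul, add_zero, map_smul, smul_eq_mul, ha'', mul_one] at e3
      subst e3
      simp at he0)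
  have ma : E.a ∈ Submodule.span F {E.a, E.b, E₂.b} := Submodule.subset_span (by simp)
  have mb : E.b ∈ Submodule.span F {E.a, E.b, E₂.b} := Submodule.subset_span (by simp)
  have mc : E₂.b ∈ Submodule.span F {E.a, E.b, E₂.b} := Submodule.subset_span (by simp)
  obtain ⟨L, hL⟩ := exists_prodL (nd' Q) (Or.inr (by have := dim' Q; omega)) g₀
  have h1v : Q ((1 : F) • e + f) ≠ 0 := by rw [Q_vd he hf hef]; exact one_ne_zero
  obtain ⟨L₁, hL1, hL2⟩ : ∃ L₁ : List (NS Q), Even L₁.length ∧ ∀ x, P Q e x = 0 → P Q f x = 0 → (prodL L₁).1 x = g₀.1 x := by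
    by_cases hE : Even L.length
    · exact ⟨L, hE, fun x _ _ => by rw [hL]⟩
    · refine ⟨L ++ [⟨_, h1v⟩], ?_, ?_⟩
      · rw [List.length_append, List.length_singleton, Nat.even_add_one]
        exact hE
      · intro x h3 h4
        have e5 : prodL [(⟨_, h1v⟩ : NS Q)] = refl Q _ h1v := by simp
        rw [prodL_append, Orth.mul_apply', e5, refl_fix h1v (by simp [map_add, map_smul, h3, h4]), hL]
  obtain ⟨g, d, hd, hg⟩ := exists_KK_fix L₁ hL1 he hf hef
  have hfix : ∀ x, P Q e x = 0 → P Q f x = 0 → g.1.1 x = g₀.1 x := by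
    intro x h3 h4
    rw [hg, h3, h4]
    simp only [mul_zero, zero_smul, add_zero]
    exact hL2 x h3 h4
  have hfu' : ∀ u ∈ Submodule.span F {E.a, E.b, E₂.b}, P Q f u = 0 := by
    intro u hu
    rw [pol_comm]
    exact hfu u hu
  refine ⟨g, ?_, ?_, ?_⟩
  · rw [hfix _ (by rw [pol_comm]; exact e0) (hfu' _ ma), g0]
  · rw [hfix _ (by rw [pol_comm]; exact e1) (hfu' _ mb), g1]
  · rw [hfix _ (by rw [pol_comm]; exact e2) (hfu' _ mc), g2]

lemma aux_two (S : SS Q) (hμ : S.μ = 1) {W W' : Ln Q} (hc : Con W W') (hp : ¬ Per W W') :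
    ∃ g : KK Q, (S.mapLn W).sp = (W.map g.1).sp ∧ (S.mapLn W').sp = (W'.map g.1).sp := by
  obtain ⟨x, hx0, hx1, hx2⟩ := hc
  obtain ⟨E, e1, e2⟩ := W.exists_basis_of_mem hx0 hx1
  obtain ⟨E', e3, e4⟩ := W'.exists_basis_of_mem hx0 hx2
  have a1 : P Q E.a E'.a = 0 := by
    rw [e1, ← e3, e3]
    exact pol_self_of (by rw [← e1]; exact E.qa)
  have a2 : P Q E.a E'.b = 0 := by rw [e1, ← e3]; exact E'.pab
  have a3 : P Q E.b E'.a = 0 := by rw [e3, ← e1]; exact E.pba
  have ht : P Q E.b E'.b ≠ 0 := by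
    intro h0
    apply hp
    intro u hu v hv
    rw [← e2] at hu
    rw [← e4] at hv
    exact per_of_basis (W := E) (W' := E') a1 a2 a3 h0 u hu v hv
  have h1 : P Q E.b (E'.scale (inv_ne_zero ht)).b = 1 := by
    change P Q E.b ((P Q E.b E'.b)⁻¹ • E'.b) = 1
    rw [map_smul, smul_eq_mul, inv_mul_cancel₀ ht]
  obtain ⟨g, g0, g1, g2⟩ := aux_con S hμ E (E'.scale (inv_ne_zero ht)) (by change E.a = E'.a; rw [e1, e3]) h1
  refine ⟨g, ?_, ?_⟩
  · rw [mapLn_congr S e2.symm, map_congr g.1 e2.symm]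
    exact mapLn_eq S g.1 E g0 g1
  · have e5 : W'.sp = (E'.scale (inv_ne_zero ht)).sp := by rw [Ln.scale_sp, e4]
    rw [mapLn_congr S e5, map_congr g.1 e5]
    refine mapLn_eq S g.1 _ ?_ g2
    change g.1.1 E'.a = S.g E'.a
    rw [e3, ← e1]
    exact g0

end star8

section star8L

variable {ι : Type} [Fintype ι] [DecidableEq ι] {F : Type*} [Field F] [Fintype F] {Q : QuadraticForm F (ι → F)} [hND : ND Q]

lemma im_sp (W : Ln Q) (g : OG Q) : im g W.sp = (W.map g).sp := by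
  change Submodule.map g.1.toLinearMap (Submodule.span F {W.a, W.b}) = Submodule.span F {g.1 W.a, g.1 W.b}
  rw [Submodule.map_span, Set.image_pair]
  rfl

lemma img_sp (S : SS Q) (W : Ln Q) : S.img W.sp = (S.mapLn W).sp := by
  apply le_antisymm
  · rintro _ ⟨u, hu, rfl⟩
    exact map_mem_sp S W hu
  · apply Submodule.span_le.mpr
    rintro x (rfl | rfl)
    · exact ⟨_, W.a_mem, rfl⟩
    · exact ⟨_, W.b_mem, rfl⟩

lemma img_sup (S : SS Q) (A B : Submodule F (ι → F)) : S.img (A ⊔ B) = S.img A ⊔ S.img B := by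
  apply le_antisymm
  · rintro _ ⟨u, hu, rfl⟩
    obtain ⟨x, hx, y, hy, rfl⟩ := Submodule.mem_sup.mp hu
    rw [map_add]
    exact Submodule.add_mem _ (Submodule.mem_sup_left ⟨x, hx, rfl⟩) (Submodule.mem_sup_right ⟨y, hy, rfl⟩)
  · apply sup_le
    · rintro _ ⟨u, hu, rfl⟩
      exact ⟨u, Submodule.mem_sup_left hu, rfl⟩
    · rintro _ ⟨u, hu, rfl⟩
      exact ⟨u, Submodule.mem_sup_right hu, rfl⟩

lemma img_eq_im (S : SS Q) (g : OG Q) {W W' : Ln Q} (h1 : (S.mapLn W).sp = (W.map g).sp) (h2 : (S.mapLn W').sp = (W'.map g).sp) :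
    S.img (W.sp ⊔ W'.sp) = im g (W.sp ⊔ W'.sp) := by
  have e : im g (W.sp ⊔ W'.sp) = im g W.sp ⊔ im g W'.sp := Submodule.map_sup _ _ _
  rw [e, img_sup, img_sp, img_sp, im_sp, im_sp, h1, h2]

lemma lagr_of_skew (hV : finrank F (ι → F) = 2 * 4) {W W' : Ln Q} (hc : ¬ Con W W') (hp : Per W W') : IsLagr Q 4 (W.sp ⊔ W'.sp) := by
  constructor
  · have h1 := Submodule.finrank_sup_add_finrank_inf_eq W.sp W'.sp
    have h2 : W.sp ⊓ W'.sp = ⊥ := by
      rw [eq_bot_iff]
      intro x hx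
      by_contra h0
      exact hc ⟨x, h0, hx.1, hx.2⟩
    rw [h2, finrank_bot, finrank_sp, finrank_sp] at h1
    omega
  · intro x hx
    obtain ⟨u, hu, v, hv, rfl⟩ := Submodule.mem_sup.mp hx
    rw [Q_add, W.sing hu, W'.sing hv, hp u hu v hv]
    simp

lemma par_of_KK (hV : finrank F (ι → F) = 2 * 4) (g : KK Q) {U : Submodule F (ι → F)} (hU : IsLagr Q 4 U) : Par 4 U (im g.1 U) := by
  obtain ⟨L, hL⟩ := exists_prodL (nd' Q) (Q := Q) (Or.inr (by omega)) g.1
  have h := g.2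
  rw [hL] at h
  have he : Even L.length := by
    by_cases h2 : (2 : F) = 0
    · exact (mem_comm_even h2 (nd' Q) (Or.inr (by omega)) L).mp h
    · exact ((mem_comm_odd h2 (nd' Q) L).mp h).1
  have := (parity_prodL (nd' Q) hV hU L).mpr he
  rw [← hL] at this
  exact this

/-- Skew perpendicular lines. -/
lemma aux_per (hV : finrank F (ι → F) = 2 * 4) (S : SS Q) (hμ : S.μ = 1) {W W' : Ln Q} (hc : ¬ Con W W') (hp : Per W W')
    (hpar : ∃ U, IsLagr Q 4 U ∧ Par 4 U (S.img U)) :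
    ∃ g : KK Q, (S.mapLn W).sp = (W.map g.1).sp ∧ (S.mapLn W').sp = (W'.map g.1).sp := by
  classical
  have hfin : Fintype.card F ≠ 2 ∨ finrank F (ι → F) ≠ 4 := Or.inr (by omega)
  have hli : LinearIndependent F ![W.a, W.b, W'.a, W'.b] := by
    rw [Fintype.linearIndependent_iff]
    intro c hc'
    simp only [Fin.sum_univ_four, Matrix.cons_val_zero, Matrix.cons_val_one, Matrix.cons_val] at hc'
    obtain ⟨h0, h1, h2, h3⟩ := indep4 hc hc'
    intro i
    fin_cases i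
    · exact h0
    · exact h1
    · exact h2
    · exact h3
  have a1 := W.a_mem
  have a2 := W.b_mem
  have a3 := W'.a_mem
  have a4 := W'.b_mem
  have hsing : ∀ i, Q (![W.a, W.b, W'.a, W'.b] i) = 0 := by
    intro i
    fin_cases i
    · exact W.qa
    · exact W.qb
    · exact W'.qa
    · exact W'.qb
  have hpol : ∀ i j, P Q (![W.a, W.b, W'.a, W'.b] i) (![W.a, W.b, W'.a, W'.b] j) = 0 := by
    have hmem : ∀ i, (![W.a, W.b, W'.a, W'.b] i) ∈ W.sp ⊔ W'.sp := by
      intro i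
      fin_cases i
      · exact Submodule.mem_sup_left a1
      · exact Submodule.mem_sup_left a2
      · exact Submodule.mem_sup_right a3
      · exact Submodule.mem_sup_right a4
    intro i j
    have hU := lagr_of_skew hV hc hp
    have h1 := hU.ts _ ((W.sp ⊔ W'.sp).add_mem (hmem i) (hmem j))
    rw [Q_add, hU.ts _ (hmem i), hU.ts _ (hmem j)] at h1
    simpa using h1
  obtain ⟨g₀, hg₀⟩ := exists_OG_of_SS S hμ hli (fun i => by rw [hsing i, map_zero]) (fun i j => by rw [hpol i j, map_zero])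
  have g0 := hg₀ 0
  have g1 := hg₀ 1
  have g2 := hg₀ 2
  have g3 := hg₀ 3
  simp only [Matrix.cons_val_zero, Matrix.cons_val_one, Matrix.cons_val] at g0 g1 g2 g3
  have hU := lagr_of_skew hV hc hp
  obtain ⟨L, hL⟩ := exists_prodL (nd' Q) hfin g₀
  have hEven : Even L.length := by
    rw [← parity_prodL (nd' Q) hV hU L, ← hL, ← img_eq_im S g₀ (mapLn_eq S g₀ W g0 g1) (mapLn_eq S g₀ W' g2 g3)]
    obtain ⟨U, h1, h2⟩ := hpar
    exact (par_indep (nd' Q) hfin hV S h1 hU).mp h2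
  -- the Levi correction
  have hsp : ∀ u ∈ Submodule.span F {W.b, W'.a, W'.b}, ∃ α β γ : F, α • W.b + β • W'.a + γ • W'.b = u := by
    intro u hu
    obtain ⟨α, β, γ, h⟩ := Submodule.mem_span_triple.mp hu
    exact ⟨α, β, γ, h⟩
  have pb : P Q W.b W.a = 0 := W.pba
  have pc : P Q W'.a W.a = 0 := by rw [pol_comm]; exact hp _ a1 _ a3
  have pd : P Q W'.b W.a = 0 := by rw [pol_comm]; exact hp _ a1 _ a4
  obtain ⟨f, hf, hef, hfu⟩ := exists_hyp_sep (Submodule.span F {W.b, W'.a, W'.b}) W.qa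
    (by
      intro u hu
      obtain ⟨α, β, γ, rfl⟩ := hsp u hu
      simp only [map_add, map_smul, LinearMap.add_apply, LinearMap.smul_apply, pb, pc, pd, smul_zero, add_zero])
    (by
      intro hm
      obtain ⟨α, β, γ, e⟩ := hsp _ hm
      have e1 : (-1 : F) • W.a + α • W.b + β • W'.a + γ • W'.b = 0 := by
        rw [add_assoc, add_assoc, ← add_assoc (α • W.b), e]
        simp
      have := (indep4 hc e1).1
      exact one_ne_zero (neg_eq_zero.mp this))
  obtain ⟨g, d, hd, hg⟩ := exists_KK_fix L hEven W.qa hf hef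
  have hfix : ∀ x, P Q W.a x = 0 → P Q f x = 0 → g.1.1 x = g₀.1 x := by
    intro x h1 h2
    rw [hg, h1, h2, hL]
    simp only [mul_zero, zero_smul, add_zero]
  have hfb : ∀ u ∈ Submodule.span F {W.b, W'.a, W'.b}, P Q f u = 0 := by
    intro u hu
    rw [pol_comm]
    exact hfu u hu
  have m1 : W.b ∈ Submodule.span F {W.b, W'.a, W'.b} := Submodule.subset_span (by simp)
  have m2 : W'.a ∈ Submodule.span F {W.b, W'.a, W'.b} := Submodule.subset_span (by simp)
  have m3 : W'.b ∈ Submodule.span F {W.b, W'.a, W'.b} := Submodule.subset_span (by simp)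
  have gb : g.1.1 W.b = S.g W.b := by rw [hfix _ W.pab (hfb _ m1), g1]
  have gc : g.1.1 W'.a = S.g W'.a := by rw [hfix _ (hp _ a1 _ a3) (hfb _ m2), g2]
  have gd : g.1.1 W'.b = S.g W'.b := by rw [hfix _ (hp _ a1 _ a4) (hfb _ m3), g3]
  have ga : g.1.1 W.a = d • S.g W.a := by
    have hfe : P Q f W.a = 1 := by rw [pol_comm]; exact hef
    rw [hg, hfe, pol_self_of W.qa, mul_one, mul_zero, zero_smul, add_zero]
    have e5 : W.a + (d - 1) • W.a = d • W.a := by
      rw [sub_smul, one_smul]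
      abel
    rw [e5, ← hL, map_smul, g0]
  refine ⟨g, ?_, mapLn_eq S g.1 W' gc gd⟩
  apply Ln.sp_eq
  · have h1 : (W.map g.1).a = d • S.g W.a := ga
    change S.g W.a ∈ _
    have h2 : S.g W.a = d⁻¹ • (W.map g.1).a := by
      rw [h1, smul_smul, inv_mul_cancel₀ hd, one_smul]
    rw [h2]
    exact Submodule.smul_mem _ _ (Ln.a_mem _)
  · change S.g W.b ∈ _
    rw [← gb]
    exact Ln.b_mem (W.map g.1)

lemma locIn_of_SS (hV : finrank F (ι → F) = 2 * 4) (S : SS Q) (hμ : S.μ = 1) (hpar : ∃ U, IsLagr Q 4 U ∧ Par 4 U (S.img U)) : LocIn S.actP := by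
  intro W W' W₁ W₁' h h' T
  have e1 := (rel_act S W).congr h
  have e2 := (rel_act S W').congr h'
  rw [← e1, ← e2]
  rcases T with ⟨hc, hp⟩ | ⟨hc, hp⟩
  · exact aux_two S hμ hc hp
  · exact aux_per hV S hμ hc hp hpar

/-- The parity of a semisimilarity with local action in `Ω`. -/
lemma par_of_locIn (hV : finrank F (ι → F) = 2 * 4) (S : SS Q) (hL : LocIn S.actP) {W W' : Ln Q} (hc : ¬ Con W W') (hp : Per W W') :
    Par 4 (W.sp ⊔ W'.sp) (S.img (W.sp ⊔ W'.sp)) := by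
  obtain ⟨g, h1, h2⟩ := hL W W' _ _ (rel_act S W) (rel_act S W') (Or.inr ⟨hc, hp⟩)
  rw [img_eq_im S g.1 h1 h2]
  exact par_of_KK hV g (lagr_of_skew hV hc hp)

end star8L

section sigma

variable {F V : Type*} [Field F] [AddCommGroup V] [Module F V] {Q : QuadraticForm F V}
variable [FiniteDimensional F V] [Fintype F] [hND : ND Q]

/-- A semisimilarity conjugate to one acting non-linearly on a fixed root group is not linear. -/
lemma sigma_ne_refl (p : ℕ) [Fact p.Prime] [CharP F p] (S S₀ : SS Q) {a : PG Q ≃* PG Q} (hconj : ∀ t, a (S.actP t) = S₀.actP (a t))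
    (W₀ : Ln Q) (h1 : S₀.g W₀.a = W₀.a) (h2 : S₀.g W₀.b = W₀.b) (hμ : S₀.μ = 1) (hσ₀ : S₀.σ ≠ RingEquiv.refl F) :
    S.σ ≠ RingEquiv.refl F := by
  intro hS
  obtain ⟨t₀, ht₀⟩ : ∃ t, S₀.σ t ≠ t := by
    by_contra hcon
    push Not at hcon
    exact hσ₀ (RingEquiv.ext hcon)
  obtain ⟨W, (hW' : Rel a.symm W₀ W)⟩ := pres_rg p a.symm W₀
  have hW : Rel a W W₀ := Rel.of_symm hW'
  have hφ : ∀ t : F, S₀.actP (rt Q W₀.a (t • W₀.b)) = rt Q W₀.a (S₀.σ t • W₀.b) := by
    intro t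
    rw [actP_sO S₀ W₀.qa (by rw [map_smul, W₀.pab, smul_zero]), S₀.smul, h1, h2, hμ, inv_one, one_smul]
  have hφinj : ∀ s t : F, rt Q W₀.a (s • W₀.b) = rt Q W₀.a (t • W₀.b) → s = t := by
    intro s t e
    obtain ⟨c, hc⟩ := (rt_eq_iff W₀.na W₀.qa (by rw [map_smul, W₀.pab, smul_zero]) (by rw [map_smul, W₀.pab, smul_zero])).mp e
    have e1 : (-c) • W₀.a + (t - s) • W₀.b = 0 := by
      rw [sub_smul, hc]
      simp
    exact (sub_eq_zero.mp (W₀.indep e1).2).symm
  have hinv : ∀ t : F, a.symm (rt Q W₀.a (t • W₀.b)) ∈ RG W := fun t => (hW' _).mp (rt_mem_RG W₀ t)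
  -- the line `W` is stable
  have hst : (S.mapLn W).sp = W.sp := by
    apply Rel.congr (rel_act S W)
    intro x
    have e1 := hW x
    have e2 := hW (S.actP x)
    rw [hconj] at e2
    rw [e1, e2]
    have e3 := rel_act S₀ W₀ (a x)
    have e4 : RG (S₀.mapLn W₀) = RG W₀ := by
      apply RG_eq_of_sp
      change Submodule.span F {S₀.g W₀.a, S₀.g W₀.b} = Submodule.span F {W₀.a, W₀.b}
      rw [h1, h2]
    rw [e4] at e3
    exact e3
  obtain ⟨α, β, e1⟩ := mem_sp.mp (hst ▸ Ln.a_mem (S.mapLn W))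
  obtain ⟨γ, δ, e2⟩ := mem_sp.mp (hst ▸ Ln.b_mem (S.mapLn W))
  change α • W.a + β • W.b = S.g W.a at e1
  change γ • W.a + δ • W.b = S.g W.b at e2
  obtain ⟨c, hc⟩ : ∃ c : F, c = S.μ⁻¹ * (α * δ - β * γ) := ⟨_, rfl⟩
  have hact : ∀ u : F, S.actP (rt Q W.a (u • W.b)) = rt Q W.a ((c * u) • W.b) := by
    intro u
    rw [actP_sO S W.qa (by rw [map_smul, W.pab, smul_zero]), S.smul, hS]
    apply rt_congr
    have e3 := sg_comb (Q := Q) W.qa W.qb W.pab α β (S.μ⁻¹ * u * γ) (S.μ⁻¹ * u * δ)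
    have e4 : S.μ⁻¹ • (RingEquiv.refl F) u • S.g W.b = (S.μ⁻¹ * u * γ) • W.a + (S.μ⁻¹ * u * δ) • W.b := by
      rw [← e2, smul_add, smul_smul, smul_smul, smul_add, smul_smul, smul_smul]
      simp [mul_assoc]
    rw [e4, ← e1, e3, hc]
    congr 2
    ring
  have hinj : ∀ s t : F, rt Q W.a (s • W.b) = rt Q W.a (t • W.b) → s = t := by
    intro s t e
    obtain ⟨c, hc⟩ := (rt_eq_iff W.na W.qa (by rw [map_smul, W.pab, smul_zero]) (by rw [map_smul, W.pab, smul_zero])).mp e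
    have e1 : (-c) • W.a + (t - s) • W.b = 0 := by
      rw [sub_smul, hc]
      simp
    exact (sub_eq_zero.mp (W.indep e1).2).symm
  -- the fixed element
  obtain ⟨u₁, hu₁⟩ := hinv 1
  have hu₁0 : u₁ ≠ 0 := by
    rintro rfl
    rw [zero_smul, rt_zero] at hu₁
    apply rt_ne_one W₀ (one_ne_zero (α := F))
    have := congrArg a hu₁
    rw [MulEquiv.apply_symm_apply, map_one] at this
    exact this
  have hfix : S.actP (a.symm (rt Q W₀.a ((1 : F) • W₀.b))) = a.symm (rt Q W₀.a ((1 : F) • W₀.b)) := by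
    apply a.injective
    rw [hconj, MulEquiv.apply_symm_apply, hφ, map_one]
  rw [hu₁, hact] at hfix
  have hc1 : c = 1 := by
    have := hinj _ _ hfix
    exact mul_right_cancel₀ hu₁0 (by rw [this, one_mul])
  obtain ⟨u, hu⟩ := hinv t₀
  apply ht₀
  apply hφinj
  rw [← hφ]
  have e3 : S.actP (a.symm (rt Q W₀.a (t₀ • W₀.b))) = a.symm (rt Q W₀.a (t₀ • W₀.b)) := by
    rw [hu, hact, hc1, one_mul]
  have e4 := hconj (a.symm (rt Q W₀.a (t₀ • W₀.b)))
  rw [e3, MulEquiv.apply_symm_apply] at e4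
  exact e4.symm

end sigma

section final

variable {F : Type*} [Field F] [Fintype F]

/-- Transport to the abstract projective group. -/
noncomputable def toP {ι : Type} [Fintype ι] [DecidableEq ι] (Q : QuadraticForm F (ι → F)) (β : MulAut (Cfsg.POmega F (⇑Q))) : PG Q ≃* PG Q :=
  (toPG Q).symm.trans (MulEquiv.trans β (toPG Q))

lemma toP_apply {ι : Type} [Fintype ι] [DecidableEq ι] (Q : QuadraticForm F (ι → F)) (β : MulAut (Cfsg.POmega F (⇑Q))) (t : PG Q) :
    toP Q β t = toPG Q (β ((toPG Q).symm t)) := rfl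

lemma toP_act {ι : Type} [Fintype ι] [DecidableEq ι] {Q : QuadraticForm F (ι → F)} [ND Q] (S : SS Q) (t : PG Q) : toP Q (act S) t = S.actP t := by
  rw [toP_apply, toPG_act, MulEquiv.apply_symm_apply]

lemma act_eq_of_toP {ι : Type} [Fintype ι] [DecidableEq ι] {Q : QuadraticForm F (ι → F)} [ND Q] (S : SS Q) (x : MulAut (Cfsg.POmega F (⇑Q)))
    (h : ∀ t, toP Q x t = S.actP t) : act S = x := by
  ext y
  apply (toPG Q).injective
  rw [toPG_act, ← h, toP_apply, MulEquiv.symm_apply_apply]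

lemma single_mem_U0 (i : Fin 4) :
    (Pi.single (Sum.inl i) 1 : Fin 4 ⊕ Fin 4 → F) ∈ LinearMap.ker (LinearMap.funLeft F F (Sum.inr : Fin 4 → Fin 4 ⊕ Fin 4)) := by
  rw [LinearMap.mem_ker]
  funext j
  simp [LinearMap.funLeft_apply]

lemma polar_U0 {u v : Fin 4 ⊕ Fin 4 → F} (hu : u ∈ LinearMap.ker (LinearMap.funLeft F F (Sum.inr : Fin 4 → Fin 4 ⊕ Fin 4)))
    (hv : v ∈ LinearMap.ker (LinearMap.funLeft F F (Sum.inr : Fin 4 → Fin 4 ⊕ Fin 4))) : P (Qplus 4 F) u v = 0 := by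
  have hU : IsLagr (Qplus 4 F) 4 _ := U0_lagr (m := 4) (F' := F)
  have h1 := hU.ts _ (Submodule.add_mem _ hu hv)
  rw [Q_add, hU.ts _ hu, hU.ts _ hv] at h1
  simpa using h1

/-- Standard line. -/
noncomputable def stdLn (i j : Fin 4) (hij : i ≠ j) : Ln (Qplus 4 F) where
  a := Pi.single (Sum.inl i) 1
  b := Pi.single (Sum.inl j) 1
  qa := (U0_lagr (m := 4) (F' := F)).ts _ (single_mem_U0 i)
  qb := (U0_lagr (m := 4) (F' := F)).ts _ (single_mem_U0 j)
  pab := polar_U0 (single_mem_U0 i) (single_mem_U0 j)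
  na := by
    intro h
    have := congrFun h (Sum.inl i)
    simp at this
  nb := by
    intro c h
    have := congrFun h (Sum.inl j)
    simp [Pi.single_apply, hij.symm] at this

lemma stdLn_sp_le (i j : Fin 4) (hij : i ≠ j) :
    (stdLn (F := F) i j hij).sp ≤ LinearMap.ker (LinearMap.funLeft F F (Sum.inr : Fin 4 → Fin 4 ⊕ Fin 4)) := by
  apply Submodule.span_le.mpr
  rintro x (rfl | rfl)
  · exact single_mem_U0 i
  · exact single_mem_U0 j

lemma stdLn_per : Per (stdLn (F := F) 0 1 (by decide)) (stdLn 2 3 (by decide)) :=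
  fun x hx y hy => polar_U0 (stdLn_sp_le _ _ _ hx) (stdLn_sp_le _ _ _ hy)

lemma stdLn_not_con : ¬ Con (stdLn (F := F) 0 1 (by decide)) (stdLn 2 3 (by decide)) := by
  rintro ⟨x, hx0, hx1, hx2⟩
  obtain ⟨α, β, rfl⟩ := mem_sp.mp hx1
  obtain ⟨γ, δ, e⟩ := mem_sp.mp hx2
  change γ • (Pi.single (Sum.inl 2) 1 : Fin 4 ⊕ Fin 4 → F) + δ • Pi.single (Sum.inl 3) 1 =
    α • Pi.single (Sum.inl 0) 1 + β • Pi.single (Sum.inl 1) 1 at e
  have e0 := congrFun e (Sum.inl 0)
  have e1 := congrFun e (Sum.inl 1)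
  simp [Pi.single_apply] at e0 e1
  apply hx0
  rw [← e0, ← e1]
  simp

lemma hatPlus_single (σ : F ≃+* F) (i : Fin 4) :
    (hatPlus 4 σ).g (Pi.single (Sum.inl i) 1) = Pi.single (Sum.inl i) 1 := by
  funext k
  change σ ((Pi.single (Sum.inl i) (1 : F) : Fin 4 ⊕ Fin 4 → F) k) = _
  by_cases h : k = Sum.inl i
  · subst h
    simp
  · simp [Pi.single_apply, h]

/-- Automorphisms of `PΩ⁺₈` of field type are semisimilarities. -/
theorem exists_SS_tri (hV : finrank F (Fin 4 ⊕ Fin 4 → F) = 2 * 4) [hND : ND (Qplus 4 F)] (x : MulAut (Cfsg.POmega F (⇑(Qplus 4 F))))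
    (hx : Cfsg.IsFieldAutClassPOmega (⇑(Qplus 4 F)) x) :
    ∃ S : SS (Qplus 4 F), act S = x ∧ S.σ ≠ RingEquiv.refl F ∧ ∃ U, IsLagr (Qplus 4 F) 4 U ∧ Par 4 U (S.img U) := by
  classical
  obtain ⟨p, hp⟩ := CharP.exists F
  haveI : Fact p.Prime := ⟨CharP.char_is_prime F p⟩
  obtain ⟨α, φ, σ, hσ, hφ, hαx⟩ := hx
  have hφe : φ = act (hatPlus 4 σ) := eq_act_of_field (hatPlus 4 σ) (fun v => rfl) φ hφ
  have hU₀ : IsLagr (Qplus 4 F) 4 _ := U0_lagr (m := 4) (F' := F)
  have hpar₀ : ∃ U, IsLagr (Qplus 4 F) 4 U ∧ Par 4 U ((hatPlus 4 σ).img U) :=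
    ⟨_, hU₀, by rw [hat_img_U0]; exact par_self hU₀.dim⟩
  have hconj : ∀ t, toP _ α (toP _ x t) = (hatPlus 4 σ).actP (toP _ α t) := by
    intro t
    rw [← toP_act, ← hφe, toP_apply, toP_apply, toP_apply, toP_apply, MulEquiv.symm_apply_apply, MulEquiv.symm_apply_apply, ← hαx]
    simp
  have hL : LocIn (toP _ x) := LocIn.conj p hconj (locIn_of_SS hV _ rfl hpar₀)
  obtain ⟨S, hS⟩ := exists_SS_good (toP _ x) (Good.of_locIn p hL)
  have hSa : toP _ x = S.actP := eq_actP (toP _ x) S hS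
  refine ⟨S, act_eq_of_toP S x (fun t => by rw [hSa]), ?_, ?_⟩
  · exact sigma_ne_refl p S (hatPlus 4 σ) (a := toP _ α) (by rw [← hSa]; exact hconj) (stdLn 0 1 (by decide))
      (hatPlus_single σ 0) (hatPlus_single σ 1) rfl hσ
  · exact ⟨_, lagr_of_skew hV stdLn_not_con stdLn_per, par_of_locIn hV S (hSa ▸ hL) stdLn_not_con stdLn_per⟩

end final

section main

universe u v

variable {F : Type u} [Field F] [Fintype F] {m : ℕ}

/-- Field type automorphisms of `PΩ⁺_{2m}` are semisimilarities. -/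
theorem exists_SS_plus (hm : 4 ≤ m) [hND : ND (Qplus m F)] (x : MulAut (Cfsg.POmega F (⇑(Qplus m F))))
    (hx : Cfsg.IsFieldAutClassPOmega (⇑(Qplus m F)) x) :
    ∃ S : SS (Qplus m F), act S = x ∧ S.σ ≠ RingEquiv.refl F ∧ ∃ U, IsLagr (Qplus m F) m U ∧ Par m U (S.img U) := by
  classical
  have hV : finrank F (Fin m ⊕ Fin m → F) = 2 * m := by
    simp [Module.finrank_fintype_fun_eq_card]
    ring
  by_cases h4 : m = 4
  · subst h4
    exact exists_SS_tri hV x hx
  obtain ⟨k, rfl⟩ : ∃ k, m = k + 1 := ⟨m - 1, by omega⟩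
  have hQ : (P (Qplus (k + 1) F)).Nondegenerate := Qplus_nondeg _
  have H : 9 ≤ finrank F (Fin (k + 1) ⊕ Fin (k + 1) → F) ∨ NoSkew (Qplus (k + 1) F) := Or.inl (by omega)
  have hrk : Fintype.card F ≠ 2 ∨ finrank F (Fin (k + 1) ⊕ Fin (k + 1) → F) ≠ 4 := Or.inr (by omega)
  have hU₀ : IsLagr (Qplus (k + 1) F) (k + 1) _ := U0_lagr (m := k + 1) (F' := F)
  obtain ⟨S, hS⟩ := act_surj H x
  have hnot : x ∉ Cfsg.pgoAut F (⇑(Qplus (k + 1) F)) := notpgo_plus (by omega) rfl x (Or.inl hx)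
  refine ⟨S, hS, ?_, ?_⟩
  · intro h
    apply hnot
    rw [← sig_eq_one_iff H x, ← hS, sig_act]
    exact h
  · obtain ⟨α, φ, σ, hσ, hφ, hαx⟩ := hx
    obtain ⟨A, hA⟩ := act_surj H α
    have hφe : φ = act (hatPlus (k + 1) σ) := eq_act_of_field (hatPlus (k + 1) σ) (fun v => rfl) φ hφ
    have hcomm : act (A.comp S) = act ((hatPlus (k + 1) σ).comp A) := by
      rw [act_comp, act_comp, hA, hS, ← hφe, ← hαx]
      group
    refine ⟨_, hU₀, ?_⟩
    rw [par_conj hQ hrk hV S _ A hcomm hU₀ hU₀, hat_img_U0]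
    exact par_self hU₀.dim

lemma exists_pow_SS {ι : Type} [Fintype ι] [DecidableEq ι] {Q : QuadraticForm F (ι → F)} [ND Q] (S : SS Q) (n : ℕ) :
    ∃ T : SS Q, act T = act S ^ n ∧ T.σ = S.σ ^ n := by
  induction n with
  | zero => exact ⟨SS.one Q, act_one, rfl⟩
  | succ n ih =>
    obtain ⟨T, h1, h2⟩ := ih
    refine ⟨T.comp S, ?_, ?_⟩
    · rw [act_comp, h1, pow_succ]
    · rw [SS.comp_σ, h2, pow_succ]

/-- The main theorem for field automorphisms of plus type. -/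
theorem field_plus_main {p f : ℕ} [hp : Fact p.Prime] (hF : Fintype.card F = p ^ f) (hf : 1 ≤ f) (hm : 4 ≤ m)
    {q : (Fin m ⊕ Fin m → F) → F} (hq : ⇑(Qplus m F) = q) (x : MulAut (Cfsg.POmega F q)) (hx : Cfsg.IsFieldAutClassPOmega q x)
    {r : ℕ} (hr : r.Prime) (hxr : orderOf x = r) (F₀ : Type v) [Field F₀] [Fintype F₀] (hF₀ : Fintype.card F₀ = p ^ (f / r))
    {q₀ : (Fin m ⊕ Fin m → F₀) → F₀} (hq₀ : ⇑(Qplus m F₀) = q₀) :
    r ∣ f ∧ Nonempty (↥(GR q (Cfsg.PreservesSingularClasses q) ⊓ Subgroup.centralizer {x}) ≃* ↥(GR q₀ (Cfsg.PreservesSingularClasses q₀))) ∧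
      ((Odd r ∨ p = 2) → Cfsg.splitClassCount (GR q (Cfsg.PreservesSingularClasses q)) (Cfsg.Inn (Cfsg.POmega F q)) x = 1) ∧
      ((r = 2 ∧ p ≠ 2 ∧ Odd m ∧ p ^ (f / 2) % 4 = 1) → Cfsg.splitClassCount (GR q (Cfsg.PreservesSingularClasses q)) (Cfsg.Inn (Cfsg.POmega F q)) x = 2) ∧
      ((r = 2 ∧ p ≠ 2 ∧ ¬ (Odd m ∧ p ^ (f / 2) % 4 = 1)) → Cfsg.splitClassCount (GR q (Cfsg.PreservesSingularClasses q)) (Cfsg.Inn (Cfsg.POmega F q)) x = 4) := by
  classical
  subst hq
  have hV : finrank F (Fin m ⊕ Fin m → F) = 2 * m := by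
    simp [Module.finrank_fintype_fun_eq_card]
    ring
  have hQ : (P (Qplus m F)).Nondegenerate := Qplus_nondeg _
  haveI hND : ND (Qplus m F) := ⟨hQ, by omega⟩
  obtain ⟨S, hS, hσ, hU⟩ := exists_SS_plus hm x hx
  have hxpow : x ^ r = 1 := by rw [← hxr]; exact pow_orderOf_eq_one x
  have hord : orderOf S.σ = r := by
    haveI : Fact r.Prime := ⟨hr⟩
    apply orderOf_eq_prime
    · obtain ⟨T, h1, h2⟩ := exists_pow_SS S r
      rw [hS, hxpow, ← act_one] at h1
      rw [← h2]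
      exact (act_eq (act_inj h1)).1
    · exact hσ
  exact field_plus_core hF hf hm rfl S x (heq_of_eq hS) rfl hr hord hxpow hU F₀ hF₀ hq₀

end main

end Cfsg.Agent.Lib.AutPO
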