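import Mathlib
import Cfsg.Agent.Lib.AutPO.Tri
import Cfsg.Agent.Lib.Core.Basic

/-!
The `p'`-core of the centralizer of an automorphism: generalities.
-/

set_option autoImplicit false
set_option linter.unusedSectionVars false
set_option linter.unusedVariables false

open scoped Matrix

namespace Cfsg.Agent.Lib.AutPO

open Cfsg.Agent.Lib.Classical Cfsg.Agent.Lib.Classical.Witt Cfsg.Agent.Lib.Classical.Abs Cfsg.Agent.Lib.Classical.Orth
open Cfsg.Agent.Lib.Known3.SimAut Cfsg.Agent.Lib.Known3.OmegaTrans Cfsg.Agent.Lib.Known3.OmegaCalc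
open Cfsg.Agent.Lib.Known3.Spinor Cfsg.Agent.Lib.Known3.OmegaSum Cfsg.Agent.Lib.Known3.QuadIso Cfsg.Agent.Lib.Known3.QuadStd
open scoped commutatorElement
open Module Ln

local notation "P" => QuadraticMap.polarBilin

section abstractcore

/-- A simple normal subgroup of order divisible by `p` with `p`-torsion centralizer forces a trivial `p'`-core. -/
theorem core_eq_bot {C : Type*} [Group C] [Finite C] {p : ℕ} [hp : Fact p.Prime] (L : Subgroup C) (hL : L.Normal) (hs : IsSimpleGroup L)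
    (hpL : p ∣ Nat.card L) (hc : ∀ y : C, (∀ l ∈ L, y * l = l * y) → y ^ p = 1) : Cfsg.pPrimeCore p C = ⊥ := by
  classical
  have hNc : (Nat.card (Cfsg.pPrimeCore p C)).Coprime p := Cfsg.Agent.Lib.Core.pPrimeCore_coprime p C
  have hNn : (Cfsg.pPrimeCore p C).Normal := inferInstance
  have h1 : ((Cfsg.pPrimeCore p C).subgroupOf L).Normal := hNn.subgroupOf L
  rcases hs.eq_bot_or_eq_top_of_normal _ h1 with h2 | h2
  · have h3 : ∀ y ∈ Cfsg.pPrimeCore p C, ∀ l ∈ L, y * l = l * y := by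
      intro y hy l hl
      have h4 : ⁅y, l⁆ ∈ Cfsg.pPrimeCore p C := by
        have e : ⁅y, l⁆ = y * (l * y⁻¹ * l⁻¹) := by
          rw [commutatorElement_def]
          group
        rw [e]
        exact mul_mem hy (hNn.conj_mem y⁻¹ (inv_mem hy) l)
      have h5 : ⁅y, l⁆ ∈ L := by
        rw [commutatorElement_def]
        exact mul_mem (hL.conj_mem l hl y) (inv_mem hl)
      have h6 : (⟨⁅y, l⁆, h5⟩ : L) ∈ (Cfsg.pPrimeCore p C).subgroupOf L := h4
      rw [h2, Subgroup.mem_bot] at h6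
      have h7 : ⁅y, l⁆ = 1 := congrArg Subtype.val h6
      exact commutatorElement_eq_one_iff_mul_comm.mp h7
    rw [eq_bot_iff]
    intro y hy
    have h7 := hc y (h3 y hy)
    have h8 : y ^ Nat.card (Cfsg.pPrimeCore p C) = 1 := by
      have := pow_card_eq_one' (x := (⟨y, hy⟩ : Cfsg.pPrimeCore p C))
      exact congrArg Subtype.val this
    have h9 : orderOf y ∣ Nat.gcd (Nat.card (Cfsg.pPrimeCore p C)) p := Nat.dvd_gcd (orderOf_dvd_of_pow_eq_one h8) (orderOf_dvd_of_pow_eq_one h7)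
    rw [hNc] at h9
    rw [Subgroup.mem_bot]
    exact orderOf_eq_one_iff.mp (Nat.dvd_one.mp h9)
  · exfalso
    have h3 : L ≤ Cfsg.pPrimeCore p C := Subgroup.subgroupOf_eq_top.mp h2
    have h4 : Nat.card L ∣ Nat.card (Cfsg.pPrimeCore p C) := Subgroup.card_dvd_of_le h3
    have h5 : p ∣ Nat.gcd (Nat.card (Cfsg.pPrimeCore p C)) p := Nat.dvd_gcd (hpL.trans h4) dvd_rfl
    rw [hNc] at h5
    exact hp.out.one_lt.ne' (Nat.dvd_one.mp h5)

/-- A simple non-abelian group is perfect. -/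
lemma perfect_of_simple {K₀ : Type*} [Group K₀] (hs : IsSimpleGroup K₀) (hn : ∃ a b : K₀, a * b ≠ b * a) : commutator K₀ = ⊤ := by
  rcases hs.eq_bot_or_eq_top_of_normal (commutator K₀) inferInstance with h | h
  · exfalso
    obtain ⟨a, b, hab⟩ := hn
    apply hab
    have h1 : ⁅a, b⁆ ∈ commutator K₀ := by
      rw [commutator_def]
      exact Subgroup.commutator_mem_commutator (Subgroup.mem_top a) (Subgroup.mem_top b)
    rw [h, Subgroup.mem_bot] at h1
    exact commutatorElement_eq_one_iff_mul_comm.mp h1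
  · exact h

/-- Structure of an extension of a simple group by `±1`. -/
theorem comm_of_two {G₀ K₀ : Type*} [Group G₀] [Group K₀] (φ : G₀ →* ℤˣ) (ι : K₀ →* G₀) (hr : ι.range = φ.ker)
    (hs : IsSimpleGroup K₀) (hn : ∃ a b : K₀, a * b ≠ b * a) : commutator G₀ = ι.range := by
  apply le_antisymm
  · rw [hr, commutator_def, Subgroup.commutator_le]
    intro a _ b _
    rw [MonoidHom.mem_ker, map_commutatorElement, commutatorElement_eq_one_iff_mul_comm]
    exact mul_comm _ _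
  · rw [MonoidHom.range_eq_map, ← perfect_of_simple hs hn, commutator_def, Subgroup.map_commutator, commutator_def]
    exact Subgroup.commutator_mono le_top le_top

/-- Transport along an isomorphism. -/
theorem comm_transport {H G₀ K₀ : Type*} [Group H] [Group G₀] [Group K₀] (e : H ≃* G₀) (ι : K₀ →* G₀) (hι : Function.Injective ι)
    (hc : commutator G₀ = ι.range) : Nonempty (K₀ ≃* commutator H) := by
  have h1 : (commutator H).map e.toMonoidHom = commutator G₀ := by
    rw [commutator_def, Subgroup.map_commutator, commutator_def, Subgroup.map_top_of_surjective _ e.surjective]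
  have e1 : commutator H ≃* (commutator H).map e.toMonoidHom := Subgroup.equivMapOfInjective _ _ e.injective
  have e2 : K₀ ≃* ι.range := MonoidHom.ofInjective hι
  rw [h1, hc] at e1
  exact ⟨e2.trans e1.symm⟩

end abstractcore

section abstractmain

variable {K K₀ G₀ : Type*} [Group K] [Group K₀] [Group G₀]

lemma conj_inj_of_center (hK : Subgroup.center K = ⊥) : Function.Injective (MulAut.conj : K →* MulAut K) := by
  rw [injective_iff_map_eq_one]
  intro k hk
  have h1 : k ∈ Subgroup.center K := by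
    rw [Subgroup.mem_center_iff]
    intro g
    have h2 := congrArg (fun e : MulAut K => e g) hk
    simp only [MulAut.conj_apply, MulAut.one_apply] at h2
    rw [mul_inv_eq_iff_eq_mul] at h2
    exact h2.symm
  rw [hK] at h1
  exact Subgroup.mem_bot.mp h1

lemma center_eq_bot_of_simple (hs : IsSimpleGroup K) (hn : ∃ a b : K, a * b ≠ b * a) : Subgroup.center K = ⊥ := by
  rcases hs.eq_bot_or_eq_top_of_normal _ (inferInstance : (Subgroup.center K).Normal) with h | h
  · exact h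
  · exfalso
    obtain ⟨a, b, hab⟩ := hn
    have h1 : a ∈ Subgroup.center K := h ▸ Subgroup.mem_top a
    exact hab ((Subgroup.mem_center_iff.mp h1) b).symm

lemma mul_conj_eq (x : MulAut K) (ℓ : K) : x * MulAut.conj ℓ = MulAut.conj (x ℓ) * x := by
  ext g
  simp [MulAut.mul_apply, MulAut.conj_apply, map_mul, map_inv]

/-- The abstract form of the theorem about the `p'`-core. -/
theorem core_abstract [Finite K] (hK : Subgroup.center K = ⊥) {p : ℕ} [hp : Fact p.Prime]
    (G : Subgroup (MulAut K)) (hG : G.Normal) (hinn : Cfsg.Inn K ≤ G) (φG : ↥G →* ℤˣ) (hφG : φG.ker = (Cfsg.Inn K).subgroupOf G)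
    (A : Subgroup (MulAut K)) (hA : ∀ k, MulAut.conj k ∈ A) (x : MulAut K)
    (e : ↥(G ⊓ Subgroup.centralizer {x}) ≃* G₀) (φ₀ : G₀ →* ℤˣ) (ι : K₀ →* G₀) (hι : Function.Injective ι) (hr : ι.range = φ₀.ker)
    (hs : IsSimpleGroup K₀) (hn : ∃ a b : K₀, a * b ≠ b * a) (h2 : 2 ∣ Nat.card K₀)
    (hfix : ∀ y ∈ A, y * x = x * y → (∀ ℓ₁ ℓ₂ : K, x ℓ₁ = ℓ₁ → x ℓ₂ = ℓ₂ → y ⁅ℓ₁, ℓ₂⁆ = ⁅ℓ₁, ℓ₂⁆) → y ^ p = 1)
    (hnc : ¬ Nat.Coprime p (Nat.card ↥(MonoidHom.eqLocus x.toMonoidHom (MonoidHom.id K)))) :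
    Cfsg.pPrimeCore p ↥(A ⊓ Subgroup.centralizer {x}) = ⊥ := by
  classical
  set H : Subgroup (MulAut K) := G ⊓ Subgroup.centralizer {x} with hH
  have hcomm : ∀ ℓ : K, x ℓ = ℓ → MulAut.conj ℓ * x = x * MulAut.conj ℓ := by
    intro ℓ hℓ
    rw [mul_conj_eq, hℓ]
  have hconjH : ∀ ℓ : K, x ℓ = ℓ → MulAut.conj ℓ ∈ H := fun ℓ hℓ =>
    ⟨hinn ⟨ℓ, rfl⟩, Subgroup.mem_centralizer_singleton_iff.mpr (hcomm ℓ hℓ)⟩
  -- the commutator subgroup
  have hc := comm_of_two φ₀ ι hr hs hn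
  obtain ⟨e1⟩ := comm_transport e ι hι hc
  set L₂ : Subgroup (MulAut K) := ⁅H, H⁆ with hL₂
  have hL₂' : (commutator ↥H).map H.subtype = L₂ := Subgroup.map_subtype_commutator H
  have e2 : commutator ↥H ≃* L₂ := by
    rw [← hL₂']
    exact Subgroup.equivMapOfInjective _ _ H.subtype_injective
  have hL₂Inn : L₂ ≤ Cfsg.Inn K := by
    rw [hL₂, Subgroup.commutator_le]
    intro a ha b hb
    have ha' : a ∈ G := ha.1
    have hb' : b ∈ G := hb.1
    have h3 : (⁅(⟨a, ha'⟩ : ↥G), (⟨b, hb'⟩ : ↥G)⁆ : ↥G) ∈ φG.ker := by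
      rw [MonoidHom.mem_ker, map_commutatorElement, commutatorElement_eq_one_iff_mul_comm]
      exact mul_comm _ _
    rw [hφG] at h3
    exact Subgroup.mem_subgroupOf.mp h3
  have hL₂H : L₂ ≤ H := by
    rw [hL₂, Subgroup.commutator_le]
    intro a ha b hb
    rw [commutatorElement_def]
    exact mul_mem (mul_mem (mul_mem ha hb) (inv_mem ha)) (inv_mem hb)
  have hle : L₂ ≤ A ⊓ Subgroup.centralizer {x} := by
    intro l hl
    refine ⟨?_, (hL₂H hl).2⟩
    obtain ⟨k, rfl⟩ := hL₂Inn hl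
    exact hA k
  set L : Subgroup ↥(A ⊓ Subgroup.centralizer {x}) := L₂.subgroupOf (A ⊓ Subgroup.centralizer {x}) with hL
  have e3 : L ≃* L₂ := Subgroup.subgroupOfEquivOfLe hle
  -- normality
  have hLn : L.Normal := by
    constructor
    intro l hl c
    rw [hL, Subgroup.mem_subgroupOf] at hl ⊢
    have hcx : c.1 * x = x * c.1 := Subgroup.mem_centralizer_singleton_iff.mp c.2.2
    let f : MulAut K →* MulAut K := (MulAut.conj c.1).toMonoidHom
    have h4 : H.map f ≤ H := by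
      rintro _ ⟨h, hh, rfl⟩
      refine ⟨hG.conj_mem h hh.1 c.1, ?_⟩
      change f h ∈ Subgroup.centralizer {x}
      rw [Subgroup.mem_centralizer_singleton_iff]
      have hhx : h * x = x * h := Subgroup.mem_centralizer_singleton_iff.mp hh.2
      have hci : c.1⁻¹ * x = x * c.1⁻¹ := by
        rw [inv_mul_eq_iff_eq_mul, ← mul_assoc, hcx, mul_assoc, mul_inv_cancel, mul_one]
      change c.1 * h * c.1⁻¹ * x = x * (c.1 * h * c.1⁻¹)
      rw [mul_assoc, hci, ← mul_assoc, mul_assoc c.1, hhx, ← mul_assoc, hcx]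
      group
    have h5 : L₂.map f ≤ L₂ := by
      rw [hL₂, Subgroup.map_commutator]
      exact Subgroup.commutator_mono h4 h4
    have h6 : f l.1 ∈ L₂ := h5 ⟨l.1, hl, rfl⟩
    exact h6
  -- simplicity
  have hsL : IsSimpleGroup L := by
    haveI := hs
    exact (e3.trans (e2.symm.trans e1.symm)).isSimpleGroup
  -- the order
  have hcardL : Nat.card L = Nat.card K₀ := Nat.card_congr (e3.trans (e2.symm.trans e1.symm)).toEquiv
  have hpL : p ∣ Nat.card L := by
    rw [hcardL]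
    have h3 : p ∣ Nat.card ↥(MonoidHom.eqLocus x.toMonoidHom (MonoidHom.id K)) := by
      by_contra h4
      exact hnc ((Nat.Prime.coprime_iff_not_dvd hp.out).mpr h4)
    let f : ↥(MonoidHom.eqLocus x.toMonoidHom (MonoidHom.id K)) →* ↥H :=
      { toFun := fun ℓ => ⟨MulAut.conj ℓ.1, hconjH ℓ.1 ℓ.2⟩
        map_one' := by
          apply Subtype.ext
          simp
        map_mul' := fun a b => by
          apply Subtype.ext
          exact map_mul _ _ _ }
    have hfinj : Function.Injective f := by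
      intro a b hab
      apply Subtype.ext
      exact conj_inj_of_center hK (congrArg Subtype.val hab)
    have h4 := Subgroup.card_dvd_of_injective f hfinj
    have h5 : Nat.card H = Nat.card G₀ := Nat.card_congr e.toEquiv
    have h6 : Nat.card G₀ ∣ 2 * Nat.card K₀ := by
      have h7 : Nat.card φ₀.ker = Nat.card K₀ := by
        rw [← hr]
        exact (Nat.card_congr (MonoidHom.ofInjective hι).toEquiv).symm
      have h8 := Subgroup.card_mul_index φ₀.ker
      rw [h7, Subgroup.index_ker] at h8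
      have h9 : Nat.card φ₀.range ∣ 2 := by
        have := Subgroup.card_subgroup_dvd_card φ₀.range
        rwa [show Nat.card ℤˣ = 2 from by simp [Nat.card_eq_fintype_card]] at this
      rw [← h8, mul_comm]
      exact Nat.mul_dvd_mul_right h9 _
    have h7 : p ∣ 2 * Nat.card K₀ := (h3.trans h4).trans (h5 ▸ h6)
    rcases (Nat.Prime.dvd_mul hp.out).mp h7 with h8 | h8
    · rw [(Nat.prime_dvd_prime_iff_eq hp.out Nat.prime_two).mp h8]
      exact h2
    · exact h8
  -- centralizers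
  refine core_eq_bot L hLn hsL hpL ?_
  intro y hy
  have h3 : y.1 ^ p = 1 := by
    apply hfix y.1 y.2.1 (Subgroup.mem_centralizer_singleton_iff.mp y.2.2)
    intro ℓ₁ ℓ₂ h1 h2'
    have h4 : MulAut.conj ⁅ℓ₁, ℓ₂⁆ ∈ L₂ := by
      rw [map_commutatorElement]
      exact Subgroup.commutator_mem_commutator (hconjH ℓ₁ h1) (hconjH ℓ₂ h2')
    have h5 := hy ⟨_, hle h4⟩ h4
    have h6 : y.1 * MulAut.conj ⁅ℓ₁, ℓ₂⁆ = MulAut.conj ⁅ℓ₁, ℓ₂⁆ * y.1 := congrArg Subtype.val h5
    rw [mul_conj_eq] at h6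
    exact conj_inj_of_center hK (mul_right_cancel h6)
  apply Subtype.ext
  simpa using h3

end abstractmain

section gen

variable {F V : Type*} [Field F] [AddCommGroup V] [Module F V] {Q : QuadraticForm F V}
variable [FiniteDimensional F V] [Fintype F] [hND : ND Q]

/-- Two orthogonal hyperbolic pairs. -/
lemma exists_two_pairs : ∃ e f e₂ f₂ : V, Q e = 0 ∧ Q f = 0 ∧ P Q e f = 1 ∧ Q e₂ = 0 ∧ Q f₂ = 0 ∧ P Q e₂ f₂ = 1 ∧
    P Q e e₂ = 0 ∧ P Q e f₂ = 0 ∧ P Q f e₂ = 0 ∧ P Q f f₂ = 0 := by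
  have hn := dim' Q
  obtain ⟨e, he0, he, -⟩ := exists_sing_perp (Q := Q) (nd' Q) ![] (by simp; omega)
  obtain ⟨f, hf, hef⟩ := exists_partner (nd' Q) he0 he
  obtain ⟨e₂, h0, h2, h3⟩ := exists_sing_perp (Q := Q) (nd' Q) ![e, f] (by simp; omega)
  have c0 := h3 0
  have c1 := h3 1
  simp only [Matrix.cons_val_zero, Matrix.cons_val_one] at c0 c1
  have hsp : ∀ u ∈ Submodule.span F {e, f}, ∃ α β : F, α • e + β • f = u := fun u hu => Submodule.mem_span_pair.mp hu
  have hfe : P Q f e = 1 := by rw [pol_comm]; exact hef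
  obtain ⟨f₂, q2, p2, p3⟩ := exists_hyp_sep (Submodule.span F {e, f}) h2
    (by
      intro u hu
      obtain ⟨α, β, rfl⟩ := hsp u hu
      simp only [map_add, map_smul, LinearMap.add_apply, LinearMap.smul_apply, c0, c1, smul_zero, add_zero])
    (by
      intro hm
      obtain ⟨α, β, e1⟩ := hsp _ hm
      apply h0
      rw [← e1] at c0 c1
      simp only [map_add, map_smul, pol_self_of he, pol_self_of hf, hef, hfe, smul_eq_mul, mul_zero, mul_one, zero_add, add_zero] at c0 c1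
      rw [← e1, c0, c1]
      simp)
  exact ⟨e, f, e₂, f₂, he, hf, hef, h2, q2, p2, c0, p3 e (Submodule.subset_span (by simp)), c1, p3 f (Submodule.subset_span (by simp))⟩

/-- `PΩ` is not abelian. -/
lemma exists_noncomm_PG : ∃ a b : PG Q, a * b ≠ b * a := by
  obtain ⟨e, f, e₂, f₂, he, hf, hef, qe₂, qf₂, hef₂, a1, a2, a3, a4⟩ := exists_two_pairs (Q := Q)
  have hfe : P Q f e = 1 := by rw [pol_comm]; exact hef
  have hfe₂ : P Q f₂ e₂ = 1 := by rw [pol_comm]; exact hef₂
  have he0 : e ≠ 0 := by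
    rintro rfl
    simp at hef
  have hf0 : f ≠ 0 := by
    rintro rfl
    simp at hef
  let W₁ : Ln Q := ⟨e, e₂, he, qe₂, a1, he0, fun c h => by
    have := congrArg (P Q e₂) h
    simp only [map_smul, smul_eq_mul, pol_self_of qe₂] at this
    have h1 := congrArg (P Q f₂) h
    simp only [map_smul, smul_eq_mul, hfe₂] at h1
    have h2 : P Q f₂ e = 0 := by rw [pol_comm]; exact a2
    rw [h2, mul_zero] at h1
    exact one_ne_zero h1⟩
  let W₂ : Ln Q := ⟨f, f₂, hf, qf₂, a4, hf0, fun c h => by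
    have h1 := congrArg (P Q e₂) h
    simp only [map_smul, smul_eq_mul, hef₂] at h1
    have h2 : P Q e₂ f = 0 := by rw [pol_comm]; exact a3
    rw [h2, mul_zero] at h1
    exact one_ne_zero h1⟩
  refine ⟨rt Q W₁.a W₁.b, rt Q W₂.a W₂.b, fun h => ?_⟩
  rcases con_or_per (W := W₁) (W' := W₂) h with ⟨x, hx0, hx1, hx2⟩ | h3
  · obtain ⟨α, β, rfl⟩ := mem_sp.mp hx1
    obtain ⟨γ, δ, e1⟩ := mem_sp.mp hx2
    change γ • f + δ • f₂ = α • e + β • e₂ at e1
    have h1 := congrArg (P Q f) e1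
    have h2 := congrArg (P Q f₂) e1
    have b1 : P Q f₂ e = 0 := by rw [pol_comm]; exact a2
    have b2 : P Q f₂ f = 0 := by rw [pol_comm]; exact a4
    simp only [map_add, map_smul, pol_self_of hf, a4, hfe, a3, smul_eq_mul, mul_zero, mul_one, add_zero, zero_add] at h1
    simp only [map_add, map_smul, pol_self_of qf₂, b1, b2, hfe₂, smul_eq_mul, mul_zero, mul_one, add_zero, zero_add] at h2
    apply hx0
    change α • e + β • e₂ = 0
    rw [← h1, ← h2]
    simp
  · have := h3 _ W₁.a_mem _ W₂.a_mem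
    rw [show P Q W₁.a W₂.a = 1 from hef] at this
    exact one_ne_zero this

/-- A product of two reflections which is minus one on a hyperbolic plane. -/
lemma minus_plane {e f : V} (he : Q e = 0) (hf : Q f = 0) (hef : P Q e f = 1) (h2 : (2 : F) ≠ 0)
    (h1 : Q ((-1 : F) • e + f) ≠ 0) (h3 : Q ((1 : F) • e + f) ≠ 0) (x : V) :
    (refl Q _ h1 * refl Q _ h3).1 x = x - (2 * P Q f x) • e - (2 * P Q e x) • f := by
  have hinv : (-1 : F)⁻¹ = -1 := by simp
  rw [levi_apply he hf hef (by simp) h1 h3, hinv]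
  have e1 : (-1 - 1 : F) = -2 := by ring
  rw [e1, neg_mul, neg_mul, neg_smul, neg_smul, sub_eq_add_neg, sub_eq_add_neg]

/-- `PΩ` has even order in odd characteristic. -/
lemma two_dvd_card_PG (h2 : (2 : F) ≠ 0) : 2 ∣ Nat.card (PG Q) := by
  obtain ⟨e, f, e₂, f₂, he, hf, hef, qe₂, qf₂, hef₂, a1, a2, a3, a4⟩ := exists_two_pairs (Q := Q)
  have hn := dim' Q
  have hfe : P Q f e = 1 := by rw [pol_comm]; exact hef
  have hfe₂ : P Q f₂ e₂ = 1 := by rw [pol_comm]; exact hef₂
  have he0 : e ≠ 0 := by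
    rintro rfl
    simp at hef
  have hfin : Fintype.card F ≠ 2 ∨ finrank F V ≠ 4 := Or.inr (by omega)
  have v1 : Q ((-1 : F) • e + f) ≠ 0 := by rw [Q_vd he hf hef]; simp
  have v2 : Q ((1 : F) • e + f) ≠ 0 := by rw [Q_vd he hf hef]; simp
  have v3 : Q ((-1 : F) • e₂ + f₂) ≠ 0 := by rw [Q_vd qe₂ qf₂ hef₂]; simp
  have v4 : Q ((1 : F) • e₂ + f₂) ≠ 0 := by rw [Q_vd qe₂ qf₂ hef₂]; simp
  have hm : prodL [(⟨_, v1⟩ : NS Q), ⟨_, v2⟩, ⟨_, v3⟩, ⟨_, v4⟩] ∈ KK Q := by
    apply mem_comm_of (nd' Q) hfin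
    · exact ⟨2, rfl⟩
    · simp only [List.map_cons, List.map_nil, List.prod_cons, List.prod_nil, Q_vd he hf hef, Q_vd qe₂ qf₂ hef₂]
      exact ⟨1, by ring⟩
  have hmul : prodL [(⟨_, v1⟩ : NS Q), ⟨_, v2⟩, ⟨_, v3⟩, ⟨_, v4⟩] = (refl Q _ v1 * refl Q _ v2) * (refl Q _ v3 * refl Q _ v4) := by
    simp [mul_assoc]
  obtain ⟨w, hw0, hw⟩ := exists_perp (Q := Q) (nd' Q) ![e, f, e₂, f₂] (by simp; omega)
  have w0 := hw 0
  have w1 := hw 1
  have w2 := hw 2
  have w3 := hw 3
  simp only [Matrix.cons_val_zero, Matrix.cons_val_one, Matrix.cons_val] at w0 w1 w2 w3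
  let g : KK Q := ⟨_, hm⟩
  have hg : ∀ x, g.1.1 x = x - (2 * P Q f₂ x) • e₂ - (2 * P Q e₂ x) • f₂ - (2 * P Q f x) • e - (2 * P Q e x) • f := by
    intro x
    change (prodL [(⟨_, v1⟩ : NS Q), ⟨_, v2⟩, ⟨_, v3⟩, ⟨_, v4⟩]).1 x = _
    rw [hmul, Orth.mul_apply', minus_plane he hf hef h2 v1 v2, minus_plane qe₂ qf₂ hef₂ h2 v3 v4]
    have b1 : P Q e₂ e = 0 := by rw [pol_comm]; exact a1
    have b2 : P Q f₂ e = 0 := by rw [pol_comm]; exact a2
    have b3 : P Q e₂ f = 0 := by rw [pol_comm]; exact a3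
    have b4 : P Q f₂ f = 0 := by rw [pol_comm]; exact a4
    simp only [map_sub, map_smul, a1, a2, a3, a4, smul_eq_mul, mul_zero, sub_zero]
  have hg2 : g * g = 1 := by
    apply Subtype.ext
    apply OG_ext
    intro x
    change g.1.1 (g.1.1 x) = x
    have b1 : P Q e₂ e = 0 := by rw [pol_comm]; exact a1
    have b2 : P Q f₂ e = 0 := by rw [pol_comm]; exact a2
    have b3 : P Q e₂ f = 0 := by rw [pol_comm]; exact a3
    have b4 : P Q f₂ f = 0 := by rw [pol_comm]; exact a4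
    rw [hg, hg x]
    simp only [map_sub, map_smul, a1, a2, a3, a4, b1, b2, b3, b4, pol_self_of he, pol_self_of hf, pol_self_of qe₂, pol_self_of qf₂, hef, hfe, hef₂, hfe₂,
      smul_eq_mul, mul_zero, mul_one, sub_zero, zero_sub]
    (module)
  have hne : mk Q g ≠ 1 := by
    intro h
    have h3 : g ∈ Subgroup.center (KK Q) := by
      have := (QuotientGroup.eq_one_iff g).mp h
      exact this
    rcases center_cases g h3 with h4 | ⟨-, h4⟩
    · have h5 := hg e
      rw [h4] at h5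
      change e = _ at h5
      have b1 : P Q e₂ e = 0 := by rw [pol_comm]; exact a1
      have b2 : P Q f₂ e = 0 := by rw [pol_comm]; exact a2
      simp only [b1, b2, hfe, pol_self_of he, mul_zero, mul_one, zero_smul, sub_zero] at h5
      have h6 : (2 : F) • e = 0 := by
        have h7 := sub_eq_self.mp h5.symm
        exact h7
      exact he0 ((smul_eq_zero.mp h6).resolve_left h2)
    · have h5 := h4 w
      rw [hg] at h5
      simp only [w0, w1, w2, w3, mul_zero, zero_smul, sub_zero] at h5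
      have h6 : (2 : F) • w = 0 := by
        rw [two_smul]
        nth_rw 1 [h5]
        simp
      exact hw0 ((smul_eq_zero.mp h6).resolve_left h2)
  have hord : orderOf (mk Q g) = 2 := by
    apply orderOf_eq_prime
    · rw [sq, ← map_mul, hg2, map_one]
    · exact hne
  rw [← hord]
  exact orderOf_dvd_natCard _

end gen

section fix

variable {F V : Type*} [Field F] [AddCommGroup V] [Module F V] {Q : QuadraticForm F V}
variable [FiniteDimensional F V] [Fintype F] [hND : ND Q]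

lemma rt_smul_inj (W : Ln Q) {s t : F} (h : rt Q W.a (s • W.b) = rt Q W.a (t • W.b)) : s = t := by
  obtain ⟨c, hc⟩ := (rt_eq_iff W.na W.qa (by rw [map_smul, W.pab, smul_zero]) (by rw [map_smul, W.pab, smul_zero])).mp h
  have e1 : (-c) • W.a + (t - s) • W.b = 0 := by
    rw [sub_smul, hc]
    simp
  exact (sub_eq_zero.mp (W.indep e1).2).symm

/-- `T` fixes all commutators of elements fixed by `S₀`. -/
structure FixData (T S₀ : SS Q) : Prop where
  hμ : S₀.μ = 1
  fix : ∀ s₁ s₂ : PG Q, S₀.actP s₁ = s₁ → S₀.actP s₂ = s₂ → T.actP ⁅s₁, s₂⁆ = ⁅s₁, s₂⁆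

lemma FixData.root {T S₀ : SS Q} (D : FixData T S₀) (W : Ln Q) (ha : S₀.g W.a = W.a) (hb : S₀.g W.b = W.b) {e f : V} (he : Q e = 0) (hf : Q f = 0)
    (hef : P Q e f = 1) (re : S₀.g e = e) (rf : S₀.g f = f) (h1 : P Q e W.a = 0) (h2 : P Q f W.a = 0) (h3 : P Q e W.b = 0) (h4 : P Q f W.b = 0)
    {t : F} (ht : S₀.σ t = t) : T.actP (rt Q W.a (t • W.b)) = rt Q W.a (t • W.b) := by
  have h3' : P Q e (t • W.b) = 0 := by rw [map_smul, h3, smul_zero]
  have h4' : P Q f (t • W.b) = 0 := by rw [map_smul, h4, smul_zero]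
  have e1 : ⁅rt Q e W.a, rt Q f (t • W.b)⁆ = rt Q W.a (t • W.b) :=
    rt_comm_of (comm_ef he hf hef h1 h2 h3' h4' W.qa (by rw [Q_smul, W.qb, mul_zero]) (by rw [map_smul, W.pab, smul_zero]))
  rw [← e1]
  apply D.fix
  · rw [actP_sO S₀ he h1, re, ha, D.hμ, inv_one, one_smul]
  · rw [actP_sO S₀ hf h4', rf, S₀.smul, ht, hb, D.hμ, inv_one, one_smul]

/-- A semisimilarity fixing a root element stabilises the line, with determinant the multiplier. -/
lemma line_coef (T : SS Q) (W : Ln Q) (h1 : T.actP (rt Q W.a ((1 : F) • W.b)) = rt Q W.a ((1 : F) • W.b)) :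
    ∃ α β γ δ : F, T.g W.a = α • W.a + β • W.b ∧ T.g W.b = γ • W.a + δ • W.b ∧ T.μ⁻¹ * (α * δ - β * γ) = 1 ∧
      ∀ t, T.actP (rt Q W.a (t • W.b)) = rt Q W.a (t • W.b) → T.σ t = t := by
  have hw : ∀ t : F, P Q W.a (t • W.b) = 0 := fun t => by rw [map_smul, W.pab, smul_zero]
  have hs : W.sp = (T.mapLn W).sp := by
    apply sp_eq_of_mem
    rw [← h1, actP_sO T W.qa (hw 1), one_smul]
    exact rt_mem_RG (T.mapLn W) T.μ⁻¹
  obtain ⟨α, β, e1⟩ := mem_sp.mp (hs ▸ Ln.a_mem (T.mapLn W))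
  obtain ⟨γ, δ, e2⟩ := mem_sp.mp (hs ▸ Ln.b_mem (T.mapLn W))
  change α • W.a + β • W.b = T.g W.a at e1
  change γ • W.a + δ • W.b = T.g W.b at e2
  have hact : ∀ u : F, T.actP (rt Q W.a (u • W.b)) = rt Q W.a ((T.μ⁻¹ * (α * δ - β * γ) * T.σ u) • W.b) := by
    intro u
    rw [actP_sO T W.qa (hw u), T.smul]
    apply rt_congr
    have e3 := sg_comb (Q := Q) W.qa W.qb W.pab α β (T.μ⁻¹ * T.σ u * γ) (T.μ⁻¹ * T.σ u * δ)
    have e4 : T.μ⁻¹ • T.σ u • T.g W.b = (T.μ⁻¹ * T.σ u * γ) • W.a + (T.μ⁻¹ * T.σ u * δ) • W.b := by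
      rw [← e2, smul_add, smul_smul, smul_smul, smul_add, smul_smul, smul_smul]
      simp [mul_assoc]
    rw [e4, ← e1, e3]
    congr 2
    ring
  have hc : T.μ⁻¹ * (α * δ - β * γ) = 1 := by
    have h2 : T.μ⁻¹ * (α * δ - β * γ) * T.σ 1 = 1 := rt_smul_inj W (by rw [← hact]; exact h1)
    rw [map_one, mul_one] at h2
    exact h2
  refine ⟨α, β, γ, δ, e1.symm, e2.symm, hc, fun t ht => ?_⟩
  have h2 : T.μ⁻¹ * (α * δ - β * γ) * T.σ t = t := rt_smul_inj W (by rw [← hact]; exact ht)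
  rw [hc, one_mul] at h2
  exact h2

/-- Scalar multiples act the same way. -/
lemma actP_eq_of_scal (T S : SS Q) (hσ : T.σ = S.σ) {c : F} (hc : c ≠ 0) (h : ∀ v, T.g v = c • S.g v) : T.actP = S.actP := by
  have key : ∀ u : V, T.g (S.σ.symm c⁻¹ • u) = S.g u := by
    intro u
    rw [h, S.smul, RingEquiv.apply_symm_apply, smul_smul, mul_inv_cancel₀ hc, one_smul]
  apply eq_actP
  intro s
  rw [actP_mk]
  congr 1
  apply Subtype.ext
  apply OG_ext
  intro v
  change T.g (s.1.1 (T.g.symm v)) = S.g (s.1.1 (S.g.symm v))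
  obtain ⟨u, rfl⟩ := S.g.surjective v
  have e1 : T.g.symm (S.g u) = S.σ.symm c⁻¹ • u := by
    rw [AddEquiv.symm_apply_eq, key]
  rw [e1, AddEquiv.symm_apply_apply, map_smul, key]

end fix

section galois

variable {F : Type*} [Field F] [Fintype F]

/-- An automorphism fixing the fixed field of `σ` is a power of `σ`. -/
lemma mem_zpowers_of_fix {σ τ : F ≃+* F} (h : ∀ t, σ t = t → τ t = t) : ∃ k : ℤ, τ = σ ^ k := by
  classical
  haveI : Finite (RingAut F) := Finite.of_injective (fun τ : RingAut F => (τ : F → F)) (fun a b h => RingEquiv.ext (congrFun h))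
  let H : Subgroup (RingAut F) := Subgroup.zpowers (σ : RingAut F)
  letI : Fintype H := Fintype.ofFinite H
  let K : Subfield F := FixedPoints.subfield H F
  have hmem : ∀ x, x ∈ K → σ x = x := by
    intro x hx
    exact hx ⟨σ, Subgroup.mem_zpowers _⟩
  let f : F →ₐ[K] F :=
    { (τ : F →+* F) with
      commutes' := fun r => h _ (hmem r.1 r.2) }
  obtain ⟨g, hg⟩ := (FixedPoints.toAlgHom_bijective H F).2 f
  obtain ⟨k, hk⟩ := Subgroup.mem_zpowers_iff.1 g.2
  refine ⟨k, ?_⟩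
  apply RingEquiv.ext
  intro t
  have e1 : (MulSemiringAction.toAlgHom K F g) t = f t := by rw [← hg]
  have e2 : (g : RingAut F) t = τ t := e1
  rw [← e2, ← hk]

end galois

end Cfsg.Agent.Lib.AutPO
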