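import Mathlib
import Cfsg.Agent.Lib.AutPO.CoreGen
import Cfsg.Agent.Lib.AutPO.CentrOdd
import Cfsg.Agent.Lib.AutPSL.Out

/-!
The `p'`-core of the centralizer of an automorphism of `Ω_{2m+1}(q)`.
-/

set_option autoImplicit false
set_option linter.unusedSectionVars false
set_option linter.unusedVariables false

open scoped Matrix

namespace Cfsg.Agent.Lib.AutPO

open Cfsg.Agent.Lib.Classical Cfsg.Agent.Lib.Classical.Witt Cfsg.Agent.Lib.Classical.Abs Cfsg.Agent.Lib.Classical.Orth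
open Cfsg.Agent.Lib.Known3.SimAut Cfsg.Agent.Lib.Known3.OmegaTrans Cfsg.Agent.Lib.Known3.OmegaCalc
open Cfsg.Agent.Lib.Known3.Spinor Cfsg.Agent.Lib.Known3.OmegaSum Cfsg.Agent.Lib.Known3.QuadIso Cfsg.Agent.Lib.Known3.QuadStd
open scoped commutatorElement
open Module Ln

local notation "P" => QuadraticMap.polarBilin

section coord

variable {F : Type*} [Field F] [Fintype F] {m : ℕ}

/-- Basis vectors of the hyperbolic part. -/
noncomputable def bv (x : Fin m ⊕ Fin m) : Unit ⊕ (Fin m ⊕ Fin m) → F := Pi.single (Sum.inr x) 1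

/-- The anisotropic basis vector. -/
noncomputable def bw : Unit ⊕ (Fin m ⊕ Fin m) → F := Pi.single (Sum.inl ()) 1

/-- The index of a basis vector. -/
def ix (x : Fin m ⊕ Fin m) : Fin m := Sum.elim id id x

lemma bv_apply (x y : Fin m ⊕ Fin m) : (bv x : Unit ⊕ (Fin m ⊕ Fin m) → F) (Sum.inr y) = if y = x then 1 else 0 := by
  by_cases h : y = x
  · subst h
    simp [bv]
  · simp [bv, h]

lemma bv_apply_unit (x : Fin m ⊕ Fin m) (u : Unit) : (bv x : Unit ⊕ (Fin m ⊕ Fin m) → F) (Sum.inl u) = 0 := by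
  simp [bv]

lemma bw_apply (y : Fin m ⊕ Fin m) : (bw : Unit ⊕ (Fin m ⊕ Fin m) → F) (Sum.inr y) = 0 := by
  simp [bw]

lemma bw_apply_unit (u : Unit) : (bw : Unit ⊕ (Fin m ⊕ Fin m) → F) (Sum.inl u) = 1 := by
  simp [bw]

lemma polar_bv (x : Fin m ⊕ Fin m) (v : Unit ⊕ (Fin m ⊕ Fin m) → F) : P (Qodd m F) (bv x) v = v (Sum.inr x.swap) := by
  rw [polar_Qodd]
  rcases x with i | i
  · simp [bv, Pi.single_apply]
  · simp [bv, Pi.single_apply]

lemma polar_bw (v : Unit ⊕ (Fin m ⊕ Fin m) → F) : P (Qodd m F) bw v = 2 * v (Sum.inl ()) := by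
  rw [polar_Qodd]
  simp [bw]

lemma Q_bv (x : Fin m ⊕ Fin m) : Qodd m F (bv x) = 0 := by
  rw [Qodd_apply]
  rcases x with i | i <;> simp [Cfsg.quadFormOdd, bv, Pi.single_apply]

lemma Q_bw : Qodd m F bw = 1 := by
  rw [Qodd_apply]
  simp [Cfsg.quadFormOdd, bw]

lemma swap_ne_of_ix {x y : Fin m ⊕ Fin m} (h : ix x ≠ ix y) : y ≠ x.swap := by
  rintro rfl
  apply h
  rcases x with i | i <;> rfl

lemma ne_of_ix {x y : Fin m ⊕ Fin m} (h : ix x ≠ ix y) : y ≠ x := by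
  rintro rfl
  exact h rfl

lemma hat_bv (σ : F ≃+* F) (x : Fin m ⊕ Fin m) : hat σ (bv x : Unit ⊕ (Fin m ⊕ Fin m) → F) = bv x := by
  funext k
  change σ (bv x k) = bv x k
  rcases k with u | y
  · rw [bv_apply_unit, map_zero]
  · rw [bv_apply]
    split_ifs <;> simp

lemma hat_bw (σ : F ≃+* F) : hat σ (bw : Unit ⊕ (Fin m ⊕ Fin m) → F) = bw := by
  funext k
  change σ (bw k) = bw k
  rcases k with u | y
  · rw [bw_apply_unit, map_one]
  · rw [bw_apply, map_zero]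

/-- The standard lines. -/
noncomputable def bl (x y : Fin m ⊕ Fin m) (h : ix x ≠ ix y) : Ln (Qodd m F) where
  a := bv x
  b := bv y
  qa := Q_bv x
  qb := Q_bv y
  pab := by
    rw [polar_bv, bv_apply, if_neg]
    exact (swap_ne_of_ix h).symm
  na := by
    intro h0
    have := congrFun h0 (Sum.inr x)
    rw [bv_apply, if_pos rfl] at this
    exact one_ne_zero this
  nb := by
    intro c h0
    have := congrFun h0 (Sum.inr y)
    rw [Pi.smul_apply, bv_apply, bv_apply, if_pos rfl, if_neg (ne_of_ix h), smul_zero] at this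
    exact one_ne_zero this

/-- The line containing a non-singular vector in its span. -/
noncomputable def uu (j : Fin m) : Unit ⊕ (Fin m ⊕ Fin m) → F := bw + bv (Sum.inl j) - bv (Sum.inr j)

lemma Q_uu (j : Fin m) : Qodd m F (uu j) = 0 := by
  rw [uu, Q_sub, Q_add, Q_bw, Q_bv, Q_bv]
  have h1 : P (Qodd m F) (bw + bv (Sum.inl j)) (bv (Sum.inr j)) = 1 := by
    rw [map_add, LinearMap.add_apply, polar_bw, polar_bv, Sum.swap_inl, bv_apply_unit, bv_apply, if_pos rfl, mul_zero, zero_add]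
  have h2 : P (Qodd m F) bw (bv (Sum.inl j)) = 0 := by
    rw [polar_bw, bv_apply_unit, mul_zero]
  rw [h1, h2]
  ring

/-- Standard line through `uu`. -/
noncomputable def bu (i j : Fin m) (h : i ≠ j) : Ln (Qodd m F) where
  a := bv (Sum.inl i)
  b := uu j
  qa := Q_bv _
  qb := Q_uu j
  pab := by
    rw [polar_bv, uu]
    simp [bv_apply, bw_apply, h]
  na := by
    intro h0
    have := congrFun h0 (Sum.inr (Sum.inl i))
    rw [bv_apply, if_pos rfl] at this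
    exact one_ne_zero this
  nb := by
    intro c h0
    have := congrFun h0 (Sum.inl ())
    simp [uu, bv_apply_unit, bw_apply_unit] at this

lemma hat_uu (σ : F ≃+* F) (j : Fin m) : hat σ (uu j : Unit ⊕ (Fin m ⊕ Fin m) → F) = uu j := by
  rw [uu, map_sub, map_add, hat_bw, hat_bv, hat_bv]

lemma exists_third (hm : 3 ≤ m) (a b : Fin m) : ∃ k, k ≠ a ∧ k ≠ b := by
  by_contra hcon
  push Not at hcon
  have h1 : (Finset.univ : Finset (Fin m)) ⊆ {a, b} := by
    intro k _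
    by_cases h : k = a
    · simp [h]
    · simp [hcon k h]
  have h2 := Finset.card_le_card h1
  rw [Finset.card_univ, Fintype.card_fin] at h2
  have h3 := Finset.card_le_two (a := a) (b := b)
  omega

end coord

section main

variable {F : Type*} [Field F] [Fintype F] {m : ℕ} [hND : ND (Qodd m F)]

/-- Elements commuting with the rational root elements are scalar times a field automorphism. -/
theorem act_of_fix_odd (hm : 3 ≤ m) (T : SS (Qodd m F)) (σ : F ≃+* F) (D : FixData T (hatOdd m σ)) :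
    (∀ t, σ t = t → T.σ t = t) ∧ T.actP = (hatOdd m T.σ).actP := by
  classical
  set S₀ := hatOdd m σ with hS₀
  have hS₀g : ∀ v, S₀.g v = hat σ v := fun v => rfl
  have hSb : ∀ x, S₀.g (bv x) = bv x := fun x => hat_bv σ x
  have hP : ∀ x y : Fin m ⊕ Fin m, ix x ≠ ix y → P (Qodd m F) (bv x) (bv y) = 0 := fun x y h => (bl (F := F) x y h).pab
  -- the hyperbolic pairs
  have hpair : ∀ k : Fin m, P (Qodd m F) (bv (Sum.inl k)) (bv (Sum.inr k)) = 1 := by
    intro k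
    rw [polar_bv, Sum.swap_inl, bv_apply, if_pos rfl]
  -- root elements of the standard lines
  have hroot : ∀ x y (h : ix x ≠ ix y) {t : F}, σ t = t →
      T.actP (rt _ (bl x y h).a (t • (bl x y h).b)) = rt _ (bl x y h).a (t • (bl x y h).b) := by
    intro x y h t ht
    obtain ⟨k, hk1, hk2⟩ := exists_third hm (ix x) (ix y)
    have hix : ∀ z : Fin m ⊕ Fin m, ix z ≠ k → ∀ w : Fin m ⊕ Fin m, ix w = k → P (Qodd m F) (bv w) (bv z) = 0 := by
      intro z hz w hw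
      exact hP w z (by rw [hw]; exact hz.symm)
    exact D.root (bl x y h) (hSb x) (hSb y) (Q_bv (Sum.inl k)) (Q_bv (Sum.inr k)) (hpair k) (hSb _) (hSb _)
      (hix x hk1.symm _ rfl) (hix x hk1.symm _ rfl) (hix y hk2.symm _ rfl) (hix y hk2.symm _ rfl) ht
  have hcoef := fun x y (h : ix x ≠ ix y) => line_coef T (bl x y h) (hroot x y h (map_one σ))
  have hv : ∀ x, ∃ c : F, T.g (bv x) = c • bv x := by
    intro x
    obtain ⟨i, hi1, -⟩ := exists_third hm (ix x) (ix x)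
    have hx1 : ix x ≠ ix (Sum.inl i : Fin m ⊕ Fin m) := hi1.symm
    have hx2 : ix x ≠ ix (Sum.inr i : Fin m ⊕ Fin m) := hi1.symm
    obtain ⟨α, β, γ, δ, e1, -, -, -⟩ := hcoef x (Sum.inl i) hx1
    obtain ⟨α', β', γ', δ', e2, -, -, -⟩ := hcoef x (Sum.inr i) hx2
    change T.g (bv x) = α • bv x + β • bv (Sum.inl i) at e1
    change T.g (bv x) = α' • bv x + β' • bv (Sum.inr i) at e2
    have e3 := congrFun (e1.symm.trans e2) (Sum.inr (Sum.inl i))
    have e4 : (Sum.inl i : Fin m ⊕ Fin m) ≠ x := (ne_of_ix hx1)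
    simp [bv_apply, e4] at e3
    refine ⟨α, ?_⟩
    rw [e1, e3, zero_smul, add_zero]
  choose c hc using hv
  have hdiff : ∀ x y, ix x ≠ ix y → T.μ⁻¹ * (c x * c y) = 1 := by
    intro x y h
    obtain ⟨α, β, γ, δ, e1, e2, e3, -⟩ := hcoef x y h
    change T.g (bv x) = α • bv x + β • bv y at e1
    change T.g (bv y) = γ • bv x + δ • bv y at e2
    rw [hc] at e1 e2
    have h1 := ne_of_ix h
    have e5 := congrFun e1 (Sum.inr x)
    have e6 := congrFun e1 (Sum.inr y)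
    have e7 := congrFun e2 (Sum.inr x)
    have e8 := congrFun e2 (Sum.inr y)
    simp [bv_apply, h1, h1.symm] at e5 e6 e7 e8
    rw [e5, e8]
    rw [← e6, zero_mul, sub_zero] at e3
    exact e3
  have hne : ∀ x, c x ≠ 0 := by
    intro x h0
    obtain ⟨k, hk, -⟩ := exists_third hm (ix x) (ix x)
    have := hdiff x (Sum.inl k) (Ne.symm hk)
    rw [h0, zero_mul, mul_zero] at this
    exact zero_ne_one this
  have hμ0 : T.μ⁻¹ ≠ 0 := inv_ne_zero T.hμ
  have hall : ∀ x y, c x = c y := by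
    intro x y
    obtain ⟨k, hk1, hk2⟩ := exists_third hm (ix x) (ix y)
    have e1 := hdiff x (Sum.inl k) (Ne.symm hk1)
    have e2 := hdiff y (Sum.inl k) (Ne.symm hk2)
    have e3 : T.μ⁻¹ * c (Sum.inl k) * c x = T.μ⁻¹ * c (Sum.inl k) * c y := by
      rw [mul_assoc, mul_comm (c _) (c x), e1, mul_assoc, mul_comm (c _) (c y), e2]
    exact mul_left_cancel₀ (mul_ne_zero hμ0 (hne _)) e3
  let i₀ : Fin m := ⟨0, by omega⟩
  obtain ⟨c₀, hc₀⟩ : ∃ c₀, ∀ x, T.g (bv x) = c₀ • bv x := ⟨c (Sum.inl i₀), fun x => by rw [hc, hall x]⟩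
  have hc₀0 : c₀ ≠ 0 := by
    intro h0
    have e1 := hc₀ (Sum.inl i₀)
    rw [h0, zero_smul, hc] at e1
    have e2 := congrFun e1 (Sum.inr (Sum.inl i₀))
    simp [bv_apply] at e2
    exact hne _ e2
  -- the anisotropic vector
  have hwx : ∀ x, T.g bw (Sum.inr x) = 0 := by
    intro x
    have e1 := T.polar (bv x.swap) bw
    rw [polar_bv, bw_apply, map_zero, mul_zero, hc₀, map_smul, LinearMap.smul_apply, polar_bv, Sum.swap_swap] at e1
    exact (smul_eq_zero.mp e1).resolve_left hc₀0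
  have hw : T.g bw = (T.g bw (Sum.inl ())) • bw := by
    funext k
    rcases k with u | y
    · rcases u with ⟨⟩
      simp [bw_apply_unit]
    · simp [bw_apply, hwx]
  set d := T.g bw (Sum.inl ()) with hd
  have hdc : d = c₀ := by
    obtain ⟨i, hi, -⟩ := exists_third hm i₀ i₀
    obtain ⟨k, hk1, hk2⟩ := exists_third hm i i₀
    let W := bu (F := F) i i₀ hi
    have hr : T.actP (rt _ W.a ((1 : F) • W.b)) = rt _ W.a ((1 : F) • W.b) :=
      D.root W (hSb _) (hat_uu σ i₀) (Q_bv (Sum.inl k)) (Q_bv (Sum.inr k)) (hpair k) (hSb _) (hSb _)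
        (hP _ _ hk1) (hP _ _ hk1)
        (by
          change P (Qodd m F) (bv (Sum.inl k)) (uu i₀) = 0
          rw [polar_bv, uu]
          simp [bv_apply, bw_apply, hk2])
        (by
          change P (Qodd m F) (bv (Sum.inr k)) (uu i₀) = 0
          rw [polar_bv, uu]
          simp [bv_apply, bw_apply, hk2])
        (map_one σ)
    obtain ⟨α, β, γ, δ, -, e2, -, -⟩ := line_coef T W hr
    change T.g (uu i₀) = γ • bv (Sum.inl i) + δ • uu i₀ at e2
    have e3 : T.g (uu i₀) = d • bw + c₀ • bv (Sum.inl i₀) - c₀ • bv (Sum.inr i₀) := by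
      rw [uu, map_sub, map_add, hc₀, hc₀, ← hw]
    have e4 := congrFun (e3.symm.trans e2) (Sum.inl ())
    have e5 := congrFun (e3.symm.trans e2) (Sum.inr (Sum.inl i₀))
    simp [uu, bv_apply, bv_apply_unit, bw_apply, bw_apply_unit, hi.symm] at e4 e5
    rw [e4, e5]
  have hgen : ∀ k, T.g (Pi.single k 1) = c₀ • Pi.single k 1 := by
    intro k
    rcases k with u | y
    · rcases u with ⟨⟩
      change T.g bw = c₀ • bw
      rw [hw, hdc]
    · exact hc₀ y
  have hall2 : ∀ v, T.g v = c₀ • (hatOdd m T.σ).g v := by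
    intro v
    change T.g v = c₀ • hat T.σ v
    have e1 : ∀ k, T.g (Pi.single k (v k)) = c₀ • Pi.single k (T.σ (v k)) := by
      intro k
      have h1 : (Pi.single k (v k) : Unit ⊕ (Fin m ⊕ Fin m) → F) = v k • Pi.single k 1 := by
        rw [← Pi.single_smul, smul_eq_mul, mul_one]
      have h2 : (Pi.single k (T.σ (v k)) : Unit ⊕ (Fin m ⊕ Fin m) → F) = T.σ (v k) • Pi.single k 1 := by
        rw [← Pi.single_smul, smul_eq_mul, mul_one]
      rw [h1, T.smul, hgen, h2, smul_comm]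
    calc T.g v = T.g (∑ k, Pi.single k (v k)) := by rw [Finset.univ_sum_single]
      _ = ∑ k, T.g (Pi.single k (v k)) := map_sum _ _ _
      _ = ∑ k, c₀ • Pi.single k (T.σ (v k)) := Finset.sum_congr rfl (fun k _ => e1 k)
      _ = c₀ • ∑ k, Pi.single k (T.σ (v k)) := (Finset.smul_sum).symm
      _ = c₀ • hat T.σ v := by
        rw [Finset.univ_sum_single (fun k => T.σ (v k))]
        rfl
  refine ⟨fun t ht => ?_, actP_eq_of_scal T (hatOdd m T.σ) rfl hc₀0 hall2⟩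
  obtain ⟨k, hk, -⟩ := exists_third hm i₀ i₀
  have hix : ix (Sum.inl i₀ : Fin m ⊕ Fin m) ≠ ix (Sum.inl k : Fin m ⊕ Fin m) := Ne.symm hk
  obtain ⟨α, β, γ, δ, -, -, -, e4⟩ := hcoef _ _ hix
  exact e4 t (hroot _ _ hix ht)


lemma act_hatOdd_pow (τ : F ≃+* F) (n : ℕ) : (act (hatOdd m τ)) ^ n = act (hatOdd m (τ ^ n)) := by
  induction n with
  | zero =>
    rw [pow_zero, pow_zero, ← act_one]
    apply act_congr
    intro v
    rfl
  | succ n ih =>
    rw [pow_succ, ih, ← act_comp, pow_succ]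
    apply act_congr
    intro v
    rfl

/-- Elements fixing the commutators of the fixed points of a field automorphism have `p`-torsion. -/
theorem pow_of_fix_odd (hm : 3 ≤ m) (H : 9 ≤ finrank F (Unit ⊕ (Fin m ⊕ Fin m) → F) ∨ NoSkew (Qodd m F)) {p : ℕ}
    (x : MulAut (Cfsg.POmega F (⇑(Qodd m F)))) (hxp : x ^ p = 1) (hcl : Cfsg.IsFieldAutClassPOmega (⇑(Qodd m F)) x)
    (y : MulAut (Cfsg.POmega F (⇑(Qodd m F))))
    (hy : ∀ ℓ₁ ℓ₂ : Cfsg.POmega F (⇑(Qodd m F)), x ℓ₁ = ℓ₁ → x ℓ₂ = ℓ₂ → y ⁅ℓ₁, ℓ₂⁆ = ⁅ℓ₁, ℓ₂⁆) : y ^ p = 1 := by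
  classical
  obtain ⟨α, φ, σ, hσ, hφ, hαx⟩ := hcl
  have hφs : φ = act (hatOdd m σ) := eq_act_of_field (hatOdd m σ) (fun v => rfl) φ hφ
  have hσφ : sig H φ = σ := by
    rw [hφs, sig_act]
    rfl
  have hφp : φ ^ p = 1 := by
    rw [← hαx, conj_pow, hxp, mul_one, mul_inv_cancel]
  have hσp : σ ^ p = 1 := by
    rw [← hσφ, ← map_pow, hφp, map_one]
  obtain ⟨T, hT⟩ := act_surj H (α * y * α⁻¹)
  have hfx : ∀ k, φ k = k → x (α⁻¹ k) = α⁻¹ k := by
    intro k hk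
    have h1 : (α * x * α⁻¹) k = k := by rw [hαx, hk]
    have h2 : α (x (α⁻¹ k)) = k := h1
    exact α.injective (h2.trans (MulAut.apply_inv_self _ α k).symm)
  have D : FixData T (hatOdd m σ) := by
    refine ⟨rfl, fun s₁ s₂ h1 h2 => ?_⟩
    have hk : ∀ s : PG (Qodd m F), (hatOdd m σ).actP s = s → φ ((toPG _).symm s) = (toPG _).symm s := by
      intro s hs
      apply (toPG _).injective
      rw [hφs, toPG_act, MulEquiv.apply_symm_apply, hs]
    have h3 := hy _ _ (hfx _ (hk s₁ h1)) (hfx _ (hk s₂ h2))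
    have h4 : (α * y * α⁻¹) ⁅(toPG _).symm s₁, (toPG _).symm s₂⁆ = ⁅(toPG _).symm s₁, (toPG _).symm s₂⁆ := by
      change α (y (α⁻¹ ⁅(toPG _).symm s₁, (toPG _).symm s₂⁆)) = _
      rw [map_commutatorElement α⁻¹, h3, ← map_commutatorElement α⁻¹]
      simp
    have h5 := toPG_act T ⁅(toPG _).symm s₁, (toPG _).symm s₂⁆
    rw [hT, h4, map_commutatorElement, MulEquiv.apply_symm_apply, MulEquiv.apply_symm_apply] at h5
    exact h5.symm
  obtain ⟨h1, h2⟩ := act_of_fix_odd hm T σ D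
  obtain ⟨k, hk⟩ := mem_zpowers_of_fix h1
  have hτp : T.σ ^ p = 1 := by
    rw [hk, ← zpow_natCast, zpow_comm, zpow_natCast, hσp, one_zpow]
  have hTa : act T = act (hatOdd m T.σ) := by
    rw [act, act, h2]
  have h3 : (α * y * α⁻¹) ^ p = 1 := by
    rw [← hT, hTa, act_hatOdd_pow, hτp, ← act_one]
    apply act_congr
    intro v
    rfl
  rw [conj_pow] at h3
  have h4 : y ^ p = α⁻¹ * (α * y ^ p * α⁻¹) * α := by group
  rw [h4, h3]
  group

/-- The semilinear actions are field automorphisms. -/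
lemma isField_act (S : SS (Qodd m F)) (hS : ∀ v, S.g v = hat S.σ v) : Cfsg.IsFieldAutPOmegaOf (⇑(Qodd m F)) S.σ (act S) := by
  intro s s' hmat
  let s'' : Cfsg.Omega F (⇑(Qodd m F)) := (omegaEquiv _).symm (S.conjK (omegaEquiv _ s))
  have hs'' : omegaEquiv _ s'' = S.conjK (omegaEquiv _ s) := MulEquiv.apply_symm_apply _ _
  have hs1 : ∀ v, (toOG _ s''.1).1 v = S.g ((toOG _ s.1).1 (S.g.symm v)) := by
    intro v
    have := congrArg (fun y : KK _ => y.1.1 v) hs''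
    exact this
  have hmat2 : (((s'' : Cfsg.isometryGroup F (⇑(Qodd m F))) : Matrix.GeneralLinearGroup (Unit ⊕ (Fin m ⊕ Fin m)) F) : Matrix (Unit ⊕ (Fin m ⊕ Fin m)) (Unit ⊕ (Fin m ⊕ Fin m)) F) =
      (((s : Cfsg.isometryGroup F (⇑(Qodd m F))) : Matrix.GeneralLinearGroup (Unit ⊕ (Fin m ⊕ Fin m)) F) : Matrix (Unit ⊕ (Fin m ⊕ Fin m)) (Unit ⊕ (Fin m ⊕ Fin m)) F).map S.σ := by
    apply Matrix.toLin'.injective
    refine LinearMap.ext fun v => ?_
    rw [Matrix.toLin'_apply, Matrix.toLin'_apply, ← toOG_apply, hs1, toOG_apply]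
    obtain ⟨u, rfl⟩ := S.g.surjective v
    rw [AddEquiv.symm_apply_apply, hS, hS]
    ext i
    exact RingHom.map_mulVec (S.σ : F →+* F) _ u i
  have hss : s'' = s' := by
    apply Subtype.ext
    apply Subtype.ext
    apply Units.ext
    exact hmat2.trans hmat.symm
  apply (toPG _).injective
  rw [act_mk, ← hs'', hss]
  rfl

/-- An automorphism of prime order outside the similarity group is a field automorphism. -/
theorem fieldClass_of_not_pgo (hodd : Odd (Fintype.card F)) (hm : 3 ≤ m) (H : 9 ≤ finrank F (Unit ⊕ (Fin m ⊕ Fin m) → F) ∨ NoSkew (Qodd m F))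
    {p : ℕ} [hp : Fact p.Prime] (x : MulAut (Cfsg.POmega F (⇑(Qodd m F)))) (hord : orderOf x = p) (hnot : x ∉ Cfsg.pgoAut F (⇑(Qodd m F))) :
    Cfsg.IsFieldAutClassPOmega (⇑(Qodd m F)) x := by
  have hxp : x ^ p = 1 := by rw [← hord]; exact pow_orderOf_eq_one _
  set σ := sig H x with hσ
  have hσ1 : σ ≠ 1 := fun h => hnot ((sig_eq_one_iff H x).1 h)
  have hσp : σ ^ p = 1 := by rw [hσ, ← map_pow, hxp, map_one]
  have hσS : sig H (act (hatOdd m σ)) = σ := by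
    rw [sig_act]
    rfl
  have hx₀p : (act (hatOdd m σ)) ^ p = 1 := by
    rw [act_hatOdd_pow, hσp, ← act_one]
    apply act_congr
    intro v
    rfl
  have hx₀1 : act (hatOdd m σ) ≠ 1 := by
    intro h
    apply hσ1
    rw [← hσS, h, map_one]
  have hordx₀ : orderOf (act (hatOdd m σ)) = p := orderOf_eq_prime hx₀p hx₀1
  have hcl₀ : Cfsg.IsFieldAutClassPOmega (⇑(Qodd m F)) (act (hatOdd m σ)) :=
    ⟨1, act (hatOdd m σ), σ, hσ1, isField_act (hatOdd m σ) (fun v => rfl), by simp⟩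
  have hδ : x * (act (hatOdd m σ))⁻¹ ∈ Cfsg.pgoAut F (⇑(Qodd m F)) := by
    rw [← sig_eq_one_iff H, map_mul, map_inv, hσS, ← hσ, mul_inv_cancel]
  have h1 := (lang_odd hodd hm rfl _ _ hcl₀ hp.out hordx₀ hδ).1 (by rw [inv_mul_cancel_right]; exact hord)
  rw [inv_mul_cancel_right] at h1
  obtain ⟨h, -, e⟩ := h1
  refine ⟨h⁻¹, act (hatOdd m σ), σ, hσ1, isField_act (hatOdd m σ) (fun v => rfl), ?_⟩
  rw [e]
  group


/-- A field automorphism class has non-trivial fixed points. -/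
theorem exists_fixed_ne_one (hm : 3 ≤ m) (x : MulAut (Cfsg.POmega F (⇑(Qodd m F)))) (hcl : Cfsg.IsFieldAutClassPOmega (⇑(Qodd m F)) x) :
    ∃ ℓ : Cfsg.POmega F (⇑(Qodd m F)), x ℓ = ℓ ∧ ℓ ≠ 1 := by
  classical
  obtain ⟨α, φ, σ, hσ, hφ, hαx⟩ := hcl
  have hφs : φ = act (hatOdd m σ) := eq_act_of_field (hatOdd m σ) (fun v => rfl) φ hφ
  let i₀ : Fin m := ⟨0, by omega⟩
  obtain ⟨i₁, hi, -⟩ := exists_third hm i₀ i₀
  have hix : ix (Sum.inl i₀ : Fin m ⊕ Fin m) ≠ ix (Sum.inl i₁ : Fin m ⊕ Fin m) := Ne.symm hi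
  let W : Ln (Qodd m F) := bl _ _ hix
  have hW : (hatOdd m σ).actP (rt _ W.a ((1 : F) • W.b)) = rt _ W.a ((1 : F) • W.b) := by
    have h0 : P (Qodd m F) W.a ((1 : F) • W.b) = 0 := by
      rw [map_smul, W.pab, smul_zero]
    have e1 : (hatOdd m σ).g W.a = W.a := hat_bv σ _
    have e2 : (hatOdd m σ).μ⁻¹ • (hatOdd m σ).g ((1 : F) • W.b) = (1 : F) • W.b := by
      change (1 : F)⁻¹ • hat σ ((1 : F) • bv (Sum.inl i₁)) = (1 : F) • bv (Sum.inl i₁)
      rw [inv_one, one_smul, one_smul, hat_bv]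
    rw [actP_sO _ W.qa h0, e1, e2]
  refine ⟨α⁻¹ ((toPG _).symm (rt _ W.a ((1 : F) • W.b))), ?_, ?_⟩
  · have h1 : φ ((toPG _).symm (rt _ W.a ((1 : F) • W.b))) = (toPG _).symm (rt _ W.a ((1 : F) • W.b)) := by
      apply (toPG _).injective
      rw [hφs, toPG_act, MulEquiv.apply_symm_apply, hW]
    have h2 : (α * x * α⁻¹) ((toPG _).symm (rt _ W.a ((1 : F) • W.b))) = (toPG _).symm (rt _ W.a ((1 : F) • W.b)) := by
      rw [hαx, h1]
    have h3 : α (x (α⁻¹ ((toPG _).symm (rt _ W.a ((1 : F) • W.b))))) = (toPG _).symm (rt _ W.a ((1 : F) • W.b)) := h2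
    exact α.injective (h3.trans (MulAut.apply_inv_self _ α _).symm)
  · intro h
    have h1 := MulAut.apply_inv_self _ α ((toPG _).symm (rt _ W.a ((1 : F) • W.b)))
    rw [h, map_one] at h1
    have h2 := congrArg (toPG _) h1
    rw [map_one, MulEquiv.apply_symm_apply] at h2
    exact rt_ne_one W one_ne_zero h2.symm

/-- The easy implication. -/
theorem core_ne_bot (hm : 3 ≤ m) (hK : Subgroup.center (Cfsg.POmega F (⇑(Qodd m F))) = ⊥)
    (A : Subgroup (MulAut (Cfsg.POmega F (⇑(Qodd m F))))) (hinn : ∀ k, MulAut.conj k ∈ A) {p : ℕ}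
    (x : MulAut (Cfsg.POmega F (⇑(Qodd m F)))) (hcl : Cfsg.IsFieldAutClassPOmega (⇑(Qodd m F)) x)
    (hco : Nat.Coprime p (Nat.card ↥(MonoidHom.eqLocus x.toMonoidHom (MonoidHom.id (Cfsg.POmega F (⇑(Qodd m F))))))) :
    Cfsg.pPrimeCore p ↥(A ⊓ Subgroup.centralizer {x}) ≠ ⊥ := by
  classical
  have hmem : ∀ ℓ : Cfsg.POmega F (⇑(Qodd m F)), x ℓ = ℓ → MulAut.conj ℓ ∈ A ⊓ Subgroup.centralizer {x} := by
    intro ℓ hℓ
    refine ⟨hinn ℓ, Subgroup.mem_centralizer_singleton_iff.mpr ?_⟩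
    rw [mul_conj_eq, hℓ]
  let f : ↥(MonoidHom.eqLocus x.toMonoidHom (MonoidHom.id (Cfsg.POmega F (⇑(Qodd m F))))) →* ↥(A ⊓ Subgroup.centralizer {x}) :=
    { toFun := fun ℓ => ⟨MulAut.conj ℓ.1, hmem ℓ.1 ℓ.2⟩
      map_one' := by
        apply Subtype.ext
        exact map_one _
      map_mul' := fun a b => by
        apply Subtype.ext
        exact map_mul _ _ _ }
  have hfinj : Function.Injective f := by
    intro a b hab
    apply Subtype.ext
    exact conj_inj_of_center hK (congrArg Subtype.val hab)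
  have hn : f.range.Normal := by
    constructor
    rintro _ ⟨ℓ, rfl⟩ c
    have hcx : c.1 * x = x * c.1 := Subgroup.mem_centralizer_singleton_iff.mp c.2.2
    have hfix : x (c.1 ℓ.1) = c.1 ℓ.1 := by
      have h1 : (x * c.1) ℓ.1 = (c.1 * x) ℓ.1 := by rw [hcx]
      have h2 : x ℓ.1 = ℓ.1 := ℓ.2
      change x (c.1 ℓ.1) = c.1 (x ℓ.1) at h1
      rw [h1, h2]
    refine ⟨⟨c.1 ℓ.1, hfix⟩, ?_⟩
    apply Subtype.ext
    have h1 := mul_conj_eq c.1 ℓ.1
    change MulAut.conj (c.1 ℓ.1) = c.1 * MulAut.conj ℓ.1 * c.1⁻¹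
    rw [h1, mul_inv_cancel_right]
  have hcop : (Nat.card f.range).Coprime p := by
    have e1 : Nat.card f.range = Nat.card ↥(MonoidHom.eqLocus x.toMonoidHom (MonoidHom.id (Cfsg.POmega F (⇑(Qodd m F))))) :=
      (Nat.card_congr (MonoidHom.ofInjective hfinj).toEquiv).symm
    rw [e1]
    exact hco.symm
  intro h
  obtain ⟨ℓ, hℓ1, hℓ2⟩ := exists_fixed_ne_one hm x hcl
  have h1 : f.range ≤ Cfsg.pPrimeCore p ↥(A ⊓ Subgroup.centralizer {x}) := Cfsg.Agent.Lib.Core.le_pPrimeCore hn hcop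
  rw [h] at h1
  have h2 : f ⟨ℓ, hℓ1⟩ ∈ (⊥ : Subgroup ↥(A ⊓ Subgroup.centralizer {x})) := h1 ⟨_, rfl⟩
  rw [Subgroup.mem_bot] at h2
  have h3 : (⟨ℓ, hℓ1⟩ : ↥(MonoidHom.eqLocus x.toMonoidHom (MonoidHom.id (Cfsg.POmega F (⇑(Qodd m F)))))) = 1 :=
    hfinj (h2.trans (map_one f).symm)
  exact hℓ2 (congrArg Subtype.val h3)

end main

section final

variable {F : Type*} [Field F] [Fintype F] {m : ℕ}

/-- Inner automorphisms as a subgroup. -/
noncomputable def innHom {K : Type*} [Group K] (G : Subgroup (MulAut K)) (h : Cfsg.Inn K ≤ G) : K →* ↥G where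
  toFun k := ⟨MulAut.conj k, h ⟨k, rfl⟩⟩
  map_one' := by
    apply Subtype.ext
    exact map_one _
  map_mul' a b := by
    apply Subtype.ext
    exact map_mul _ _ _

lemma innHom_range {K : Type*} [Group K] (G : Subgroup (MulAut K)) (h : Cfsg.Inn K ≤ G) :
    (innHom G h).range = (Cfsg.Inn K).subgroupOf G := by
  ext ⟨β, hβ⟩
  rw [Subgroup.mem_subgroupOf]
  constructor
  · rintro ⟨k, hk⟩
    exact ⟨k, congrArg Subtype.val hk⟩
  · rintro ⟨k, hk⟩
    exact ⟨k, Subtype.ext hk⟩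

/-- Facts about `PΩ` in odd dimension. -/
theorem odd_data (h2 : (2 : F) ≠ 0) (hm : 3 ≤ m) :
    Subgroup.center (Cfsg.POmega F (⇑(Qodd m F))) = ⊥ ∧ IsSimpleGroup (Cfsg.POmega F (⇑(Qodd m F))) ∧
      (∃ a b : Cfsg.POmega F (⇑(Qodd m F)), a * b ≠ b * a) ∧ 2 ∣ Nat.card (Cfsg.POmega F (⇑(Qodd m F))) ∧
      ∃ φ : ↥(Cfsg.pgoAut F (⇑(Qodd m F))) →* ℤˣ, φ.ker = (Cfsg.Inn (Cfsg.POmega F (⇑(Qodd m F)))).subgroupOf (Cfsg.pgoAut F (⇑(Qodd m F))) := by
  have hfr : finrank F (Unit ⊕ (Fin m ⊕ Fin m) → F) = 1 + (m + m) := by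
    simp [Module.finrank_fintype_fun_eq_card]
  haveI hND : ND (Qodd m F) := ⟨Qodd_nondeg h2 m, by omega⟩
  have hcard : Fintype.card (Unit ⊕ (Fin m ⊕ Fin m)) = 1 + (m + m) := by simp
  have hs : IsSimpleGroup (Cfsg.POmega F (⇑(Qodd m F))) := pomega_simple _ (Qodd_nondeg h2 m) (by rw [hcard]; omega)
  have hn : ∃ a b : Cfsg.POmega F (⇑(Qodd m F)), a * b ≠ b * a := by
    obtain ⟨a, b, hab⟩ := exists_noncomm_PG (Q := Qodd m F)
    refine ⟨(toPG _).symm a, (toPG _).symm b, fun h => hab ?_⟩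
    have := congrArg (toPG _) h
    simpa using this
  have hne : ∃ v, Qodd m F v ≠ 0 := by
    obtain ⟨v, hv⟩ := exists_nonsing h2 (Qodd_nondeg h2 m) (by rw [hcard]; omega)
    exact ⟨v, by rw [hv]; exact one_ne_zero⟩
  obtain ⟨φ, -, hφ2⟩ := odd_pgo hne (Qodd_nondeg h2 m) h2 (by rw [hcard]; exact ⟨m, by ring⟩) (by rw [hcard]; omega)
  refine ⟨center_eq_bot_of_simple hs hn, hs, hn, ?_, φ, hφ2⟩
  rw [Nat.card_congr (toPG (Qodd m F)).toEquiv]
  exact two_dvd_card_PG h2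

/-- The main theorem about the core. -/
theorem core_odd_main {r : ℕ} [hr : Fact r.Prime] [CharP F r] (hodd : Odd (Fintype.card F)) (hm : 3 ≤ m) {q : (Unit ⊕ (Fin m ⊕ Fin m) → F) → F} (hq : ⇑(Qodd m F) = q)
    (A : Subgroup (MulAut (Cfsg.POmega F q))) (hinn : ∀ k, MulAut.conj k ∈ A) {p : ℕ} [hp : Fact p.Prime]
    (x : MulAut (Cfsg.POmega F q)) (hord : orderOf x = p) (hnot : x ∉ Cfsg.pgoAut F q) :
    Cfsg.pPrimeCore p ↥(A ⊓ Subgroup.centralizer {x}) ≠ ⊥ ↔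
      (Cfsg.IsFieldAutClassPOmega q x ∧ Nat.Coprime p (Nat.card ↥(MonoidHom.eqLocus x.toMonoidHom (MonoidHom.id (Cfsg.POmega F q))))) := by
  classical
  subst hq
  have h2 : (2 : F) ≠ 0 := P2.two_ne_zero_of_odd hodd
  have hfr : finrank F (Unit ⊕ (Fin m ⊕ Fin m) → F) = 1 + (m + m) := by
    simp [Module.finrank_fintype_fun_eq_card]
  haveI hND : ND (Qodd m F) := ⟨Qodd_nondeg h2 m, by omega⟩
  have H : 9 ≤ finrank F (Unit ⊕ (Fin m ⊕ Fin m) → F) ∨ NoSkew (Qodd m F) := by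
    by_cases h4 : 4 ≤ m
    · left
      omega
    · right
      have : m = 3 := by omega
      subst this
      exact noSkew_odd h2
  obtain ⟨hKc, -, -, -, φG, hφG⟩ := odd_data (F := F) h2 hm
  have hcl := fieldClass_of_not_pgo hodd hm H x hord hnot
  refine ⟨fun h => ⟨hcl, ?_⟩, fun h => core_ne_bot hm hKc A hinn x h.1 h.2⟩
  by_contra hnc
  apply h
  have hxp : x ^ p = 1 := by rw [← hord]; exact pow_orderOf_eq_one _
  -- the subfield
  obtain ⟨f, -, hF⟩ := FiniteField.card F r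
  have hf1 : 1 ≤ (f : ℕ) := f.pos
  have hσ1 : sig H x ≠ 1 := fun h1 => hnot ((sig_eq_one_iff H x).1 h1)
  have hσord : orderOf (sig H x) = p := orderOf_eq_prime (by rw [← map_pow, hxp, map_one]) hσ1
  have hdvd : p ∣ (f : ℕ) := by
    obtain ⟨iso⟩ := Cfsg.Agent.Lib.AutPSL.exists_gal_iso hF hf1
    rw [← hσord]
    have h3 := Subgroup.orderOf_dvd_natCard (⊤ : Subgroup (F ≃+* F)) (x := sig H x) (Subgroup.mem_top _)
    rw [Subgroup.card_top, Nat.card_congr iso.toEquiv] at h3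
    simpa [Nat.card_eq_fintype_card, ZMod.card] using h3
  have hfp : (f : ℕ) / p ≠ 0 := by
    have := Nat.le_of_dvd hf1 hdvd
    exact (Nat.div_pos this hp.out.pos).ne'
  let F₀ := GaloisField r ((f : ℕ) / p)
  haveI : Fintype F₀ := Fintype.ofFinite _
  have hF₀ : Fintype.card F₀ = r ^ ((f : ℕ) / p) := by
    rw [← Nat.card_eq_fintype_card]
    exact GaloisField.card r _ hfp
  obtain ⟨-, ⟨e⟩, -, -⟩ := field_odd_main hF hf1 hodd hm rfl x hcl hp.out hord F₀ hF₀ rfl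
  have hrodd : Odd r := by
    rw [hF] at hodd
    exact (Nat.odd_pow_iff f.ne_zero).mp hodd
  have hodd₀ : Odd (Fintype.card F₀) := by
    rw [hF₀]
    exact hrodd.pow
  have h2₀ : (2 : F₀) ≠ 0 := P2.two_ne_zero_of_odd hodd₀
  obtain ⟨hKc₀, hs₀, hn₀, h2d, φ₀, hφ₀⟩ := odd_data (F := F₀) h2₀ hm
  have hfr₀ : finrank F₀ (Unit ⊕ (Fin m ⊕ Fin m) → F₀) = 1 + (m + m) := by
    simp [Module.finrank_fintype_fun_eq_card]
  haveI hND₀ : ND (Qodd m F₀) := ⟨Qodd_nondeg h2₀ m, by omega⟩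
  have hinn₀ := inn_le_pgo (Q := Qodd m F₀)
  have hGn : (Cfsg.pgoAut F (⇑(Qodd m F))).Normal := by
    rw [← sig_ker H]
    infer_instance
  exact core_abstract hKc _ hGn inn_le_pgo φG hφG A hinn x e φ₀ (innHom _ hinn₀)
    (fun a b hab => conj_inj_of_center hKc₀ (congrArg Subtype.val hab)) (by rw [innHom_range, hφ₀]) hs₀ hn₀ h2d
    (fun y _ _ hy => pow_of_fix_odd hm H x hxp hcl y hy) hnc

end final

end Cfsg.Agent.Lib.AutPO
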