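import Mathlib
import Cfsg.Agent.Lib.AutPO.CoreGen
import Cfsg.Agent.Lib.Known3.FieldAutPSp2
import Cfsg.Agent.Lib.AutPSp.Out4
import Cfsg.Agent.Lib.Classical.SpSimple
import Cfsg.Agent.Lib.Classical.SpPerfect
import Cfsg.Agent.Lib.Classical.AutPSpCount
import Cfsg.Agent.S0247

/-!
The `p'`-core of the centralizer of an automorphism of `PSp_{2m}(q)`.
-/

set_option autoImplicit false
set_option linter.unusedSectionVars false
set_option linter.unusedVariables false
set_option linter.unusedSimpArgs false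

namespace Cfsg.Agent.Lib.CoreSp

open Matrix Cfsg Cfsg.Agent.Lib.AutPSp Cfsg.Agent.Lib.Classical Cfsg.Agent.Lib.Known3.FieldAut
open Cfsg.Agent.Lib.RootSubgroups.SpRoot (sp_ext)
open Cfsg.Agent.Lib.AutPO (mul_conj_eq conj_inj_of_center center_eq_bot_of_simple core_abstract mem_zpowers_of_fix comm_of_two)
open scoped MatrixGroups commutatorElement

section gen

variable {K : Type*} [Group K]

lemma pow_conj_mul (z : K) (a : MulAut K) (n : ℕ) : ∃ w, (MulAut.conj z * a) ^ n = MulAut.conj w * a ^ n := by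
  induction n with
  | zero => exact ⟨1, by simp⟩
  | succ n ih =>
    obtain ⟨w, hw⟩ := ih
    refine ⟨w * (a ^ n) z, ?_⟩
    rw [pow_succ, hw, pow_succ, map_mul]
    have h1 := mul_conj_eq (a ^ n) z
    calc MulAut.conj w * a ^ n * (MulAut.conj z * a) = MulAut.conj w * (a ^ n * MulAut.conj z) * a := by
          simp only [mul_assoc]
      _ = _ := by
          rw [h1]
          simp only [mul_assoc]

/-- The easy direction of the theorem on the core. -/
theorem core_ne_bot_abs (hK : Subgroup.center K = ⊥) (A : Subgroup (MulAut K)) (hinn : ∀ k, MulAut.conj k ∈ A) {p : ℕ}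
    (x : MulAut K) (ℓ : K) (hℓ1 : x ℓ = ℓ) (hℓ2 : ℓ ≠ 1)
    (hco : Nat.Coprime p (Nat.card ↥(MonoidHom.eqLocus x.toMonoidHom (MonoidHom.id K)))) :
    Cfsg.pPrimeCore p ↥(A ⊓ Subgroup.centralizer {x}) ≠ ⊥ := by
  classical
  have hmem : ∀ ℓ : K, x ℓ = ℓ → MulAut.conj ℓ ∈ A ⊓ Subgroup.centralizer {x} := by
    intro ℓ hℓ
    refine ⟨hinn ℓ, Subgroup.mem_centralizer_singleton_iff.mpr ?_⟩
    rw [mul_conj_eq, hℓ]
  let f : ↥(MonoidHom.eqLocus x.toMonoidHom (MonoidHom.id K)) →* ↥(A ⊓ Subgroup.centralizer {x}) :=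
    { toFun := fun ℓ => ⟨MulAut.conj ℓ.1, hmem ℓ.1 ℓ.2⟩
      map_one' := by
        apply Subtype.ext
        exact map_one _
      map_mul' := fun a b => by
        apply Subtype.ext
        exact map_mul _ _ _ }
  have hfinj : Function.Injective f := by
    intro a b hab
    apply Subtype.ext
    exact conj_inj_of_center hK (congrArg Subtype.val hab)
  have hn : f.range.Normal := by
    constructor
    rintro _ ⟨ℓ, rfl⟩ c
    have hcx : c.1 * x = x * c.1 := Subgroup.mem_centralizer_singleton_iff.mp c.2.2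
    have hfix : x (c.1 ℓ.1) = c.1 ℓ.1 := by
      have h1 : (x * c.1) ℓ.1 = (c.1 * x) ℓ.1 := by rw [hcx]
      have h2 : x ℓ.1 = ℓ.1 := ℓ.2
      change x (c.1 ℓ.1) = c.1 (x ℓ.1) at h1
      rw [h1, h2]
    refine ⟨⟨c.1 ℓ.1, hfix⟩, ?_⟩
    apply Subtype.ext
    have h1 := mul_conj_eq c.1 ℓ.1
    change MulAut.conj (c.1 ℓ.1) = c.1 * MulAut.conj ℓ.1 * c.1⁻¹
    rw [h1, mul_inv_cancel_right]
  have hcop : (Nat.card f.range).Coprime p := by
    have e1 : Nat.card f.range = Nat.card ↥(MonoidHom.eqLocus x.toMonoidHom (MonoidHom.id K)) :=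
      (Nat.card_congr (MonoidHom.ofInjective hfinj).toEquiv).symm
    rw [e1]
    exact hco.symm
  intro h
  have h1 : f.range ≤ Cfsg.pPrimeCore p ↥(A ⊓ Subgroup.centralizer {x}) := Cfsg.Agent.Lib.Core.le_pPrimeCore hn hcop
  rw [h] at h1
  have h2 : f ⟨ℓ, hℓ1⟩ ∈ (⊥ : Subgroup ↥(A ⊓ Subgroup.centralizer {x})) := h1 ⟨_, rfl⟩
  rw [Subgroup.mem_bot] at h2
  have h3 : (⟨ℓ, hℓ1⟩ : ↥(MonoidHom.eqLocus x.toMonoidHom (MonoidHom.id K))) = 1 :=
    hfinj (h2.trans (map_one f).symm)
  exact hℓ2 (congrArg Subtype.val h3)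

/-- A subgroup such that products of two non-members are members is the kernel of a sign. -/
lemma exists_sign_hom {G : Type*} [Group G] (N : Subgroup G) (hn : ∀ a b, a ∉ N → b ∉ N → a * b ∈ N) :
    ∃ φ : G →* ℤˣ, φ.ker = N := by
  classical
  refine ⟨{ toFun := fun a => if a ∈ N then 1 else -1
            map_one' := by simp [N.one_mem]
            map_mul' := fun a b => ?_ }, ?_⟩
  · by_cases ha : a ∈ N <;> by_cases hb : b ∈ N
    · simp [ha, hb, N.mul_mem ha hb]
    · have h : a * b ∉ N := fun h => hb (by simpa using N.mul_mem (N.inv_mem ha) h)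
      simp [ha, hb, h]
    · have h : a * b ∉ N := fun h => ha (by simpa using N.mul_mem h (N.inv_mem hb))
      simp [ha, hb, h]
    · simp [ha, hb, hn a b ha hb]
  · ext a
    rw [MonoidHom.mem_ker]
    by_cases ha : a ∈ N
    · simp [ha]
    · have : (-1 : ℤˣ) ≠ 1 := by decide
      simp [ha, this]

end gen

section basic

variable {F : Type*} [Field F] {m : ℕ}

local notation "f" => Cfsg.sympForm m F

lemma fP_std (σ : F ≃+* F) : IsStdFieldAutPSp σ (fP σ : PSp m F ≃* PSp m F) := by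
  intro s s' h
  have e : s' = sField σ s := Subtype.ext h
  rw [e]
  rfl

/-- The fixed vector of a transvection product. -/
lemma noncomm_psp (hm : 1 ≤ m) : ∃ a b : PSp m F, a * b ≠ b * a := by
  let a : II m := Sum.inl ⟨0, by omega⟩
  refine ⟨rt (ee a) 1, rt (ee a.swap) 1, fun h => ?_⟩
  have h1 : Commute (rt (ee a) (1 : F)) (rt (ee a.swap) 1) := h
  rw [rt_comm_iff hm (ee_ne _) (ee_ne _) one_ne_zero one_ne_zero, f_ee_dual] at h1
  exact sg_ne a h1

end basic

section exc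

variable {F : Type*} [Field F] [Fintype F]

local notation "ff" => Cfsg.sympForm 2 F

lemma eq_conj_psi (h2 : (2 : F) = 0) {f' : ℕ} (hF : Fintype.card F = 2 ^ f') (hf : 1 ≤ f') (x : MulAut (PSp 2 F))
    (h : Pres (x.trans (Psi h2).symm)) : ∃ (z : PSp 2 F) (j : ℕ), x = MulAut.conj z * (Psi h2 : MulAut (PSp 2 F)) ^ (2 * j + 1) := by
  obtain ⟨y, j, hyj⟩ := pres_decomp h2 hF hf h
  refine ⟨Psi h2 y, j, ?_⟩
  have e1 : ((x.trans (Psi h2).symm : PSp 2 F ≃* PSp 2 F) : MulAut (PSp 2 F)) = (Psi h2 : MulAut (PSp 2 F))⁻¹ * x := rfl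
  rw [e1] at hyj
  have e2 : x = (Psi h2 : MulAut (PSp 2 F)) * (MulAut.conj y * (Psi h2 : MulAut (PSp 2 F)) ^ (2 * j)) := by
    rw [← hyj]
    group
  have e3 : (Psi h2 : MulAut (PSp 2 F)) * MulAut.conj y = MulAut.conj (Psi h2 y) * (Psi h2 : MulAut (PSp 2 F)) := mul_conj_eq _ _
  rw [e2, ← mul_assoc, e3, mul_assoc, pow_succ']

lemma exists_semi_of_odd (h2 : (2 : F) = 0) {f' : ℕ} (hF : Fintype.card F = 2 ^ f') (hf : 1 ≤ f') (x : MulAut (PSp 2 F))
    {p : ℕ} (hp : Odd p) (hx : x ^ p = 1) : ∃ (g : GSp 2 F) (σ : F ≃+* F), x = cP g * fP σ := by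
  rcases dich h2 hF hf x with h | h
  · obtain ⟨g, σ, hg, hI⟩ := semilinear_of_pres (le_refl 2) h (pres_symm h)
    exact ⟨⟨g, hg⟩, σ, eq_cP_fP hg hI⟩
  · exfalso
    obtain ⟨z, j, e⟩ := eq_conj_psi h2 hF hf x h
    obtain ⟨w, hw⟩ := pow_conj_mul z ((Psi h2 : MulAut (PSp 2 F)) ^ (2 * j + 1)) p
    rw [← e, hx, ← pow_mul] at hw
    obtain ⟨k, hk⟩ : Odd ((2 * j + 1) * p) := (odd_two_mul_add_one j).mul hp
    rw [hk] at hw
    apply odd_not_inner h2 k w⁻¹
    rw [map_inv]
    exact inv_eq_of_mul_eq_one_right hw.symm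

lemma psi_no_fix (h2 : (2 : F) = 0) (x : VV 2 F)
    (hx : ((SS (ee (Sum.inl 0)) (ee (Sum.inl 1)) 1 * SS (ee (Sum.inr 0)) (ee (Sum.inr 1)) 1 : SpG 2 F) : MM 2 F) *ᵥ x = x) : x = 0 := by
  have hl : ff (ee (Sum.inl 0)) (ee (Sum.inl 1)) = 0 := f_ee_inl_inl _ _
  have hr : ff (ee (Sum.inr 0)) (ee (Sum.inr 1)) = 0 := f_ee_inr_inr _ _
  rw [mv_mul, SS_mv hr, SS_mv hl, f_right_two h2, f_right_two h2, f_right_two h2, f_right_two h2] at hx
  have a1 := congrFun hx (Sum.inl 0)
  have a2 := congrFun hx (Sum.inl 1)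
  have a3 := congrFun hx (Sum.inr 0)
  have a4 := congrFun hx (Sum.inr 1)
  simp [Pi.single_apply] at a1 a2 a3 a4
  rw [a4, add_zero] at a1
  rw [a3, add_zero] at a2
  funext i
  rcases i with i | i <;> fin_cases i
  · exact a4
  · exact a3
  · exact a2
  · exact a1

/-- The element of order three. -/
lemma not_fix_psi (h2 : (2 : F) = 0) (z : PSp 2 F) (j : ℕ) :
    (MulAut.conj z * (Psi h2 : MulAut (PSp 2 F)) ^ (2 * j + 1)) (mk (tv (ee (Sum.inl 0)) 1 * tv (ee (Sum.inr 0)) 1)) ≠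
      mk (tv (ee (Sum.inl 0)) 1 * tv (ee (Sum.inr 0)) 1) := by
  intro h
  obtain ⟨g, rfl⟩ := mk_surj z
  set s : SpG 2 F := tv (ee (Sum.inl 0)) 1 * tv (ee (Sum.inr 0)) 1 with hs
  set A : SpG 2 F := SS (ee (Sum.inl 0)) (ee (Sum.inl 1)) 1 * SS (ee (Sum.inr 0)) (ee (Sum.inr 1)) 1 with hA
  have e1 : ((Psi h2 : MulAut (PSp 2 F)) ^ (2 * j + 1)) (mk s) = mk A := by
    rw [pow_succ']
    change Psi h2 (((Psi h2 : MulAut (PSp 2 F)) ^ (2 * j)) (mk s)) = _
    rw [Psi_pow, hs, map_mul, fieldH_tv, fieldH_tv, map_one, Psi_mk, map_mul, psiH_L, psiH_L]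
    rfl
  have e2 : (MulAut.conj (mk g) * (Psi h2 : MulAut (PSp 2 F)) ^ (2 * j + 1)) (mk s) = mk g * mk A * (mk g)⁻¹ := by
    change MulAut.conj (mk g) (((Psi h2 : MulAut (PSp 2 F)) ^ (2 * j + 1)) (mk s)) = _
    rw [e1, MulAut.conj_apply]
  rw [e2, ← map_inv, ← map_mul, ← map_mul] at h
  have h3 : g * A * g⁻¹ = s := mk_inj_two h2 (by norm_num) h
  have hfix : (s : MM 2 F) *ᵥ ee (Sum.inl 1) = ee (Sum.inl 1) := by
    have a1 : ff (ee (Sum.inl 1)) (ee (Sum.inr 0)) = 0 := f_ee_inl_inr (by decide)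
    have a2 : ff (ee (Sum.inl 1)) (ee (Sum.inl 0)) = 0 := f_ee_inl_inl _ _
    rw [hs, mv_mul, tv_mulVec, tv_mulVec, a1, mul_zero, zero_smul, add_zero, a2, mul_zero, zero_smul, add_zero]
  have h4 : (A : MM 2 F) *ᵥ (((g⁻¹ : SpG 2 F) : MM 2 F) *ᵥ ee (Sum.inl 1)) = ((g⁻¹ : SpG 2 F) : MM 2 F) *ᵥ ee (Sum.inl 1) := by
    have h5 : A = g⁻¹ * s * g := by
      rw [← h3]
      group
    rw [h5, mv_mul, mv_mul, mv_mv_inv, hfix]
  exact mv_ne_zero g⁻¹ (ee_ne _) (psi_no_fix h2 _ h4)

end exc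


section act

variable {F : Type*} [Field F] {m : ℕ}

local notation "f" => Cfsg.sympForm m F

/-- The action of a semilinear automorphism on the root elements. -/
lemma act_rt (g : GSp m F) {l : Fˣ} (hl : ∀ u v, f (((g : GL (II m) F) : MM m F) *ᵥ u) (((g : GL (II m) F) : MM m F) *ᵥ v) = (l : F) * f u v)
    (τ : F ≃+* F) (u : VV m F) (c : F) :
    (cP g * fP τ : MulAut (PSp m F)) (rt u c) = rt (((g : GL (II m) F) : MM m F) *ᵥ vmap τ u) (τ c * (l : F)⁻¹) := by
  change cP g (fP τ (mk (tv u c))) = mk _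
  rw [fP_mk, cP_mk, sField_tv, sConj_tv g hl]

lemma vmap_add (τ : F ≃+* F) (u v : VV m F) : vmap τ (u + v) = vmap τ u + vmap τ v := by
  funext i
  simp [vmap]

/-- The braid relation for transvections in characteristic two. -/
lemma tv_braid (h2 : (2 : F) = 0) {u w : VV m F} (huw : f u w = 1) :
    tv u 1 * tv w 1 * tv u 1 = tv w 1 * tv u 1 * tv w 1 := by
  have hwu : f w u = 1 := by
    rw [sympForm_flip, huw]
    linear_combination -h2
  have hu : (tv u (1 : F))⁻¹ = tv u 1 := by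
    rw [tv_inv]
    congr 1
    linear_combination -h2
  have hw : (tv w (1 : F))⁻¹ = tv w 1 := by
    rw [tv_inv]
    congr 1
    linear_combination -h2
  have e1 := conj_tv (tv u (1 : F)) w 1
  have e2 := conj_tv (tv w (1 : F)) u 1
  rw [hu, tv_mulVec, hwu, mul_one, one_smul] at e1
  rw [hw, tv_mulVec, huw, mul_one, one_smul, add_comm] at e2
  rw [e1, e2]

/-- The element of order three is a square of a commutator. -/
lemma comm_sq (h2 : (2 : F) = 0) {u w : VV m F} (huw : f u w = 1) :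
    ⁅tv u (1 : F), tv w (1 : F)⁆ ^ 2 = tv u 1 * tv w 1 := by
  have hu : (tv u (1 : F))⁻¹ = tv u 1 := by
    rw [tv_inv]
    congr 1
    linear_combination -h2
  have hw : (tv w (1 : F))⁻¹ = tv w 1 := by
    rw [tv_inv]
    congr 1
    linear_combination -h2
  have hu2 : tv u (1 : F) * tv u 1 = 1 := by
    nth_rewrite 1 [← hu]
    exact inv_mul_cancel _
  have hw2 : tv w (1 : F) * tv w 1 = 1 := by
    nth_rewrite 1 [← hw]
    exact inv_mul_cancel _
  set a := tv u (1 : F) with ha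
  set b := tv w (1 : F) with hb
  have hbr : a * b * a = b * a * b := tv_braid h2 huw
  have h3 : (a * b) ^ 3 = 1 := by
    calc (a * b) ^ 3 = (a * b * a) * (b * a * b) := by
          rw [pow_succ, pow_two]
          simp only [mul_assoc]
      _ = (a * b * a) * (a * b * a) := by rw [hbr]
      _ = a * b * (a * a) * b * a := by simp only [mul_assoc]
      _ = a * (b * b) * a := by rw [hu2, mul_one]; simp only [mul_assoc]
      _ = 1 := by rw [hw2, mul_one, hu2]
  rw [commutatorElement_def, hu, hw]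
  calc (a * b * a * b) ^ 2 = (a * b) ^ 3 * (a * b) := by
        rw [pow_two, pow_succ, pow_two]
        simp only [mul_assoc]
    _ = a * b := by rw [h3, one_mul]

end act

section scalar

variable {F : Type*} [Field F] {m : ℕ}

local notation "f" => Cfsg.sympForm m F

/-- A conformal matrix stabilising the standard lines acts trivially. -/
lemma cP_eq_one_of_lines (hm : 2 ≤ m) (g : GSp m F)
    (hd : ∀ a : II m, ∃ d : F, ((g : GL (II m) F) : MM m F) *ᵥ ee a = d • ee a)
    (hadm : ∀ a b : II m, Adm a b → ∃ d : F, ((g : GL (II m) F) : MM m F) *ᵥ (ee a + ee b) = d • (ee a + ee b)) :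
    (cP g : MulAut (PSp m F)) = 1 := by
  classical
  choose d hd using hd
  have h1 : ∀ a b : II m, Adm a b → d a = d b := by
    intro a b hab
    obtain ⟨D, hD⟩ := hadm a b hab
    rw [mulVec_add, hd, hd] at hD
    have hne : a ≠ b := ne_of_adm hab
    have e1 := congrFun hD a
    have e2 := congrFun hD b
    simp [Pi.single_apply, hne, hne.symm] at e1 e2
    rw [e1, e2]
  have h2 : ∀ a b : II m, d a = d b := by
    intro a b
    rcases adm_or (a := a) (b := b) with rfl | rfl | h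
    · rfl
    · obtain ⟨c, hc⟩ := exists_adm hm a
      rw [h1 a c hc, h1 a.swap c hc.swap]
    · exact h1 a b h
  let a₀ : II m := Sum.inl ⟨0, by omega⟩
  have hM : ((g : GL (II m) F) : MM m F) = d a₀ • 1 := by
    ext i j
    rw [entry_eq ((g : GL (II m) F) : MM m F) i j, hd, h2 j a₀]
    simp [Pi.single_apply, Matrix.one_apply, eq_comm]
  have h0 : d a₀ ≠ 0 := by
    intro h0
    have h3 := (g : GL (II m) F).val_inv
    rw [hM, h0, zero_smul, zero_mul] at h3
    have h4 := congrFun (congrFun h3 a₀) a₀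
    simp at h4
  have h5 : g = scS (Units.mk0 (d a₀) h0) := by
    apply Subtype.ext
    apply Units.ext
    rw [scS_coe, sc_coe, hM]
    rfl
  rw [h5, cP_scS]

/-- Lines stabilised by root elements. -/
lemma line_of_fix (hm : 1 ≤ m) (g : GSp m F) (τ : F ≃+* F) {u : VV m F} {c : F} (hu : u ≠ 0) (hc : c ≠ 0) (hv : vmap τ u = u)
    (h : (cP g * fP τ : MulAut (PSp m F)) (rt u c) = rt u c) : ∃ d : F, ((g : GL (II m) F) : MM m F) *ᵥ u = d • u := by
  obtain ⟨l, hl⟩ := g.2
  rw [act_rt g hl, hv] at h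
  obtain ⟨μ, hμ, e⟩ := tv_par hu hc (rt_inj hm h).symm
  refine ⟨μ⁻¹, ?_⟩
  rw [eq_comm]
  calc μ⁻¹ • u = μ⁻¹ • (μ • (((g : GL (II m) F) : MM m F) *ᵥ u)) := by rw [← e]
    _ = _ := by rw [smul_smul, inv_mul_cancel₀ hμ, one_smul]

end scalar

section sub

variable {F F₀ : Type*} [Field F] [Field F₀] {m : ℕ}

lemma map_J (e : F₀ →+* F) : (J (Fin m) F₀).map e = J (Fin m) F := by
  ext a b
  rcases a with a | a <;> rcases b with b | b <;> simp [Matrix.J, Matrix.one_apply, apply_ite e]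

/-- The map of symplectic groups induced by a field homomorphism. -/
def mapSp (e : F₀ →+* F) : SpG m F₀ →* SpG m F where
  toFun s := ⟨(s : MM m F₀).map e, by
    have h := SymplecticGroup.mem_iff.1 s.2
    rw [SymplecticGroup.mem_iff]
    have h2 := congrArg (fun M => Matrix.map M e) h
    simp only [Matrix.map_mul, map_J] at h2
    rw [← Matrix.transpose_map]
    exact h2⟩
  map_one' := by
    apply Subtype.ext
    exact Matrix.map_one _ (map_zero e) (map_one e)
  map_mul' a b := by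
    apply Subtype.ext
    exact Matrix.map_mul

/-- Lifting vectors. -/
def liftV (e : F₀ →+* F) (u : VV m F₀) : VV m F := fun i => e (u i)

lemma liftV_ee (e : F₀ →+* F) (a : II m) : liftV e (ee a : VV m F₀) = (ee a : VV m F) := by
  funext i
  simp [liftV, Pi.single_apply, apply_ite e]

lemma liftV_add (e : F₀ →+* F) (u v : VV m F₀) : liftV e (u + v) = liftV e u + liftV e v := by
  funext i
  simp [liftV]

lemma mapSp_tv (e : F₀ →+* F) (u : VV m F₀) (c : F₀) : mapSp e (tv u c) = tv (liftV e u) (e c) := by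
  apply Subtype.ext
  change ((tv u c : SpG m F₀) : MM m F₀).map e = _
  ext i j
  have h1 : e ((J (Fin m) F₀ *ᵥ u) j) = (J (Fin m) F *ᵥ liftV e u) j := by
    have := RingHom.map_mulVec e (J (Fin m) F₀) u j
    rw [map_J] at this
    exact this
  simp only [tv_coe, Cfsg.sympTransvection, map_apply, Matrix.add_apply, Matrix.smul_apply, smul_eq_mul, vecMulVec_apply, map_add,
    map_mul, h1, Matrix.one_apply, apply_ite e, map_one, map_zero]
  rfl

end sub


section fix

variable {F F₀ : Type*} [Field F] [Field F₀] [Fintype F] [Fintype F₀] {m : ℕ}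

local notation "ff" => Cfsg.sympForm 2 F

lemma plane_of_fix (h2 : (2 : F) = 0) (g : GSp 2 F) (τ : F ≃+* F) {u w : VV 2 F} (hu : vmap τ u = u) (hw : vmap τ w = w)
    (huw : ff u w = 1) (h : (cP g * fP τ : MulAut (PSp 2 F)) (mk (tv u 1 * tv w 1)) = mk (tv u 1 * tv w 1)) :
    ∃ A B : F, ((g : GL (II 2) F) : MM 2 F) *ᵥ u = A • w + B • u := by
  obtain ⟨l, hl⟩ := g.2
  have e0 : ∀ a b : VV 2 F, ∀ c d : F, (mk (tv a c * tv b d) : PSp 2 F) = rt a c * rt b d := fun _ _ _ _ => map_mul _ _ _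
  rw [e0, map_mul, act_rt g hl, act_rt g hl, hu, hw, map_one, one_mul, ← e0, ← e0] at h
  have h3 := mk_inj_two h2 (by norm_num) h
  set G := ((g : GL (II 2) F) : MM 2 F) with hG
  have h4 := congrArg (fun t : SpG 2 F => (t : MM 2 F) *ᵥ (G *ᵥ w)) h3
  simp only [mv_mul, tv_mulVec] at h4
  rw [sympForm_self, mul_zero, zero_smul, add_zero, hl] at h4
  have hwu : ff w u = 1 := by
    rw [sympForm_flip, huw]
    linear_combination -h2
  have hl0 : (l : F) ≠ 0 := l.ne_zero
  rw [hwu, mul_one, inv_mul_cancel₀ hl0, one_smul] at h4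
  simp only [one_mul] at h4
  rw [add_assoc] at h4
  exact ⟨_, _, add_left_cancel h4⟩

lemma line_of_planes (h2 : (2 : F) = 0) (g : GSp 2 F) (τ : F ≃+* F) {u w v : VV 2 F} (hu : vmap τ u = u) (hw : vmap τ w = w)
    (hv : vmap τ v = v) (huw : ff u w = 1) (huv : ff u v = 0) (hwv : ff w v = 0) (hv0 : v ≠ 0)
    (h₁ : (cP g * fP τ : MulAut (PSp 2 F)) (mk (tv u 1 * tv w 1)) = mk (tv u 1 * tv w 1))
    (h₂ : (cP g * fP τ : MulAut (PSp 2 F)) (mk (tv u 1 * tv (w + v) 1)) = mk (tv u 1 * tv (w + v) 1)) :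
    ∃ B : F, ((g : GL (II 2) F) : MM 2 F) *ᵥ u = B • u := by
  have huw' : ff u (w + v) = 1 := by rw [sympForm_add_right, huw, huv, add_zero]
  obtain ⟨A, B, e1⟩ := plane_of_fix h2 g τ hu hw huw h₁
  obtain ⟨A', B', e2⟩ := plane_of_fix h2 g τ hu (by rw [vmap_add, hw, hv]) huw' h₂
  have e3 := e1.symm.trans e2
  have hvw : ff v w = 0 := by rw [sympForm_flip, hwv, neg_zero]
  have huu : ff u u = 0 := sympForm_self _
  have hww : ff w w = 0 := sympForm_self _
  have hwu : ff w u = 1 := by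
    rw [sympForm_flip, huw]
    linear_combination -h2
  have a1 := congrArg (ff u) e3
  have a2 := congrArg (fun x => ff x w) e3
  simp only [sympForm_add_right, sympForm_smul_right, huw, huv, huu, sympForm_add_left, sympForm_smul_left, hww, hvw, hwu, mul_zero, mul_one, add_zero, zero_add] at a1 a2
  subst a1
  subst a2
  have a3 : A • v = 0 := by
    have h5 : A • w + B • u = A • w + A • v + B • u := by
      rw [← smul_add]
      exact e3
    have h6 : A • v = (A • w + A • v + B • u) - (A • w + B • u) := by abel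
    rw [h6, ← h5, sub_self]
  have hA : A = 0 := (smul_eq_zero.mp a3).resolve_right hv0
  refine ⟨B, ?_⟩
  rw [e1, hA, zero_smul, zero_add]

lemma fix_s (h2 : (2 : F) = 0) {σ : F ≃+* F} (y : MulAut (PSp m F))
    (hy : ∀ ℓ₁ ℓ₂ : PSp m F, fP σ ℓ₁ = ℓ₁ → fP σ ℓ₂ = ℓ₂ → y ⁅ℓ₁, ℓ₂⁆ = ⁅ℓ₁, ℓ₂⁆) {u w : VV m F} (hu : vmap σ u = u) (hw : vmap σ w = w)
    (huw : Cfsg.sympForm m F u w = 1) : y (mk (tv u 1 * tv w 1)) = mk (tv u 1 * tv w 1) := by
  have hr : ∀ a : VV m F, vmap σ a = a → (fP σ : MulAut (PSp m F)) (mk (tv a 1)) = mk (tv a 1) := by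
    intro a ha
    rw [fP_mk, sField_tv, ha, map_one]
  rw [← comm_sq h2 huw, map_pow, map_pow, map_commutatorElement, hy _ _ (hr u hu) (hr w hw)]

lemma rt_ee_fix (σ : F ≃+* F) (a : II m) : (fP σ : MulAut (PSp m F)) (rt (ee a) 1) = rt (ee a) 1 := by
  change mk (sField σ _) = _
  rw [sField_tv, vmap_ee, map_one]
  rfl

theorem pow_of_fix {r f' : ℕ} [hr : Fact r.Prime] [CharP F r] (hF : Fintype.card F = r ^ f') (hf : 1 ≤ f') (hm : 2 ≤ m)
    (σ : F ≃+* F) {p : ℕ} (hσp : σ ^ p = 1) (e : F₀ →+* F) (hfix : ∀ t, σ t = t ↔ t ∈ e.range)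
    (y : MulAut (PSp m F)) (hy : ∀ ℓ₁ ℓ₂ : PSp m F, fP σ ℓ₁ = ℓ₁ → fP σ ℓ₂ = ℓ₂ → y ⁅ℓ₁, ℓ₂⁆ = ⁅ℓ₁, ℓ₂⁆) : y ^ p = 1 := by
  classical
  have hm1 : 1 ≤ m := by omega
  have hfx : ∀ x : F₀, σ (e x) = e x := fun x => (hfix _).2 ⟨x, rfl⟩
  -- the form of `y`
  have hsemi : ∃ (g : GSp m F) (τ : F ≃+* F), y = cP g * fP τ := by
    by_cases hch : (2 : F) = 0 ∧ m = 2
    · obtain ⟨h2, rfl⟩ := hch
      have hr2 : r = 2 := by
        have h3 : r ∣ 2 := by
          have := (CharP.cast_eq_zero_iff F r 2).1 (by exact_mod_cast h2)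
          exact this
        exact (Nat.prime_dvd_prime_iff_eq hr.out Nat.prime_two).1 h3
      subst hr2
      rcases dich h2 hF hf y with h | h
      · obtain ⟨g, τ, hg, hI⟩ := semilinear_of_pres (le_refl 2) h (pres_symm h)
        exact ⟨⟨g, hg⟩, τ, eq_cP_fP hg hI⟩
      · exfalso
        obtain ⟨z, j, ez⟩ := eq_conj_psi h2 hF hf y h
        apply not_fix_psi h2 z j
        rw [← ez]
        apply fix_s h2 y hy (vmap_ee _ _) (vmap_ee _ _)
        rw [show (Sum.inr (0 : Fin 2) : II 2) = (Sum.inl (0 : Fin 2) : II 2).swap from rfl, f_ee_dual]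
        simp only [sg]
        linear_combination -h2
    · have h4 : m = 2 → r ≠ 2 := by
        intro h5 h6
        apply hch
        refine ⟨?_, h5⟩
        have := CharP.cast_eq_zero F r
        rw [h6] at this
        exact_mod_cast this
      obtain ⟨g, τ, hg, hI⟩ := semilinear_of_pres hm (pres_all hm h4 y) (pres_all hm h4 y.symm)
      exact ⟨⟨g, hg⟩, τ, eq_cP_fP hg hI⟩
  obtain ⟨g, τ, rfl⟩ := hsemi
  -- the two cases
  have hcase : (cP g : MulAut (PSp m F)) = 1 ∧ ∀ t, σ t = t → τ t = t := by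
    by_cases hE : m = 2 ∧ Fintype.card F₀ = 2
    · obtain ⟨rfl, h₂⟩ := hE
      have h20 : (2 : F₀) = 0 := by
        have := FiniteField.cast_card_eq_zero F₀
        rw [h₂] at this
        exact_mod_cast this
      have h2 : (2 : F) = 0 := by
        have := congrArg e h20
        rwa [map_ofNat, map_zero] at this
      have hall : ∀ c₀ : F₀, c₀ = 0 ∨ c₀ = 1 := by
        intro c₀
        have h3 : (({0, 1} : Finset F₀) : Set F₀) = Set.univ := by
          apply Finset.coe_eq_univ.2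
          apply Finset.eq_univ_of_card
          rw [h₂, Finset.card_pair zero_ne_one]
        have h4 : c₀ ∈ (({0, 1} : Finset F₀) : Set F₀) := by
          rw [h3]
          trivial
        simpa using h4
      have hsg : ∀ a : II 2, (sg a : F) = 1 := by
        intro a
        have := sg_two' h2 a
        linear_combination -this - h2
      have hself : ∀ a : II 2, ff (ee a) (ee a.swap) = 1 := by
        intro a
        rw [f_ee_dual, hsg]
      constructor
      · apply cP_eq_one_of_lines (le_refl 2)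
        · intro a
          obtain ⟨b, hb⟩ := exists_adm (le_refl 2) a
          have hwv : ff (ee a.swap) (ee b) = 0 := hb.swap.f
          have huv : ff (ee a) (ee b) = 0 := hb.f
          have hrw : vmap σ (ee a.swap + ee b : VV 2 F) = ee a.swap + ee b := by rw [vmap_add, vmap_ee, vmap_ee]
          exact line_of_planes h2 g τ (u := ee a) (w := ee a.swap) (v := ee b) (vmap_ee _ _) (vmap_ee _ _) (vmap_ee _ _) (hself a) huv hwv (ee_ne _)
            (fix_s h2 _ hy (vmap_ee _ _) (vmap_ee _ _) (hself a))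
            (fix_s h2 _ hy (vmap_ee _ _) hrw (by rw [sympForm_add_right, hself a, huv, add_zero]))
        · intro a b hab
          have hwv : ff (ee a.swap) (ee b) = 0 := hab.swap.f
          have huv : ff (ee a) (ee b) = 0 := hab.f
          have hbw : ff (ee b) (ee a.swap) = 0 := hab.swap.symm.f
          have hbb : ff (ee b) (ee b) = 0 := sympForm_self _
          have hru : ∀ ρ : F ≃+* F, vmap ρ (ee a + ee b : VV 2 F) = ee a + ee b := fun ρ => by rw [vmap_add, vmap_ee, vmap_ee]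
          have hrw : vmap σ (ee a.swap + ee b : VV 2 F) = ee a.swap + ee b := by rw [vmap_add, vmap_ee, vmap_ee]
          have h1u : ff (ee a + ee b) (ee a.swap) = 1 := by rw [sympForm_add_left, hself a, hbw, add_zero]
          have h0u : ff (ee a + ee b) (ee b) = 0 := by rw [sympForm_add_left, huv, hbb, add_zero]
          exact line_of_planes h2 g τ (u := ee a + ee b) (w := ee a.swap) (v := ee b) (hru _) (vmap_ee _ _) (vmap_ee _ _) h1u h0u hwv (ee_ne _)
            (fix_s h2 _ hy (hru _) (vmap_ee _ _) h1u)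
            (fix_s h2 _ hy (hru _) hrw (by rw [sympForm_add_right, h1u, h0u, add_zero]))
      · intro t ht
        obtain ⟨c₀, rfl⟩ := (hfix t).1 ht
        rcases hall c₀ with rfl | rfl
        · simp
        · simp
    · have hperf : commutator (SpG m F₀) = ⊤ := by
        apply sp_perfect
        by_cases h3 : 3 ≤ m
        · exact Or.inl h3
        · right
          left
          have h4 : m = 2 := by omega
          refine ⟨h4, ?_⟩
          have h5 : 2 ≤ Fintype.card F₀ := Fintype.one_lt_card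
          have h6 : Fintype.card F₀ ≠ 2 := fun h7 => hE ⟨h4, h7⟩
          omega
      let Θ : SpG m F₀ →* PSp m F := mk.comp (mapSp e)
      have hΘfix : ∀ z, (fP σ : MulAut (PSp m F)) (Θ z) = Θ z := by
        intro z
        change mk (sField σ (mapSp e z)) = mk (mapSp e z)
        congr 1
        apply Subtype.ext
        ext i j
        exact hfx _
      have hΘ : ∀ z, (cP g * fP τ : MulAut (PSp m F)) (Θ z) = Θ z := by
        have hle : commutator (SpG m F₀) ≤ MonoidHom.eqLocus (MulEquiv.toMonoidHom (cP g * fP τ : MulAut (PSp m F)) |>.comp Θ) Θ := by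
          rw [commutator_def, Subgroup.commutator_le]
          intro a _ b _
          change (cP g * fP τ : MulAut (PSp m F)) (Θ ⁅a, b⁆) = Θ ⁅a, b⁆
          rw [map_commutatorElement, hy _ _ (hΘfix a) (hΘfix b)]
        intro z
        exact hle (hperf ▸ Subgroup.mem_top z)
      have hrt : ∀ (u₀ : VV m F₀) (c₀ : F₀), (cP g * fP τ : MulAut (PSp m F)) (rt (liftV e u₀) (e c₀)) = rt (liftV e u₀) (e c₀) := by
        intro u₀ c₀
        have h3 := hΘ (tv u₀ c₀)
        change (cP g * fP τ : MulAut (PSp m F)) (mk (mapSp e (tv u₀ c₀))) = mk (mapSp e (tv u₀ c₀)) at h3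
        rw [mapSp_tv] at h3
        exact h3
      have hc : (cP g : MulAut (PSp m F)) = 1 := by
        apply cP_eq_one_of_lines hm
        · intro a
          have h3 := hrt (ee a) 1
          rw [liftV_ee, map_one] at h3
          exact line_of_fix hm1 g τ (ee_ne _) one_ne_zero (vmap_ee _ _) h3
        · intro a b hab
          have h3 := hrt (ee a + ee b) 1
          rw [liftV_add, liftV_ee, liftV_ee, map_one] at h3
          exact line_of_fix hm1 g τ (add_ne_ee (ne_of_adm hab)) one_ne_zero (by rw [vmap_add, vmap_ee, vmap_ee]) h3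
      refine ⟨hc, fun t ht => ?_⟩
      obtain ⟨c₀, rfl⟩ := (hfix t).1 ht
      let a₀ : II m := Sum.inl ⟨0, by omega⟩
      have h3 := hrt (ee a₀) c₀
      rw [liftV_ee, hc, one_mul] at h3
      change mk (sField τ (tv _ _)) = mk _ at h3
      rw [sField_tv, vmap_ee] at h3
      exact rt_ee_inj hm1 h3
  obtain ⟨hc, hτ⟩ := hcase
  obtain ⟨k, hk⟩ := mem_zpowers_of_fix hτ
  have hτp : τ ^ p = 1 := by
    rw [hk, ← zpow_natCast, zpow_comm, zpow_natCast, hσp, _root_.one_zpow]
  rw [hc, one_mul, ← map_pow, hτp, map_one]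

end fix


section data

variable {F : Type*} [Field F] [Fintype F] {m : ℕ}

local notation "f" => Cfsg.sympForm m F

/-- `PGSp` and the inner-diagonal automorphisms. -/
lemma pgsp_equiv (hm : 1 ≤ m) : Nonempty (PGSp m F ≃* ↥(inndiagPSp m F)) := by
  let Φ : GSp m F →* ↥(inndiagPSp m F) := (cP).codRestrict _ (fun g => mem_inndiagSp_iff.2 ⟨g, rfl⟩)
  have hsurj : Function.Surjective Φ := by
    rintro ⟨β, hβ⟩
    obtain ⟨g, rfl⟩ := mem_inndiagSp_iff.1 hβ
    exact ⟨g, rfl⟩
  have hker : Φ.ker = (Geo.scalars (II m) F).subgroupOf (GSp m F) := by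
    ext g
    rw [MonoidHom.mem_ker, Subgroup.mem_subgroupOf, Geo.mem_scalars_iff]
    constructor
    · intro h
      have h1 : (cP g : MulAut (PSp m F)) = 1 := congrArg Subtype.val h
      obtain ⟨c, hc⟩ := exists_sc_of_cP hm h1
      refine ⟨c, ?_⟩
      rw [hc, sc_coe]
    · rintro ⟨c, hc⟩
      apply Subtype.ext
      change cP g = 1
      have h1 : g = scS c := Subtype.ext (Units.ext (by rw [scS_coe, sc_coe]; exact hc))
      rw [h1, cP_scS]
  exact ⟨(QuotientGroup.quotientMulEquivOfEq hker).symm.trans (QuotientGroup.quotientKerEquivOfSurjective Φ hsurj)⟩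

lemma range_iff_sq (c : Fˣ) : c ∈ (powMonoidHom 2 : Fˣ →* Fˣ).range ↔ IsSquare (c : F) := by
  constructor
  · rintro ⟨d, rfl⟩
    exact ⟨d, by simp [sq]⟩
  · rintro ⟨d, hd⟩
    have hd0 : d ≠ 0 := by
      rintro rfl
      exact c.ne_zero (by rw [hd, mul_zero])
    refine ⟨Units.mk0 d hd0, Units.ext ?_⟩
    simp [sq, hd]

lemma nonsq_mul {a b : Fˣ} (ha : a ∉ (powMonoidHom 2 : Fˣ →* Fˣ).range) (hb : b ∉ (powMonoidHom 2 : Fˣ →* Fˣ).range) :
    a * b ∈ (powMonoidHom 2 : Fˣ →* Fˣ).range := by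
  classical
  rw [range_iff_sq] at ha hb ⊢
  have h1 := quadraticChar_neg_one_iff_not_isSquare.2 ha
  have h2 := quadraticChar_neg_one_iff_not_isSquare.2 hb
  rw [Units.val_mul, ← quadraticChar_one_iff_isSquare (mul_ne_zero a.ne_zero b.ne_zero), map_mul, h1, h2]
  norm_num

lemma exists_phi (hm : 1 ≤ m) : ∃ φ : ↥(inndiagPSp m F) →* ℤˣ, φ.ker = (Inn (PSp m F)).subgroupOf (inndiagPSp m F) := by
  apply exists_sign_hom
  rintro ⟨a, ha⟩ ⟨b, hb⟩ ha' hb'
  obtain ⟨g, rfl⟩ := mem_inndiagSp_iff.1 ha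
  obtain ⟨g', rfl⟩ := mem_inndiagSp_iff.1 hb
  rw [Subgroup.mem_subgroupOf] at ha' hb' ⊢
  change (cP g : MulAut (PSp m F)) ∉ Inn (PSp m F) at ha'
  change (cP g' : MulAut (PSp m F)) ∉ Inn (PSp m F) at hb'
  change (cP g * cP g' : MulAut (PSp m F)) ∈ Inn (PSp m F)
  rw [cP_mem_inn_iff hm] at ha' hb'
  rw [← map_mul, cP_mem_inn_iff hm, map_mul]
  exact nonsq_mul ha' hb'

/-- Inner automorphisms as a subgroup. -/
noncomputable def innHom' {K : Type*} [Group K] (G : Subgroup (MulAut K)) (h : Inn K ≤ G) : K →* ↥G where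
  toFun k := ⟨MulAut.conj k, h ⟨k, rfl⟩⟩
  map_one' := by
    apply Subtype.ext
    exact map_one _
  map_mul' a b := by
    apply Subtype.ext
    exact map_mul _ _ _

lemma inn_le_inndiag (hm : 1 ≤ m) : Inn (PSp m F) ≤ inndiagPSp m F := by
  rintro _ ⟨k, rfl⟩
  obtain ⟨s, rfl⟩ := mk_surj k
  exact mem_inndiagSp_iff.2 ⟨spOf s, (cP_spOf s).symm⟩

lemma two_dvd_card_psp (hm : 2 ≤ m) : 2 ∣ Nat.card (PSp m F) := by
  classical
  have hm1 : 1 ≤ m := by omega
  haveI : Fact (Nat.Prime 2) := ⟨Nat.prime_two⟩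
  let i₀ : Fin m := ⟨0, by omega⟩
  let i₁ : Fin m := ⟨1, by omega⟩
  have hi : i₀ ≠ i₁ := by
    intro h
    have := congrArg Fin.val h
    simp [i₀, i₁] at this
  have key : ∃ z : PSp m F, z ^ 2 = 1 ∧ z ≠ 1 := by
    by_cases h2 : (2 : F) = 0
    · refine ⟨rt (ee (Sum.inl i₀)) 1, ?_, ?_⟩
      · rw [pow_two, rt_mul, show (1 : F) + 1 = 0 by linear_combination h2, rt_zero]
      · intro h
        have h3 : rt (ee (Sum.inl i₀)) (1 : F) = rt (ee (Sum.inl i₀)) 0 := by rw [h, rt_zero]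
        have h4 := rt_ee_inj hm1 h3
        exact one_ne_zero h4
    · let ε : II m → F := fun a => if Sum.elim id id a = i₀ then -1 else 1
      have hεs : ∀ a : II m, ε a.swap = ε a := by
        rintro (i | i) <;> rfl
      have hεε : ∀ a : II m, ε a * ε a = 1 := by
        intro a
        simp only [ε]
        split_ifs <;> simp
      obtain ⟨g, hg⟩ := sp_of_family (m := m) (F := F) (fun a => ε a • ee a) (by
        intro a b
        rw [sympForm_smul_left, sympForm_smul_right]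
        by_cases h : b = a.swap
        · subst h
          rw [hεs, ← mul_assoc, hεε, one_mul]
        · rw [f_ee_of_ne h]
          simp)
      refine ⟨mk g, ?_, ?_⟩
      · rw [← map_pow]
        have h3 : g ^ 2 = 1 := by
          apply sp_ext_basis
          intro a
          rw [pow_two, mv_mul, hg, mulVec_smul, hg, smul_smul, hεε, one_smul]
          exact (mv_one _).symm
        rw [h3, map_one]
      · intro h
        have h3 : g ∈ Subgroup.center (SpG m F) := by
          have : (1 : SpG m F)⁻¹ * g ∈ Subgroup.center (SpG m F) := mk_eq_iff.1 (by rw [map_one, h])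
          simpa using this
        obtain ⟨a, ha, e⟩ := sp_center_scalar hm1 _ h3
        have e1 := hg (Sum.inl i₀)
        have e2 := hg (Sum.inl i₁)
        rw [e, smul_mulVec, one_mulVec] at e1 e2
        have e3 := congrFun e1 (Sum.inl i₀)
        have e4 := congrFun e2 (Sum.inl i₁)
        simp [ε, hi.symm] at e3 e4
        apply h2
        rw [e3] at e4
        linear_combination -e4
  obtain ⟨z, hz1, hz2⟩ := key
  have h3 : orderOf z = 2 := orderOf_eq_prime hz1 hz2
  rw [← h3]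
  exact orderOf_dvd_natCard z

end data


section K0

variable {m : ℕ}

lemma noncomm_A6 : ∃ a b : alternatingGroup (Fin 6), a * b ≠ b * a := by
  have h1 : Equiv.swap (0 : Fin 6) 1 * Equiv.swap 1 2 ∈ alternatingGroup (Fin 6) := by
    rw [Equiv.Perm.mem_alternatingGroup, map_mul, Equiv.Perm.sign_swap (by decide), Equiv.Perm.sign_swap (by decide)]
    rfl
  have h2 : Equiv.swap (0 : Fin 6) 1 * Equiv.swap 1 3 ∈ alternatingGroup (Fin 6) := by
    rw [Equiv.Perm.mem_alternatingGroup, map_mul, Equiv.Perm.sign_swap (by decide), Equiv.Perm.sign_swap (by decide)]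
    rfl
  refine ⟨⟨_, h1⟩, ⟨_, h2⟩, ?_⟩
  intro h
  have h3 : (Equiv.swap (0 : Fin 6) 1 * Equiv.swap 1 2) * (Equiv.swap 0 1 * Equiv.swap 1 3) =
      (Equiv.swap 0 1 * Equiv.swap 1 3) * (Equiv.swap 0 1 * Equiv.swap 1 2) := congrArg Subtype.val h
  revert h3
  decide

lemma center_perm6 : Subgroup.center (Equiv.Perm (Fin 6)) = ⊥ := by
  rw [eq_bot_iff]
  intro z hz
  rw [Subgroup.mem_bot]
  by_contra hz1
  obtain ⟨i, hi⟩ : ∃ i, z i ≠ i := by
    by_contra hcon
    push Not at hcon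
    exact hz1 (Equiv.ext hcon)
  obtain ⟨j, hj1, hj2⟩ : ∃ j : Fin 6, j ≠ i ∧ j ≠ z i := by
    have key : ∀ a b : Fin 6, ∃ j : Fin 6, j ≠ a ∧ j ≠ b := by decide
    exact key _ _
  have h1 : z * Equiv.swap i j = Equiv.swap i j * z := (Subgroup.mem_center_iff.1 hz (Equiv.swap i j)).symm
  rw [Equiv.mul_swap_eq_swap_mul] at h1
  have h2 := mul_right_cancel h1
  have h3 := congrArg (fun e : Equiv.Perm (Fin 6) => e (z i)) h2
  simp only [Equiv.swap_apply_left] at h3
  rw [Equiv.swap_apply_of_ne_of_ne hi hj2.symm] at h3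
  exact hj1 (z.injective h3)

/-- The simple group inside `PGSp`. -/
theorem exists_K0 (F₀ : Type) [Field F₀] [Fintype F₀] (hm : 2 ≤ m) :
    ∃ (K₀ : Type) (_ : Group K₀) (φ₀ : PGSp m F₀ →* ℤˣ) (ι : K₀ →* PGSp m F₀), Function.Injective ι ∧ ι.range = φ₀.ker ∧
      IsSimpleGroup K₀ ∧ (∃ a b : K₀, a * b ≠ b * a) ∧ 2 ∣ Nat.card K₀ := by
  classical
  have hm1 : 1 ≤ m := by omega
  by_cases hE : m = 2 ∧ Fintype.card F₀ = 2
  · obtain ⟨rfl, h₂⟩ := hE
    have h20 : (2 : F₀) = 0 := by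
      have := FiniteField.cast_card_eq_zero F₀
      rw [h₂] at this
      exact_mod_cast this
    obtain ⟨E₀⟩ := pgsp_equiv (m := 2) (F := F₀) (by norm_num)
    obtain ⟨E₁⟩ := Cfsg.Agent.S0247.result (F := F₀) h₂
    let E₂ : PSp 2 F₀ ≃* Equiv.Perm (Fin 6) := (eP h20).symm.trans E₁
    have hcen : Subgroup.center (PSp 2 F₀) = ⊥ := by
      rw [eq_bot_iff]
      intro k hk
      have h3 : E₂ k ∈ Subgroup.center (Equiv.Perm (Fin 6)) := by
        rw [Subgroup.mem_center_iff]
        intro z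
        obtain ⟨w, rfl⟩ := E₂.surjective z
        rw [← map_mul, ← map_mul, (Subgroup.mem_center_iff.1 hk) w]
      rw [center_perm6, Subgroup.mem_bot] at h3
      rw [Subgroup.mem_bot]
      exact E₂.injective (h3.trans (map_one E₂).symm)
    let I : PSp 2 F₀ →* ↥(inndiagPSp 2 F₀) := innHom' _ (inn_le_inndiag (by norm_num))
    have hI : Function.Bijective I := by
      constructor
      · intro a b hab
        exact conj_inj_of_center hcen (congrArg Subtype.val hab)
      · rintro ⟨β, hβ⟩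
        obtain ⟨g, rfl⟩ := mem_inndiagSp_iff.1 hβ
        obtain ⟨s, hs⟩ := char_two_cP (by
          have := CharP.ringChar_of_prime_eq_zero (R := F₀) Nat.prime_two (by exact_mod_cast h20)
          exact this) g
        exact ⟨mk s, Subtype.ext hs.symm⟩
    let E : PGSp 2 F₀ ≃* Equiv.Perm (Fin 6) := E₀.trans ((MulEquiv.ofBijective I hI).symm.trans E₂)
    refine ⟨alternatingGroup (Fin 6), inferInstance, Equiv.Perm.sign.comp E.toMonoidHom, E.symm.toMonoidHom.comp (alternatingGroup (Fin 6)).subtype, ?_, ?_, ?_, ?_, ?_⟩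
    · intro a b hab
      apply Subtype.ext
      exact E.symm.injective hab
    · ext x
      constructor
      · rintro ⟨k, rfl⟩
        rw [MonoidHom.mem_ker]
        change Equiv.Perm.sign (E (E.symm k.1)) = 1
        rw [MulEquiv.apply_symm_apply]
        exact k.2
      · intro h
        refine ⟨⟨E x, h⟩, ?_⟩
        exact E.symm_apply_apply x
    · exact alternatingGroup.isSimpleGroup (by simp)
    · exact noncomm_A6
    · have h3 := two_mul_nat_card_alternatingGroup (α := Fin 6)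
      rw [Nat.card_perm, Nat.card_fin] at h3
      have h4 : Nat.factorial 6 = 720 := rfl
      rw [h4] at h3
      exact ⟨180, by omega⟩
  · have hs : m = 2 → 3 ≤ Fintype.card F₀ := by
      intro h4
      have h5 : 2 ≤ Fintype.card F₀ := Fintype.one_lt_card
      have h6 : Fintype.card F₀ ≠ 2 := fun h7 => hE ⟨h4, h7⟩
      omega
    have hsimple : IsSimpleGroup (PSp m F₀) := psp_simple hm hs
    have hn := noncomm_psp (m := m) (F := F₀) hm1
    have hcen := center_eq_bot_of_simple hsimple hn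
    obtain ⟨E₀⟩ := pgsp_equiv (m := m) (F := F₀) hm1
    obtain ⟨φ', hφ'⟩ := exists_phi (m := m) (F := F₀) hm1
    let I : PSp m F₀ →* ↥(inndiagPSp m F₀) := innHom' _ (inn_le_inndiag hm1)
    refine ⟨PSp m F₀, inferInstance, φ'.comp E₀.toMonoidHom, E₀.symm.toMonoidHom.comp I, ?_, ?_, hsimple, hn, two_dvd_card_psp hm⟩
    · intro a b hab
      exact conj_inj_of_center hcen (congrArg Subtype.val (E₀.symm.injective hab))
    · ext x
      rw [MonoidHom.mem_ker]
      change _ ↔ φ' (E₀ x) = 1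
      rw [← MonoidHom.mem_ker, hφ', Subgroup.mem_subgroupOf]
      constructor
      · rintro ⟨k, rfl⟩
        change (E₀ (E₀.symm (I k))).1 ∈ _
        rw [MulEquiv.apply_symm_apply]
        exact ⟨k, rfl⟩
      · rintro ⟨k, hk⟩
        refine ⟨k, ?_⟩
        apply E₀.injective
        change E₀ (E₀.symm (I k)) = _
        rw [MulEquiv.apply_symm_apply]
        exact Subtype.ext hk

end K0


section main

variable {F : Type*} [Field F] [Fintype F] {m : ℕ}

/-- The main theorem about the core. -/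
theorem core_sp_main {r : ℕ} [hr : Fact r.Prime] [CharP F r] (hm : 2 ≤ m) (hs : m = 2 → 3 ≤ Fintype.card F)
    (A : Subgroup (MulAut (PSp m F))) (hinn : ∀ k : PSp m F, MulAut.conj k ∈ A) {p : ℕ} [hp : Fact p.Prime] (hpr : p ≠ r)
    (x : MulAut (PSp m F)) (hord : orderOf x = p) (hnot : ¬ IsInnerDiagonalAutPSp x) :
    pPrimeCore p ↥(A ⊓ Subgroup.centralizer {x}) ≠ ⊥ ↔
      (IsFieldAutClassPSp x ∧ Nat.Coprime p (Nat.card ↥(MonoidHom.eqLocus x.toMonoidHom (MonoidHom.id (PSp m F))))) := by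
  classical
  have hm1 : 1 ≤ m := by omega
  have hxp : x ^ p = 1 := by rw [← hord]; exact pow_orderOf_eq_one _
  obtain ⟨f', -, hF⟩ := FiniteField.card F r
  have hf1 : 1 ≤ (f' : ℕ) := f'.pos
  have hsemi : ∃ (g : GSp m F) (σ : F ≃+* F), x = cP g * fP σ := by
    by_cases hch : (2 : F) = 0 ∧ m = 2
    · obtain ⟨h2, rfl⟩ := hch
      have hr2 : r = 2 := by
        have h3 : r ∣ 2 := by
          have := (CharP.cast_eq_zero_iff F r 2).1 (by exact_mod_cast h2)
          exact this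
        exact (Nat.prime_dvd_prime_iff_eq hr.out Nat.prime_two).1 h3
      subst hr2
      exact exists_semi_of_odd h2 hF hf1 x (hp.out.odd_of_ne_two hpr) hxp
    · have h4 : m = 2 → r ≠ 2 := by
        intro h5 h6
        apply hch
        refine ⟨?_, h5⟩
        have := CharP.cast_eq_zero F r
        rw [h6] at this
        exact_mod_cast this
      obtain ⟨g, τ, hg, hI⟩ := semilinear_of_pres hm (pres_all hm h4 x) (pres_all hm h4 x.symm)
      exact ⟨⟨g, hg⟩, τ, eq_cP_fP hg hI⟩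
  obtain ⟨g, σ, hx⟩ := hsemi
  have hσ1 : σ ≠ 1 := by
    rintro rfl
    apply hnot
    rw [hx, map_one, mul_one]
    exact ⟨g.1, g.2, isInduced_cP g⟩
  have hσp : σ ^ p = 1 := by
    have h1 := pow_cP_fP σ g p
    rw [← hx, hxp] at h1
    have h2 : (cP (nrmS σ g p)⁻¹ : MulAut (PSp m F)) = fP (σ ^ p) := by
      rw [map_inv]
      exact inv_eq_of_mul_eq_one_right h1.symm
    exact Cfsg.Agent.Lib.Classical.AutCount.field_of_cP_eq hm1 _ _ h2
  have hordσ : orderOf σ = p := orderOf_eq_prime hσp hσ1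
  have hordf : orderOf (fP σ : MulAut (PSp m F)) = p :=
    orderOf_eq_prime (by rw [← map_pow, hσp, map_one]) (fun h => hσ1 (fP_eq_one hm1 h))
  have hcl₀ : IsFieldAutClassPSp (fP σ : MulAut (PSp m F)) := ⟨1, σ, hσ1, by simpa using fP_std σ⟩
  obtain ⟨h, -, he⟩ := (order_iff_conj_sp hm (fP σ) (cP g) hcl₀ hp.out hordf (mem_inndiagSp_iff.2 ⟨g, rfl⟩)).1 (by rw [← hx]; exact hord)
  rw [← hx] at he
  have hαx : h⁻¹ * x * h⁻¹⁻¹ = fP σ := by
    rw [he]
    group
  have hcl : IsFieldAutClassPSp x := ⟨h⁻¹, σ, hσ1, by rw [hαx]; exact fP_std σ⟩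
  set α := h⁻¹ with hα
  have hsimple : IsSimpleGroup (PSp m F) := psp_simple hm hs
  have hn := noncomm_psp (m := m) (F := F) hm1
  have hcen := center_eq_bot_of_simple hsimple hn
  have hfx : ∀ k, (fP σ : MulAut (PSp m F)) k = k → x (α⁻¹ k) = α⁻¹ k := by
    intro k hk
    have h1 : (α * x * α⁻¹) k = k := by rw [hαx, hk]
    have h2 : α (x (α⁻¹ k)) = k := h1
    exact α.injective (h2.trans (MulAut.apply_inv_self _ α k).symm)
  refine ⟨fun hc => ⟨hcl, ?_⟩, fun hc => ?_⟩
  swap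
  · let a₀ : II m := Sum.inl ⟨0, by omega⟩
    refine core_ne_bot_abs hcen A hinn x (α⁻¹ (rt (ee a₀) 1)) (hfx _ (rt_ee_fix σ a₀)) ?_ hc.2
    intro h0
    have h1 := MulAut.apply_inv_self _ α (rt (ee a₀) (1 : F))
    rw [h0, map_one] at h1
    have h3 : rt (ee a₀) (1 : F) = rt (ee a₀) 0 := by rw [← h1, rt_zero]
    exact one_ne_zero (rt_ee_inj hm1 h3)
  by_contra hnc
  apply hc
  have hdvd : p ∣ (f' : ℕ) := by
    obtain ⟨iso⟩ := Cfsg.Agent.Lib.AutPSL.exists_gal_iso hF hf1
    rw [← hordσ]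
    have h3 := Subgroup.orderOf_dvd_natCard (⊤ : Subgroup (F ≃+* F)) (x := σ) (Subgroup.mem_top _)
    rw [Subgroup.card_top, Nat.card_congr iso.toEquiv] at h3
    simpa [Nat.card_eq_fintype_card, ZMod.card] using h3
  have hfp : (f' : ℕ) / p ≠ 0 := by
    have := Nat.le_of_dvd hf1 hdvd
    exact (Nat.div_pos this hp.out.pos).ne'
  let F₀ := GaloisField r ((f' : ℕ) / p)
  haveI : Fintype F₀ := Fintype.ofFinite _
  have hF₀ : Fintype.card F₀ = r ^ ((f' : ℕ) / p) := by
    rw [← Nat.card_eq_fintype_card]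
    exact GaloisField.card r _ hfp
  obtain ⟨-, ⟨e⟩, -⟩ := field_psp_main hF hm x hcl hp.out hord hF₀
  obtain ⟨-, e₀, he₀, hfix₀⟩ := Cfsg.Agent.Lib.Known3.FieldFix.exists_fix_embed hF σ hp.out hordσ F₀ hF₀
  obtain ⟨K₀, iK, φ₀, ι, hι, hrange, hs₀, hn₀, h2d⟩ := exists_K0 (m := m) F₀ hm
  obtain ⟨φG, hφG⟩ := exists_phi (m := m) (F := F) hm1
  have hGn : (inndiagPSp m F).Normal := by
    constructor
    intro n hn β
    obtain ⟨g₁, rfl⟩ := mem_inndiagSp_iff.1 hn
    obtain ⟨g', hg'⟩ := conj_cP hm β g₁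
    exact mem_inndiagSp_iff.2 ⟨g', hg'⟩
  refine core_abstract hcen _ hGn (inn_le_inndiag hm1) φG hφG A hinn x e φ₀ ι hι hrange hs₀ hn₀ h2d ?_ hnc
  intro y _ _ hy
  have h3 : (α * y * α⁻¹) ^ p = 1 := by
    apply pow_of_fix hF hf1 hm σ hσp e₀ hfix₀
    intro k₁ k₂ h1 h2
    have h4 := hy _ _ (hfx k₁ h1) (hfx k₂ h2)
    change α (y (α⁻¹ ⁅k₁, k₂⁆)) = _
    rw [map_commutatorElement α⁻¹, h4, ← map_commutatorElement α⁻¹]
    exact MulAut.apply_inv_self _ α _
  rw [conj_pow] at h3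
  have h4 : y ^ p = α⁻¹ * (α * y ^ p * α⁻¹) * α := by group
  rw [h4, h3]
  group

end main

end Cfsg.Agent.Lib.CoreSp
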